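import Cfsg.Agent.Class.Five.Defs
import Cfsg.Agent.Char.Eigen

/-!
# Eigenvalue tools for linear groups in cross characteristic
-/

set_option autoImplicit false

namespace Cfsg.Lib.Five

open Matrix Module Finset Polynomial

section General

variable {L V : Type*} [Field L] [AddCommGroup V] [Module L V]

/-- Common eigenvectors with different characters are independent. -/
theorem linInd_of_char {A κ : Type*} (f : A → Module.End L V) (v : κ → V) (χ : κ → A → L)
    (hv : ∀ k, v k ≠ 0) (h : ∀ k a, f a (v k) = χ k a • v k) (hχ : Function.Injective χ) :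
    LinearIndependent L v := by
  classical
  rw [linearIndependent_iff']
  intro s
  induction s using Finset.induction_on with
  | empty => simp
  | insert j s hj ih =>
    intro g hg
    have h1 : ∀ i ∈ s, g i = 0 := fun i hi => by
      obtain ⟨a, ha⟩ := Function.ne_iff.1 (hχ.ne (ne_of_mem_of_not_mem hi hj))
      have h2 := congrArg (fun w => f a w - χ j a • w) hg
      simp only [map_sum, map_smul, h, smul_sum, ← sum_sub_distrib, smul_smul, ← sub_smul, map_zero,
        smul_zero, sub_zero] at h2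
      rw [sum_insert hj, mul_comm, sub_self, zero_smul, zero_add] at h2
      have h3 := ih _ h2 i hi
      rw [mul_comm (χ j a), ← mul_sub] at h3
      exact (mul_eq_zero.1 h3).resolve_right (sub_ne_zero.2 ha)
    rw [sum_insert hj, sum_eq_zero fun i hi => by rw [h1 i hi, zero_smul], add_zero] at hg
    intro i hi
    rcases mem_insert.1 hi with rfl | hi
    exacts [(smul_eq_zero.1 hg).resolve_right (hv _), h1 i hi]

theorem exists_common_eigen [IsAlgClosed L] [FiniteDimensional L V] {A : Type*}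
    (f : A → Module.End L V) (hc : ∀ i j, f i * f j = f j * f i) (U : Submodule L V) (hU : U ≠ ⊥)
    (hinv : ∀ i, ∀ v ∈ U, f i v ∈ U) : ∃ v ∈ U, v ≠ 0 ∧ ∀ i, ∃ c : L, f i v = c • v := by
  obtain ⟨W, ⟨hWU, hW, hWinv⟩, hmin⟩ := WellFounded.has_min (wellFounded_lt (α := Submodule L V))
    {W : Submodule L V | W ≤ U ∧ W ≠ ⊥ ∧ ∀ i, ∀ v ∈ W, f i v ∈ W} ⟨U, le_rfl, hU, hinv⟩
  obtain ⟨v, hv, hv0⟩ := (Submodule.ne_bot_iff W).mp hW
  refine ⟨v, hWU hv, hv0, fun i => ?_⟩
  have : Nontrivial W := Submodule.nontrivial_iff_ne_bot.mpr hW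
  obtain ⟨c, hc'⟩ := Module.End.exists_eigenvalue ((f i).restrict (hWinv i))
  obtain ⟨w, hw⟩ := hc'.exists_hasEigenvector
  have hw1 : f i w = c • (w : V) := congrArg Subtype.val hw.apply_eq_smul
  refine ⟨c, Module.End.mem_eigenspace_iff.mp ?_⟩
  by_contra hne
  refine hmin (W ⊓ (f i).eigenspace c)
    ⟨inf_le_left.trans hWU, ?_, fun j x hx => ⟨hWinv j x hx.1, ?_⟩⟩
    (lt_of_le_of_ne inf_le_left fun h => hne (h.ge hv).2)
  · exact (Submodule.ne_bot_iff _).mpr ⟨w, ⟨w.2, Module.End.mem_eigenspace_iff.mpr hw1⟩,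
      fun h => hw.2 (Subtype.ext h)⟩
  · refine Module.End.mem_eigenspace_iff.mpr ?_
    rw [← Module.End.mul_apply, hc, Module.End.mul_apply, Module.End.mem_eigenspace_iff.mp hx.2,
      map_smul]

end General

variable {ι : Type*} [Fintype ι] [DecidableEq ι] {F : Type*} [Field F]

/-- The algebraic closure. -/
abbrev AC (F : Type*) [Field F] := AlgebraicClosure F

/-- A matrix acting on the column space over the algebraic closure. -/
noncomputable def ex : Matrix ι ι F →+* Module.End (AC F) (ι → AC F) :=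
  (Matrix.toLinAlgEquiv' : Matrix ι ι (AC F) ≃ₐ[AC F] _).toRingEquiv.toRingHom.comp
    (algebraMap F (AC F)).mapMatrix

theorem ex_apply (M : Matrix ι ι F) (v : ι → AC F) :
    ex M v = M.map (algebraMap F (AC F)) *ᵥ v := rfl

theorem ex_injective : Function.Injective (ex : Matrix ι ι F → _) :=
  (Matrix.toLinAlgEquiv' : Matrix ι ι (AC F) ≃ₐ[AC F] _).injective.comp
    (Matrix.map_injective (algebraMap F (AC F)).injective)

theorem ex_ne_zero (g : GL ι F) {v : ι → AC F} (hv : v ≠ 0) : ex (g : Matrix ι ι F) v ≠ 0 :=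
  fun e => hv (by
    rw [← map_zero (ex ((g⁻¹ : GL ι F) : Matrix ι ι F)), ← e, ← Module.End.mul_apply, ← map_mul,
      Units.inv_mul, map_one, Module.End.one_apply])

theorem exists_eigen_ne_one {x : GL ι F} {n : ℕ} (hn : (n : F) ≠ 0) (hx : x ^ n = 1) (h1 : x ≠ 1) :
    ∃ (c : AC F) (v : ι → AC F), c ≠ 1 ∧ c ^ n = 1 ∧ v ≠ 0 ∧ ex (x : Matrix ι ι F) v = c • v := by
  obtain ⟨b, ε, h2, h3⟩ := Char.exists_eigenbasis_of_pow_eq_one (f := ex (x : Matrix ι ι F)) (n := n)
    (by rwa [← map_natCast (algebraMap F (AC F)), _root_.map_ne_zero])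
    (by rw [← map_pow, ← Units.val_pow_eq_pow_val, hx, Units.val_one, map_one])
  by_contra h4
  push Not at h4
  refine h1 (Units.ext (ex_injective (b.ext fun i => ?_)))
  by_contra h5
  refine h4 (ε i) (b i) (fun e => h5 ?_) (h3 i) (b.ne_zero i) (h2 i)
  rw [h2, e, one_smul, Units.val_one, map_one, Module.End.one_apply]

/-- The conjugates of a common eigenvector of a commuting family. -/
theorem exists_orbit {A κ : Type*} (u : A → GL ι F) (hc : ∀ a b, u a * u b = u b * u a) {n : ℕ}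
    (hn : (n : F) ≠ 0) {a₀ : A} (h0 : u a₀ ≠ 1) (h1 : u a₀ ^ n = 1) (g : κ → GL ι F)
    (τ : κ → A → A) (hg : ∀ k a, u a * g k = g k * u (τ k a))
    (hτ : ∀ k k', k ≠ k' → ∃ a, u (τ k a) = u a₀ * u (τ k' a)) :
    ∃ (v : κ → ι → AC F) (χ : κ → A → AC F), (∀ k, v k ≠ 0) ∧
      (∀ k a, ex (u a : Matrix ι ι F) (v k) = χ k a • v k) ∧ Function.Injective χ ∧
      ∀ k a, u (τ k a) = u a₀ → χ k a ≠ 1 := by
  obtain ⟨c, w, c1, -, w0, hw⟩ := exists_eigen_ne_one hn h1 h0
  have hc' : ∀ a b, ex (u a : Matrix ι ι F) * ex (u b : Matrix ι ι F) =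
      ex (u b : Matrix ι ι F) * ex (u a : Matrix ι ι F) := fun a b => by
    rw [← map_mul, ← map_mul, ← Units.val_mul, hc, Units.val_mul]
  obtain ⟨v, hv, v0, h2⟩ := exists_common_eigen (fun a => ex (u a : Matrix ι ι F)) hc'
    ((ex (u a₀ : Matrix ι ι F)).eigenspace c)
    ((Submodule.ne_bot_iff _).2 ⟨w, Module.End.mem_eigenspace_iff.2 hw, w0⟩) fun a x hx =>
      Module.End.mem_eigenspace_iff.2 (by
        rw [← Module.End.mul_apply, hc', Module.End.mul_apply, Module.End.mem_eigenspace_iff.1 hx,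
          map_smul])
  choose χ hχ using h2
  rw [Module.End.mem_eigenspace_iff] at hv
  refine ⟨fun k => ex (g k : Matrix ι ι F) v, fun k a => χ (τ k a), fun k => ex_ne_zero _ v0,
    fun k a => ?_, fun k k' e => ?_, fun k a e e1 => ?_⟩
  · rw [← Module.End.mul_apply, ← map_mul, ← Units.val_mul, hg, Units.val_mul, map_mul,
      Module.End.mul_apply, hχ, map_smul]
  · by_contra h3
    obtain ⟨a, ha⟩ := hτ k k' h3
    have h4 := hχ (τ k a)
    have h5 := ex_ne_zero (u (τ k' a)) v0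
    rw [ha, hc, Units.val_mul, map_mul, Module.End.mul_apply, hv, map_smul,
      show χ (τ k a) = χ (τ k' a) from congrFun e a, ← hχ] at h4
    exact c1 (smul_left_injective _ h5 (h4.trans (one_smul _ _).symm))
  · have h4 := hχ (τ k a)
    rw [e, hv, show χ (τ k a) = 1 from e1] at h4
    exact c1 (smul_left_injective _ v0 h4)

/-- The orbit bound. -/
theorem orbit_le {A κ : Type*} [Fintype κ] (u : A → GL ι F) (hc : ∀ a b, u a * u b = u b * u a)
    {n : ℕ} (hn : (n : F) ≠ 0) {a₀ : A} (h0 : u a₀ ≠ 1) (h1 : u a₀ ^ n = 1) (g : κ → GL ι F)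
    (τ : κ → A → A) (hg : ∀ k a, u a * g k = g k * u (τ k a))
    (hτ : ∀ k k', k ≠ k' → ∃ a, u (τ k a) = u a₀ * u (τ k' a)) :
    Fintype.card κ ≤ Fintype.card ι := by
  obtain ⟨v, χ, h2, h3, h4, -⟩ := exists_orbit u hc hn h0 h1 g τ hg hτ
  simpa using (linInd_of_char _ v χ h2 h3 h4).fintype_card_le_finrank

/-! ## Ranks -/

theorem exists_pivot (M : Matrix ι ι F) :
    ∃ (P Q : Matrix ι ι F) (D : ι → F), P.det = 1 ∧ Q.det = 1 ∧ M = P * diagonal D * Q := by
  obtain ⟨L, L', D, h⟩ := Matrix.Pivot.exists_list_transvec_mul_diagonal_mul_list_transvec M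
  exact ⟨_, _, D, TransvectionStruct.det_toMatrix_prod L, TransvectionStruct.det_toMatrix_prod L', h⟩

theorem rank_map {K : Type*} [Field K] (φ : F →+* K) (M : Matrix ι ι F) :
    (M.map φ).rank = M.rank := by
  classical
  obtain ⟨P, Q, D, hP, hQ, rfl⟩ := exists_pivot M
  have h : ∀ P : Matrix ι ι F, P.det = 1 → IsUnit (P.map φ).det := fun P hP => by
    rw [← RingHom.mapMatrix_apply, ← RingHom.map_det, hP, map_one]; exact isUnit_one
  rw [Matrix.map_mul, Matrix.map_mul, rank_mul_eq_left_of_isUnit_det _ _ (h Q hQ),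
    rank_mul_eq_right_of_isUnit_det _ _ (h P hP), rank_mul_eq_left_of_isUnit_det _ _ (hQ ▸ isUnit_one),
    rank_mul_eq_right_of_isUnit_det _ _ (hP ▸ isUnit_one), diagonal_map (map_zero φ), rank_diagonal,
    rank_diagonal]
  simp

theorem rank_lt_of_det {M : Matrix ι ι F} (h : M.det = 0) : M.rank < Fintype.card ι := by
  classical
  obtain ⟨P, Q, D, hP, hQ, rfl⟩ := exists_pivot M
  rw [det_mul, det_mul, hP, hQ, one_mul, mul_one, det_diagonal, prod_eq_zero_iff] at h
  obtain ⟨i, -, hi⟩ := h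
  rw [rank_mul_eq_left_of_isUnit_det _ _ (hQ ▸ isUnit_one),
    rank_mul_eq_right_of_isUnit_det _ _ (hP ▸ isUnit_one), rank_diagonal]
  exact Fintype.card_subtype_lt (x := i) (not_not.2 hi)

/-! ## Diagonalisation -/

/-- `M` is diagonalisable over the closure with eigenvalues `ε`. -/
def Dg (M : Matrix ι ι F) (ε : ι → AC F) : Prop := ∃ Q : GL ι (AC F),
  M.map (algebraMap F (AC F)) = Q * diagonal ε * ((Q⁻¹ : GL ι (AC F)) : Matrix ι ι (AC F))

theorem exists_dg {M : Matrix ι ι F} {n : ℕ} (hn : (n : F) ≠ 0) (h : M ^ n = 1) :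
    ∃ ε, Dg M ε ∧ ∀ i, ε i ^ n = 1 := by
  obtain ⟨b, ε, h2, h3⟩ := Char.exists_eigenbasis_of_pow_eq_one (f := ex M) (n := n)
    (by rwa [← map_natCast (algebraMap F (AC F)), _root_.map_ne_zero])
    (by rw [← map_pow, h, map_one])
  let e : Fin (finrank (AC F) (ι → AC F)) ≃ ι := (Fintype.equivFinOfCardEq (by simp)).symm
  have := (Pi.basisFun (AC F) ι).invertibleToMatrix (b.reindex e)
  refine ⟨fun i => ε (e.symm i), ⟨unitOfInvertible ((Pi.basisFun (AC F) ι).toMatrix (b.reindex e)),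
    ?_⟩, fun i => h3 _⟩
  rw [Units.eq_mul_inv_iff_mul_eq]
  ext i j
  have := congrFun (h2 (e.symm j)) i
  rw [ex_apply] at this
  simpa [mul_apply, Basis.toMatrix_apply, mulVec, dotProduct, diagonal_apply, mul_comm] using this

namespace Dg

variable {M : Matrix ι ι F} {ε ε' : ι → AC F} (h : Dg M ε)
include h

theorem pow (k : ℕ) : Dg (M ^ k) fun i => ε i ^ k := by
  obtain ⟨Q, hQ⟩ := h
  refine ⟨Q, ?_⟩
  rw [Matrix.map_pow, hQ, Units.conj_pow, diagonal_pow]
  rfl

theorem conj (g : GL ι F) :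
    Dg ((g : Matrix ι ι F) * M * ((g⁻¹ : GL ι F) : Matrix ι ι F)) ε := by
  obtain ⟨Q, hQ⟩ := h
  refine ⟨GeneralLinearGroup.map (algebraMap F (AC F)) g * Q, ?_⟩
  rw [Matrix.map_mul, Matrix.map_mul, hQ, _root_.mul_inv_rev, ← map_inv]
  simp only [Units.val_mul, mul_assoc]
  rfl

theorem trace : algebraMap F (AC F) M.trace = ∑ i, ε i := by
  obtain ⟨Q, hQ⟩ := h
  rw [AddMonoidHom.map_trace, hQ, trace_units_conj, trace_diagonal]

theorem det : algebraMap F (AC F) M.det = ∏ i, ε i := by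
  obtain ⟨Q, hQ⟩ := h
  rw [RingHom.map_det, RingHom.mapMatrix_apply, hQ, det_units_conj, det_diagonal]

open scoped Classical in
theorem rank : (M - 1).rank = #{i | ε i ≠ 1} := by
  obtain ⟨Q, hQ⟩ := h
  have h1 : (M - 1).map (algebraMap F (AC F)) =
      Q * diagonal (fun i => ε i - 1) * ((Q⁻¹ : GL ι (AC F)) : Matrix ι ι (AC F)) := by
    rw [← diagonal_sub, mul_sub, sub_mul, ← hQ, diagonal_one, mul_one, Units.mul_inv,
      ← RingHom.mapMatrix_apply, map_sub, map_one, RingHom.mapMatrix_apply]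
  rw [← rank_map (algebraMap F (AC F)), h1,
    rank_mul_eq_left_of_isUnit_det _ _ (isUnits_det_units _),
    rank_mul_eq_right_of_isUnit_det _ _ (isUnits_det_units _), rank_diagonal, Fintype.card_subtype]
  simp only [sub_ne_zero]

theorem roots : (M.map (algebraMap F (AC F))).charpoly.roots = univ.val.map ε := by
  obtain ⟨Q, hQ⟩ := h
  rw [hQ, coe_units_inv, charpoly_units_conj, charpoly_diagonal,
    ← roots_multiset_prod_X_sub_C (univ.val.map ε), Multiset.map_map]
  rfl

open scoped Classical in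
theorem card_eq (h' : Dg M ε') (z : AC F) : #{i | ε i = z} = #{i | ε' i = z} := by
  have := congrArg (Multiset.count z) (h.roots.symm.trans h'.roots)
  simpa only [Multiset.count_map, ← filter_val, ← card_def, eq_comm] using this

end Dg

/-- Multiplicities of the eigenvalues of an element of prime order. -/
theorem exists_count {x : GL ι F} {l : ℕ} (hl : l.Prime) (hF : (l : F) ≠ 0) (hx : x ^ l = 1)
    (h1 : x ≠ 1) : ∃ c : ℕ → ℕ, 0 < c 1 ∧ ∑ j ∈ range l, c j = Fintype.card ι ∧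
      c 0 + ((x : Matrix ι ι F) - 1).rank = Fintype.card ι ∧
      ∀ m : ℕ, ¬ l ∣ m → IsConj x (x ^ m) → ∀ j, c (m * j % l) = c j := by
  classical
  have := Fact.mk hl
  obtain ⟨ε, h, hε⟩ := exists_dg (M := (x : Matrix ι ι F)) hF
    (by rw [← Units.val_pow_eq_pow_val, hx, Units.val_one])
  obtain ⟨i₀, h0⟩ : ∃ i, ε i ≠ 1 := by
    by_contra h2
    push Not at h2
    obtain ⟨Q, hQ⟩ := h
    rw [show ε = fun _ => 1 from funext h2, diagonal_one, mul_one, Units.mul_inv] at hQ
    exact h1 (Units.ext (Matrix.map_injective (algebraMap F (AC F)).injective (hQ.trans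
      (Matrix.map_one _ (map_zero _) (map_one _)).symm)))
  have hζ : IsPrimitiveRoot (ε i₀) l :=
    orderOf_eq_prime (hε i₀) h0 ▸ IsPrimitiveRoot.orderOf (ε i₀)
  have := NeZero.mk hl.ne_zero
  choose d hd hd' using fun i => hζ.eq_pow_of_pow_eq_one (hε i)
  refine ⟨fun j => #{i | ε i = ε i₀ ^ j}, card_pos.2 ⟨i₀, by simp⟩, ?_, ?_, fun m hm hc j => ?_⟩
  · rw [← card_univ, card_eq_sum_card_fiberwise (f := d) (t := range l)
      fun i _ => mem_coe.2 (mem_range.2 (hd i))]
    refine sum_congr rfl fun j hj => congrArg card (filter_congr fun i _ => ?_)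
    rw [← hd' i]
    exact ⟨hζ.pow_inj (hd i) (mem_range.1 hj), fun e => by rw [e]⟩
  · simp only [h.rank, pow_zero, card_filter_add_card_filter_not, card_univ]
  · obtain ⟨g, hg⟩ := isConj_iff.1 hc
    have h2 := h.conj g
    rw [← Units.val_mul, ← Units.val_mul, hg, Units.val_pow_eq_pow_val] at h2
    change #{i | ε i = ε i₀ ^ (m * j % l)} = #{i | ε i = ε i₀ ^ j}
    rw [← pow_eq_pow_mod _ (hε i₀), h2.card_eq (h.pow m)]
    refine congrArg card (filter_congr fun i _ => ⟨fun e => ?_, fun e => by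
      rw [e, ← pow_mul, mul_comm]⟩)
    obtain ⟨k, -, hk⟩ := Nat.exists_mul_mod_eq_one_of_coprime
      ((Nat.Prime.coprime_iff_not_dvd hl).2 hm).symm hl.one_lt
    have h3 := congrArg (· ^ k) e
    simp only [← pow_mul] at h3
    rwa [pow_eq_pow_mod _ (hε i), hk, pow_one, mul_right_comm, pow_mul,
      pow_eq_pow_mod _ (hε i₀), hk, pow_one] at h3

/-- An element moving a fixed-point-free cyclic group has trace zero. -/
theorem trace_eq_zero {x y : GL ι F} {l m : ℕ} (hl : (l : F) ≠ 0) (hx : x ^ l = 1)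
    (hy : y * x * y⁻¹ = x ^ (m + 1))
    (hu : (((x ^ m : GL ι F) : Matrix ι ι F) - 1).det ≠ 0) : (y : Matrix ι ι F).trace = 0 := by
  have h1 : ∑ a ∈ range l, ((x ^ m : GL ι F) : Matrix ι ι F) ^ a = 0 := by
    have := mul_geom_sum ((x ^ m : GL ι F) : Matrix ι ι F) l
    rw [← Units.val_pow_eq_pow_val, ← pow_mul, mul_comm m, pow_mul, hx, one_pow, Units.val_one,
      sub_self] at this
    exact ((isUnit_iff_isUnit_det _).2 hu.isUnit).mul_right_eq_zero.1 this
  have h2 : ∀ a, (((x ^ m : GL ι F) : Matrix ι ι F) ^ a * y).trace = (y : Matrix ι ι F).trace :=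
    fun a => by
      have e : (x ^ m) ^ a * y = (x ^ a)⁻¹ * y * x ^ a := by
        rw [mul_assoc, eq_inv_mul_iff_mul_eq, ← mul_assoc, ← pow_mul, ← pow_add,
          show a + m * a = (m + 1) * a by ring, pow_mul, ← hy, conj_pow, inv_mul_cancel_right]
      rw [← Units.val_pow_eq_pow_val, ← Units.val_mul, e, Units.val_mul, Units.val_mul,
        trace_units_conj']
  have h3 := congrArg (fun N => (N * (y : Matrix ι ι F)).trace) h1
  simp only [sum_mul, trace_sum, h2, sum_const, card_range, zero_mul, trace_zero,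
    nsmul_eq_mul] at h3
  exact (mul_eq_zero.1 h3).resolve_left hl

/-! ## Dimension five -/

variable {g : GL (Fin 5) F}

theorem rank_le_four (h : ((g : Matrix (Fin 5) (Fin 5) F) - 1).det = 0) :
    ((g : Matrix (Fin 5) (Fin 5) F) - 1).rank ≤ 4 := by
  have := rank_lt_of_det h
  rw [Fintype.card_fin] at this
  omega

theorem det_eq_zero_of_real (h2 : (2 : F) ≠ 0) (hd : (g : Matrix (Fin 5) (Fin 5) F).det = 1)
    (hr : IsConj g g⁻¹) : ((g : Matrix (Fin 5) (Fin 5) F) - 1).det = 0 := by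
  obtain ⟨c, hc⟩ := isConj_iff.1 hr
  have h1 : (((g⁻¹ : GL (Fin 5) F) : Matrix (Fin 5) (Fin 5) F) - 1).det =
      ((g : Matrix (Fin 5) (Fin 5) F) - 1).det := by
    rw [← hc, ← det_units_conj c ((g : Matrix (Fin 5) (Fin 5) F) - 1), mul_sub, sub_mul, mul_one,
      Units.mul_inv, Units.val_mul, Units.val_mul]
  have h3 : (g : Matrix (Fin 5) (Fin 5) F) * (((g⁻¹ : GL (Fin 5) F) : Matrix (Fin 5) (Fin 5) F) - 1) =
      -((g : Matrix (Fin 5) (Fin 5) F) - 1) := by
    rw [mul_sub, Units.mul_inv, mul_one, neg_sub]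
  have h4 := congrArg det h3
  rw [det_mul, hd, h1, det_neg, Fintype.card_fin] at h4
  exact (mul_eq_zero.1 (by linear_combination h4 : (2 : F) * _ = 0)).resolve_left h2

theorem det_eq_zero_of_unip (p : ℕ) [hp : Fact p.Prime] [CharP F p] {k : ℕ} (h : g ^ p ^ k = 1) :
    ((g : Matrix (Fin 5) (Fin 5) F) - 1).det = 0 := by
  refine pow_eq_zero_iff (pow_ne_zero k hp.out.ne_zero) |>.1 ?_
  rw [← det_pow, sub_pow_char_pow_of_commute _ _ (Commute.one_right _), ← Units.val_pow_eq_pow_val, h,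
    one_pow, Units.val_one, sub_self, det_zero]

theorem det_eq_zero_of_three (hd : (g : Matrix (Fin 5) (Fin 5) F).det = 1) (h3 : g ^ 3 = 1)
    (hr : IsConj g g⁻¹) : ((g : Matrix (Fin 5) (Fin 5) F) - 1).det = 0 := by
  by_cases h2 : (2 : F) = 0
  swap
  · exact det_eq_zero_of_real h2 hd hr
  by_contra hu
  obtain ⟨c, hc⟩ := isConj_iff.1 hr
  have h1 := mul_geom_sum (g : Matrix (Fin 5) (Fin 5) F) 3
  rw [← Units.val_pow_eq_pow_val, h3, Units.val_one, sub_self] at h1
  have h4 := congrArg Matrix.trace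
    (((isUnit_iff_isUnit_det _).2 (Ne.isUnit hu)).mul_right_eq_zero.1 h1)
  have h5 : tr5 (g ^ 2) = tr5 g := by
    rw [eq_inv_of_mul_eq_one_left ((pow_succ g 2).symm.trans h3), ← hc, tr5_conj]
  simp only [sum_range_succ, sum_range_zero, trace_add, pow_zero, pow_one, trace_one,
    Fintype.card_fin, trace_zero, zero_add] at h4
  rw [← Units.val_pow_eq_pow_val] at h4
  unfold tr5 at h5
  rw [h5] at h4
  exact one_ne_zero (α := F) (by
    push_cast at h4
    linear_combination h4 - (2 + (g : Matrix (Fin 5) (Fin 5) F).trace) * h2)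

theorem rank_le_three (h7 : (7 : F) ≠ 0) (h : g ^ 7 = 1) (hc : IsConj g (g ^ 2)) :
    ((g : Matrix (Fin 5) (Fin 5) F) - 1).rank ≤ 3 := by
  by_cases h1 : g = 1
  · simp [h1]
  obtain ⟨c, -, h2, h3, h4⟩ := exists_count (by norm_num : Nat.Prime 7) (by exact_mod_cast h7) h h1
  have h5 := h4 2 (by norm_num) hc
  have := h5 1
  have := h5 2
  have := h5 3
  have := h5 6
  simp only [sum_range_succ, sum_range_zero, Fintype.card_fin] at h2 h3
  norm_num at *
  omega

theorem det_ne_zero_of_eleven (h11 : (11 : F) ≠ 0) (h : g ^ 11 = 1) (h1 : g ≠ 1)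
    (hc : IsConj g (g ^ 3)) : ((g : Matrix (Fin 5) (Fin 5) F) - 1).det ≠ 0 := fun h0 => by
  have := rank_le_four h0
  obtain ⟨c, h5, h2, h3, h4⟩ :=
    exists_count (by norm_num : Nat.Prime 11) (by exact_mod_cast h11) h h1
  have h5 := h4 3 (by norm_num) hc
  have := h5 1
  have := h5 3
  have := h5 9
  have := h5 5
  simp only [sum_range_succ, sum_range_zero, Fintype.card_fin] at h2 h3
  norm_num at *
  omega

end Cfsg.Lib.Five
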