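import Cfsg.Agent.Class.Five.Defs
import Cfsg.Agent.S2086
import Cfsg.Agent.S2089

/-!
# Subgroups of `SL₅`: the centre, involutions
-/

set_option autoImplicit false

namespace Cfsg.Lib.Five

open Matrix Cfsg.Geo Cfsg.Lib.Class Cfsg.Lib.Class.Asch Cfsg.Lib.Mit
open scoped MatrixGroups

universe v

variable {F : Type*} [Field F] [Finite F] {P : Subgroup (GL (Fin 5) F)} {G : Type v} [Group G]
  {π : P →* G}

/-- The centre is trivial when the Schur multiplier has order prime to five. -/
theorem injective_of_mult (hP : QS P) (h : Proj P π) {n : ℕ} (hn : ¬ 5 ∣ n)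
    (hG : HasCyclicSchurMultiplier G n) : Function.Injective π := by
  rw [injective_iff_map_eq_one]
  intro z hz
  by_contra hz1
  have : Fact (Nat.Prime 5) := ⟨Nat.prime_five⟩
  let e : Shrink.{v} P ≃* P := Shrink.mulEquiv
  have : Finite (Shrink.{v} P) := Finite.of_equiv _ e.symm.toEquiv
  have hc : _root_.commutator (Shrink.{v} P) = ⊤ := by
    rw [_root_.commutator_def, ← Subgroup.map_top_of_surjective e.symm.toMonoidHom e.symm.surjective,
      ← Subgroup.map_commutator, ← _root_.commutator_def, commutator_eq_top hP]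
  obtain ⟨ρ, hρ⟩ := hG.2 (Shrink.{v} P) (π.comp e.toMonoidHom) ⟨h.surj.comp e.surjective,
    fun x hx => Subgroup.mem_center_iff.2 fun y => e.injective (by
      rw [map_mul, map_mul]; exact (comm_of_ker h hx (e y)).symm), hc ▸ le_top⟩
  obtain ⟨a, ha⟩ := hρ ⟨e.symm z, by simpa using hz⟩
  have h1 : z ^ n = 1 := by
    have h2 : a ^ n = 1 := by
      apply Multiplicative.toAdd.injective
      simp
    have h3 := map_pow ρ a n
    rw [h2, map_one, ha] at h3
    have h4 : (e.symm z) ^ n = 1 := (congrArg Subtype.val h3).symm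
    rwa [← map_pow, map_eq_one_iff _ e.symm.injective] at h4
  exact hn ((orderOf_eq_prime (pow_five_of_ker hP h hz) hz1) ▸ orderOf_dvd_of_pow_eq_one h1)

theorem injective_psl {K : Type v} [Field K] [Fintype K] {n : ℕ} {π : P →* PSL(n, K)}
    (hP : QS P) (h : Proj P π) (hn : n = 2 ∨ n = 3) (h2 : n = 2 → 4 ≤ Fintype.card K)
    (hexc : (n, Fintype.card K) ∉ ({(2, 4), (2, 9), (3, 2), (3, 4), (4, 2)} : Set (ℕ × ℕ))) :
    Function.Injective π :=
  injective_of_mult hP h (fun h5 => by
    have := Nat.le_of_dvd (by omega) (h5.trans (Nat.gcd_dvd_left n (Fintype.card K - 1)))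
    omega) (Cfsg.Agent.S2086.result rfl n (by omega) h2 hexc)

theorem injective_psu {K : Type v} [Field K] [Fintype K] {q : ℕ} {π : P →* Cfsg.PSU 3 K q}
    (hP : QS P) (h : Proj P π) (hK : Fintype.card K = q ^ 2) (hq : q ≠ 2) :
    Function.Injective π :=
  injective_of_mult hP h (fun h5 => by
    have := Nat.le_of_dvd (by omega) (h5.trans (Nat.gcd_dvd_left 3 (q + 1)))
    omega) (Cfsg.Agent.S2089.result 3 q hK le_rfl (by simp [hq]) (by simp))

end Cfsg.Lib.Five
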