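import Cfsg.Agent.Class.Five.Eig
import Cfsg.Agent.Class.Five.Mult
import Cfsg.Agent.Class.UModel
import Cfsg.Agent.Class.USinger
import Cfsg.Agent.Class.AL.Exc
import Cfsg.Agent.Chev.CoreSL2
import Cfsg.Agent.S0243

/-!
# `L₂(11)` does not give a maximal subgroup of `SL₅(3)`
-/

set_option autoImplicit false

namespace Cfsg.Lib.Five

open Matrix Cfsg.Geo Cfsg.Lib.Class Cfsg.Lib.Class.Asch Cfsg.Lib.Mit Cfsg.Lib.Chev.Core
open scoped MatrixGroups

/-- A maximal subgroup of `SL₅` normalising a copy of `L₂(11)` with standard generators. -/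
structure Dat {F : Type*} [Field F] (H : Subgroup (GL (Fin 5) F)) (x y t : GL (Fin 5) F) :
    Prop where
  max : IsMaximalIn (specialLinear (Fin 5) F) H
  y_mem : y ∈ H
  x11 : x ^ 11 = 1
  x1 : x ≠ 1
  yx : y * x = x ^ 3 * y
  yty : y * t * y = t
  tt : t * t = 1
  tx : t * x * (t * x) * (t * x) = 1
  key : ∀ M : Subgroup (GL (Fin 5) F), x ∈ M → t ∈ M → ∀ h ∈ H, h * x * h⁻¹ ∈ M ∧
    ∃ p ∈ M, ∃ k : ℤ, y = p * (h * y ^ k * h⁻¹) * p⁻¹

theorem Dat.map {F K : Type*} [Field F] [Field K] {H : Subgroup (GL (Fin 5) F)}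
    {x y t : GL (Fin 5) F} (h : Dat H x y t) (Φ : GL (Fin 5) F ≃* GL (Fin 5) K)
    (hΦ : ∀ g, g ∈ specialLinear (Fin 5) F ↔ Φ g ∈ specialLinear (Fin 5) K) :
    Dat (H.map Φ.toMonoidHom) (Φ x) (Φ y) (Φ t) := by
  refine ⟨TvP.isMaximalIn_map Φ hΦ h.max, ⟨y, h.y_mem, rfl⟩, by rw [← map_pow, h.x11, map_one],
    (map_ne_one_iff _ Φ.injective).2 h.x1, by simpa using congrArg Φ h.yx,
    by simpa using congrArg Φ h.yty, by simpa using congrArg Φ h.tt,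
    by simpa using congrArg Φ h.tx, ?_⟩
  rintro M h1 h2 _ ⟨g, hg, rfl⟩
  obtain ⟨h3, p, hp, k, h4⟩ := h.key (M.comap Φ.toMonoidHom) h1 h2 g hg
  exact ⟨by simpa using h3, Φ p, hp, k, by simpa using congrArg Φ h4⟩

/-- Vectors of length five over the field with three elements. -/
abbrev V3 := Fin 5 → ZMod 3

/-- The companion matrix with last column `c`, applied to a vector. -/
def step (c v : V3) : V3 :=
  ![c 0 * v 4, v 0 + c 1 * v 4, v 1 + c 2 * v 4, v 2 + c 3 * v 4, v 3 + c 4 * v 4]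

/-- The matrix tripling the indices of the points. -/
def ym (pt : ℕ → V3) : Matrix (Fin 5) (Fin 5) (ZMod 3) := of fun i j => pt (3 * j % 11) i

/-- The linear map with prescribed values on a basis. -/
def tf (pt : ℕ → V3) (B : Matrix (Fin 5) (Fin 5) (ZMod 3)) (ε : ZMod 3) (u z : V3) : V3 :=
  (B *ᵥ z) ᵥ* of ![ε • pt 0, u, ym pt *ᵥ ym pt *ᵥ ym pt *ᵥ u, ym pt *ᵥ ym pt *ᵥ u, ym pt *ᵥ u]

theorem vec5 (v : V3) : v = ![v 0, v 1, v 2, v 3, v 4] := by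
  funext i; fin_cases i <;> rfl

variable {H : Subgroup (GL (Fin 5) (ZMod 3))} {x y t : GL (Fin 5) (ZMod 3)}

theorem Dat.false_of_cert (h : Dat H x y t) (pt : ℕ → V3)
    (B m m' : Matrix (Fin 5) (Fin 5) (ZMod 3)) (hx : ∀ v, x.1 *ᵥ v = step (pt 5) v)
    (hy : y.1 *ᵥ pt 0 = pt 0) (c0 : ∀ i : Fin 5, pt i = Pi.single i 1)
    (c1 : ∀ k < 11, step (pt 5) (pt k) = pt ((k + 1) % 11))
    (c2 : ∀ a b c d e, ym pt *ᵥ ![a, b, c, d, e] = ![a, b, c, d, e] →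
      ![a, b, c, d, e] = 0 ∨ ![a, b, c, d, e] = pt 0 ∨ ![a, b, c, d, e] = -pt 0)
    (c3 : (of ![pt 0, pt 1, pt 9, pt 5, pt 4])ᵀ * B = 1)
    (c4 : ∀ ε a b c d e, tf pt B ε ![a, b, c, d, e] ![a, b, c, d, e] = pt 1 →
      tf pt B ε ![a, b, c, d, e] (step (pt 5) ![a, b, c, d, e]) = ε • pt 10 →
      ym pt *ᵥ tf pt B ε ![a, b, c, d, e] (pt 3) = ![a, b, c, d, e] →
      ∀ k < 11, ∃ j < 11, tf pt B ε ![a, b, c, d, e] (pt k) = pt j)
    (c5 : m * m' = 1) (c6 : m.det = 1) (c7 : m *ᵥ pt 0 = pt 0)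
    (c8 : ∀ k < 11, ∃ j < 11, m *ᵥ pt k = pt j ∨ m *ᵥ pt k = -pt j)
    (c9 : ∀ j < 11, m *ᵥ pt 1 ≠ pt j)
    (c10 : ∀ j < 11, ![1, 1, 0, 0, 0] ≠ pt j ∧ ![1, 1, 0, 0, 0] ≠ -pt j) : False := by
  have p0 : pt 0 ≠ 0 := fun e => by simpa using congrFun ((c0 0).symm.trans e) 0
  have nz : ∀ g : GL (Fin 5) (ZMod 3), g.1 *ᵥ pt 0 ≠ 0 := fun g e => p0 (by
    rw [← one_mulVec (pt 0), ← g.inv_mul, ← mulVec_mulVec, e, mulVec_zero])
  have xk : ∀ k, (x ^ k).1 *ᵥ pt 0 = pt (k % 11) := fun k => by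
    induction k with
    | zero => simp
    | succ k ih =>
      rw [pow_succ', Units.val_mul, ← mulVec_mulVec, ih, hx, c1 _ (Nat.mod_lt _ (by norm_num)),
        Nat.mod_add_mod]
  have yk : ∀ k < 11, y.1 *ᵥ pt k = pt (3 * k % 11) := fun k hk => by
    have e : y * x ^ k = x ^ (3 * k) * y := by
      rw [pow_mul, ← mul_inv_eq_iff_eq_mul.2 h.yx, conj_pow, inv_mul_cancel_right]
    rw [← xk, ← hy, mulVec_mulVec, ← Units.val_mul, ← e, Units.val_mul, ← mulVec_mulVec, xk,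
      Nat.mod_eq_of_lt hk]
  have ye : y.1 = ym pt := by
    ext i j
    have := congrFun (yk j (j.2.trans (by norm_num))) i
    rw [c0] at this
    simpa [ym] using this
  have fix : ∀ g : GL (Fin 5) (ZMod 3), y.1 *ᵥ g.1 *ᵥ pt 0 = g.1 *ᵥ pt 0 →
      g.1 *ᵥ pt 0 = pt 0 ∨ g.1 *ᵥ pt 0 = -pt 0 := fun g e => by
    have h1 := nz g
    rw [ye] at e
    rw [vec5 (g.1 *ᵥ pt 0)] at e h1 ⊢
    exact (c2 _ _ _ _ _ e).resolve_left h1
  have ty : ∀ v, y.1 *ᵥ t.1 *ᵥ y.1 *ᵥ v = t.1 *ᵥ v := fun v => by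
    simp only [mulVec_mulVec, ← Units.val_mul, ← mul_assoc, h.yty]
  have tt : ∀ v, t.1 *ᵥ t.1 *ᵥ v = v := fun v => by
    rw [mulVec_mulVec, ← Units.val_mul, h.tt, Units.val_one, one_mulVec]
  obtain ⟨ε, hε⟩ : ∃ ε : ZMod 3, t.1 *ᵥ pt 0 = ε • pt 0 := by
    rcases fix t (by conv_lhs => rw [← hy, ty]) with e | e
    exacts [⟨1, by simpa using e⟩, ⟨-1, by simpa using e⟩]
  have t4 : ym pt *ᵥ t.1 *ᵥ pt 1 = t.1 *ᵥ pt 4 := by rw [← ty (pt 4), yk 4 (by norm_num), ye]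
  have t5 : ym pt *ᵥ t.1 *ᵥ pt 4 = t.1 *ᵥ pt 5 := by rw [← ty (pt 5), yk 5 (by norm_num), ye]
  have t9 : ym pt *ᵥ t.1 *ᵥ pt 5 = t.1 *ᵥ pt 9 := by rw [← ty (pt 9), yk 9 (by norm_num), ye]
  have t1 : ym pt *ᵥ t.1 *ᵥ pt 3 = t.1 *ᵥ pt 1 := by rw [← ty (pt 1), yk 1 (by norm_num), ye]
  have te : ∀ z, tf pt B ε (t.1 *ᵥ pt 1) z = t.1 *ᵥ z := fun z => by
    have e : of ![ε • pt 0, t.1 *ᵥ pt 1, t.1 *ᵥ pt 9, t.1 *ᵥ pt 5, t.1 *ᵥ pt 4] =
        of ![pt 0, pt 1, pt 9, pt 5, pt 4] * t.1ᵀ := by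
      rw [← hε]
      ext i j
      fin_cases i <;> simp [mul_apply, mulVec, dotProduct, mul_comm]
    rw [tf, t4, t5, t9, e, ← vecMul_vecMul, vecMul_transpose, ← mulVec_transpose, mulVec_mulVec z,
      c3, one_mulVec]
  have t10 : t.1 *ᵥ x.1 *ᵥ t.1 *ᵥ pt 1 = ε • pt 10 := by
    have e : t * x * t * x = x ^ 10 * t := by
      rw [← mul_left_inj (t * x), mul_assoc (t * x) t x, h.tx, mul_assoc, ← mul_assoc t, h.tt, one_mul,
        ← pow_succ, h.x11]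
    rw [← xk 1, ← xk 10, ← mulVec_smul, ← hε]
    simp only [mulVec_mulVec, ← Units.val_mul, ← mul_assoc, pow_one, e]
  let X : Set V3 := {v | ∃ j < 11, v = pt j}
  let Y : Set V3 := {v | ∃ j < 11, v = pt j ∨ v = -pt j}
  have xX : x ∈ AL.setStab X := by
    rintro _ ⟨j, hj, rfl⟩
    exact ⟨_, Nat.mod_lt _ (by norm_num), (hx _).trans (c1 j hj)⟩
  have tX : t ∈ AL.setStab X := by
    rintro _ ⟨j, hj, rfl⟩
    have := c4 ε _ _ _ _ _ (by rw [← vec5, te, tt]) (by rw [← vec5, te, ← hx, t10])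
      (by rw [← vec5, te, t1]) j hj
    rwa [← vec5, te] at this
  have ng : ∀ v ∈ Y, -v ∈ Y := by
    rintro _ ⟨j, hj, rfl | rfl⟩
    exacts [⟨j, hj, Or.inr rfl⟩, ⟨j, hj, Or.inl (neg_neg _)⟩]
  have st : ∀ g : GL (Fin 5) (ZMod 3), (∀ k < 11, g.1 *ᵥ pt k ∈ Y) → g ∈ AL.setStab Y := by
    rintro g hg _ ⟨j, hj, rfl | rfl⟩
    exacts [hg j hj, mulVec_neg (pt j) g.1 ▸ ng _ (hg j hj)]
  have XY : AL.setStab X ≤ AL.setStab Y := fun g hg => st g fun k hk =>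
    (hg _ ⟨k, hk, rfl⟩).imp fun j hj => ⟨hj.1, Or.inl hj.2⟩
  have HY : H ≤ AL.setStab Y := fun g hg => st g fun k hk => by
    obtain ⟨h1, p, hp, n, h2⟩ := h.key _ xX tX g hg
    have h3 : (y ^ n).1 *ᵥ pt 0 = pt 0 :=
      zpow_mem (show y ∈ AL.setStab {pt 0} by rintro _ rfl; exact hy) n _ rfl
    have h4 := fix (p * g) (by
      conv_rhs => rw [← h3]
      simp only [mulVec_mulVec, ← Units.val_mul]
      congr 2
      conv_lhs => rw [h2]
      group)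
    have h5 := XY (inv_mem hp) _ (show (p * g).1 *ᵥ pt 0 ∈ Y from ⟨0, by norm_num, h4⟩)
    have h6 := XY (pow_mem h1 k) _ h5
    rw [← Nat.mod_eq_of_lt hk, ← xk]
    simp only [mulVec_mulVec, ← Units.val_mul, conj_pow] at h6 ⊢
    simpa only [inv_mul_cancel_left, inv_mul_cancel_right] using h6
  let μ : GL (Fin 5) (ZMod 3) := ⟨m, m', c5, mul_eq_one_comm.1 c5⟩
  have h1 : μ ∈ H := (AL.eq_inf_of_le h.max HY (AL.not_SL_le_of_set (by simp) (S := Y)
    (fun g hg => hg) ⟨0, by norm_num, Or.inl rfl⟩ p0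
    (fun ⟨j, hj, e⟩ => e.elim (c10 j hj).1 (c10 j hj).2) (by decide))).ge
    ⟨st μ c8, AL.mem_specialLinear'.2 c6⟩
  obtain ⟨j, hj, e⟩ := (h.key _ xX tX μ h1).1 _ ⟨0, by norm_num, c7⟩
  refine c9 j hj ?_
  rw [← e, ← xk 1, pow_one]
  change μ.1 *ᵥ _ = _ *ᵥ μ.1 *ᵥ _
  simp only [mulVec_mulVec, ← Units.val_mul, inv_mul_cancel_right]

/-- The points for the first polynomial. -/
def ptA (k : ℕ) : V3 := [![1, 0, 0, 0, 0], ![0, 1, 0, 0, 0], ![0, 0, 1, 0, 0], ![0, 0, 0, 1, 0],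
  ![0, 0, 0, 0, 1], ![1, 0, 2, 1, 2], ![2, 1, 1, 1, 2], ![2, 2, 2, 0, 2], ![2, 2, 0, 1, 1],
  ![1, 2, 1, 1, 0], ![0, 1, 2, 1, 1]].getD k 0

/-- The points for the second polynomial. -/
def ptB (k : ℕ) : V3 := [![1, 0, 0, 0, 0], ![0, 1, 0, 0, 0], ![0, 0, 1, 0, 0], ![0, 0, 0, 1, 0],
  ![0, 0, 0, 0, 1], ![1, 1, 2, 1, 0], ![0, 1, 1, 2, 1], ![1, 1, 0, 2, 2], ![2, 0, 2, 2, 2],
  ![2, 1, 1, 1, 2], ![2, 1, 2, 0, 1]].getD k 0

theorem Dat.false_of_std (h : Dat H x y t)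
    (hx : ∀ i : Fin 5, (x ^ (i : ℕ)).1 *ᵥ Pi.single 0 1 = Pi.single i 1)
    (hy : y.1 *ᵥ Pi.single 0 1 = Pi.single 0 1) : False := by
  have h1 : ∀ i : Fin 4, x.1 *ᵥ Pi.single i.castSucc 1 = Pi.single i.succ 1 := fun i => by
    rw [← hx i.succ, ← hx i.castSucc, Fin.val_succ, pow_succ', Units.val_mul, mulVec_mulVec, Fin.val_castSucc]
  obtain ⟨c, hc⟩ : ∃ c, ∀ v, x.1 *ᵥ v = step c v := ⟨fun i => x.1 i 4, fun v => by
    have h2 : ∀ (j : Fin 4) i, x.1 i j.castSucc = (Pi.single j.succ 1 : V3) i := fun j i => by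
      simpa using congrFun (h1 j) i
    have a0 : ∀ i, x.1 i 0 = _ := h2 0
    have a1 : ∀ i, x.1 i 1 = _ := h2 1
    have a2 : ∀ i, x.1 i 2 = _ := h2 2
    have a3 : ∀ i, x.1 i 3 = _ := h2 3
    funext i
    fin_cases i <;> simp [step, mulVec, dotProduct, Fin.sum_univ_five, a0, a1, a2, a3]⟩
  have h3 : ∀ k v, (x ^ k).1 *ᵥ v = (step c)^[k] v := fun k => by
    induction k with
    | zero => simp
    | succ k ih =>
      intro v
      rw [pow_succ, Units.val_mul, ← mulVec_mulVec, ih, hc, Function.iterate_succ_apply]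
  have h4 := h3 11 (Pi.single 0 1)
  rw [h.x11, Units.val_one, one_mulVec, vec5 c] at h4
  have e0 : ptA 0 = Pi.single 0 1 := by decide
  have e1 : ptB 0 = Pi.single 0 1 := by decide
  rcases (by decide +kernel : ∀ a b c d e : ZMod 3, Pi.single 0 1 =
    (step ![a, b, c, d, e])^[11] (Pi.single 0 1) → ![a, b, c, d, e] = ptA 5 ∨
      ![a, b, c, d, e] = ptB 5) _ _ _ _ _ h4 with e | e <;> rw [← vec5] at e
  · exact h.false_of_cert ptA
      !![1, 0, 0, 2, 0; 0, 1, 2, 2, 0; 0, 0, 2, 2, 0; 0, 0, 1, 2, 0; 0, 0, 1, 2, 1]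
      !![1, 0, 0, 1, 0; 0, 2, 0, 0, 2; 0, 0, 2, 2, 1; 0, 0, 0, 1, 2; 0, 0, 0, 2, 2]
      !![1, 0, 0, 1, 2; 0, 2, 0, 2, 2; 0, 0, 2, 2, 0; 0, 0, 0, 2, 1; 0, 0, 0, 1, 1]
      (e ▸ hc) (e0 ▸ hy) (by decide +kernel) (by decide +kernel) (by decide +kernel)
      (by decide +kernel) (by decide +kernel) (by decide +kernel) (by decide +kernel)
      (by decide +kernel) (by decide +kernel) (by decide +kernel) (by decide +kernel)
  · exact h.false_of_cert ptB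
      !![1, 0, 1, 0, 0; 0, 1, 0, 2, 0; 0, 0, 2, 2, 0; 0, 0, 1, 2, 0; 0, 0, 2, 2, 1]
      !![1, 0, 0, 0, 1; 0, 2, 0, 0, 1; 0, 0, 2, 0, 2; 0, 0, 0, 0, 1; 0, 0, 0, 2, 0]
      !![1, 0, 0, 2, 0; 0, 2, 0, 1, 0; 0, 0, 2, 2, 0; 0, 0, 0, 0, 2; 0, 0, 0, 1, 0]
      (e ▸ hc) (e1 ▸ hy) (by decide +kernel) (by decide +kernel) (by decide +kernel)
      (by decide +kernel) (by decide +kernel) (by decide +kernel) (by decide +kernel)
      (by decide +kernel) (by decide +kernel) (by decide +kernel) (by decide +kernel)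

theorem fact11 : Fact (Nat.Prime 11) := ⟨by norm_num⟩

attribute [local instance] fact11

/-- A fixed-point-free element of order eleven acts irreducibly. -/
theorem eq_top_of_eleven (h11 : x ^ 11 = 1) (hf : ∀ v, x.1 *ᵥ v = v → v = 0)
    {W : Submodule (ZMod 3) V3} (hW : ∀ v ∈ W, x.1 *ᵥ v ∈ W) (h0 : W ≠ ⊥) : W = ⊤ := by
  classical
  let f : Function.End W := fun v => ⟨_, hW v v.2⟩
  have h1 : ∀ (k : ℕ) (v : W), ((f ^ k) v).1 = (x ^ k).1 *ᵥ v := fun k => by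
    induction k with
    | zero => intro v; simp only [pow_zero, Units.val_one, one_mulVec]; rfl
    | succ k ih =>
      intro v
      rw [pow_succ x, Units.val_mul, ← mulVec_mulVec, pow_succ]
      exact ih (f v)
  have h2 := Equiv.Perm.card_fixedPoints_modEq (f := f) (p := 11) (n := 1) (funext fun v =>
    Subtype.ext (by rw [h1, pow_one, h11, Units.val_one, one_mulVec]; rfl))
  have h3 : Fintype.card f.fixedPoints = 1 := Fintype.card_eq_one_iff.2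
    ⟨⟨0, Subtype.ext (mulVec_zero x.1)⟩, fun v => Subtype.ext (Subtype.ext
      (hf _ (congrArg Subtype.val v.2)))⟩
  rw [h3, Module.card_eq_pow_finrank (K := ZMod 3), ZMod.card] at h2
  have h4 := W.finrank_le
  have h5 := Submodule.finrank_eq_zero.not.2 h0
  apply Submodule.eq_top_of_finrank_eq
  rw [Module.finrank_fin_fun] at h4 ⊢
  generalize Module.finrank (ZMod 3) W = d at h2 h4 h5
  interval_cases d <;> first | rfl | exact absurd h2 (by decide) | exact absurd rfl h5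

theorem linInd_of_eleven (h11 : x ^ 11 = 1) (hf : ∀ v, x.1 *ᵥ v = v → v = 0) {v : V3}
    (hv : v ≠ 0) : ∀ n ≤ 5, LinearIndependent (ZMod 3) fun i : Fin n => (x ^ (i : ℕ)).1 *ᵥ v
  | 0, _ => linearIndependent_empty_type
  | n + 1, hn => by
    refine linearIndependent_finSucc'.2 ⟨linInd_of_eleven h11 hf hv n (by omega), fun h => ?_⟩
    change (x ^ n).1 *ᵥ v ∈ Submodule.span _ (Set.range fun i : Fin n => (x ^ (i : ℕ)).1 *ᵥ v) at h
    have h1 := finrank_range_le_card (R := ZMod 3) fun i : Fin n => (x ^ (i : ℕ)).1 *ᵥ v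
    have h2 : ∀ i ≤ n, (x ^ i).1 *ᵥ v ∈
        Submodule.span (ZMod 3) (Set.range fun i : Fin n => (x ^ (i : ℕ)).1 *ᵥ v) := fun i hi =>
      hi.eq_or_lt.elim (fun e => e ▸ h) fun hi => Submodule.subset_span ⟨⟨i, hi⟩, rfl⟩
    have h3 : v ∈ Submodule.span (ZMod 3) (Set.range fun i : Fin n => (x ^ (i : ℕ)).1 *ᵥ v) := by
      simpa using h2 0 n.zero_le
    rw [Set.finrank, eq_top_of_eleven h11 hf (fun w hw => ?_)
      ((Submodule.ne_bot_iff _).2 ⟨v, h3, hv⟩)] at h1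
    · simp at h1
      omega
    refine Submodule.span_induction (fun w hw => ?_) (by simp)
      (fun a b _ _ ha hb => by rw [mulVec_add]; exact add_mem ha hb)
      (fun c a _ ha => by rw [mulVec_smul]; exact Submodule.smul_mem _ _ ha) hw
    obtain ⟨i, rfl⟩ := hw
    rw [mulVec_mulVec, ← Units.val_mul, ← pow_succ']
    exact h2 _ i.2

theorem conj_mem_SL {F : Type*} [Field F] (Q g : GL (Fin 5) F) :
    g ∈ specialLinear (Fin 5) F ↔ MulAut.conj Q g ∈ specialLinear (Fin 5) F := by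
  rw [AL.mem_specialLinear', AL.mem_specialLinear', MulAut.conj_apply, Units.val_mul, Units.val_mul,
    det_units_conj]

theorem Dat.false_three (h : Dat H x y t) : False := by
  obtain ⟨v, hv, h1⟩ := exists_mulVec_eq_zero_iff.2 (det_eq_zero_of_real (g := y) (by decide)
    (AL.mem_specialLinear'.1 (h.max.1.le h.y_mem)) (isConj_iff.2 ⟨t, by
      rw [mul_inv_eq_iff_eq_mul, eq_inv_mul_iff_mul_eq, ← mul_assoc, h.yty]⟩))
  rw [sub_mulVec, one_mulVec, sub_eq_zero] at h1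
  have h2 := det_ne_zero_of_eleven (by decide) h.x11 h.x1
    (isConj_iff.2 ⟨y, mul_inv_eq_iff_eq_mul.2 h.yx⟩)
  obtain ⟨Q, hQ⟩ := linearIndependent_cols_iff_isUnit.1
    (show LinearIndependent _ (of fun i (j : Fin 5) => ((x ^ (j : ℕ)).1 *ᵥ v) i).col from
      linInd_of_eleven h.x11 (fun w hw => by_contra fun h0 => h2
        (exists_mulVec_eq_zero_iff.1 ⟨w, h0, by rw [sub_mulVec, one_mulVec, hw, sub_self]⟩))
        hv 5 le_rfl)
  have h3 : ∀ j : Fin 5, Q.1 *ᵥ Pi.single j 1 = (x ^ (j : ℕ)).1 *ᵥ v := fun j => by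
    funext i
    simp [hQ]
  have h4 : Q.1 *ᵥ Pi.single 0 1 = v := by simpa using h3 0
  have h5 : ∀ w, (Q⁻¹).1 *ᵥ Q.1 *ᵥ w = w := fun w => by
    rw [mulVec_mulVec, Units.inv_mul, one_mulVec]
  refine (h.map (MulAut.conj Q⁻¹) (conj_mem_SL _)).false_of_std (fun i => ?_) ?_
  · rw [← map_pow, MulAut.conj_apply, inv_inv, Units.val_mul, Units.val_mul, ← mulVec_mulVec,
      ← mulVec_mulVec, h4, ← h3, h5]
  · rw [MulAut.conj_apply, inv_inv, Units.val_mul, Units.val_mul, ← mulVec_mulVec,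
      ← mulVec_mulVec, h4, h1, ← h4, h5]

theorem Dat.false {F : Type*} [Field F] [Fintype F] (hF : Fintype.card F = 3)
    {H : Subgroup (GL (Fin 5) F)} {x y t : GL (Fin 5) F} (h : Dat H x y t) : False := by
  obtain ⟨e⟩ := nonempty_ringEquiv_of_card_eq (hF.trans (ZMod.card 3).symm)
  refine (h.map (glEquiv (Fin 5) e) fun g => ?_).false_three
  rw [AL.mem_specialLinear', AL.mem_specialLinear', glEquiv_coe]
  have := RingHom.map_det (e : F →+* ZMod 3) (g : Matrix (Fin 5) (Fin 5) F)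
  rw [RingHom.mapMatrix_apply] at this
  erw [← this]
  exact (map_eq_one_iff e e.injective).symm

/-- A diagonal matrix of order five. -/
def d11 : SL(2, ZMod 11) := ⟨!![5, 0; 0, 9], by decide⟩

/-- `L₂(11)` does not give a maximal subgroup of `SL₅(3)`. -/
theorem l211_not_maximal {F : Type*} [Field F] [Fintype F] (hF : Fintype.card F = 3)
    {H P : Subgroup (GL (Fin 5) F)} (hH : IsMaximalIn (specialLinear (Fin 5) F) H) (hP : QS P)
    (hPH : P ≤ H) (hN : ∀ h ∈ H, ∀ g ∈ P, h * g * h⁻¹ ∈ P)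
    (e : Nonempty (Bar P ≃* PSL(2, ZMod 11))) : False := by
  obtain ⟨e⟩ := e
  obtain ⟨π, h⟩ := exists_proj e.symm
  let φ := MulEquiv.ofBijective π ⟨injective_psl hP h (Or.inl rfl) (by simp) (by simp), h.surj⟩
  have hc : Nat.card P = 660 := by
    have := Agent.S0243.result (F := ZMod 11) (ZMod.card 11) 2 le_rfl
    rw [← Nat.card_congr φ.toEquiv] at this
    norm_num [Fin.prod_univ_two] at this
    omega
  let ρ : SL(2, ZMod 11) →* GL (Fin 5) F :=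
    P.subtype.comp (φ.symm.toMonoidHom.comp (QuotientGroup.mk' _))
  have hρ : ∀ g, ρ g ∈ P := fun g => (φ.symm g).2
  have h1 : ∀ g, ρ g = 1 ↔ g ∈ Subgroup.center SL(2, ZMod 11) := fun g => by
    simp [ρ]
  have : Fact (Nat.Prime 5) := ⟨Nat.prime_five⟩
  have h2 : orderOf (ρ d11) = 5 := orderOf_eq_prime
    (by rw [← map_pow, show d11 ^ 5 = 1 from Subtype.ext (by decide +kernel), map_one]) fun e =>
      absurd (congrArg Subtype.val (Subgroup.mem_center_iff.1 ((h1 _).1 e) sl2W))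
        (by decide +kernel)
  refine Dat.false hF (H := H) (x := ρ (sl2U 1)) (y := ρ d11) (t := ρ sl2W) ⟨hH, hPH (hρ _), ?_,
    fun e => absurd (congrArg Subtype.val (Subgroup.mem_center_iff.1 ((h1 _).1 e) sl2W))
      (by decide +kernel), ?_, ?_, ?_, ?_, fun M hx ht g hg => ?_⟩
  · rw [← map_pow, ← map_one ρ]
    exact congrArg ρ (Subtype.ext (by decide +kernel))
  · simp only [← map_pow, ← map_mul]
    exact congrArg ρ (Subtype.ext (by decide +kernel))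
  · simp only [← map_mul]
    exact congrArg ρ (Subtype.ext (by decide +kernel))
  · rw [← map_mul, h1, show (sl2W * sl2W : SL(2, ZMod 11)) = -1 from
      Subtype.ext (by decide +kernel)]
    exact Subgroup.mem_center_iff.2 fun g => by simp
  · simp only [← map_mul]
    rw [← map_one ρ]
    exact congrArg ρ (Subtype.ext (by decide +kernel))
  have hM : P ≤ M := fun p hp => by
    obtain ⟨s, hs⟩ := QuotientGroup.mk_surjective (φ ⟨p, hp⟩)
    have := sl2_submonoid_eq_top (M.comap ρ).toSubmonoid (fun a => by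
      rw [show sl2U a = sl2U 1 ^ a.val from Subtype.ext
        ((by decide +kernel : ∀ a : ZMod 11, (sl2U a).1 = (sl2U 1 ^ a.val).1) a)]
      exact pow_mem (show sl2U 1 ∈ M.comap ρ from hx) _) ht s
    have e : ρ s = p := by simp [ρ, hs]
    exact e ▸ this
  obtain ⟨p, hp, h3⟩ := TvP.exists_conj_zpowers (G := P) Nat.prime_five (by rw [hc]; decide)
    (hN g hg _ (hρ d11)) (hρ d11) (by rw [← MulAut.conj_apply, MulEquiv.orderOf_eq, h2]) h2
  obtain ⟨k, hk⟩ := Subgroup.mem_zpowers_iff.1 (h3.ge (Subgroup.mem_zpowers _))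
  exact ⟨hM (hN g hg _ (hρ _)), p, hM hp, k, by rw [← conj_zpow, ← conj_zpow, hk]⟩

end Cfsg.Lib.Five
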