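import Cfsg.Agent.Class.Five.Mult
import Cfsg.Agent.Known.PSLAutTv

/-!
# Heisenberg groups and four-groups in `GL₅`
-/

set_option autoImplicit false

namespace Cfsg.Lib.Five.L3

open Matrix Module Cfsg.Geo Cfsg.Lib.Class Cfsg.Lib.Class.Asch Cfsg.Lib.Mit

variable {F : Type*} [Field F]

/-- The eigenspace of an invertible matrix. -/
def Eg (g : GL (Fin 5) F) (c : F) : Submodule F (Fin 5 → F) where
  carrier := {v | g.1 *ᵥ v = c • v}
  add_mem' {a b} ha hb := by
    simp only [Set.mem_ofPred_eq] at *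
    rw [mulVec_add, ha, hb, smul_add]
  zero_mem' := by simp
  smul_mem' a v hv := by
    simp only [Set.mem_ofPred_eq] at *
    rw [mulVec_smul, hv, smul_comm]

theorem Eg_eq_1' : type_of% @Eg.eq_1 := @Eg.eq_1

theorem mem_Eg {g : GL (Fin 5) F} {c : F} {v : Fin 5 → F} : v ∈ Eg g c ↔ g.1 *ᵥ v = c • v := Iff.rfl

theorem Eg.map {d g h : GL (Fin 5) F} (e : h * d = d * g) {c : F} {v : Fin 5 → F} (hv : v ∈ Eg g c) :
    d.1 *ᵥ v ∈ Eg h c := by
  rw [mem_Eg, ← GL_mul_mulVec, e, GL_mul_mulVec, mem_Eg.1 hv, mulVec_smul]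

theorem pow_finrank_eq_one {x y z : GL (Fin 5) F} {W : Submodule F (Fin 5 → F)} {c : F}
    (e : x * y = z * (y * x)) (hx : ∀ v ∈ W, x.1 *ᵥ v ∈ W) (hy : ∀ v ∈ W, y.1 *ᵥ v ∈ W)
    (hz : W ≤ Eg z c) : c ^ finrank F W = 1 := by
  have hd : ∀ (g : GL (Fin 5) F) (h : ∀ v ∈ W, g.1.mulVecLin v ∈ W),
      LinearMap.det (g.1.mulVecLin.restrict h) ≠ 0 := fun g h => by
    refine (LinearMap.isUnit_det _ ((LinearMap.isUnit_iff_ker_eq_bot _).2 ?_)).ne_zero
    exact LinearMap.ker_eq_bot'.2 fun v hv => Subtype.ext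
      ((GL_mulVec_eq_zero_iff g).1 (congrArg Subtype.val hv))
  have h : x.1.mulVecLin.restrict hx ∘ₗ y.1.mulVecLin.restrict hy =
      c • (y.1.mulVecLin.restrict hy ∘ₗ x.1.mulVecLin.restrict hx) := by
    ext1 v
    apply Subtype.ext
    change x.1 *ᵥ (y.1 *ᵥ v.1) = c • (y.1 *ᵥ (x.1 *ᵥ v.1))
    rw [← GL_mul_mulVec, e, GL_mul_mulVec, GL_mul_mulVec, mem_Eg.1 (hz (hy _ (hx _ v.2)))]
  have h1 := congrArg LinearMap.det h
  rw [LinearMap.det_smul, LinearMap.det_comp, LinearMap.det_comp, mul_comm] at h1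
  exact (mul_eq_right₀ (mul_ne_zero (hd y hy) (hd x hx))).1 h1.symm

theorem heis_closed [IsAlgClosed F] {l : ℕ} (hl : l.Prime) (h2 : l ≠ 2) (hF : (l : F) ≠ 0)
    {x y z d : GL (Fin 5) F} (e : x * y = z * (y * x)) (hx : z * x = x * z) (hy : z * y = y * z)
    (hz : z ^ l = 1) (hd : d * z = z⁻¹ * d) : z = 1 := by
  by_contra h1
  obtain ⟨c, hc, hE⟩ : ∃ c : F, c ≠ 1 ∧ Eg z c ≠ ⊥ := by
    let R := LinearMap.range (z.1 - 1).mulVecLin
    have hR : ∀ v ∈ R, z.1.mulVecLin v ∈ R := by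
      rintro _ ⟨u, rfl⟩
      exact ⟨z.1 *ᵥ u, by simp [mulVec_sub]⟩
    have : Nontrivial R := Submodule.nontrivial_iff_ne_bot.2 fun h0 => h1 (Units.ext (by
      have := LinearMap.range_eq_bot.1 h0
      exact sub_eq_zero.1 (mat_ext_mulVec fun v => by
        simpa [sub_mulVec] using LinearMap.congr_fun this v)))
    obtain ⟨c, hc⟩ := End.exists_eigenvalue (z.1.mulVecLin.restrict hR)
    obtain ⟨⟨_, u, rfl⟩, hv, hv0⟩ := hc.exists_hasEigenvector
    have hv' : (z.1 - 1) *ᵥ u ∈ Eg z c := congrArg Subtype.val (End.mem_eigenspace_iff.1 hv)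
    have hv1 : (z.1 - 1) *ᵥ u ≠ 0 := fun h0 => hv0 (Subtype.ext h0)
    refine ⟨c, ?_, fun h0 => hv1 (h0.le hv')⟩
    rintro rfl
    have h3 : ∀ k : ℕ, z.1 ^ k *ᵥ ((z.1 - 1) *ᵥ u) = (z.1 - 1) *ᵥ u := fun k => by
      induction k with
      | zero => simp
      | succ k ih => rw [pow_succ, ← mulVec_mulVec, mem_Eg.1 hv', one_smul, ih]
    have h4 : (∑ k ∈ Finset.range l, z.1 ^ k) *ᵥ ((z.1 - 1) *ᵥ u) = 0 := by
      rw [mulVec_mulVec, geom_sum_mul, ← Units.val_pow_eq_pow_val, hz, Units.val_one, sub_self,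
        zero_mulVec]
    rw [sum_mulVec, Finset.sum_congr rfl fun k _ => h3 k, Finset.sum_const, Finset.card_range,
      ← Nat.cast_smul_eq_nsmul F, smul_eq_zero] at h4
    exact h4.elim hF hv1
  obtain ⟨v, hv, hv0⟩ := (Submodule.ne_bot_iff _).1 hE
  have hcl : c ^ l = 1 := by
    have : ∀ k : ℕ, (z ^ k).1 *ᵥ v = c ^ k • v := fun k => by
      induction k with
      | zero => simp
      | succ k ih => rw [pow_succ, GL_mul_mulVec, mem_Eg.1 hv, mulVec_smul, ih, smul_smul, pow_succ']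
    have h3 := this l
    rw [hz, Units.val_one, one_mulVec] at h3
    exact smul_left_injective F hv0 (by simpa using h3.symm)
  have : Fact l.Prime := ⟨hl⟩
  have h3 : l ≤ finrank F (Eg z c) := Nat.le_of_dvd
    (Submodule.one_le_finrank_iff.2 hE) (orderOf_eq_prime hcl hc ▸ orderOf_dvd_of_pow_eq_one
      (pow_finrank_eq_one e (fun _ => Eg.map hx) (fun _ => Eg.map hy) le_rfl))
  have h4 : finrank F (Eg z c) ≤ finrank F (Eg z⁻¹ c) :=
    LinearMap.finrank_le_finrank_of_injective (f := d.1.mulVecLin.restrict fun _ => Eg.map hd.symm)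
      fun a b h => Subtype.ext (GL_mulVec_injective d (congrArg Subtype.val h))
  have h5 : Eg z c ⊓ Eg z⁻¹ c = ⊥ := eq_bot_iff.2 fun w hw => by
    by_contra hw0
    have h6 := GL_inv_mulVec_mulVec z w
    rw [mem_Eg.1 hw.1, mulVec_smul, mem_Eg.1 hw.2, smul_smul] at h6
    have h7 : c ^ 2 = 1 := smul_left_injective F hw0 (by simpa [pow_two] using h6)
    have := pow_gcd_eq_one.2 ⟨hcl, h7⟩
    rw [(Nat.coprime_primes hl Nat.prime_two).2 h2, pow_one] at this
    exact hc this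
  have h6 := Submodule.finrank_sup_add_finrank_inf_eq (Eg z c) (Eg z⁻¹ c)
  have h7 := Submodule.finrank_le (Eg z c ⊔ Eg z⁻¹ c)
  have := hl.two_le
  rw [h5, finrank_bot] at h6
  rw [finrank_fin_fun] at h7
  omega

/-- Heisenberg groups in cross characteristic. -/
theorem heis_cross {l : ℕ} (hl : l.Prime) (h2 : l ≠ 2) (hF : (l : F) ≠ 0)
    {x y z d : GL (Fin 5) F} (e : x * y = z * (y * x)) (hx : z * x = x * z) (hy : z * y = y * z)
    (hz : z ^ l = 1) (hd : d * z = z⁻¹ * d) : z = 1 := by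
  let φ := algebraMap F (AlgebraicClosure F)
  let f := GeneralLinearGroup.map (n := Fin 5) φ
  have := heis_closed (x := f x) (y := f y) (z := f z) (d := f d) hl h2
    (fun h => hF (φ.injective (by simpa using h))) (by simpa using congrArg f e)
    (by simpa using congrArg f hx) (by simpa using congrArg f hy) (by rw [← map_pow, hz, map_one])
    (by rw [← map_inv, ← map_mul, hd, map_mul])
  ext i j
  apply φ.injective
  have h := congrArg (fun g : GL (Fin 5) (AlgebraicClosure F) => g.1 i j) this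
  simpa [f, one_apply] using h

section Four

variable {s t : GL (Fin 5) F}

theorem finrank_split (h2 : (2 : F) ≠ 0) (ht : t * t = 1) {W : Submodule F (Fin 5 → F)}
    (hW : ∀ v ∈ W, t.1 *ᵥ v ∈ W) :
    finrank F W = finrank F ↥(W ⊓ Eg t 1) + finrank F ↥(W ⊓ Eg t (-1)) := by
  have e : ∀ v, t.1 *ᵥ (t.1 *ᵥ v) = v := fun v => by rw [← GL_mul_mulVec, ht]; simp
  have h1 : W ⊓ Eg t 1 ⊔ W ⊓ Eg t (-1) = W := by
    refine le_antisymm (sup_le inf_le_left inf_le_left) fun v hv => ?_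
    have : v = (2 : F)⁻¹ • ((v + t.1 *ᵥ v) + (v - t.1 *ᵥ v)) := by
      rw [add_add_sub_cancel, ← two_smul F, smul_smul, inv_mul_cancel₀ h2, one_smul]
    rw [this]
    refine Submodule.smul_mem _ _ (Submodule.add_mem_sup ⟨add_mem hv (hW v hv), ?_⟩
      ⟨sub_mem hv (hW v hv), ?_⟩)
    · change _ = _
      rw [mulVec_add, e, one_smul, add_comm]
    · change _ = _
      rw [mulVec_sub, e, neg_smul, one_smul, neg_sub]
  have h3 : W ⊓ Eg t 1 ⊓ (W ⊓ Eg t (-1)) = ⊥ := eq_bot_iff.2 fun v hv => by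
    have h4 := (mem_Eg.1 hv.1.2).symm.trans (mem_Eg.1 hv.2.2)
    rw [one_smul, neg_smul, one_smul, eq_neg_iff_add_eq_zero, ← two_smul F, smul_eq_zero] at h4
    exact h4.resolve_left h2
  rw [← Submodule.finrank_sup_add_finrank_inf_eq, h1, h3, finrank_bot, add_zero]

/-- An involution with `rank (t - 1) = 2`. -/
def I2 (t : GL (Fin 5) F) : Prop := t * t = 1 ∧ (t.1 - 1).rank = 2

theorem I2_eq_1' : type_of% @I2.eq_1 := @I2.eq_1

theorem I2.pos (h : I2 t) : finrank F (Eg t 1) = 3 := by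
  have h1 := (t.1 - 1).mulVecLin.finrank_range_add_finrank_ker
  have h3 : LinearMap.ker (t.1 - 1).mulVecLin = Eg t 1 := by
    ext v
    simp [mem_Eg, sub_eq_zero]
  rw [h3, finrank_fin_fun, ← Matrix.rank, h.2] at h1
  omega

theorem I2.neg (h2 : (2 : F) ≠ 0) (h : I2 t) : finrank F (Eg t (-1)) = 2 := by
  have := finrank_split h2 h.1 (W := ⊤) fun _ _ => trivial
  rw [top_inf_eq, top_inf_eq, h.pos, finrank_top, finrank_fin_fun] at this
  omega

theorem I2.comm (hs : I2 s) (ht : I2 t) (hst : I2 (s * t)) : s * t = t * s := by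
  rw [← inv_eq_of_mul_eq_one_right hst.1, _root_.mul_inv_rev, inv_eq_of_mul_eq_one_right hs.1,
    inv_eq_of_mul_eq_one_right ht.1]

theorem line (h2 : (2 : F) ≠ 0) (hs : I2 s) (ht : I2 t) (hst : I2 (s * t)) :
    finrank F ↥(Eg s (-1) ⊓ Eg t 1) = 1 ∧ finrank F ↥(Eg s 1 ⊓ Eg t 1) = 2 := by
  have c := hs.comm ht hst
  have h3 := finrank_split h2 ht.1 (W := Eg s (-1)) fun _ => Eg.map c
  have h4 := finrank_split h2 hs.1 (W := Eg t (-1)) fun _ => Eg.map c.symm
  have h5 := finrank_split h2 ht.1 (W := Eg (s * t) (-1)) fun _ => Eg.map (by rw [c, mul_assoc, c])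
  have h6 := finrank_split h2 hs.1 (W := Eg t 1) fun _ => Eg.map c.symm
  have e1 : Eg (s * t) (-1) ⊓ Eg t 1 = Eg s (-1) ⊓ Eg t 1 := by
    ext v
    simp only [Submodule.mem_inf, mem_Eg, GL_mul_mulVec, and_congr_left_iff]
    intro h
    rw [h, one_smul]
  have e2 : Eg (s * t) (-1) ⊓ Eg t (-1) = Eg t (-1) ⊓ Eg s 1 := by
    ext v
    simp only [Submodule.mem_inf, mem_Eg, GL_mul_mulVec]
    refine and_comm.trans (and_congr_right fun h => ?_)
    rw [h]
    simp [mulVec_neg]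
  rw [hs.neg h2] at h3
  rw [ht.neg h2, inf_comm (Eg t (-1)) (Eg s (-1))] at h4
  rw [hst.neg h2, e1, e2] at h5
  rw [ht.pos, inf_comm (Eg t 1), inf_comm (Eg t 1)] at h6
  omega

/-- The centre of a Heisenberg group contains no four-group. -/
theorem heis_two (h2 : (2 : F) ≠ 0) (hs : I2 s) (ht : I2 t) (hst : I2 (s * t)) {x y : GL (Fin 5) F}
    (e : x * y = s * (y * x)) (hx : s * x = x * s) (hy : s * y = y * s) (hx' : t * x = x * t)
    (hy' : t * y = y * t) : False := by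
  have := pow_finrank_eq_one e (W := Eg s (-1) ⊓ Eg t 1)
    (fun _ h => ⟨Eg.map hx h.1, Eg.map hx' h.2⟩) (fun _ h => ⟨Eg.map hy h.1, Eg.map hy' h.2⟩)
    inf_le_left
  rw [(line h2 hs ht hst).1, pow_one, neg_eq_iff_add_eq_zero, one_add_one_eq_two] at this
  exact h2 this

end Four

section Unip

variable (p : ℕ) [hp : Fact p.Prime]

omit hp in
theorem isPGroup_heis {G : Type*} [Group G] [Finite G] {x y z : G} (e : x * y = z * (y * x))
    (hx : z * x = x * z) (hy : z * y = y * z) (hx' : x ^ p = 1) (hy' : y ^ p = 1)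
    (hz' : z ^ p = 1) : ∃ H : Subgroup G, IsPGroup p H ∧ x ∈ H ∧ y ∈ H ∧ z ∈ H := by
  have o : ∀ g : G, g ^ p = 1 → IsPGroup p (Subgroup.zpowers g) := fun g hg a => ⟨1, by
    obtain ⟨_, k, rfl⟩ := a
    apply Subtype.ext
    simp only [pow_one, SubgroupClass.coe_pow, OneMemClass.coe_one]
    rw [← zpow_natCast, ← _root_.zpow_mul, mul_comm, _root_.zpow_mul, zpow_natCast, hg,
      _root_.one_zpow]⟩
  have n : ∀ (g : G) (K : Subgroup G), K ≤ K.comap (MulAut.conj g).toMonoidHom →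
      Subgroup.zpowers g ≤ Subgroup.normalizer K := fun g K h =>
    Subgroup.zpowers_le.2 (Subgroup.mem_normalizer_fintype fun a ha => h ha)
  have m1 : x ∈ Subgroup.zpowers x ⊔ Subgroup.zpowers z :=
    Subgroup.mem_sup_left (Subgroup.mem_zpowers x)
  have m2 : z ∈ Subgroup.zpowers x ⊔ Subgroup.zpowers z :=
    Subgroup.mem_sup_right (Subgroup.mem_zpowers z)
  refine ⟨_, (o y hy').to_sup_of_normal_right' ((o x hx').to_sup_of_normal_right' (o z hz')
    (n _ _ (Subgroup.zpowers_le.2 ?_))) (n _ _ (sup_le (Subgroup.zpowers_le.2 ?_)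
      (Subgroup.zpowers_le.2 ?_))), Subgroup.mem_sup_right m1,
    Subgroup.mem_sup_left (Subgroup.mem_zpowers y), Subgroup.mem_sup_right m2⟩
  · change x * z * x⁻¹ ∈ Subgroup.zpowers z
    simp [← hx]
  · change y * x * y⁻¹ ∈ Subgroup.zpowers x ⊔ Subgroup.zpowers z
    rw [← inv_mul_eq_iff_eq_mul] at e
    rw [← e, mul_assoc, mul_inv_cancel_right x y]
    exact mul_mem (inv_mem m2) m1
  · change y * z * y⁻¹ ∈ Subgroup.zpowers x ⊔ Subgroup.zpowers z
    rwa [← hy, mul_inv_cancel_right]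

variable [CharP F p] [Finite F]

theorem exists_uni {n : ℕ} {H : Subgroup (GL (Fin n) F)} (hH : IsPGroup p H) :
    ∃ g : GL (Fin n) F, ∀ x ∈ H, (g * x * g⁻¹).1.BlockTriangular id ∧
      ∀ i, (g * x * g⁻¹).1 i i = 1 := by
  have := Fintype.ofFinite F
  obtain ⟨P, hP⟩ := hH.exists_le_sylow
  obtain ⟨Q, hQ⟩ :=
    ((Known.isPGroup_uniTri (n := n) (F := F) p).map SpecialLinearGroup.toGL).exists_le_sylow
  have h1 := Subgroup.eq_of_le_of_card_ge hQ (by
    rw [Cfsg.Agent.S0263.result rfl p n Q,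
      Subgroup.card_map_of_injective SpecialLinearGroup.toGL_injective, Known.card_uniTri])
  obtain ⟨g, rfl⟩ := MulAction.exists_smul_eq (GL (Fin n) F) P Q
  refine ⟨g, fun x hx => ?_⟩
  obtain ⟨u, hu, e⟩ := h1.ge (Subgroup.smul_mem_pointwise_smul x (MulAut.conj g) _ (hP hx))
  have e' : g * x * g⁻¹ = SpecialLinearGroup.toGL u := e.symm
  rw [e']
  exact hu

omit [CharP F p] [Finite F] in
theorem sq_zero_uni (h2 : (2 : F) ≠ 0) {x y z : Matrix (Fin 5) (Fin 5) F} (e : x * y = z * (y * x))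
    (hx : z * x = x * z) (hy : z * y = y * z) (ux : x.BlockTriangular id ∧ ∀ i, x i i = 1)
    (uy : y.BlockTriangular id ∧ ∀ i, y i i = 1) (uz : z.BlockTriangular id ∧ ∀ i, z i i = 1) :
    (z - 1) * (z - 1) = 0 := by
  have f : ∀ m : Matrix (Fin 5) (Fin 5) F, (m.BlockTriangular id ∧ ∀ i, m i i = 1) →
      ∃ a b c d e f g h i j : F, m = !![1, a, e, h, j; 0, 1, b, f, i; 0, 0, 1, c, g;
        0, 0, 0, 1, d; 0, 0, 0, 0, 1] := fun m h =>
    ⟨m 0 1, m 1 2, m 2 3, m 3 4, m 0 2, m 1 3, m 2 4, m 0 3, m 1 4, m 0 4, by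
      ext i j
      fin_cases i <;> fin_cases j <;> first | rfl | exact h.2 _ | exact h.1 (by decide)⟩
  obtain ⟨x1, x2, x3, x4, _, _, _, _, _, _, rfl⟩ := f x ux
  obtain ⟨y1, y2, y3, y4, _, _, _, _, _, _, rfl⟩ := f y uy
  obtain ⟨z1, z2, z3, z4, n1, n2, n3, _, _, _, rfl⟩ := f z uz
  have a1 := congrFun (congrFun e 0) 1
  have a2 := congrFun (congrFun e 1) 2
  have a3 := congrFun (congrFun e 2) 3
  have a4 := congrFun (congrFun e 3) 4
  have b1 := congrFun (congrFun e 0) 2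
  have b2 := congrFun (congrFun e 1) 3
  have c1 := congrFun (congrFun hx 0) 3
  have c2 := congrFun (congrFun hx 1) 4
  have d1 := congrFun (congrFun hy 0) 3
  have d2 := congrFun (congrFun hy 1) 4
  simp [mul_apply, Fin.sum_univ_five] at a1 a2 a3 a4 b1 b2 c1 c2 d1 d2
  have : n1 * n3 = 0 := by grind
  ext i j
  fin_cases i <;> fin_cases j <;> simp [mul_apply, Fin.sum_univ_five] <;> grind

/-- Heisenberg groups in defining characteristic. -/
theorem sq_zero (h2 : (2 : F) ≠ 0) {x y z : GL (Fin 5) F} (e : x * y = z * (y * x))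
    (hx : z * x = x * z) (hy : z * y = y * z) (hx' : x ^ p = 1) (hy' : y ^ p = 1)
    (hz' : z ^ p = 1) : (z.1 - 1) * (z.1 - 1) = 0 := by
  obtain ⟨H, hH, mx, my, mz⟩ := isPGroup_heis p e hx hy hx' hy' hz'
  obtain ⟨g, hg⟩ := exists_uni p hH
  have := sq_zero_uni h2 (by simp only [← cj_coe, ← map_mul, ← Units.val_mul, e])
    (by simp only [← cj_coe, ← map_mul, ← Units.val_mul, hx])
    (by simp only [← cj_coe, ← map_mul, ← Units.val_mul, hy]) (hg x mx) (hg y my) (hg z mz)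
  apply (cj g).injective
  rwa [map_mul, map_sub, map_one, cj_coe, map_zero]

end Unip

section Quad

variable {s t z : GL (Fin 5) F}

theorem isTv_of_sq {z : GL (Fin 5) F} (h1 : z ≠ 1) (h0 : (z.1 - 1) * (z.1 - 1) = 0)
    (hr : finrank F (LinearMap.range (z.1 - 1).mulVecLin) ≤ 1) : IsTv z := by
  obtain ⟨⟨v, u, hu⟩, hv⟩ := finrank_le_one_iff.1 hr
  choose f hf using fun i => hv ⟨_, Pi.single i 1, rfl⟩
  have e : z.1 - 1 = vecMulVec v f := by
    ext i j
    have := congrFun (congrArg Subtype.val (hf j)) i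
    simp only [mulVecLin_apply, mulVec_single_one, col_apply] at this
    rw [← this, vecMulVec_apply, mul_comm]
    rfl
  have h3 : f ⬝ᵥ v = 0 := by
    have h4 : (z.1 - 1) *ᵥ v = 0 := by
      rw [← hu, mulVecLin_apply, mulVec_mulVec, h0, zero_mulVec]
    rw [e, vecMulVec_mulVec, op_smul_eq_smul, smul_eq_zero] at h4
    refine h4.resolve_right fun h5 => h1 (Units.ext (sub_eq_zero.1 ?_))
    rw [Units.val_one, e, h5, zero_vecMulVec]
  exact ⟨h1, v, f, h3, Units.ext (by rw [tv_coe h3, ← e, add_sub_cancel])⟩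

/-- A quadratic element trivial on the fixed space of a commuting involution is a transvection. -/
theorem isTv_of_pos (h2 : (2 : F) ≠ 0) (ht : I2 t) (c : t * z = z * t) (h1 : z ≠ 1)
    (h0 : (z.1 - 1) * (z.1 - 1) = 0) (h : (z.1 - 1) * (1 + t.1) = 0) : IsTv z := by
  refine isTv_of_sq h1 h0 ?_
  let N := (z.1 - 1).mulVecLin
  have hN : ∀ v ∈ Eg t (-1), N v ∈ Eg t (-1) := fun v hv => by
    simpa [N] using sub_mem (Eg.map c hv) hv
  have h3 := (N.restrict hN).finrank_range_add_finrank_ker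
  have h4 := Submodule.finrank_mono (show LinearMap.range (N.restrict hN) ≤
      LinearMap.ker (N.restrict hN) by
    rintro _ ⟨v, rfl⟩
    apply Subtype.ext
    change (z.1 - 1) *ᵥ ((z.1 - 1) *ᵥ v.1) = 0
    rw [mulVec_mulVec, h0, zero_mulVec])
  rw [ht.neg h2] at h3
  have h5 : LinearMap.range N ≤ (LinearMap.range (N.restrict hN)).map (Eg t (-1)).subtype := by
    rintro _ ⟨v, rfl⟩
    refine ⟨_, ⟨⟨(2 : F)⁻¹ • (v - t.1 *ᵥ v), Submodule.smul_mem _ _ ?_⟩, rfl⟩, ?_⟩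
    · rw [mem_Eg, mulVec_sub, ← GL_mul_mulVec, ht.1]
      simp
    · change N ((2 : F)⁻¹ • (v - t.1 *ᵥ v)) = N v
      have h6 : N v + N (t.1 *ᵥ v) = 0 := by
        simpa [N, ← mulVec_mulVec, add_mulVec, mulVec_add, sub_mulVec] using congrArg (· *ᵥ v) h
      rw [map_smul, map_sub, ← neg_eq_of_add_eq_zero_right h6, sub_neg_eq_add, ← two_smul F,
        smul_smul, inv_mul_cancel₀ h2, one_smul]
  have h6 := (Submodule.finrank_mono h5).trans (Submodule.finrank_map_le _ _)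
  change finrank F (LinearMap.range N) ≤ 1
  omega

theorem braid_ring {R : Type*} [Ring R] {a b e : R} (h2 : ∀ x : R, x + x = 0 → x = 0)
    (ha : a * a = 0) (hb : b * b = 0)
    (h : (1 + a) * (1 + b) * (1 + a) = (1 + b) * (1 + a) * (1 + b))
    (he : (1 + a) * (1 + b) * (1 + a) * ((1 + a) * (1 + b) * (1 + a)) * e = e) :
    a * e = b * e ∧ a * e + a * e + a * e = 0 := by
  have r1 : ∀ x, a * (a * x) = 0 := fun x => by rw [← mul_assoc, ha, zero_mul]
  have r2 : ∀ x, b * (b * x) = 0 := fun x => by rw [← mul_assoc, hb, zero_mul]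
  have r0 : a * (b * a) = b + b * (a * b) - a := by
    simp only [mul_add, add_mul, mul_one, one_mul, ha, hb, mul_assoc] at h
    linear_combination (norm := abel1) h
  have r3 : ∀ x, a * (b * (a * x)) = b * x + b * (a * (b * x)) - a * x := fun x => by
    simpa only [mul_add, add_mul, sub_mul, mul_assoc] using congrArg (· * x) r0
  have k0 : b * e + b * (a * (b * e)) + (b * e + b * (a * (b * e))) + (b * e + b * (a * (b * e))) +
      a * (b * e) + b * (a * e) = 0 := h2 _ (by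
    simp only [mul_assoc] at he
    simp only [mul_add, add_mul, mul_sub, one_mul, r1, r2, r3, mul_zero] at he
    linear_combination (norm := abel1) he)
  have k1 : b * (a * (b * e)) = 0 := by
    simpa only [mul_add, r2, add_zero, zero_add, mul_zero] using congrArg (b * ·) k0
  have k2 : a * (b * e) = 0 := by simpa [k1, r2] using r3 (b * e)
  have k3 : a * e = b * e := by
    have := congrArg (a * ·) k0
    simp only [mul_add, k2, r3, add_zero, zero_add, mul_zero] at this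
    exact (sub_eq_zero.1 this).symm
  exact ⟨k3, by simpa only [k2, k3, r2, add_zero, mul_zero] using k0⟩

theorem add_ring {R : Type*} [Ring R] {a b : R} (h2 : ∀ x : R, x + x = 0 → x = 0)
    (ha : a * a = 0) (hb : b * b = 0) (c : b * a = a * b)
    (h : ((1 + a) * (1 + b) - 1) * ((1 + a) * (1 + b) - 1) = 0) :
    (1 + a) * (1 + b) - 1 = a + b := by
  have r1 : ∀ x, a * (a * x) = 0 := fun x => by rw [← mul_assoc, ha, zero_mul]
  have r3 : ∀ x, b * (a * x) = a * (b * x) := fun x => by rw [← mul_assoc, c, mul_assoc]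
  have k : a * b = 0 := h2 _ (by
    simp only [mul_add, add_mul, mul_sub, sub_mul, mul_one, one_mul, mul_assoc, r1, r3, c, ha, hb,
      mul_zero] at h
    linear_combination (norm := abel1) h)
  simp only [mul_add, add_mul, mul_one, one_mul, k]
  abel

theorem half (h2 : (2 : F) ≠ 0) (x : Matrix (Fin 5) (Fin 5) F) (h : x + x = 0) : x = 0 := by
  rw [← two_smul F, smul_eq_zero] at h
  exact h.resolve_left h2

/-- One of the two summands for the four-group is invariant. -/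
theorem inv_cases (h2 : (2 : F) ≠ 0) (hs : I2 s) (ht : I2 t) (hst : I2 (s * t)) (c : t * z = z * t)
    (d : s * z = z⁻¹ * s) (h0 : (z.1 - 1) * (z.1 - 1) = 0) :
    (∀ v ∈ Eg s 1 ⊓ Eg t 1, z.1 *ᵥ v ∈ Eg s 1 ⊓ Eg t 1) ∨
      ∀ v ∈ Eg s (-1) ⊔ Eg t (-1), z.1 *ᵥ v ∈ Eg s (-1) ⊔ Eg t (-1) := by
  have e : ∀ v, (z.1 - 1) *ᵥ ((z.1 - 1) *ᵥ v) = 0 := fun v => by
    rw [mulVec_mulVec, h0, zero_mulVec]
  have ez : ∀ v, z.1 *ᵥ v = v + (z.1 - 1) *ᵥ v := fun v => by simp [sub_mulVec]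
  by_cases h : ∀ v ∈ Eg s 1 ⊓ Eg t 1, (z.1 - 1) *ᵥ v = 0
  · exact Or.inl fun v hv => by rwa [ez, h v hv, add_zero]
  push Not at h
  obtain ⟨u, hu, h1⟩ := h
  have hi : z⁻¹.1 = 1 - (z.1 - 1) := by
    rw [← mul_one z⁻¹.1, Units.inv_mul_eq_iff_eq_mul]
    linear_combination (norm := noncomm_ring) h0
  have h3 : (z.1 - 1) *ᵥ u ∈ Eg s (-1) ⊓ Eg t 1 := by
    refine ⟨?_, by simpa [sub_mulVec] using sub_mem (Eg.map c hu.2) hu.2⟩
    change _ = _
    rw [sub_mulVec, mulVec_sub, ← GL_mul_mulVec, d, GL_mul_mulVec, one_mulVec, mem_Eg.1 hu.1, hi]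
    simp [sub_mulVec]
  have h4 := (finrank_eq_one_iff_of_nonzero' (⟨_, h3⟩ : ↥(Eg s (-1) ⊓ Eg t 1))
    (fun h => h1 (congrArg Subtype.val h))).1 (line h2 hs ht hst).1
  refine Or.inr fun v hv => ?_
  obtain ⟨a, ha, b, hb, rfl⟩ := Submodule.mem_sup.1 hv
  rw [mulVec_add]
  refine add_mem ?_ (Submodule.mem_sup_right (Eg.map c hb))
  have ct := hs.comm ht hst
  have h5 : a + t.1 *ᵥ a ∈ Eg s (-1) ⊓ Eg t 1 := ⟨add_mem ha (Eg.map ct ha), by
    change _ = _
    rw [mulVec_add, ← GL_mul_mulVec, ht.1, Units.val_one, one_mulVec, one_smul, add_comm]⟩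
  have h6 : a - t.1 *ᵥ a ∈ Eg t (-1) := by
    rw [mem_Eg, mulVec_sub, ← GL_mul_mulVec, ht.1]
    simp
  obtain ⟨k, hk⟩ := h4 ⟨_, h5⟩
  have hk' : k • (z.1 - 1) *ᵥ u = a + t.1 *ᵥ a := congrArg Subtype.val hk
  have : a = (2 : F)⁻¹ • ((a + t.1 *ᵥ a) + (a - t.1 *ᵥ a)) := by
    rw [add_add_sub_cancel, ← two_smul F, smul_smul, inv_mul_cancel₀ h2, one_smul]
  rw [this, mulVec_smul, mulVec_add]
  refine Submodule.smul_mem _ _ (Submodule.add_mem_sup ?_ (Eg.map c h6))
  rw [ez, ← hk', mulVec_smul, e, smul_zero, add_zero, hk']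
  exact h5.1

/-- The final contradiction with irreducibility. -/
theorem not_gen {G : Type*} [Group G] [Finite G] (j : G →* GL (Fin 5) F) (hI : Irr j.range)
    (h2 : (2 : F) ≠ 0) {s t z : G} (hs : I2 (j s)) (ht : I2 (j t)) (hst : I2 (j s * j t))
    (hz : (∀ v ∈ Eg (j s) 1 ⊓ Eg (j t) 1, (j z).1 *ᵥ v ∈ Eg (j s) 1 ⊓ Eg (j t) 1) ∨
      ∀ v ∈ Eg (j s) (-1) ⊔ Eg (j t) (-1), (j z).1 *ᵥ v ∈ Eg (j s) (-1) ⊔ Eg (j t) (-1))
    (hgen : ∀ H : Subgroup G, z ∈ H → (∀ g, (∀ a ∈ ({s, t, s * t} : Set G),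
      g * a * g⁻¹ ∈ ({s, t, s * t} : Set G)) → g ∈ H) → H = ⊤) : False := by
  let M : Submodule F (Fin 5 → F) → Subgroup G := fun W =>
    { carrier := {g | ∀ v ∈ W, (j g).1 *ᵥ v ∈ W}
      mul_mem' := fun ha hb v hv => by rw [map_mul, GL_mul_mulVec]; exact ha _ (hb v hv)
      one_mem' := fun v hv => by simpa using hv
      inv_mem' := fun {x} hx => by
        have : ∀ n : ℕ, ∀ v ∈ W, (j (x ^ n)).1 *ᵥ v ∈ W := fun n => by
          induction n with
          | zero => simp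
          | succ n ih => exact fun v hv => by rw [pow_succ, map_mul, GL_mul_mulVec]; exact ih _ (hx v hv)
        rw [← eq_inv_of_mul_eq_one_left ((pow_succ x _).symm.trans
          (by rw [Nat.sub_add_cancel (orderOf_pos x), pow_orderOf_eq_one]))]
        exact this _ }
  have key : ∀ W, M W = ⊤ → W = ⊥ ∨ W = ⊤ := fun W h => hI W (by
    rintro _ ⟨g, rfl⟩
    exact h.ge (Subgroup.mem_top g))
  have c := hs.comm ht hst
  have l := (line h2 hs ht hst).2
  rcases hz with hz | hz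
  · have h3 : ∀ a ∈ ({s, t, s * t} : Set G), Eg (j s) 1 ⊓ Eg (j t) 1 ≤ Eg (j a) 1 := by
      rintro _ (rfl | rfl | rfl)
      exacts [inf_le_left, inf_le_right, fun v hv => by
        rw [mem_Eg, map_mul, GL_mul_mulVec, mem_Eg.1 hv.2, one_smul, mem_Eg.1 hv.1, one_smul]]
    rcases key _ (hgen (M _) hz fun g hg => inv_mem_iff.1 fun v hv =>
      ⟨Eg.map (by simp only [← map_mul]; group) (h3 _ (hg s (by simp)) hv),
        Eg.map (by simp only [← map_mul]; group) (h3 _ (hg t (by simp)) hv)⟩) with h | h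
    all_goals rw [h] at l; simp at l
  · have h3 : ∀ a ∈ ({s, t, s * t} : Set G), Eg (j a) (-1) ≤ Eg (j s) (-1) ⊔ Eg (j t) (-1) := by
      rintro _ (rfl | rfl | rfl)
      · exact le_sup_left
      · exact le_sup_right
      intro v hv
      have : v = (2 : F)⁻¹ • ((v + (j t).1 *ᵥ v) + (v - (j t).1 *ᵥ v)) := by
        rw [add_add_sub_cancel, ← two_smul F, smul_smul, inv_mul_cancel₀ h2, one_smul]
      rw [mem_Eg, map_mul, GL_mul_mulVec] at hv
      have h4 := congrArg ((j s).1 *ᵥ ·) hv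
      simp only [← GL_mul_mulVec, ← mul_assoc, hs.1, one_mul, mulVec_smul] at h4
      rw [this]
      refine Submodule.smul_mem _ _ (Submodule.add_mem_sup ?_ ?_)
      · rw [mem_Eg, mulVec_add, hv, h4]
        module
      · rw [mem_Eg, mulVec_sub, ← GL_mul_mulVec, ht.1]
        simp
    rcases key _ (hgen (M _) hz fun g hg v hv => by
      obtain ⟨a, ha, b, hb, rfl⟩ := Submodule.mem_sup.1 hv
      rw [mulVec_add]
      exact add_mem (h3 _ (hg s (by simp)) (Eg.map (by simp only [← map_mul]; group) ha))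
        (h3 _ (hg t (by simp)) (Eg.map (by simp only [← map_mul]; group) hb))) with h | h
    · have := hs.neg h2
      rw [le_bot_iff.1 (le_sup_left.trans h.le), finrank_bot] at this
      omega
    · have h4 := Submodule.finrank_add_le_finrank_add_finrank (Eg (j s) (-1)) (Eg (j t) (-1))
      rw [h, hs.neg h2, ht.neg h2, finrank_top, finrank_fin_fun] at h4
      omega

end Quad

end Cfsg.Lib.Five.L3
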