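import Cfsg.Agent.Class.Five.Eig
import Cfsg.Agent.Mit.E9
import Cfsg.Agent.Spor.O7920D
import Cfsg.Agent.Spor.M11Classes

/-!
# The smallest Mathieu group in dimension five
-/

set_option autoImplicit false

namespace Cfsg.Lib.Five

open Matrix Cfsg.Geo Cfsg.Lib.Class Cfsg.Lib.Class.Asch Cfsg.Lib.Mit

universe u

/-- Conjugators taking the cubes of the class representatives to the ninth powers. -/
def cj11 : List ℕ :=
  [984818244535754528103549039458486304, 719923664328491199848526586197411872,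
    648441755269428208718993426702993440, 970254902120350598020240965873371168,
    970459361523271695787015306425278496]

open Cfsg.Lib.Spor Cfsg.Lib.Spor.MP in
theorem isConj_three_nine (x : Spor.M11) : IsConj (x ^ 3) (x ^ 9) := by
  have h1 : ∀ r ∈ reps11, ∃ c ∈ cj11, peq (pconj c (ppow r.1 3)) (ppow r.1 9) = true := by
    decide +kernel
  have h2 : ∀ c ∈ cj11, isM11 c = true := by decide +kernel
  obtain ⟨r, hr, g, hg, e⟩ := isClassList_M11.all x x.2
  obtain ⟨c, hc, e2⟩ := h1 r hr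
  have h3 := isClassList_M11.mem r hr
  have h4 := inSub_of_isM11 (h2 c hc)
  have h5 := (h4.rep.conj (h3.rep.pow 3)).eq_of_peq (h3.rep.pow 9) e2
  refine isConj_iff.2 ⟨⟨g * toPerm c * g⁻¹, mul_mem (mul_mem hg h4.2) (inv_mem hg)⟩,
    Subtype.ext ?_⟩
  simp only [Subgroup.coe_mul, Subgroup.coe_inv, Subgroup.coe_pow, ← e, conj_pow, ← h5]
  group

/-- The action of the Singer cycle on exponents. -/
def sing (a : ℕ × ℕ) : ℕ × ℕ := (a.2, a.1 + a.2)

/-- The Frobenius group `3² : 8` does not embed in `GL₅` in characteristic other than three. -/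
theorem not_has98_five {F : Type*} [Field F] (h3 : (3 : F) ≠ 0) : ¬ Has98 (GL (Fin 5) F) := by
  rintro ⟨a, b, g, h1, h2, h4, h5, h6, -, -⟩
  have hc : Commute a b := h2
  have hb : b ^ 3 = 1 := by rw [← h4, conj_pow, h1]; group
  let u : ℕ × ℕ → GL (Fin 5) F := fun z => a ^ z.1 * b ^ z.2
  have hu : ∀ z w, u z * u w = u (z + w) := fun z w => by
    simp only [u, Prod.fst_add, Prod.snd_add, pow_add, mul_assoc]
    rw [← mul_assoc (b ^ z.2), ← (hc.pow_pow w.1 z.2).eq, mul_assoc]
  have hm : ∀ z w : ℕ × ℕ, z.1 % 3 = w.1 % 3 → z.2 % 3 = w.2 % 3 → u z = u w := fun z w e1 e2 => by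
    simp only [u]
    rw [pow_eq_pow_mod _ h1, pow_eq_pow_mod _ hb, e1, e2, ← pow_eq_pow_mod _ h1,
      ← pow_eq_pow_mod _ hb]
  have hs : ∀ z, g * u z * g⁻¹ = u (sing z) := fun z => by
    calc _ = (g * a * g⁻¹) ^ z.1 * (g * b * g⁻¹) ^ z.2 := by simp only [u, conj_pow]; group
      _ = _ := by
        rw [h4, h5, hc.mul_pow, ← mul_assoc, ← (hc.pow_pow z.2 z.1).eq, mul_assoc, ← pow_add]
        rfl
  have hk : ∀ (k : ℕ) z, g ^ k * u z * (g ^ k)⁻¹ = u (sing^[k] z) := fun k => by
    induction k with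
    | zero => simp
    | succ k ih =>
      intro z
      rw [Function.iterate_succ_apply', ← hs, ← ih, pow_succ']
      group
  have key := orbit_le u (fun z w => by rw [hu, hu, add_comm]) (n := 3) (by exact_mod_cast h3)
    (a₀ := (0, 1)) (by simpa [u] using h6) (by simpa [u] using hb)
    (fun k : Fin 6 => (g ^ (k : ℕ))⁻¹) (fun k => sing^[k]) (fun k z => by rw [← hk]; group)
    fun k k' hkk => by
      have : ∀ k k' : Fin 6, k ≠ k' → ∃ i j : Fin 3,
          (sing^[k] (i, j)).1 % 3 = (((0, 1) : ℕ × ℕ) + sing^[k'] (i, j)).1 % 3 ∧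
          (sing^[k] (i, j)).2 % 3 = (((0, 1) : ℕ × ℕ) + sing^[k'] (i, j)).2 % 3 := by
        decide +kernel
      obtain ⟨i, j, e1, e2⟩ := this k k' hkk
      exact ⟨(i, j), by rw [hu]; exact hm _ _ e1 e2⟩
  simp at key

theorem wM11 : WM11.{u} := by
  intro F _ _ P hP hG
  have := hG.1
  obtain ⟨e⟩ := Spor.O7920.isoM11 hG.2
  obtain ⟨π, h⟩ := exists_proj e.symm
  have : Fact (Nat.Prime 5) := ⟨Nat.prime_five⟩
  have hi := injective_of_cyclic hP.qs h fun S => isCyclic_of_prime_card (p := 5) (by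
    rw [S.card_eq_multiplicity, Spor.MP.card_M11]
    have : (7920 : ℕ).factorization 5 = 1 := by
      rw [show (7920 : ℕ) = 5 ^ 1 * 1584 by norm_num,
        Nat.factorization_mul (by norm_num) (by norm_num), Nat.Prime.factorization_pow Nat.prime_five]
      simp [Nat.factorization_eq_zero_of_not_dvd]
    rw [this, pow_one])
  let φ := MulEquiv.ofBijective π ⟨hi, h.surj⟩
  have h3 : (3 : F) = 0 := by
    by_contra h3
    exact not_has98_five h3 (has98_M11.of_injective (P.subtype.comp φ.symm.toMonoidHom)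
      (P.subtype_injective.comp φ.symm.injective))
  have : Fact (Nat.Prime 3) := ⟨Nat.prime_three⟩
  have hc : CharP F 3 := (CharP.charP_iff_prime_eq_zero Nat.prime_three).2 (by simpa using h3)
  refine ⟨3, Nat.prime_three, hc, Or.inr (Or.inl ⟨⟨e⟩, rfl,
    card_eq_char5 3 hP.qs.env_top hP.ns fun x hx => ?_⟩)⟩
  obtain ⟨c, hc⟩ := isConj_iff.1 ((P.subtype.comp φ.symm.toMonoidHom).map_isConj
    (isConj_three_nine (φ ⟨x, hx⟩)))
  simp only [map_pow, MonoidHom.comp_apply, MulEquiv.coe_toMonoidHom, MulEquiv.symm_apply_apply,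
    Subgroup.coe_subtype] at hc
  apply frobenius_inj F 3
  rw [frobenius_def, frobenius_def, ← tr5_pow_char, ← tr5_pow_char, ← pow_mul, ← hc, tr5_conj]

end Cfsg.Lib.Five
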