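import Cfsg.Agent.Class.Five.R4aRank
import Cfsg.Agent.Local.Dihedral

/-!
# The roots of a Sylow `2`-subgroup
-/

set_option autoImplicit false

namespace Cfsg.Lib.Five

open Matrix Cfsg.Geo Cfsg.Lib.Class Cfsg.Lib.Class.Asch Cfsg.Lib.Mit
open scoped MatrixGroups commutatorElement

universe u

section Roots

variable {ι : Type} [Fintype ι] [DecidableEq ι] {F : Type*} [Field F]
  {P Q Q' : Subgroup (GL ι F)} {a φ b ψ c χ : ι → F}

/-- A root is in the plane of an interchanged pair or orthogonal to it. -/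
theorem inPl_or_orth [Finite F] (h2 : (2 : F) ≠ 0) (hQ : IsPGroup 2 Q) (ha : Rt Q a φ)
    (hb : Rt Q b ψ) (h0 : φ ⬝ᵥ b = 0) (h1 : ψ ⬝ᵥ a = 0) (hs : Sw Q a φ b ψ) (hc : Rt Q c χ) :
    InPl c a b ∨ (φ ⬝ᵥ c = 0 ∧ ψ ⬝ᵥ c = 0) := by
  obtain ⟨k, hk, hd⟩ := hs
  by_cases e1 : φ ⬝ᵥ c = 0
  · by_cases e2 : ψ ⬝ᵥ c = 0
    · exact .inr ⟨e1, e2⟩
    obtain ⟨x, y, e⟩ := rank_two h2 hQ hd hb hc (by
      simp [sub_dotProduct, h0, hb.1, h2, hk]) e2 fun ⟨x, hx⟩ => by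
        have := congrArg (φ ⬝ᵥ ·) hx
        simp only [h0, dotProduct_smul, dotProduct_sub, ha.1, smul_eq_mul, mul_zero,
          sub_zero] at this
        rw [(mul_eq_zero.1 this.symm).resolve_right h2, zero_smul] at hx
        exact hb.ne_zero h2 hx
    exact .inl ⟨x, y - x * k, by rw [e]; module⟩
  obtain ⟨x, y, e⟩ := rank_two h2 hQ hd ha hc (by
    simp [sub_dotProduct, h1, ha.1, h2]) e1 fun ⟨x, hx⟩ => by
      have := congrArg (ψ ⬝ᵥ ·) hx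
      simp only [h1, dotProduct_smul, dotProduct_sub, hb.1, smul_eq_mul, zero_sub] at this
      rw [(mul_eq_zero.1 this.symm).resolve_right (neg_ne_zero.2 (mul_ne_zero hk h2)),
        zero_smul] at hx
      exact ha.ne_zero h2 hx
  exact .inl ⟨x + y, -(x * k), by rw [e]; module⟩

/-- The determinant on an invariant plane. -/
def planeChar (Q : Subgroup (GL ι F)) {a φ b ψ : ι → F} (ha : φ ⬝ᵥ a = 1) (hb : ψ ⬝ᵥ b = 1)
    (h0 : φ ⬝ᵥ b = 0) (h1 : ψ ⬝ᵥ a = 0) (hQ : ∀ s ∈ Q, InPl ((s : Matrix ι ι F) *ᵥ a) a b ∧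
      InPl ((s : Matrix ι ι F) *ᵥ b) a b) : Q →* Fˣ :=
  MonoidHom.toHomUnits
    { toFun := fun s => (φ ⬝ᵥ ((s : GL ι F) : Matrix ι ι F) *ᵥ a) *
        (ψ ⬝ᵥ ((s : GL ι F) : Matrix ι ι F) *ᵥ b) - (ψ ⬝ᵥ ((s : GL ι F) : Matrix ι ι F) *ᵥ a) *
        (φ ⬝ᵥ ((s : GL ι F) : Matrix ι ι F) *ᵥ b)
      map_one' := by simp [ha, hb, h0, h1]
      map_mul' := fun s t => by
        obtain ⟨⟨x, y, e⟩, z, w, e'⟩ := hQ t t.2
        simp only [Subgroup.coe_mul, GL_mul_mulVec, e, e', mulVec_add, mulVec_smul, dotProduct_add,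
          dotProduct_smul, ha, hb, h0, h1, smul_eq_mul]
        ring }

theorem planeChar_coe (ha : φ ⬝ᵥ a = 1) (hb : ψ ⬝ᵥ b = 1)
    (h0 : φ ⬝ᵥ b = 0) (h1 : ψ ⬝ᵥ a = 0) (hQ : ∀ s ∈ Q, InPl ((s : Matrix ι ι F) *ᵥ a) a b ∧
      InPl ((s : Matrix ι ι F) *ᵥ b) a b) (s : Q) : (planeChar Q ha hb h0 h1 hQ s : F) =
      (φ ⬝ᵥ ((s : GL ι F) : Matrix ι ι F) *ᵥ a) * (ψ ⬝ᵥ ((s : GL ι F) : Matrix ι ι F) *ᵥ b) -
        (ψ ⬝ᵥ ((s : GL ι F) : Matrix ι ι F) *ᵥ a) * (φ ⬝ᵥ ((s : GL ι F) : Matrix ι ι F) *ᵥ b) :=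
  rfl

/-- The roots of a Sylow subgroup do not lie in the plane of two orthogonal ones. -/
theorem not_all_inPl [Finite F] [Nontrivial ι] (hP : QS P) (h2 : (2 : F) ≠ 0) (S : Sylow 2 P)
    (ha : Rt (sy S) a φ) (hb : Rt (sy S) b ψ) (h0 : φ ⬝ᵥ b = 0) (h1 : ψ ⬝ᵥ a = 0)
    (h : ∀ c χ, Rt (sy S) c χ → InPl c a b) : False := by
  have a1 : ((2 : F)⁻¹ • φ) ⬝ᵥ a = 1 := by rw [smul_dotProduct, ha.1, smul_eq_mul, inv_mul_cancel₀ h2]
  have b1 : ((2 : F)⁻¹ • ψ) ⬝ᵥ b = 1 := by rw [smul_dotProduct, hb.1, smul_eq_mul, inv_mul_cancel₀ h2]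
  have a0 : ((2 : F)⁻¹ • φ) ⬝ᵥ b = 0 := by rw [smul_dotProduct, h0, smul_zero]
  have b0 : ((2 : F)⁻¹ • ψ) ⬝ᵥ a = 0 := by rw [smul_dotProduct, h1, smul_zero]
  have ha' := ha.mono (sy_le S)
  refine no_char hP S (planeChar _ a1 b1 a0 b0 fun s hs => ⟨h _ _ (ha.conj hs), h _ _ (hb.conj hs)⟩)
    ha'.2 (tR_mul_self _ _) (tR_ne_one h2 ha.1) (τ := -1) (fun e => h2 ?_) fun g hg k => Units.ext ?_
  · have := congrArg Units.val e
    simp only [Units.val_neg, Units.val_one] at this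
    linear_combination -this
  · have e := conj_tR g ha.1
    have r := (ha'.conj hg).1
    obtain ⟨x, y, e'⟩ := h _ _ ⟨r, e ▸ k⟩
    rw [planeChar_coe]
    simp only [e, tR_mulVec r]
    rw [e'] at r ⊢
    simp only [dotProduct_sub, dotProduct_add, dotProduct_smul, a1, b1, a0, b0, smul_eq_mul,
      Units.val_neg, Units.val_one] at r ⊢
    linear_combination -r

theorem Rt.transport {g : GL ι F} (h : ∀ x ∈ Q, g * x * g⁻¹ ∈ Q') (ha : Rt Q a φ) :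
    Rt Q' ((g : Matrix ι ι F) *ᵥ a) (φ ᵥ* ((g⁻¹ : GL ι F) : Matrix ι ι F)) :=
  ⟨(vecMul_inv_dot_mulVec g φ a).trans ha.1, conj_tR g ha.1 ▸ h _ ha.2⟩

theorem OF.transport {g : GL ι F} (h : ∀ x ∈ Q, g * x * g⁻¹ ∈ Q') {n : ℕ} {a φ : Fin n → ι → F}
    (ha : OF Q a φ) : OF Q' (fun i => (g : Matrix ι ι F) *ᵥ a i)
      fun i => φ i ᵥ* ((g⁻¹ : GL ι F) : Matrix ι ι F) :=
  ⟨fun i => (ha.1 i).transport h, fun i j hij => (vecMul_inv_dot_mulVec g _ _).trans (ha.2 i j hij)⟩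

theorem Sw.transport {g : GL ι F} (h : ∀ x ∈ Q, g * x * g⁻¹ ∈ Q') (hs : Sw Q a φ b ψ) :
    Sw Q' ((g : Matrix ι ι F) *ᵥ a) (φ ᵥ* ((g⁻¹ : GL ι F) : Matrix ι ι F))
      ((g : Matrix ι ι F) *ᵥ b) (ψ ᵥ* ((g⁻¹ : GL ι F) : Matrix ι ι F)) := by
  obtain ⟨k, hk, hd⟩ := hs
  exact ⟨k, hk, (hd.transport h).congr (by rw [mulVec_sub, mulVec_smul])
    (by rw [smul_vecMul, sub_vecMul, smul_vecMul])⟩

theorem InPl.transport {g : GL ι F} (h : InPl (((g⁻¹ : GL ι F) : Matrix ι ι F) *ᵥ c) a b) :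
    InPl c ((g : Matrix ι ι F) *ᵥ a) ((g : Matrix ι ι F) *ᵥ b) := by
  obtain ⟨x, y, e⟩ := h
  exact ⟨x, y, by rw [← mulVec_smul, ← mulVec_smul, ← mulVec_add, ← e, GL_mulVec_inv_mulVec]⟩

theorem Ln.transport {g : GL ι F} (h : Ln (((g⁻¹ : GL ι F) : Matrix ι ι F) *ᵥ c) a) :
    Ln c ((g : Matrix ι ι F) *ᵥ a) := by
  obtain ⟨x, e⟩ := h
  exact ⟨x, by rw [← mulVec_smul, ← e, GL_mulVec_inv_mulVec]⟩

/-- Two reflections with a product of order four generate a `2`-group. -/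
theorem isPGroup_of_two (ha : φ ⬝ᵥ a = 2) (hb : ψ ⬝ᵥ b = 2) (hx : xx a φ b ψ = 2) :
    IsPGroup 2 (Subgroup.closure ({tR a φ, tR b ψ} : Set (GL ι F))) := by
  rw [xx] at hx
  have f1 : φ ⬝ᵥ (a - (ψ ⬝ᵥ a) • b) = 0 := by
    rw [dotProduct_sub, dotProduct_smul, ha, smul_eq_mul]; linear_combination -hx
  have f2 : (φ - (φ ⬝ᵥ b) • ψ) ⬝ᵥ a = 0 := by
    rw [sub_dotProduct, smul_dotProduct, ha, smul_eq_mul]; linear_combination -hx
  have f3 : (φ - (φ ⬝ᵥ b) • ψ) ⬝ᵥ (a - (ψ ⬝ᵥ a) • b) = 2 := by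
    rw [dotProduct_sub, f2, dotProduct_smul, sub_dotProduct, smul_dotProduct, hb]
    simp only [smul_eq_mul]; linear_combination hx
  have hc := tR_comm ha f3 f1 f2
  rw [tR_refl hb ha] at hc
  have hx := tR_mul_self a φ
  have hy := tR_mul_self b ψ
  generalize tR a φ = x at *
  generalize tR b ψ = y at *
  have h : (x * y) ^ 2 ^ 2 = 1 := by
    calc (x * y) ^ 2 ^ 2 = x * (y * x * y) * (x * (y * x * y)) := by
          simp only [pow_succ, pow_zero, one_mul, mul_assoc, show 2 ^ 2 = 4 from rfl]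
      _ = x * (y * x * y) * (y * x * y * x) := by rw [← hc]
      _ = x * (y * (x * (y * y) * x) * y) * x := by simp only [mul_assoc]
      _ = 1 := by rw [hy, mul_one, hx, mul_one, hy, mul_one, hx]
  intro g
  obtain ⟨m, hm | hm⟩ := Local.dih_mem_closure_form hx hy g.2
  · refine ⟨2, Subtype.ext ?_⟩
    rw [Subgroup.coe_pow, hm, ← zpow_natCast, ← _root_.zpow_mul, mul_comm, _root_.zpow_mul,
      zpow_natCast, h, _root_.one_zpow, Subgroup.coe_one]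
  · refine ⟨1, Subtype.ext ?_⟩
    rw [Subgroup.coe_pow, hm, pow_one, pow_two, Subgroup.coe_one, mul_assoc, ← mul_assoc _ x,
      Local.dih_zpow_mul (Local.dih_inverts hx hy), ← mul_assoc, ← mul_assoc, hx, one_mul,
      ← _root_.zpow_add, neg_add_cancel, zpow_zero]

end Roots

variable {F : Type*} [Field F] {P Q Q' : Subgroup (GL (Fin 5) F)}

/-- Five orthogonal roots form a basis. -/
theorem frame_sum (h2 : (2 : F) ≠ 0) {a φ : Fin 5 → Fin 5 → F} (h : ∀ i, φ i ⬝ᵥ a i = 2)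
    (h' : ∀ i j, i ≠ j → φ i ⬝ᵥ a j = 0) : ∑ i, vecMulVec (a i) (φ i) = (2 : F) • 1 := by
  have e : (of fun i => (2 : F)⁻¹ • φ i) * (of a)ᵀ = (1 : Matrix (Fin 5) (Fin 5) F) := by
    ext i j
    change ((2 : F)⁻¹ • φ i) ⬝ᵥ a j = _
    rw [smul_dotProduct, one_apply]
    split_ifs with k
    · rw [← k, h, smul_eq_mul, inv_mul_cancel₀ h2]
    · rw [h' i j k, smul_zero]
  rw [mul_eq_one_comm] at e
  rw [← e]
  ext i j
  simp only [Matrix.sum_apply, vecMulVec_apply, Matrix.smul_apply, mul_apply, transpose_apply,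
    of_apply, Pi.smul_apply, smul_eq_mul, Finset.mul_sum]
  exact Finset.sum_congr rfl fun k _ => by field_simp

theorem frame_vec (h2 : (2 : F) ≠ 0) {a φ : Fin 5 → Fin 5 → F} (h : OF Q a φ) (v : Fin 5 → F) :
    v = ∑ i, ((2 : F)⁻¹ * (φ i ⬝ᵥ v)) • a i := by
  have := congrArg (· *ᵥ v) (frame_sum h2 (fun i => (h.1 i).1) h.2)
  simp only [sum_mulVec, vecMulVec_mulVec, op_smul_eq_smul, smul_mulVec, one_mulVec] at this
  simp only [mul_smul, ← Finset.smul_sum, this, inv_smul_smul₀ h2]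

/-- Four orthogonal roots determine a fifth. -/
theorem exists_fifth (h2 : (2 : F) ≠ 0) {a φ : Fin 4 → Fin 5 → F} (h : OF Q a φ) :
    ∃ e ε, OF Q ![a 0, a 1, a 2, a 3, e] ![φ 0, φ 1, φ 2, φ 3, ε] := by
  have h0 := fun i => (h.1 i).1
  have h1 := h.2
  obtain ⟨e, e0, he⟩ := Matrix.exists_mulVec_eq_zero_iff.2
    (det_eq_zero_of_row_eq_zero (A := of ![φ 0, φ 1, φ 2, φ 3, 0]) 4 fun _ => rfl)
  have he' : ∀ i, φ i ⬝ᵥ e = 0 := fun i => by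
    fin_cases i
    exacts [congrFun he 0, congrFun he 1, congrFun he 2, congrFun he 3]
  obtain ⟨f, f0, hf⟩ := Matrix.exists_mulVec_eq_zero_iff.2
    (det_eq_zero_of_row_eq_zero (A := of ![a 0, a 1, a 2, a 3, 0]) 4 fun _ => rfl)
  have hf' : ∀ i, f ⬝ᵥ a i = 0 := fun i => by
    rw [dotProduct_comm]
    fin_cases i
    exacts [congrFun hf 0, congrFun hf 1, congrFun hf 2, congrFun hf 3]
  have hfe : f ⬝ᵥ e ≠ 0 := fun k => by
    obtain ⟨v, v0, hv⟩ := Matrix.exists_vecMul_eq_zero_iff.2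
      (Matrix.exists_mulVec_eq_zero_iff.1 ⟨f, f0, show of ![a 0, a 1, a 2, a 3, e] *ᵥ f = 0 by
        ext i
        fin_cases i
        exacts [(dotProduct_comm _ _).trans (hf' 0), (dotProduct_comm _ _).trans (hf' 1),
          (dotProduct_comm _ _).trans (hf' 2), (dotProduct_comm _ _).trans (hf' 3),
          (dotProduct_comm _ _).trans k]⟩)
    have hv' : v 0 • a 0 + v 1 • a 1 + v 2 • a 2 + v 3 • a 3 + v 4 • e = 0 := by
      rw [← hv]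
      ext j
      simp [vecMul, dotProduct, Fin.sum_univ_five]
    have k0 := congrArg (φ 0 ⬝ᵥ ·) hv'
    have k1 := congrArg (φ 1 ⬝ᵥ ·) hv'
    have k2 := congrArg (φ 2 ⬝ᵥ ·) hv'
    have k3 := congrArg (φ 3 ⬝ᵥ ·) hv'
    simp [h0, h1, he', h2] at k0 k1 k2 k3
    simp [k0, k1, k2, k3, e0] at hv'
    exact v0 (by ext i; fin_cases i <;> assumption)
  set ε := (2 / (f ⬝ᵥ e)) • f with hε
  have ε1 : ε ⬝ᵥ e = 2 := by rw [hε, smul_dotProduct, smul_eq_mul, div_mul_cancel₀ _ hfe]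
  have ε0 : ∀ i, ε ⬝ᵥ a i = 0 := fun i => by rw [hε, smul_dotProduct, hf', smul_zero]
  clear_value ε
  have ho : ∀ i j : Fin 5, i ≠ j →
      ![φ 0, φ 1, φ 2, φ 3, ε] i ⬝ᵥ ![a 0, a 1, a 2, a 3, e] j = 0 := fun i j hij => by
    fin_cases i <;> fin_cases j <;> simp [h1, he', ε0] at hij ⊢
  have hs := frame_sum h2 (a := ![a 0, a 1, a 2, a 3, e]) (φ := ![φ 0, φ 1, φ 2, φ 3, ε])
    (fun i => by fin_cases i <;> simp [h0, ε1]) ho
  refine ⟨e, ε, fun i => ?_, ho⟩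
  have hr : Rt Q e ε := Rt.of_coe
    (mul_mem (mul_mem (h.1 0).2 (h.1 1).2) (mul_mem (h.1 2).2 (h.1 3).2)) ε1 (by
      simp only [Fin.sum_univ_five, cons_val] at hs
      simp only [Units.val_mul, tR_coe (h0 _), Matrix.sub_mul, Matrix.mul_sub, Matrix.mul_assoc,
        vecMulVec_mul_vecMulVec, Matrix.mul_one, Matrix.one_mul]
      simp only [ne_eq, Fin.reduceEq, not_false_eq_true, h1, zero_smul, vecMulVec_zero,
        Matrix.mul_zero, zero_dotProduct]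
      rw [two_smul] at hs
      rw [eq_sub_of_add_eq' hs]
      abel)
  fin_cases i
  exacts [h.1 0, h.1 1, h.1 2, h.1 3, hr]

theorem td_of [Finite F] (h2 : (2 : F) ≠ 0) (hQ : IsPGroup 2 Q) {a φ b ψ c χ d f : Fin 5 → F}
    (ha : Rt Q a φ) (hb : Rt Q b ψ) (h0 : φ ⬝ᵥ b = 0) (hs : Sw Q a φ b ψ) (hc : Rt Q c χ)
    (hac : φ ⬝ᵥ c = 0) (hbc : ψ ⬝ᵥ c = 0) (hd : Rt Q d f) (had : φ ⬝ᵥ d = 0) (hbd : ψ ⬝ᵥ d = 0)
    (hcd : χ ⬝ᵥ d ≠ 0) (hl : ¬ Ln d c) : TD Q := by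
  have sym := fun {a φ b ψ} => Rt.orth_symm (a := a) (φ := φ) (b := b) (ψ := ψ) (noTv_two h2 hQ) h2
  obtain ⟨c', χ', hc', k1, k2, ⟨x, y, e⟩, -, hs'⟩ := two_swap h2 hQ hc hd hcd hl
  have k3 : φ ⬝ᵥ c' = 0 := by simp [e, hac, had]
  have k4 : ψ ⬝ᵥ c' = 0 := by simp [e, hbc, hbd]
  obtain ⟨e, ε, ho⟩ := exists_fifth h2 (Q := Q) (a := ![a, b, c, c']) (φ := ![φ, ψ, χ, χ'])
    ⟨fun i => by fin_cases i; exacts [ha, hb, hc, hc'], fun i j hij => by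
      fin_cases i <;> fin_cases j <;> simp [h0, hac, hbc, k1, k2, k3, k4, sym ha hb h0,
        sym ha hc hac, sym hb hc hbc, sym ha hc' k3, sym hb hc' k4] at hij ⊢⟩
  refine ⟨_, _, ho, hs, hs', fun v θ hv => ?_⟩
  rcases inPl_or_orth h2 hQ ha hb h0 (sym ha hb h0) hs hv with m | ⟨m1, m2⟩
  · exact .inl m
  rcases inPl_or_orth h2 hQ hc hc' k1 k2 hs' hv with m | ⟨m3, m4⟩
  · exact .inr (.inl m)
  have := frame_vec h2 ho v
  exact .inr (.inr ⟨_, by simpa [Fin.sum_univ_five, m1, m2, m3, m4] using this⟩)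

theorem sylow_type [Finite F] (hP : Hr P) (S : Sylow 2 P) {a φ b ψ : Fin 5 → F}
    (ha : Rt (sy S) a φ) (hb : Rt (sy S) b ψ) (h0 : φ ⬝ᵥ b = 0) (hs : Sw (sy S) a φ b ψ) :
    TB (sy S) ∨ TC (sy S) ∨ TD (sy S) := by
  have h2 := hP.two
  have hQ := isPGroup_sy S
  have sym := fun {a φ b ψ} => Rt.orth_symm (a := a) (φ := φ) (b := b) (ψ := ψ) (noTv_two h2 hQ) h2
  have pl := fun {c χ} => inPl_or_orth (c := c) (χ := χ) h2 hQ ha hb h0 (sym ha hb h0) hs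
  obtain ⟨c, χ, hc, hac, hbc⟩ : ∃ c χ, Rt (sy S) c χ ∧ φ ⬝ᵥ c = 0 ∧ ψ ⬝ᵥ c = 0 := by
    by_contra hn
    exact not_all_inPl hP.qs h2 S ha hb h0 (sym ha hb h0) fun c χ hc =>
      (pl hc).resolve_right fun k => hn ⟨c, χ, hc, k⟩
  by_cases hB : ∀ d f, Rt (sy S) d f → InPl d a b ∨ Ln d c
  · exact .inl ⟨![a, b, c], ![φ, ψ, χ], ⟨fun i => by fin_cases i; exacts [ha, hb, hc],
      fun i j hij => by
        fin_cases i <;> fin_cases j <;> simp [h0, hac, hbc, sym ha hb h0, sym ha hc hac,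
          sym hb hc hbc] at hij ⊢⟩, hs, hB⟩
  push Not at hB
  obtain ⟨d, f, hd, n1, n2⟩ := hB
  obtain ⟨had, hbd⟩ := (pl hd).resolve_left n1
  by_cases hcd : χ ⬝ᵥ d = 0
  swap
  · exact .inr (.inr (td_of h2 hQ ha hb h0 hs hc hac hbc hd had hbd hcd n2))
  obtain ⟨e, ε, ho⟩ := exists_fifth h2 (Q := sy S) (a := ![a, b, c, d]) (φ := ![φ, ψ, χ, f])
    ⟨fun i => by fin_cases i; exacts [ha, hb, hc, hd], fun i j hij => by
      fin_cases i <;> fin_cases j <;> simp [h0, hac, hbc, had, hbd, hcd, sym ha hb h0,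
        sym ha hc hac, sym hb hc hbc, sym ha hd had, sym hb hd hbd, sym hc hd hcd] at hij ⊢⟩
  by_cases hC : ∀ v θ, Rt (sy S) v θ → InPl v a b ∨ Ln v c ∨ Ln v d ∨ Ln v e
  · exact .inr (.inl ⟨_, _, ho, hs, hC⟩)
  push Not at hC
  obtain ⟨v, θ, hv, m1, m2, m3, m4⟩ := hC
  obtain ⟨hav, hbv⟩ := (pl hv).resolve_left m1
  refine .inr (.inr ?_)
  by_cases l2 : χ ⬝ᵥ v = 0
  swap
  · exact td_of h2 hQ ha hb h0 hs hc hac hbc hv hav hbv l2 m2
  by_cases l3 : f ⬝ᵥ v = 0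
  swap
  · exact td_of h2 hQ ha hb h0 hs hd had hbd hv hav hbv l3 m3
  have := frame_vec h2 ho v
  exact absurd ⟨_, by simpa [Fin.sum_univ_five, hav, hbv, l2, l3] using this⟩ m4

section Transport

variable {g : GL (Fin 5) F} (h : ∀ x ∈ Q, g * x * g⁻¹ ∈ Q') (h' : ∀ x ∈ Q', g⁻¹ * x * g⁻¹⁻¹ ∈ Q)
include h h'

theorem TB.transport (k : TB Q) : TB Q' := by
  obtain ⟨a, φ, k1, k2, k3⟩ := k
  exact ⟨_, _, k1.transport h, k2.transport h, fun b ψ hb =>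
    (k3 _ _ (hb.transport h')).imp InPl.transport Ln.transport⟩

theorem TC.transport (k : TC Q) : TC Q' := by
  obtain ⟨a, φ, k1, k2, k3⟩ := k
  exact ⟨_, _, k1.transport h, k2.transport h, fun b ψ hb =>
    (k3 _ _ (hb.transport h')).imp InPl.transport
      (Or.imp Ln.transport (Or.imp Ln.transport Ln.transport))⟩

theorem TD.transport (k : TD Q) : TD Q' := by
  obtain ⟨a, φ, k1, k2, k2', k3⟩ := k
  exact ⟨_, _, k1.transport h, k2.transport h, k2'.transport h, fun b ψ hb =>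
    (k3 _ _ (hb.transport h')).imp InPl.transport (Or.imp InPl.transport Ln.transport)⟩

end Transport

theorem w4a : W4a.{u} := by
  rintro F _ _ P hP ⟨a, φ, b, ψ, ha, hb, hx⟩
  have h2 := hP.two
  obtain ⟨S, hS⟩ := exists_sy ((Subgroup.closure_le _).2 (Set.pair_subset ha.2 hb.2))
    (isPGroup_of_two ha.1 hb.1 hx)
  have ha' : Rt (sy S) a φ := ⟨ha.1, hS (Subgroup.subset_closure (by simp))⟩
  have hb' : Rt (sy S) b ψ := ⟨hb.1, hS (Subgroup.subset_closure (by simp))⟩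
  rw [xx] at hx
  obtain ⟨a', φ', k, k1, -, -, -, hs⟩ := two_swap h2 (isPGroup_sy S) ha' hb'
    (fun e => h2 (by rw [← hx, e, zero_mul])) fun ⟨x, e⟩ => by
      have e1 := hb.1
      rw [e, dotProduct_smul, smul_eq_mul] at e1 hx
      rw [ha.1] at hx
      exact h2 (by linear_combination hx - 2 * e1)
  have tr : ∀ T : Sylow 2 P, ∃ g : GL (Fin 5) F, (∀ x ∈ sy S, g * x * g⁻¹ ∈ sy T) ∧
      ∀ x ∈ sy T, g⁻¹ * x * g⁻¹⁻¹ ∈ sy S := fun T => by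
    obtain ⟨g, rfl⟩ := MulAction.exists_smul_eq P S T
    exact ⟨g, fun x hx => mem_sy_smul.2 (by simpa [mul_assoc] using hx),
      fun x hx => by simpa using mem_sy_smul.1 hx⟩
  refine (sylow_type hP S ha' k k1 hs).imp (fun k T => ?_) (Or.imp (fun k T => ?_) fun k T => ?_)
    <;> obtain ⟨g, h, h'⟩ := tr T <;> exact k.transport h h'

end Cfsg.Lib.Five
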