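import Cfsg.Agent.Class.Five.RBase
import Cfsg.Agent.Solv.PGroupBasic

/-!
# Connected roots of a `2`-group lie in a plane
-/

set_option autoImplicit false

namespace Cfsg.Lib.Five

open Matrix Cfsg.Geo Cfsg.Lib.Class Cfsg.Lib.Class.Asch Cfsg.Lib.Mit
open scoped MatrixGroups commutatorElement

variable {ι : Type} [Fintype ι] [DecidableEq ι] {F : Type*} [Field F]
  {P Q : Subgroup (GL ι F)} {a φ b ψ c χ d e : ι → F}

omit [Fintype ι] [DecidableEq ι] in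
theorem inPl_of_three (ha : InPl a d e) (hb : InPl b d e) (hc : InPl c d e) (h0 : a ≠ 0)
    (hl : ¬ Ln b a) : InPl c a b := by
  obtain ⟨p1, q1, rfl⟩ := ha
  obtain ⟨p2, q2, rfl⟩ := hb
  obtain ⟨p3, q3, rfl⟩ := hc
  by_cases hD : p1 * q2 - p2 * q1 = 0
  · exfalso
    by_cases h1 : p1 = 0
    · have h2 : q1 ≠ 0 := fun h2 => h0 (by simp [h1, h2])
      have h3 : p2 = 0 := by simpa [h1, h2] using hD
      refine hl ⟨q2 / q1, ?_⟩
      ext i
      simp only [h1, h3, Pi.add_apply, Pi.smul_apply, smul_eq_mul]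
      field_simp
      ring
    · refine hl ⟨p2 / p1, ?_⟩
      ext i
      simp only [Pi.add_apply, Pi.smul_apply, smul_eq_mul]
      field_simp
      linear_combination (e i) * hD
  · refine ⟨(p3 * q2 - p2 * q3) / (p1 * q2 - p2 * q1), (p1 * q3 - p3 * q1) / (p1 * q2 - p2 * q1),
      ?_⟩
    ext i
    simp only [Pi.add_apply, Pi.smul_apply, smul_eq_mul]
    rw [div_mul_eq_mul_div, div_mul_eq_mul_div, ← add_div, eq_div_iff hD]
    ring

/-- The stabiliser of a subspace. -/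
def stW (W : Submodule F (ι → F)) : Subgroup (GL ι F) where
  carrier := {g | ∀ v, (g : Matrix ι ι F) *ᵥ v ∈ W ↔ v ∈ W}
  one_mem' := by simp
  mul_mem' := fun {g h} hg hh v => by rw [GL_mul_mulVec, hg, hh]
  inv_mem' := fun {g} hg v => by rw [← hg, GL_mulVec_inv_mulVec]

/-- The elements acting on a subspace as scalars. -/
def scW (W : Submodule F (ι → F)) : Subgroup (GL ι F) where
  carrier := {g | ∃ l : F, ∀ v ∈ W, (g : Matrix ι ι F) *ᵥ v = l • v}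
  one_mem' := ⟨1, by simp⟩
  mul_mem' := fun {g h} ⟨l, hl⟩ ⟨m, hm⟩ => ⟨m * l, fun v hv => by
    rw [GL_mul_mulVec, hm v hv, mulVec_smul, hl v hv, smul_smul]⟩
  inv_mem' := fun {g} ⟨l, hl⟩ => ⟨l⁻¹, fun v hv => by
    have h := GL_inv_mulVec_mulVec g v
    rw [hl v hv, mulVec_smul] at h
    by_cases h0 : l = 0
    · rw [h0, zero_smul] at h
      rw [← h, mulVec_zero, smul_zero]
    · rw [eq_inv_smul_iff₀ h0, h]⟩

theorem tR_mem_stW {W : Submodule F (ι → F)} (h : φ ⬝ᵥ a = 2) (ha : a ∈ W) : tR a φ ∈ stW W := by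
  have k : ∀ v ∈ W, (tR a φ : Matrix ι ι F) *ᵥ v ∈ W := fun v hv => by
    rw [tR_mulVec h]; exact sub_mem (W.smul_mem _ ha) hv
  refine fun v => ⟨fun hv => ?_, k v⟩
  have := k _ hv
  rwa [← GL_mul_mulVec, tR_mul_self, Units.val_one, one_mulVec] at this

/-- An element centralising a reflection modulo scalars on a space of dimension at least three. -/
theorem eig_of_comm {W : Submodule F (ι → F)} (h2 : (2 : F) ≠ 0)
    (hW : ∀ d e, ¬ ∀ v ∈ W, InPl v d e) (h : φ ⬝ᵥ a = 2) (ha : a ∈ W) {x : GL ι F}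
    (hx : x ∈ stW W) (hc : ⁅x, tR a φ⁆ ∈ scW W) : ∃ l : F, (x : Matrix ι ι F) *ᵥ a = l • a ∧
      ∀ v ∈ W, φ ⬝ᵥ (x : Matrix ι ι F) *ᵥ v = l * (φ ⬝ᵥ v) := by
  obtain ⟨l, hl⟩ := hc
  have h' := (vecMul_inv_dot_mulVec x φ a).trans h
  have k : ∀ v ∈ W, ((φ ᵥ* ((x⁻¹ : GL ι F) : Matrix ι ι F)) ⬝ᵥ v) • (x : Matrix ι ι F) *ᵥ a - v =
      l • ((φ ⬝ᵥ v) • a - v) := fun v hv => by
    have := hl _ ((tR_mem_stW h ha v).2 hv)
    rwa [commutatorElement_def, GL_mul_mulVec, GL_inv_mulVec_mulVec, conj_tR x h, tR_mulVec h',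
      tR_mulVec h] at this
  have hl1 : l = 1 := by
    by_contra hn
    refine hW a ((x : Matrix ι ι F) *ᵥ a) fun v hv => ⟨l * (φ ⬝ᵥ v) / (l - 1),
      -((φ ᵥ* ((x⁻¹ : GL ι F) : Matrix ι ι F)) ⬝ᵥ v) / (l - 1), ?_⟩
    have hn' := sub_ne_zero.2 hn
    ext i
    have := congrFun (k v hv) i
    simp only [Pi.add_apply, Pi.sub_apply, Pi.smul_apply, smul_eq_mul] at this ⊢
    field_simp
    linear_combination this
  simp only [hl1, one_smul, sub_left_inj] at k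
  have a0 : a ≠ 0 := fun e => h2 (by rw [← h, e, dotProduct_zero])
  have k1 := k _ ((hx a).2 ha)
  rw [h'] at k1
  have k2 : (x : Matrix ι ι F) *ᵥ a = ((2 : F)⁻¹ * (φ ⬝ᵥ (x : Matrix ι ι F) *ᵥ a)) • a := by
    rw [mul_smul, ← k1, inv_smul_smul₀ h2]
  refine ⟨_, k2, fun v hv => ?_⟩
  have k3 := k _ ((hx v).2 hv)
  rw [vecMul_inv_dot_mulVec, k2, smul_smul] at k3
  rw [← smul_left_injective F a0 k3, mul_comm]

/-- The rank lemma: three connected roots of a `2`-group lie in a plane. -/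
theorem rank_two [Finite F] (h2 : (2 : F) ≠ 0) (hQ : IsPGroup 2 Q) (ha : Rt Q a φ)
    (hb : Rt Q b ψ) (hc : Rt Q c χ) (h0 : φ ⬝ᵥ b ≠ 0) (h1 : ψ ⬝ᵥ c ≠ 0) (hl : ¬ Ln b a) :
    InPl c a b := by
  by_contra hn
  let W : Submodule F (ι → F) := Submodule.span F {a, b, c}
  have aW : a ∈ W := Submodule.subset_span (by simp)
  have bW : b ∈ W := Submodule.subset_span (by simp)
  have cW : c ∈ W := Submodule.subset_span (by simp)
  have hW : ∀ d e, ¬ ∀ v ∈ W, InPl v d e := fun d e h =>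
    hn (inPl_of_three (h a aW) (h b bW) (h c cW) (ha.ne_zero h2) hl)
  have hX : IsPGroup 2 (Q ⊓ stW W : Subgroup (GL ι F)) := hQ.to_le inf_le_left
  have : Fact (Nat.Prime 2) := ⟨Nat.prime_two⟩
  obtain ⟨x, hx, hx', hc'⟩ := Solv.PG.exists_not_mem_commutator_mem (H := scW W) hX.isNilpotent
    le_rfl Subgroup.le_normalizer fun h => by
      obtain ⟨l, hl'⟩ := h ⟨ha.2, tR_mem_stW ha.1 aW⟩
      have e1 := hl' a aW
      have e2 := hl' b bW
      rw [tR_mulVec ha.1] at e1 e2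
      rw [ha.1, two_smul, add_sub_cancel_right] at e1
      have : l = 1 := (smul_left_injective F (ha.ne_zero h2) ((one_smul F a).trans e1)).symm
      rw [this, one_smul, sub_eq_iff_eq_add, ← two_smul F b] at e2
      exact hl ⟨2⁻¹ * (φ ⬝ᵥ b), by rw [mul_smul, e2, inv_smul_smul₀ h2]⟩
  obtain ⟨α, a1, a2⟩ := eig_of_comm h2 hW ha.1 aW hx.2 (hc' _ ⟨ha.2, tR_mem_stW ha.1 aW⟩).1
  obtain ⟨β, b1, b2⟩ := eig_of_comm h2 hW hb.1 bW hx.2 (hc' _ ⟨hb.2, tR_mem_stW hb.1 bW⟩).1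
  obtain ⟨γ, c1, -⟩ := eig_of_comm h2 hW hc.1 cW hx.2 (hc' _ ⟨hc.2, tR_mem_stW hc.1 cW⟩).1
  have e1 := a2 b bW
  have e2 := b2 c cW
  rw [b1, dotProduct_smul, smul_eq_mul, mul_left_inj' h0] at e1
  rw [c1, dotProduct_smul, smul_eq_mul, mul_left_inj' h1] at e2
  refine hx' ⟨α, fun v hv => ?_⟩
  induction hv using Submodule.span_induction with
  | mem v hv =>
    rcases hv with rfl | rfl | rfl
    exacts [a1, e1 ▸ b1, e1 ▸ e2 ▸ c1]
  | zero => simp
  | add u v _ _ hu hv => rw [mulVec_add, hu, hv, smul_add]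
  | smul k v _ hv => rw [mulVec_smul, hv, smul_comm]

end Cfsg.Lib.Five
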