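import Cfsg.Agent.Class.Five.R4bA
import Cfsg.Agent.Block.ZStarElt

/-!
# The roots of a Sylow `2`-subgroup do not fill a plane and a line
-/

set_option autoImplicit false

namespace Cfsg.Lib.Five

open Matrix Cfsg.Geo Cfsg.Lib.Class Cfsg.Lib.Class.Asch Cfsg.Lib.Mit
open scoped MatrixGroups

universe u

section General

variable {ι : Type} [Fintype ι] [DecidableEq ι] {F : Type*} [Field F] {P : Subgroup (GL ι F)}

/-- The `Z*`-theorem for a quasisimple linear group. -/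
theorem exists_conj_ne [Finite F] (hP : QS P) (S : Sylow 2 P) {z : GL ι F} (hz : z ∈ sy S)
    (h2 : z * z = 1) (hs : z ∉ scalars ι F) : ∃ g ∈ P, g * z * g⁻¹ ∈ sy S ∧ g * z * g⁻¹ ≠ z := by
  by_contra hn
  push Not at hn
  obtain ⟨hzP, hzS⟩ := mem_sy.1 hz
  have h := Block.Princ.zstar_elt S hzS fun g hg =>
    Subtype.ext (hn g g.2 (mem_sy.2 ⟨_, hg⟩))
  have := hP.simple
  let π := QuotientGroup.mk' ((scalars ι F).subgroupOf P)
  have h1 : π ⟨z, hzP⟩ ≠ 1 := fun e => hs ((QuotientGroup.eq_one_iff (⟨z, hzP⟩ : P)).1 e)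
  rcases ((inferInstance : (oddCore P).Normal).map π (QuotientGroup.mk'_surjective _)).eq_bot_or_eq_top
    with k | k
  · have hc : π ⟨z, hzP⟩ ∈ Subgroup.center (Bar P) := Subgroup.mem_center_iff.2 fun x => by
      obtain ⟨g, rfl⟩ := QuotientGroup.mk'_surjective _ x
      have := k.le ⟨_, h g, rfl⟩
      rwa [Subgroup.mem_bot, map_mul, map_mul, map_mul, map_inv, map_inv, mul_inv_eq_one,
        mul_inv_eq_iff_eq_mul] at this
    rcases (inferInstance : (Subgroup.center (Bar P)).Normal).eq_bot_or_eq_top with j | j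
    · exact h1 (j.le hc)
    · exact hP.nonabelian ⟨⟨fun x y => Subgroup.mem_center_iff.1 (j.ge (Subgroup.mem_top y)) x⟩⟩
  · have ho : orderOf (π ⟨z, hzP⟩) = 2 := orderOf_eq_prime
      (by rw [← map_pow, pow_two, show (⟨z, hzP⟩ * ⟨z, hzP⟩ : P) = 1 from Subtype.ext h2, map_one]) h1
    refine Solv.not_dvd_card_pPrimeCore 2 P (dvd_trans ?_ (Subgroup.card_map_dvd _ π))
    rw [show (pPrimeCore 2 P).map π = ⊤ from k, Subgroup.card_top, ← ho]
    exact orderOf_dvd_natCard _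

/-- An involution commuting with a central element of a Sylow subgroup is moved into the Sylow
subgroup by the centraliser. -/
theorem exists_cent_conj [Finite F] (S : Sylow 2 P) {z r : GL ι F}
    (hz : ∀ s ∈ sy S, s * z = z * s) (hr : r ∈ P) (h2 : r * r = 1) (h : r * z = z * r) :
    ∃ c ∈ P, c * z = z * c ∧ c * r * c⁻¹ ∈ sy S := by
  let C : Subgroup P := (Subgroup.centralizer {z}).subgroupOf P
  have hC : ∀ x : P, x ∈ C ↔ (x : GL ι F) * z = z * x := fun x => by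
    simp [C, Subgroup.mem_subgroupOf, Subgroup.mem_centralizer_singleton_iff]
  have h1 : (S : Subgroup P) ≤ C := fun x hx => (hC x).2 (hz _ (mem_sy.2 ⟨x.2, hx⟩))
  have hp : IsPGroup 2 (Subgroup.zpowers r) := fun ⟨_, n, e⟩ => ⟨1, Subtype.ext (by
    subst e
    simp only [pow_one, Subgroup.coe_pow, OneMemClass.coe_one]
    rw [← zpow_natCast, ← _root_.zpow_mul, mul_comm, _root_.zpow_mul, zpow_natCast, pow_two, h2,
      _root_.one_zpow])⟩
  obtain ⟨T, hT⟩ := ((hp.comap_subtype (K := P)).comap_subtype (K := C)).exists_le_sylow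
  obtain ⟨k, rfl⟩ := MulAction.exists_smul_eq C (Sylow.subtype _ h1) T
  rw [Sylow.smul_subtype] at hT
  have hk := (hC _).1 k.2
  refine ⟨((k : P) : GL ι F)⁻¹, inv_mem (k : P).2, ?_, ?_⟩
  · rw [inv_mul_eq_iff_eq_mul, ← mul_assoc, hk, mul_inv_cancel_right]
  · rw [inv_inv]
    exact mem_sy_smul.1 (mem_sy.2 ⟨hr, hT (x := ⟨⟨r, hr⟩, (hC _).2 h⟩) (Subgroup.mem_zpowers r)⟩)

/-- A projection has a complementary frame. -/
theorem exists_compl {m n : ℕ} {C : Matrix ι (Fin m) F} {Φ : Matrix (Fin m) ι F} (h : Φ * C = 1)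
    (hn : Fintype.card ι = m + n) : ∃ (D : Matrix ι (Fin n) F) (Ψ : Matrix (Fin n) ι F),
      Ψ * D = 1 ∧ D * Ψ = 1 - C * Φ := by
  let K := LinearMap.ker (toLin' Φ)
  have hK : Module.finrank F K = n := by
    have := LinearMap.finrank_range_add_finrank_ker (toLin' Φ)
    rw [LinearMap.range_eq_top.2 fun x => ⟨C *ᵥ x, by simp [h]⟩] at this
    simp only [finrank_top, Module.finrank_fintype_fun_eq_card, Fintype.card_fin, hn] at this
    exact Nat.add_left_cancel this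
  let b := (Module.finBasisOfFinrankEq F K hK).equivFun
  let p : (ι → F) →ₗ[F] K := (toLin' (1 - C * Φ)).codRestrict K fun v => by
    simp [K, mulVec_sub, ← Matrix.mul_assoc, h]
  refine ⟨LinearMap.toMatrix' (K.subtype ∘ₗ b.symm.toLinearMap),
    LinearMap.toMatrix' (b.toLinearMap ∘ₗ p), ?_, ?_⟩
  · rw [← LinearMap.toMatrix'_comp, ← LinearMap.toMatrix'_id]
    congr 1
    refine LinearMap.ext fun x => b.symm.injective (Subtype.ext ?_)
    have : Φ *ᵥ (b.symm x : ι → F) = 0 := (b.symm x).2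
    simp [p, -mulVec_mulVec]
  · rw [← LinearMap.toMatrix'_comp, ← LinearMap.toMatrix'_toLin' (1 - C * Φ)]
    congr 1
    exact LinearMap.ext fun x => by simp [p]

theorem dn_tR {κ : Type} [Fintype κ] [DecidableEq κ] {C : Matrix ι κ F} {Φ : Matrix κ ι F}
    (h : Φ * C = 1) {b ψ : ι → F} (hb : ψ ⬝ᵥ b = 2) :
    Φ * (tR b ψ : Matrix ι ι F) * C = vecMulVec (Φ *ᵥ b) (ψ ᵥ* C) - 1 := by
  rw [tR_coe hb, Matrix.mul_sub, Matrix.sub_mul, Matrix.mul_one, h, mul_vecMulVec, vecMulVec_mul]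

theorem mul_proj {κ : Type} [Fintype κ] [DecidableEq κ] {C : Matrix ι κ F} {Φ : Matrix κ ι F}
    (h : Φ * C = 1) {g : Matrix ι ι F} (hg : g * (C * Φ) = C * Φ * g) :
    g * (C * Φ) = C * (Φ * g * C) * Φ := by
  calc g * (C * Φ) = g * (C * Φ) * (C * Φ) := by
        rw [Matrix.mul_assoc, Matrix.mul_assoc C, ← Matrix.mul_assoc Φ, h, Matrix.one_mul]
    _ = _ := by rw [hg]; simp only [Matrix.mul_assoc]

end General

section TB

variable {F : Type u} [Field F] {P Q : Subgroup (GL (Fin 5) F)} {a φ : Fin 3 → Fin 5 → F} {k : F}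

/-- The data of a group of type `TB`. -/
structure Tb (Q : Subgroup (GL (Fin 5) F)) (a φ : Fin 3 → Fin 5 → F) (k : F) : Prop where
  two : (2 : F) ≠ 0
  nt : NoTv Q
  of : OF Q a φ
  ne : k ≠ 0
  sw : Rt Q (a 0 - k • a 1) ((1 / 2 : F) • (φ 0 - k⁻¹ • φ 1))
  all : ∀ b ψ, Rt Q b ψ → InPl b (a 0) (a 1) ∨ Ln b (a 2)

/-- The columns `a 0`, `a 1`. -/
def cM (a : Fin 3 → Fin 5 → F) : Matrix (Fin 5) (Fin 2) F := (Matrix.of ![a 0, a 1])ᵀ

/-- The rows `φ 0 / 2`, `φ 1 / 2`. -/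
def fM (φ : Fin 3 → Fin 5 → F) : Matrix (Fin 2) (Fin 5) F :=
  Matrix.of ![(1 / 2 : F) • φ 0, (1 / 2 : F) • φ 1]

theorem fM_mulVec (v : Fin 5 → F) : fM φ *ᵥ v = ![φ 0 ⬝ᵥ v / 2, φ 1 ⬝ᵥ v / 2] := by
  ext i
  fin_cases i <;> simp [fM, mulVec, div_eq_inv_mul, dotProduct, Finset.mul_sum, mul_assoc]

theorem vecMul_cM (f : Fin 5 → F) : f ᵥ* cM a = ![f ⬝ᵥ a 0, f ⬝ᵥ a 1] := by
  ext i
  fin_cases i <;> simp [cM, vecMul_transpose, mulVec, dotProduct_comm]

theorem cM_mul_fM : cM a * fM φ =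
    (1 / 2 : F) • vecMulVec (a 0) (φ 0) + (1 / 2 : F) • vecMulVec (a 1) (φ 1) := by
  ext i j
  simp [cM, fM, Matrix.mul_apply, vecMulVec_apply, mul_left_comm]

namespace Tb

variable (h : Tb Q a φ k)
include h

theorem dg (i : Fin 3) : φ i ⬝ᵥ a i = 2 := (h.of.1 i).1

theorem od {i j : Fin 3} (e : i ≠ j := by decide) : φ i ⬝ᵥ a j = 0 := h.of.2 i j e

theorem fc : fM φ * cM a = 1 := by
  have := h.two
  ext i j
  fin_cases i <;> fin_cases j <;>
    simp [fM, cM, Matrix.mul_apply, ← Finset.mul_sum, mul_assoc, ← dotProduct.eq_1, h.dg, this,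
      h.od (i := 0) (j := 1), h.od (i := 1) (j := 0)]

theorem proj_pl {b : Fin 5 → F} (hb : InPl b (a 0) (a 1)) : (cM a * fM φ) *ᵥ b = b := by
  obtain ⟨x, y, rfl⟩ := hb
  have := h.two
  simp only [cM_mul_fM, add_mulVec, smul_mulVec, vecMulVec_mulVec, dotProduct_add, dotProduct_smul,
    h.dg, h.od (i := 0) (j := 1), h.od (i := 1) (j := 0), op_smul_eq_smul, smul_smul, smul_eq_mul]
  congr 2 <;> field_simp <;> ring

theorem dot_pl {b : Fin 5 → F} (hb : InPl b (a 0) (a 1)) : φ 2 ⬝ᵥ b = 0 := by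
  obtain ⟨x, y, rfl⟩ := hb
  simp [h.od (i := 2) (j := 0), h.od (i := 2) (j := 1)]

theorem coproj {b ψ : Fin 5 → F} (hr : Rt Q b ψ) (hb : InPl b (a 0) (a 1)) :
    ψ ᵥ* (cM a * fM φ) = ψ := by
  have e : ((tR (a 0) (φ 0) * tR (a 1) (φ 1) : GL (Fin 5) F) : Matrix (Fin 5) (Fin 5) F) =
      1 - (2 : F) • (cM a * fM φ) := by
    rw [Units.val_mul, tR_coe (h.dg 0), tR_coe (h.dg 1), cM_mul_fM, Matrix.sub_mul, Matrix.mul_sub,
      Matrix.mul_sub, vecMulVec_mul_vecMulVec, h.od (i := 0) (j := 1), smul_add, smul_smul,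
      smul_smul, mul_one_div_cancel h.two]
    simp only [zero_smul, vecMulVec_zero, Matrix.mul_one, Matrix.one_mul, one_smul]
    abel
  have k1 := (hr.conj (mul_mem (h.of.1 0).2 (h.of.1 1).2)).neg
  rw [_root_.mul_inv_rev, tR_inv, tR_inv,
    ← tR_comm (h.dg 0) (h.dg 1) (h.od (i := 0) (j := 1)) (h.od (i := 1) (j := 0)), e, sub_mulVec,
    smul_mulVec, h.proj_pl hb, one_mulVec, vecMul_sub, vecMul_one, vecMul_smul,
    show -(b - (2 : F) • b) = b by module] at k1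
  have := k1.coroot_eq h.nt h.two hr
  apply smul_right_injective _ h.two
  simp only
  rw [two_smul F ψ, ← sub_eq_iff_eq_add, ← neg_sub, this]

theorem comm2 {b ψ : Fin 5 → F} (hr : Rt Q b ψ) :
    tR b ψ * tR (a 2) (φ 2) = tR (a 2) (φ 2) * tR b ψ := by
  rcases h.all b ψ hr with e | ⟨x, e⟩
  · exact (tR_comm (h.dg 2) hr.1 (h.dot_pl e)
      ((h.of.1 2).orth_symm h.nt h.two hr (h.dot_pl e))).symm
  · rw [((h.of.1 2).of_prop h.nt h.two hr e).2.2]

theorem line {s : GL (Fin 5) F} (hs : s ∈ Q) :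
    Ln ((s : Matrix (Fin 5) (Fin 5) F) *ᵥ a 2) (a 2) := by
  have hr := (h.of.1 2).conj hs
  refine (h.all _ _ hr).resolve_left fun ⟨x, y, e⟩ => hr.ne_zero h.two ?_
  have hc : ∀ b ψ, Rt Q b ψ → ψ ⬝ᵥ (x • a 0 + y • a 1) = 0 ∨ ∃ m : F, x • a 0 + y • a 1 = m • b :=
    fun b ψ hb => e ▸ orth_or_prop_of_comm h.two hb.1 hr.1 (by
      have := h.comm2 (hb.conj (inv_mem hs))
      rw [← conj_tR _ hb.1] at this
      rw [← conj_tR _ (h.dg 2)]
      calc _ = s * (s⁻¹ * tR b ψ * s⁻¹⁻¹ * tR (a 2) (φ 2)) * s⁻¹ := by group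
        _ = _ := by rw [this]; group)
  have h2 := h.two
  have hk := h.ne
  have d0 := h.dg 0
  have d1 := h.dg 1
  have o0 := h.od (i := 0) (j := 1)
  have o1 := h.od (i := 1) (j := 0)
  have k1 : x = 0 ∨ y = 0 := (hc _ _ (h.of.1 0)).imp (fun e => by simpa [d0, o0, h2] using e)
    fun ⟨m, e⟩ => by simpa [d1, o1, h2] using congrArg (φ 1 ⬝ᵥ ·) e
  have k2 : x = 0 ↔ y = 0 := by
    rcases hc _ _ h.sw with e | ⟨m, e⟩
    · have : x = k⁻¹ * y := by
        simp only [smul_dotProduct, sub_dotProduct, dotProduct_add, dotProduct_smul, d0, d1, o0, o1,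
          smul_eq_mul] at e
        field_simp at e ⊢
        exact mul_left_cancel₀ h2 (by linear_combination e)
      simp [this, hk]
    · have e0 := congrArg (φ 0 ⬝ᵥ ·) e
      have e1 := congrArg (φ 1 ⬝ᵥ ·) e
      simp only [dotProduct_add, dotProduct_smul, dotProduct_sub, d0, d1, o0, o1, smul_eq_mul] at e0 e1
      have f0 : x = m := mul_right_cancel₀ h2 (by linear_combination e0)
      have f1 : y = -(m * k) := mul_right_cancel₀ h2 (by linear_combination e1)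
      simp [f0, f1, hk]
  rw [e, k1.elim id k2.2, k1.elim k2.1 id]
  simp

theorem cen2 {s : GL (Fin 5) F} (hs : s ∈ Q) : s * tR (a 2) (φ 2) = tR (a 2) (φ 2) * s := by
  obtain ⟨x, e⟩ := h.line hs
  rw [← mul_inv_eq_iff_eq_mul, conj_tR _ (h.dg 2),
    ((h.of.1 2).of_prop h.nt h.two ((h.of.1 2).conj hs) e).2.2]

theorem ne2 {b ψ : Fin 5 → F} (hr : Rt Q b ψ) (hb : InPl b (a 0) (a 1)) :
    tR b ψ ≠ tR (a 2) (φ 2) := fun e => by
  have := tR_mulVec hr.1 b
  rw [e, tR_mulVec (h.dg 2), h.dot_pl hb, hr.1, zero_smul, sub_left_inj, eq_comm,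
    smul_eq_zero] at this
  exact this.elim h.two (hr.ne_zero h.two)

theorem conj_pl {b ψ : Fin 5 → F} (hr : Rt Q b ψ) (hb : InPl b (a 0) (a 1)) {s : GL (Fin 5) F}
    (hs : s ∈ Q) : InPl ((s : Matrix (Fin 5) (Fin 5) F) *ᵥ b) (a 0) (a 1) := by
  refine (h.all _ _ (hr.conj hs)).resolve_right fun ⟨x, e⟩ => h.ne2 hr hb ?_
  have := ((h.of.1 2).of_prop h.nt h.two (hr.conj hs) e).2.2
  rwa [← conj_tR _ hr.1, mul_inv_eq_iff_eq_mul, ← h.cen2 hs, mul_right_inj] at this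

theorem le_cz : Q ≤ cz (cM a * fM φ) := fun s hs => by
  have p0 : InPl (a 0) (a 0) (a 1) := ⟨1, 0, by simp⟩
  have p1 : InPl (a 1) (a 0) (a 1) := ⟨0, 1, by simp⟩
  have e1 : cM a * fM φ * ((s : Matrix (Fin 5) (Fin 5) F) * (cM a * fM φ)) =
      (s : Matrix (Fin 5) (Fin 5) F) * (cM a * fM φ) := by
    rw [← Matrix.mul_assoc]
    conv_lhs => rw [cM_mul_fM (a := a), Matrix.mul_add, ← cM_mul_fM]
    simp only [Matrix.mul_smul, mul_vecMulVec, ← mulVec_mulVec]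
    rw [mulVec_mulVec _ (cM a), mulVec_mulVec _ (cM a), h.proj_pl (h.conj_pl (h.of.1 0) p0 hs),
      h.proj_pl (h.conj_pl (h.of.1 1) p1 hs), cM_mul_fM]
    simp only [Matrix.mul_add, Matrix.mul_smul, mul_vecMulVec]
  have e2 : cM a * fM φ * (s : Matrix (Fin 5) (Fin 5) F) * (cM a * fM φ) =
      cM a * fM φ * (s : Matrix (Fin 5) (Fin 5) F) := by
    have f0 := h.coproj ((h.of.1 0).conj (inv_mem hs)) (h.conj_pl (h.of.1 0) p0 (inv_mem hs))
    have f1 := h.coproj ((h.of.1 1).conj (inv_mem hs)) (h.conj_pl (h.of.1 1) p1 (inv_mem hs))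
    rw [inv_inv] at f0 f1
    generalize hE : cM a * fM φ = E at f0 f1
    nth_rewrite 1 [← hE]
    nth_rewrite 2 [← hE]
    simp only [cM_mul_fM, Matrix.add_mul, Matrix.smul_mul, vecMulVec_mul, f0, f1]
  change (s : Matrix (Fin 5) (Fin 5) F) * _ = _ * (s : Matrix (Fin 5) (Fin 5) F)
  rw [← e1, ← e2, Matrix.mul_assoc (cM a * fM φ)]

theorem exists_rest : ∃ (D : Matrix (Fin 5) (Fin 2) F) (Ψ : Matrix (Fin 2) (Fin 5) F), Ψ * D = 1 ∧
    cM a * fM φ + vecMulVec (a 2) ((1 / 2 : F) • φ 2) + D * Ψ = 1 := by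
  obtain ⟨D, Ψ, h1, h2⟩ := exists_compl (n := 2) (C := (Matrix.of a)ᵀ)
    (Φ := Matrix.of fun i => (1 / 2 : F) • φ i) (by
      ext i j
      simp only [Matrix.mul_apply, of_apply, transpose_apply, ← dotProduct.eq_1, smul_dotProduct]
      by_cases e : i = j
      · rw [e, h.dg, one_apply_eq, smul_eq_mul, one_div_mul_cancel h.two]
      · rw [h.od e, one_apply_ne e, smul_zero]) rfl
  refine ⟨D, Ψ, h1, ?_⟩
  rw [h2, cM_mul_fM, add_comm, sub_add_eq_add_sub, sub_eq_iff_eq_add, add_right_inj]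
  ext i j
  simp [Matrix.mul_apply, Fin.sum_univ_three, vecMulVec_apply, mul_left_comm]

end Tb

end TB

theorem w4b_of (hD : WDH.{u}) : W4b.{u} := by
  intro F _ _ P hP hS
  obtain ⟨S⟩ : Nonempty (Sylow 2 P) := inferInstance
  obtain ⟨a, φ, hO, ⟨k, hk, hw⟩, hall⟩ := hS S
  have h : Tb (sy S) a φ k := ⟨hP.two, fun g hg => hP.nt g (sy_le S hg), hO, hk, hw, hall⟩
  have h2 := hP.two
  obtain ⟨D, Ψ, hD1, hsum⟩ := h.exists_rest
  have hf : ((1 / 2 : F) • φ 2) ⬝ᵥ a 2 = 1 := by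
    rw [smul_dotProduct, h.dg, smul_eq_mul, one_div_mul_cancel h2]
  have hN : ∀ s ∈ sy S, (s : Matrix (Fin 5) (Fin 5) F) * vecMulVec (a 2) ((1 / 2 : F) • φ 2) =
      vecMulVec (a 2) ((1 / 2 : F) • φ 2) * (s : Matrix (Fin 5) (Fin 5) F) := fun s hs => by
    have := congrArg Units.val (h.cen2 hs)
    rw [Units.val_mul, Units.val_mul, tR_coe (h.dg 2), Matrix.mul_sub, Matrix.sub_mul,
      Matrix.mul_one, Matrix.one_mul, sub_left_inj] at this
    rw [vecMulVec_smul, Matrix.mul_smul, Matrix.smul_mul, this]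
  have hU : sy S ≤ cz (D * Ψ) := fun s hs => by
    change (s : Matrix (Fin 5) (Fin 5) F) * _ = _ * (s : Matrix (Fin 5) (Fin 5) F)
    have e : (s : Matrix (Fin 5) (Fin 5) F) * (cM a * fM φ) =
      cM a * fM φ * (s : Matrix (Fin 5) (Fin 5) F) := h.le_cz hs
    rw [eq_sub_of_add_eq' hsum, Matrix.mul_sub, Matrix.sub_mul, Matrix.mul_add, Matrix.add_mul, e,
      hN s hs, Matrix.mul_one, Matrix.one_mul]
  let A := (dn h.fc).comp (Subgroup.inclusion h.le_cz)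
  let B := (dn hD1).comp (Subgroup.inclusion hU)
  let l := (Units.coeHom F).comp (lineChar (sy S) hf fun s hs => h.line hs)
  have hA : ∀ s, (A s : Matrix (Fin 2) (Fin 2) F) =
    fM φ * ((s : GL (Fin 5) F) : Matrix (Fin 5) (Fin 5) F) * cM a := fun _ => rfl
  have hB : ∀ s, (B s : Matrix (Fin 2) (Fin 2) F) =
    Ψ * ((s : GL (Fin 5) F) : Matrix (Fin 5) (Fin 5) F) * D := fun _ => rfl
  have hl : ∀ s, l s = ((1 / 2 : F) • φ 2) ⬝ᵥ
    ((s : GL (Fin 5) F) : Matrix (Fin 5) (Fin 5) F) *ᵥ a 2 := fun _ => rfl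
  have blk : ∀ s : sy S, ((s : GL (Fin 5) F) : Matrix (Fin 5) (Fin 5) F) =
      cM a * (A s : Matrix (Fin 2) (Fin 2) F) * fM φ + l s • vecMulVec (a 2) ((1 / 2 : F) • φ 2) +
        D * (B s : Matrix (Fin 2) (Fin 2) F) * Ψ := fun s => by
    obtain ⟨x, e⟩ := h.line s.2
    rw [hA, hB, hl, ← mul_proj h.fc (h.le_cz s.2), ← mul_proj hD1 (hU s.2), e, dotProduct_smul, hf,
      smul_eq_mul, mul_one, ← smul_vecMulVec, ← e, ← mul_vecMulVec, ← Matrix.mul_add,
      ← Matrix.mul_add, hsum, Matrix.mul_one]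
  have trs : ∀ s : sy S, tr5 (s : GL (Fin 5) F) = Rb.tr2 (A s) + l s + Rb.tr2 (B s) := fun s => by
    rw [tr5, blk, trace_add, trace_add, trace_mul_cycle, h.fc, trace_mul_cycle D, hD1,
      Matrix.one_mul, Matrix.one_mul, trace_smul, trace_vecMulVec, dotProduct_comm, hf, smul_eq_mul,
      mul_one]
    rfl
  have hΨ : ∀ v, (cM a * fM φ) *ᵥ v + (((1 / 2 : F) • φ 2) ⬝ᵥ v) • a 2 = v → Ψ *ᵥ v = 0 :=
    fun v hv => by
      have := congrArg (· *ᵥ v) hsum
      simp only [add_mulVec, vecMulVec_mulVec, op_smul_eq_smul, hv, one_mulVec, add_eq_left] at this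
      rw [← Matrix.one_mul Ψ, ← hD1, Matrix.mul_assoc, ← mulVec_mulVec, this, mulVec_zero]
  have f2 : fM φ *ᵥ a 2 = 0 := by
    rw [fM_mulVec, h.od (i := 0) (j := 2), h.od (i := 1) (j := 2)]; simp
  have hB1 : ∀ {b ψ} (hr : Rt (sy S) b ψ), B ⟨_, hr.2⟩ = -1 := fun {b ψ} hr => Units.ext (by
    rw [hB, dn_tR hD1 hr.1, hΨ b, zero_vecMulVec, zero_sub, Units.val_neg, Units.val_one]
    rcases hall b ψ hr with e | ⟨x, rfl⟩
    · rw [h.proj_pl e, smul_dotProduct, h.dot_pl e, smul_zero, zero_smul, add_zero]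
    · rw [dotProduct_smul, hf, mulVec_smul, ← mulVec_mulVec, f2]; simp)
  have p0 : InPl (a 0) (a 0) (a 1) := ⟨1, 0, by simp⟩
  have p1 : InPl (a 0 - k • a 1) (a 0) (a 1) := ⟨1, -k, by module⟩
  refine Rb.Cb.false (P := P) (R := fun r => ∃ b ψ, Rt P b ψ ∧ r = tR b ψ) (tr := tr5) (A := A)
    (B := B) (l := l) (t₀ := ⟨_, (hO.1 0).2⟩) (t₁ := ⟨_, hw.2⟩) (t₂ := ⟨_, (hO.1 2).2⟩)
    { two := h2
      le := sy_le S
      pg := isPGroup_sy S
      ext := fun s s' e1 e2 e3 => Subtype.ext (Units.ext (by rw [blk, blk, e1, e2, e3]))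
      trc := tr5_conj
      trs := trs
      rc := fun g hg r ⟨b, ψ, hb, e⟩ => ⟨_, _, hb.conj hg, e ▸ conj_tR g hb.1⟩
      rsq := fun r ⟨b, ψ, _, e⟩ => e ▸ tR_mul_self b ψ
      ty := ?_
      r0 := ⟨_, _, (hO.1 0).mono (sy_le S), rfl⟩
      r1 := ⟨_, _, hw.mono (sy_le S), rfl⟩
      r2 := ⟨_, _, (hO.1 2).mono (sy_le S), rfl⟩
      a2 := Units.ext (by
        rw [hA, dn_tR h.fc (h.dg 2), f2, zero_vecMulVec, zero_sub, Units.val_neg, Units.val_one])
      l2 := by rw [hl, tR_mulVec (h.dg 2), h.dg, two_smul, add_sub_cancel_right, hf]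
      b2 := hB1 (hO.1 2)
      n0 := fun e => h.ne2 (hO.1 0) p0 (congrArg Subtype.val e)
      n1 := fun e => h.ne2 hw p1 (congrArg Subtype.val e)
      anti := ?_
      syl := fun z hz r ⟨b, ψ, hb, e⟩ hc => exists_cent_conj S
        (fun s hs => congrArg Subtype.val (hz ⟨s, hs⟩)) (e ▸ hb.2) (e ▸ tR_mul_self b ψ) hc
      zs := fun z hz ht => exists_conj_ne hP.qs S z.2 (congrArg Subtype.val hz) fun hs => ?_
      tf := fun Q _ χ τ hχ => by_contra fun hτ => no_char hP.qs S χ (sy_le S (hO.1 2).2)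
        (tR_mul_self _ _) (tR_ne_one h2 (h.dg 2)) hτ fun g hg m =>
          hχ _ ⟨_, _, ((hO.1 2).mono (sy_le S)).conj hg, conj_tR g (h.dg 2)⟩ } hD
  · rintro ⟨_, hs⟩ ⟨b, ψ, hb, rfl⟩
    have hr : Rt (sy S) b ψ := ⟨hb.1, hs⟩
    rcases hall b ψ hr with e | ⟨x, e⟩
    · have e1 : l ⟨_, hs⟩ = -1 := by
        rw [hl, tR_mulVec hb.1, dotProduct_sub, hf, dotProduct_smul, smul_dotProduct, h.dot_pl e]
        simp
      have e2 := trs ⟨_, hs⟩
      rw [e1, hB1 hr, Rb.tr2_neg, Rb.tr2_one, tr5, tR_coe hb.1, trace_sub, trace_vecMulVec,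
        dotProduct_comm, hb.1, trace_one, Fintype.card_fin] at e2
      exact .inr ⟨by push_cast at e2; linear_combination -e2, e1, hB1 hr⟩
    · exact .inl (Subtype.ext ((hO.1 2).of_prop h.nt h2 hr e).2.2)
  · apply Units.ext
    simp only [Units.val_neg, Units.val_mul, hA, dn_tR h.fc (h.dg 0), dn_tR h.fc hw.1, fM_mulVec,
      vecMul_cM, dotProduct_sub, sub_dotProduct, dotProduct_smul, smul_dotProduct, h.dg,
      h.od (i := 0) (j := 1), h.od (i := 1) (j := 0)]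
    ext i j
    fin_cases i <;> fin_cases j <;> simp [Matrix.mul_apply, h2] <;> field_simp <;>
      ring
  · obtain ⟨c, e⟩ := (mem_scalars_iff' _).1 hs
    have e5 := congrArg Units.val
      (pow_card_eq_one_of_scalar hs (hP.qs.le_specialLinear (sy_le S z.2)))
    have e2 := congrArg (fun x : sy S => ((x : GL (Fin 5) F) : Matrix (Fin 5) (Fin 5) F) 0 0) hz
    rw [tr5, e] at ht
    simp only [Units.val_pow_eq_pow_val, e, Fintype.card_fin, _root_.smul_pow, one_pow,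
      Units.val_one] at e5
    have e6 : c ^ 5 = 1 := by simpa using congrFun (congrFun e5 0) 0
    have e3 : c * c = 1 := by simpa [e] using e2
    have e4 : c * 5 = 1 := by simpa using ht
    have e7 : c = 1 := by linear_combination e6 - (c ^ 3 + c) * e3
    exact mul_ne_zero h2 h2 (by linear_combination e4 - 5 * e7)

end Cfsg.Lib.Five
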