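import Cfsg.Agent.Class.Five.RBase

/-!
# A plane and a line of roots: the group theoretic core
-/

set_option autoImplicit false

namespace Cfsg.Lib.Five.Rb

open Matrix
open scoped MatrixGroups

universe u

section Two

variable {F : Type*} [Field F]

theorem lin_of_comm (h2 : (2 : F) ≠ 0) {X Y : Matrix (Fin 2) (Fin 2) F} (hX : X.trace = 0)
    (h0 : X ≠ 0) (h : X * Y = Y * X) : ∃ x y : F, Y = x • 1 + y • X := by
  have e := fun i j => congrFun (congrFun h i) j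
  have e00 := e 0 0
  have e01 := e 0 1
  have e10 := e 1 0
  simp only [Matrix.mul_apply, Fin.sum_univ_two] at e00 e01 e10
  rw [trace_fin_two] at hX
  have hd : X 1 1 = -X 0 0 := by linear_combination hX
  rw [hd] at e01 e10
  by_cases ha : X 0 0 = 0
  · by_cases hb : X 0 1 = 0
    · have hc : X 1 0 ≠ 0 := fun hc => h0 (by
        ext i j; fin_cases i <;> fin_cases j <;> simp [ha, hb, hc, hd])
      refine ⟨(Y 0 0 + Y 1 1) / 2, Y 1 0 / X 1 0, ?_⟩
      ext i j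
      fin_cases i <;> fin_cases j <;> simp [hd] <;> field_simp
      · linear_combination e10
      · linear_combination -e00
      · linear_combination -e10
    · refine ⟨(Y 0 0 + Y 1 1) / 2, Y 0 1 / X 0 1, ?_⟩
      ext i j
      fin_cases i <;> fin_cases j <;> simp [hd] <;> field_simp
      · linear_combination -e01
      · linear_combination e00
      · linear_combination e01
  · refine ⟨(Y 0 0 + Y 1 1) / 2, (Y 0 0 - Y 1 1) / (2 * X 0 0), ?_⟩
    ext i j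
    fin_cases i <;> fin_cases j <;> simp [hd] <;> field_simp
    · ring
    · linear_combination e01
    · linear_combination -e10
    · ring

/-- The trace in dimension two. -/
def tr2 (X : GL (Fin 2) F) : F := (X : Matrix (Fin 2) (Fin 2) F).trace

theorem tr2_one : tr2 (1 : GL (Fin 2) F) = 2 := by simp [tr2]

theorem tr2_neg (X : GL (Fin 2) F) : tr2 (-X) = -tr2 X := by simp [tr2]

theorem tr2_comm (X Y : GL (Fin 2) F) : tr2 (X * Y) = tr2 (Y * X) := by
  simp only [tr2, Units.val_mul]; exact trace_mul_comm _ _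

theorem tr2_conj (Y X : GL (Fin 2) F) : tr2 (Y * X * Y⁻¹) = tr2 X := by
  rw [tr2_comm, inv_mul_cancel_left]

theorem pm_of_smul {X Y : GL (Fin 2) F} {y : F}
    (e : (Y : Matrix (Fin 2) (Fin 2) F) = y • (X : Matrix (Fin 2) (Fin 2) F)) (hX : X * X = 1)
    (hY : Y * Y = 1) : Y = X ∨ Y = -X := by
  have h1 := congrArg Units.val hY
  have h3 := congrArg Units.val hX
  rw [Units.val_mul] at h1 h3
  rw [e, Matrix.smul_mul, Matrix.mul_smul, h3, smul_smul] at h1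
  have h4 : y * y = 1 := by simpa using congrFun (congrFun h1 0) 0
  rcases mul_self_eq_one_iff.1 h4 with rfl | rfl
  · exact .inl (Units.ext (by simpa using e))
  · exact .inr (Units.ext (by simpa using e))

theorem invol_cases {X : GL (Fin 2) F} (hX : X * X = 1) : X = 1 ∨ X = -1 ∨ tr2 X = 0 := by
  by_cases h : tr2 X = 0
  · exact .inr (.inr h)
  have h3 := congrArg Units.val hX
  rw [Units.val_mul, Units.val_one] at h3
  have e := fun i j => congrFun (congrFun h3 i) j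
  have e00 := e 0 0
  have e01 := e 0 1
  have e10 := e 1 0
  have e11 := e 1 1
  simp only [Matrix.mul_apply, Fin.sum_univ_two, one_apply_eq, ne_eq, zero_ne_one, one_ne_zero,
    not_false_eq_true, one_apply_ne] at e00 e01 e10 e11
  rw [tr2, trace_fin_two] at h
  have := pm_of_smul (X := 1) (Y := X) (y := (X : Matrix (Fin 2) (Fin 2) F) 0 0) (by
    ext i j
    fin_cases i <;> fin_cases j <;> simp
    · exact (mul_eq_zero.1 (by linear_combination e01)).resolve_left h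
    · exact (mul_eq_zero.1 (by linear_combination e10)).resolve_left h
    · exact mul_left_cancel₀ h (by linear_combination e11 - e00)) (one_mul 1) hX
  exact this.imp_right .inl

theorem smul_of_comm (h2 : (2 : F) ≠ 0) {X Y : GL (Fin 2) F} (hX : tr2 X = 0) (hY : tr2 Y = 0)
    (h : X * Y = Y * X) :
    ∃ y : F, (Y : Matrix (Fin 2) (Fin 2) F) = y • (X : Matrix (Fin 2) (Fin 2) F) := by
  obtain ⟨x, y, e⟩ := lin_of_comm h2 hX X.ne_zero (congrArg Units.val h)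
  have : x * 2 = 0 := by
    rw [tr2] at hX
    rw [tr2, e, trace_add, trace_smul, trace_smul, hX] at hY
    simpa using hY
  exact ⟨y, by rw [e, (mul_eq_zero.1 this).resolve_right h2, zero_smul, zero_add]⟩

theorem comm_of_comm (h2 : (2 : F) ≠ 0) {X Y Z : GL (Fin 2) F} (hX : tr2 X = 0)
    (hY : X * Y = Y * X) (hZ : X * Z = Z * X) : Y * Z = Z * Y := by
  obtain ⟨x, y, e⟩ := lin_of_comm h2 hX X.ne_zero (congrArg Units.val hY)
  have h : (X : Matrix (Fin 2) (Fin 2) F) * Z = Z * X := congrArg Units.val hZ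
  apply Units.ext
  simp only [Units.val_mul, e, Matrix.add_mul, Matrix.mul_add, Matrix.smul_mul, Matrix.mul_smul,
    h, Matrix.one_mul, Matrix.mul_one]

theorem mk_eq_iff {X Y : GL (Fin 2) F} : ProjGenLinGroup.mk X = ProjGenLinGroup.mk Y ↔
    ∃ y : F, (Y : Matrix (Fin 2) (Fin 2) F) = y • (X : Matrix (Fin 2) (Fin 2) F) := by
  rw [ProjGenLinGroup.mk_eq_mk_iff]
  have k : ∀ u : Fˣ, ((X * GeneralLinearGroup.scalar (Fin 2) u : GL (Fin 2) F) :
      Matrix (Fin 2) (Fin 2) F) = (u : F) • (X : Matrix (Fin 2) (Fin 2) F) := fun u => by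
    ext i j
    simp [Matrix.mul_apply, diagonal_apply, mul_comm]
  refine ⟨fun ⟨u, e⟩ => ⟨u, e ▸ k u⟩, fun ⟨y, e⟩ => ⟨Units.mk0 y fun h => ?_, Units.ext ?_⟩⟩
  · exact Y.ne_zero (by rw [e, h, zero_smul])
  · rw [k]; exact e.symm

theorem mk_neg (X : GL (Fin 2) F) : ProjGenLinGroup.mk (-X) = ProjGenLinGroup.mk X :=
  mk_eq_iff.2 ⟨-1, by simp⟩

theorem mk_ne_one (h2 : (2 : F) ≠ 0) {X : GL (Fin 2) F} (hX : tr2 X = 0) :
    ProjGenLinGroup.mk X ≠ 1 := fun h => by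
  obtain ⟨y, e⟩ := mk_eq_iff.1 ((map_one ProjGenLinGroup.mk).trans h.symm)
  have : y * 2 = 0 := by simpa [tr2, e] using hX
  exact X.ne_zero (by rw [e, (mul_eq_zero.1 this).resolve_right h2, zero_smul])

theorem pm_of_mk {X Y : GL (Fin 2) F} (e : ProjGenLinGroup.mk X = ProjGenLinGroup.mk Y)
    (hX : X * X = 1) (hY : Y * Y = 1) : Y = X ∨ Y = -X :=
  (mk_eq_iff.1 e).elim fun _ k => pm_of_smul k hX hY

end Two

/-- The block structure of a Sylow subgroup whose roots fill a plane and a line. -/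
structure Cb {Γ : Type*} [Group Γ] {F : Type u} [Field F] (P S : Subgroup Γ) (R : Γ → Prop)
    (tr : Γ → F) (A B : S →* GL (Fin 2) F) (l : S →* F) (t₀ t₁ t₂ : S) : Prop where
  two : (2 : F) ≠ 0
  le : S ≤ P
  pg : IsPGroup 2 S
  ext : ∀ s s', A s = A s' → l s = l s' → B s = B s' → s = s'
  trc : ∀ g x, tr (g * x * g⁻¹) = tr x
  trs : ∀ s : S, tr s = tr2 (A s) + l s + tr2 (B s)
  rc : ∀ g ∈ P, ∀ r, R r → R (g * r * g⁻¹)
  rsq : ∀ r, R r → r * r = 1
  ty : ∀ s : S, R s → s = t₂ ∨ (tr2 (A s) = 0 ∧ l s = -1 ∧ B s = -1)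
  r0 : R t₀
  r1 : R t₁
  r2 : R t₂
  a2 : A t₂ = -1
  l2 : l t₂ = 1
  b2 : B t₂ = -1
  n0 : t₀ ≠ t₂
  n1 : t₁ ≠ t₂
  anti : A t₀ * A t₁ = -(A t₁ * A t₀)
  syl : ∀ z : S, (∀ s : S, s * z = z * s) → ∀ r, R r → r * z = z * r →
    ∃ c ∈ P, c * z = z * c ∧ c * r * c⁻¹ ∈ S
  zs : ∀ z : S, z * z = 1 → tr z = 1 → ∃ g ∈ P, g * z * g⁻¹ ∈ S ∧ g * z * g⁻¹ ≠ z
  tf : ∀ (Q : Type u) [CommGroup Q] (χ : S →* Q) (τ : Q), (∀ s : S, R s → χ s = τ) → τ = 1

namespace Cb

local notation "pm" => ProjGenLinGroup.mk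

variable {Γ : Type*} [Group Γ] {F : Type u} [Field F] {P S : Subgroup Γ} {R : Γ → Prop}
  {tr : Γ → F} {A B : S →* GL (Fin 2) F} {l : S →* F} {t₀ t₁ t₂ : S}
  (c : Cb P S R tr A B l t₀ t₁ t₂)
include c

theorem four : (4 : F) ≠ 0 := by
  rw [show (4 : F) = 2 * 2 by norm_num]; exact mul_ne_zero c.two c.two

theorem comm {s s' : S} (hA : A s * A s' = A s' * A s) (hB : B s * B s' = B s' * B s) :
    s * s' = s' * s :=
  c.ext _ _ (by simpa using hA) (by simp [mul_comm]) (by simpa using hB)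

theorem sq {s : S} (h : R s) : s * s = 1 := Subtype.ext (c.rsq _ h)

theorem ty0 : tr2 (A t₀) = 0 ∧ l t₀ = -1 ∧ B t₀ = -1 := (c.ty _ c.r0).resolve_left c.n0

theorem ty1 : tr2 (A t₁) = 0 ∧ l t₁ = -1 ∧ B t₁ = -1 := (c.ty _ c.r1).resolve_left c.n1

/-- The involution that is minus one on the plane of roots. -/
theorem exists_y : ∃ y : S, A y = -1 ∧ l y = 1 ∧ B y = 1 := by
  have h0 : A t₀ * A t₀ = 1 := by rw [← map_mul, c.sq c.r0, map_one]
  have h1 : A t₁ * A t₁ = 1 := by rw [← map_mul, c.sq c.r1, map_one]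
  refine ⟨t₀ * t₁ * (t₁ * t₀)⁻¹, ?_, ?_, ?_⟩
  · rw [map_mul, map_inv, map_mul, map_mul, c.anti, neg_mul, mul_inv_cancel]
  · rw [← inv_eq_of_mul_eq_one_right (a := (t₁ * t₀)⁻¹) (b := t₁ * t₀) (inv_mul_cancel _), inv_inv,
      _root_.mul_inv_rev, inv_eq_of_mul_eq_one_right (c.sq c.r0),
      inv_eq_of_mul_eq_one_right (c.sq c.r1)]
    simp [c.ty0.2.1, c.ty1.2.1]
  · simp [c.ty0.2.2, c.ty1.2.2]

variable {y z : S} (ay : A y = -1) (ly : l y = 1) (by' : B y = 1)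
  (az : A z = 1) (lz : l z = 1) (bz : B z = -1)

include az bz in
theorem cen (s : S) : s * z = z * s := c.comm (by simp [az]) (by simp [bz])

include az bz in
/-- A conjugate of `z` and a commuting root involution can be moved to `z` and into `S`. -/
theorem red {w r : Γ} (hw : ∃ g ∈ P, w = g * z * g⁻¹) (hr : R r) (h : r * w = w * r) :
    ∃ g ∈ P, ∃ s : S, R s ∧ w = g * z * g⁻¹ ∧ r = g * s * g⁻¹ := by
  obtain ⟨g, hg, rfl⟩ := hw
  obtain ⟨k, hk, e, m⟩ := c.syl z (c.cen az bz) _ (c.rc _ (inv_mem hg) _ hr) (by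
    calc g⁻¹ * r * g⁻¹⁻¹ * z = g⁻¹ * (r * (g * z * g⁻¹)) * g := by group
      _ = z * (g⁻¹ * r * g⁻¹⁻¹) := by rw [h]; group)
  refine ⟨g * k⁻¹, mul_mem hg (inv_mem hk), ⟨_, m⟩, c.rc _ hk _ (c.rc _ (inv_mem hg) _ hr), ?_, ?_⟩
  · calc g * z * g⁻¹ = g * k⁻¹ * (k * z) * g⁻¹ := by group
      _ = _ := by rw [e]; group
  · simp only; group

include az lz bz in
theorem nr {w r : Γ} (hw : ∃ g ∈ P, w = g * z * g⁻¹) (hr : R r) (h : r * w = w * r) :
    tr (w * r) = 1 := by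
  obtain ⟨g, -, s, hs, rfl, rfl⟩ := c.red az bz hw hr h
  rw [show g * z * g⁻¹ * (g * s * g⁻¹) = g * (z * s : S) * g⁻¹ by push_cast; group, c.trc, c.trs]
  rcases c.ty s hs with rfl | ⟨h1, h2, h3⟩
  · simp only [map_mul, az, lz, bz, c.a2, c.l2, c.b2, one_mul, neg_mul_neg, tr2_neg, tr2_one]
    ring
  · simp only [map_mul, az, lz, bz, h1, h2, h3, one_mul, neg_mul_neg, tr2_one]
    ring

include az lz bz in
theorem nr' {w r : S} (hw : ∃ g ∈ P, (w : Γ) = g * z * g⁻¹) (hr : R r) (h : r * w = w * r) :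
    tr2 (A w * A r) + l w * l r + tr2 (B w * B r) = 1 := by
  have := c.nr az lz bz hw hr (congrArg Subtype.val h)
  rwa [← Subgroup.coe_mul, c.trs, map_mul, map_mul, map_mul] at this

include az lz bz in
theorem key {w r : Γ} (hw : ∃ g ∈ P, w = g * z * g⁻¹) (hr : R r) (h : r * w = w * r) :
    ¬ ∃ g ∈ P, w * r = g * z * g⁻¹ := by
  obtain ⟨g, hg, s, hs, rfl, rfl⟩ := c.red az bz hw hr h
  rintro ⟨k, hk, e⟩
  have e' : ∃ k ∈ P, ((z * s : S) : Γ) = k * z * k⁻¹ := ⟨g⁻¹ * k, mul_mem (inv_mem hg) hk, by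
    calc ((z * s : S) : Γ) = g⁻¹ * (g * z * g⁻¹ * (g * s * g⁻¹)) * g := by push_cast; group
      _ = _ := by rw [e]; group⟩
  apply c.four
  rcases c.ty s hs with rfl | ⟨h1, h2, h3⟩
  · have := c.nr' az lz bz e' c.r0 (c.comm (by simp [az, c.a2]) (by simp [c.ty0.2.2]))
    simp only [map_mul, az, lz, bz, c.a2, c.l2, c.b2, one_mul, neg_mul, tr2_neg, tr2_one, neg_neg,
      c.ty0.1, c.ty0.2.1, c.ty0.2.2] at this
    linear_combination -this
  · have := c.nr' az lz bz e' c.r2 (c.comm (by simp [c.a2]) (by simp [c.b2]))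
    simp only [map_mul, az, lz, bz, c.a2, c.l2, c.b2, one_mul, mul_neg, mul_one, tr2_neg, tr2_one,
      neg_neg, h1, h2, h3] at this
    linear_combination -this

include az lz bz in
theorem typ {w : S} (hw : ∃ g ∈ P, (w : Γ) = g * z * g⁻¹) (hne : w ≠ z) :
    w * w = 1 ∧ tr2 (A w) = 0 ∧ l w = 1 ∧ tr2 (B w) = 0 := by
  have hz : z * z = 1 := c.ext _ _ (by simp [az]) (by simp [lz]) (by simp [bz])
  have h1 : w * w = 1 := Subtype.ext (by
    obtain ⟨g, -, e⟩ := hw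
    calc (w : Γ) * w = g * (z * z : S) * g⁻¹ := by rw [e]; push_cast; group
      _ = 1 := by rw [hz]; simp)
  have h2 : tr2 (A w) + l w + tr2 (B w) = 1 := by
    obtain ⟨g, -, e⟩ := hw
    rw [← c.trs, e, c.trc, c.trs, az, lz, bz, tr2_neg, tr2_one]
    ring
  have h3 := c.nr' az lz bz hw c.r2 (c.comm (by simp [c.a2]) (by simp [c.b2]))
  simp only [c.a2, c.l2, c.b2, mul_neg, mul_one, tr2_neg] at h3
  have h4 : l w = 1 := mul_left_cancel₀ c.two (by linear_combination h2 + h3)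
  have h5 : tr2 (A w) + tr2 (B w) = 0 := by linear_combination h2 - h4
  suffices h : tr2 (A w) = 0 from ⟨h1, h, h4, by linear_combination h5 - h⟩
  rcases invol_cases (X := A w) (by rw [← map_mul, h1, map_one]) with h | h | h
  · exfalso
    rw [h, tr2_one] at h5
    rcases invol_cases (X := B w) (by rw [← map_mul, h1, map_one]) with k | k | k
    · rw [k, tr2_one] at h5
      exact c.four (by linear_combination h5)
    · exact hne (c.ext _ _ (h.trans az.symm) (h4.trans lz.symm) (k.trans bz.symm))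
    · exact c.two (by linear_combination h5 - k)
  · exfalso
    have := c.nr' az lz bz hw c.r0 (c.comm (by simp [h]) (by simp [c.ty0.2.2]))
    simp only [h, h4, neg_mul, one_mul, mul_neg, mul_one, tr2_neg, tr2_one,
      c.ty0.1, c.ty0.2.1, c.ty0.2.2] at this h5
    exact c.four (by linear_combination -this - h5)
  · exact h

theorem a_sq {w : S} (h : w * w = 1) : A w * A w = 1 := by rw [← map_mul, h, map_one]

include ay ly by' az lz bz in
theorem swap {w d : S} (hw : ∃ g ∈ P, (w : Γ) = g * z * g⁻¹) (hne : w ≠ z) (h1 : tr2 (A d) = 0)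
    (h2 : B d = 1 ∨ B d = -1) (h3 : pm (A d) * pm (A w) = pm (A w) * pm (A d))
    (h4 : pm (A w) ≠ pm (A d)) : ∃ g ∈ P, ((w * y : S) : Γ) = g * z * g⁻¹ := by
  obtain ⟨k1, k2, k3, k4⟩ := c.typ az lz bz hw hne
  have e : pm (A w) = pm (A (d * w * d⁻¹)) := by
    simp only [map_mul, map_inv]; rw [h3, mul_inv_cancel_right]
  rcases pm_of_mk e (c.a_sq k1) (c.a_sq (by rw [conj_mul, k1]; simp)) with k | k
  · rw [map_mul, map_mul, map_inv, mul_inv_eq_iff_eq_mul] at k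
    exact absurd (mk_eq_iff.2 (smul_of_comm c.two k2 h1 k.symm)) h4
  have : w * y = d * w * d⁻¹ := c.ext _ _ (by rw [k]; simp [ay])
    (by rw [map_mul, map_mul, map_mul, k3, ly, mul_one, mul_one, ← map_mul, mul_inv_cancel, map_one])
    (by rcases h2 with h | h <;> simp [by', h])
  obtain ⟨g, hg, f⟩ := hw
  exact ⟨d * g, mul_mem (c.le d.2) hg, by rw [this]; push_cast; rw [f]; group⟩

include ay ly by' az lz bz in
theorem ne_root {w r : S} (hw : ∃ g ∈ P, (w : Γ) = g * z * g⁻¹) (hne : w ≠ z)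
    (hy : ∃ g ∈ P, ((w * y : S) : Γ) = g * z * g⁻¹) (hr : R r) (h : r ≠ t₂) :
    pm (A w) ≠ pm (A r) := fun e => by
  obtain ⟨k1, -, k3, k4⟩ := c.typ az lz bz hw hne
  obtain ⟨-, j2, j3⟩ := (c.ty r hr).resolve_left h
  apply c.four
  rcases pm_of_mk e (c.a_sq k1) (c.a_sq (c.sq hr)) with k | k
  · have := c.nr' az lz bz hy hr (c.comm (by simp [k, ay]) (by simp [j3]))
    simp only [map_mul, ay, ly, by', k, k3, j2, j3, mul_neg, mul_one, neg_mul, c.a_sq k1, tr2_neg,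
      tr2_one, k4] at this
    linear_combination -this
  · have := c.nr' az lz bz hw hr (c.comm (by simp [k]) (by simp [j3]))
    simp only [k, k3, j2, j3, mul_neg, mul_one, c.a_sq k1, tr2_neg, tr2_one, k4] at this
    linear_combination -this

include ay ly by' az lz bz in
theorem ne_neg {w w' : S} (hw : ∃ g ∈ P, (w : Γ) = g * z * g⁻¹) (hne : w ≠ z)
    (hy : ∃ g ∈ P, ((w * y : S) : Γ) = g * z * g⁻¹) (hw' : ∃ g ∈ P, (w' : Γ) = g * z * g⁻¹)
    (hne' : w' ≠ z) (h : B w' = -B w) : pm (A w) ≠ pm (A w') := fun e => by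
  obtain ⟨k1, -, k3, -⟩ := c.typ az lz bz hw hne
  obtain ⟨j1, -, j3, -⟩ := c.typ az lz bz hw' hne'
  have hc : ∀ s : S, (t₂ : Γ) * s = s * t₂ := fun s =>
    congrArg Subtype.val (c.comm (s := t₂) (s' := s) (by simp [c.a2]) (by simp [c.b2]))
  rcases pm_of_mk e (c.a_sq k1) (c.a_sq j1) with k | k
  · refine c.key az lz bz hy c.r2 (hc _) ?_
    rwa [← Subgroup.coe_mul, c.ext (w * y * t₂) w' (by simp [ay, c.a2, k])
      (by simp [ly, c.l2, k3, j3]) (by simp [by', c.b2, h])]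
  · refine c.key az lz bz hw c.r2 (hc _) ?_
    rwa [← Subgroup.coe_mul, c.ext (w * t₂) w' (by simp [c.a2, k])
      (by simp [c.l2, k3, j3]) (by simp [c.b2, h])]

theorem false [Fintype F] [Finite S] (hD : WDH.{u}) : False := by
  obtain ⟨y, ay, ly, by'⟩ := c.exists_y
  have az : A (y * t₂) = 1 := by simp [ay, c.a2]
  have lz : l (y * t₂) = 1 := by simp [ly, c.l2]
  have bz : B (y * t₂) = -1 := by simp [by', c.b2]
  generalize y * t₂ = z at az lz bz
  let ρ : S →* PGL(2, F) := ProjGenLinGroup.mk.comp A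
  have hρ : ∀ s, ρ s = pm (A s) := fun _ => rfl
  obtain ⟨c₀, hc, hT⟩ := hD F c.two ρ.range (c.pg.of_surjective _ ρ.rangeRestrict_surjective)
  replace hc : ∀ s, ρ s * c₀ = c₀ * ρ s := fun s => hc _ ⟨s, rfl⟩
  have sq : ∀ {s : S}, s * s = 1 → ρ s * ρ s = 1 := fun h => by rw [← map_mul, h, map_one]
  have h01 : ρ t₀ * ρ t₁ = ρ t₁ * ρ t₀ := by
    simp only [hρ]; rw [← map_mul, c.anti, mk_neg, map_mul]
  have t01 : tr2 (A (t₀ * t₁)) = 0 := by
    have := congrArg tr2 c.anti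
    rw [tr2_neg, tr2_comm (A t₁)] at this
    exact mul_left_cancel₀ c.two (by rw [map_mul]; linear_combination this)
  have n0 : ρ t₀ ≠ 1 := mk_ne_one c.two c.ty0.1
  have n1 : ρ t₁ ≠ 1 := mk_ne_one c.two c.ty1.1
  have n2 : ρ t₀ * ρ t₁ ≠ 1 := map_mul ρ t₀ t₁ ▸ mk_ne_one c.two t01
  have n01 : ρ t₀ ≠ ρ t₁ := fun e => n2 (by rw [e, sq (c.sq c.r1)])
  obtain ⟨d, d1, d2, d3⟩ : ∃ d : S, tr2 (A d) = 0 ∧ (B d = 1 ∨ B d = -1) ∧ ρ d = c₀ := by
    by_contra hn
    push Not at hn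
    let T := ρ.range ⊓ (Subgroup.centralizer {ρ t₀} ⊓ Subgroup.centralizer {ρ t₁})
    have m0 : ρ t₀ ∈ T := ⟨⟨_, rfl⟩, by simp [Subgroup.mem_centralizer_singleton_iff, h01]⟩
    have m1 : ρ t₁ ∈ T := ⟨⟨_, rfl⟩, by simp [Subgroup.mem_centralizer_singleton_iff, h01]⟩
    obtain ⟨k, ⟨-, k0, k1⟩, e⟩ := hT T inf_le_left _ m0 _ m1 _ (mul_mem m0 m1) (sq (c.sq c.r0))
      (sq (c.sq c.r1)) (by
        calc _ = ρ t₀ * (ρ t₁ * ρ t₀) * ρ t₁ := by group
          _ = (ρ t₀ * ρ t₀) * (ρ t₁ * ρ t₁) := by rw [← h01]; group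
          _ = 1 := by rw [sq (c.sq c.r0), sq (c.sq c.r1), one_mul])
      n0 n1 n2 (hn _ c.ty0.1 (.inr c.ty0.2.2)) (hn _ c.ty1.1 (.inr c.ty1.2.2))
      (map_mul ρ t₀ t₁ ▸ hn _ t01 (.inl (by simp [c.ty0.2.2, c.ty1.2.2])))
    rw [Subgroup.mem_centralizer_singleton_iff.1 k0, Subgroup.mem_centralizer_singleton_iff.1 k1,
      mul_inv_cancel_right, mul_inv_cancel_right] at e
    rcases e with e | e | e
    exacts [n01 e, n1 (by simpa using e), n0 (by simpa using e)]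
  have hy : ∀ w : S, (∃ g ∈ P, (w : Γ) = g * z * g⁻¹) → w ≠ z →
      ∃ g ∈ P, ((w * y : S) : Γ) = g * z * g⁻¹ := fun w hw hne => by
    by_cases h : ρ w = c₀
    · by_cases h' : ρ w = ρ t₀
      · exact c.swap ay ly by' az lz bz hw hne c.ty1.1 (.inr c.ty1.2.2)
          (by rw [← hρ, ← hρ, h, hc]) fun e => n01 (h'.symm.trans e)
      · exact c.swap ay ly by' az lz bz hw hne c.ty0.1 (.inr c.ty0.2.2)
          (by rw [← hρ, ← hρ, h, hc]) h'
    · exact c.swap ay ly by' az lz bz hw hne d1 d2 (by rw [← hρ, ← hρ, d3, hc]) fun e =>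
        h (e.trans d3)
  have hcj : ∀ w k : S, (∃ g ∈ P, (w : Γ) = g * z * g⁻¹) → w ≠ z →
      (∃ g ∈ P, ((k * w * k⁻¹ : S) : Γ) = g * z * g⁻¹) ∧ k * w * k⁻¹ ≠ z :=
    fun w k ⟨g, hg, e⟩ hne => ⟨⟨k * g, mul_mem (c.le k.2) hg, by push_cast; rw [e]; group⟩,
      fun e => hne (by rwa [mul_inv_eq_iff_eq_mul, ← c.cen az bz k, mul_right_inj] at e)⟩
  obtain ⟨g, hg, hm, hne⟩ := c.zs z (c.ext _ _ (by simp [az]) (by simp [lz]) (by simp [bz]))
    (by rw [c.trs, az, lz, bz, tr2_neg, tr2_one]; ring)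
  obtain ⟨w, hw, hne⟩ : ∃ w : S, (∃ g ∈ P, (w : Γ) = g * z * g⁻¹) ∧ w ≠ z :=
    ⟨⟨_, hm⟩, ⟨g, hg, rfl⟩, fun e => hne (congrArg Subtype.val e)⟩
  obtain ⟨k1, k2, -, k4⟩ := c.typ az lz bz hw hne
  have hB : ∀ s : S, R s → B s = -1 := fun s hs => (c.ty s hs).elim (fun e => e ▸ c.b2) (·.2.2)
  let Q := Subgroup.centralizer {B w}
  let T : Subgroup S := Q.comap B
  have hQ : ∀ s, s ∈ T ↔ B s * B w = B w * B s := fun s => Subgroup.mem_centralizer_singleton_iff
  have hlt : T < ⊤ := lt_top_iff_ne_top.2 fun h => by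
    let _ : CommGroup Q := { (inferInstance : Group Q) with
      mul_comm := fun a b => Subtype.ext (comm_of_comm c.two k4
        (Subgroup.mem_centralizer_singleton_iff.1 a.2).symm
        (Subgroup.mem_centralizer_singleton_iff.1 b.2).symm) }
    have := c.tf Q (B.codRestrict Q fun s => h.ge (Subgroup.mem_top s))
      ⟨-1, Subgroup.mem_centralizer_singleton_iff.2 (by simp)⟩ fun s hs => Subtype.ext (hB s hs)
    have := congrArg (fun q : Q => tr2 q.1) this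
    simp only [tr2_neg, OneMemClass.coe_one, tr2_one] at this
    exact c.four (by linear_combination -this)
  have := c.pg.isNilpotent
  obtain ⟨s, hs, hsT⟩ := SetLike.exists_of_lt (Group.normalizerCondition_of_isNilpotent T hlt)
  have wT : w ∈ T := (hQ w).2 rfl
  have w'T : s * w * s⁻¹ ∈ T := (Subgroup.mem_normalizer_iff.1 hs w).1 wT
  obtain ⟨hw', hne'⟩ := hcj w s hw hne
  obtain ⟨j1, j2, -, j4⟩ := c.typ az lz bz hw' hne'
  have hb : B (s * w * s⁻¹) = -B w := by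
    obtain ⟨x, e⟩ := smul_of_comm c.two k4 j4 ((hQ _).1 w'T).symm
    refine (pm_of_smul e (by rw [← map_mul, k1, map_one])
      (by rw [← map_mul, j1, map_one])).resolve_left fun e => hsT ((hQ s).2 ?_)
    rwa [map_mul, map_mul, map_inv, mul_inv_eq_iff_eq_mul] at e
  have hww : ρ w ≠ ρ (s * w * s⁻¹) := c.ne_neg ay ly by' az lz bz hw hne (hy w hw hne) hw' hne' hb
  obtain ⟨r, hr, r2, r3⟩ : ∃ r : S, R r ∧ r ≠ t₂ ∧ ρ r ≠ c₀ := by
    by_cases h : ρ t₀ = c₀
    exacts [⟨t₁, c.r1, c.n1, fun e => n01 (h.trans e.symm)⟩, ⟨t₀, c.r0, c.n0, h⟩]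
  have rc : ∀ k : S, R (k * r * k⁻¹ : S) ∧ k * r * k⁻¹ ≠ t₂ := fun k =>
    ⟨c.rc _ (c.le k.2) _ hr, fun e => r2 (by
      rwa [mul_inv_eq_iff_eq_mul, c.comm (s := t₂) (s' := k) (by simp [c.a2]) (by simp [c.b2]),
        mul_right_inj] at e)⟩
  obtain ⟨_, ⟨k, hk, rfl⟩, e⟩ := hT (T.map ρ) (Subgroup.map_le_range ρ T)
    _ ⟨r, (hQ r).2 (by simp [hB r hr]), rfl⟩ _ ⟨w, wT, rfl⟩ _ ⟨_, w'T, rfl⟩ (sq (c.sq hr)) (sq k1)
    (sq j1) (mk_ne_one c.two ((c.ty r hr).resolve_left r2).1) (mk_ne_one c.two k2)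
    (mk_ne_one c.two j2) r3
    (fun e => hww (by rw [map_mul, map_mul, map_inv, e, hc, mul_inv_cancel_right]))
    (fun e => hww (by
      rw [e]
      rwa [map_mul, map_mul, map_inv, mul_inv_eq_iff_eq_mul, ← hc, mul_right_inj] at e))
  simp only [← map_inv, ← map_mul] at e
  rcases e with e | e | e
  · exact c.ne_root ay ly by' az lz bz hw hne (hy _ hw hne) (rc k).1 (rc k).2 e.symm
  · exact c.ne_root ay ly by' az lz bz hw' hne' (hy _ hw' hne') (rc k).1 (rc k).2 e.symm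
  · obtain ⟨hv, hv'⟩ := hcj w k hw hne
    refine c.ne_neg ay ly by' az lz bz hv hv' (hy _ hv hv') hw' hne' ?_ e
    rw [hb, map_mul, map_mul, map_inv, (hQ k).1 hk, mul_inv_cancel_right]

end Cb

end Cfsg.Lib.Five.Rb
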