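import Cfsg.Agent.Class.Five.RBase
import Cfsg.Agent.Class.Five.R4cA

/-!
# The roots of a Sylow `2`-subgroup are not a plane and three lines
-/

set_option autoImplicit false

namespace Cfsg.Lib.Five.PL3

open Matrix Cfsg.Geo Cfsg.Lib.Class Cfsg.Lib.Class.Asch Cfsg.Lib.Mit
open scoped MatrixGroups

universe u

section Roots

variable {ι : Type} [Fintype ι] [DecidableEq ι] {F : Type*} [Field F]
  {P Q : Subgroup (GL ι F)} {a φ b ψ c χ d f : ι → F}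

theorem prop_of_eq (h2 : (2 : F) ≠ 0) (ha : φ ⬝ᵥ a = 2) (hb : ψ ⬝ᵥ b = 2) (e : tR a φ = tR b ψ) :
    ∃ k : F, a = k • b := by
  have := tR_mulVec ha a
  rw [e, tR_mulVec hb, ha, sub_left_inj] at this
  exact ⟨2⁻¹ * (ψ ⬝ᵥ a), by rw [mul_smul, this, inv_smul_smul₀ h2]⟩

theorem orth_of_comm (hT : ∀ g ∈ P, ¬ IsTv g) (h2 : (2 : F) ≠ 0) (ha : Rt P a φ) (hb : Rt P b ψ)
    (c : tR a φ * tR b ψ = tR b ψ * tR a φ) (n : tR a φ ≠ tR b ψ) : φ ⬝ᵥ b = 0 ∧ ψ ⬝ᵥ a = 0 := by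
  rcases orth_or_prop_of_comm h2 ha.1 hb.1 c with h | ⟨k, h⟩
  · exact ⟨h, ha.orth_symm hT h2 hb h⟩
  · exact absurd (ha.of_prop hT h2 hb h).2.2.symm n

theorem ne_of_orth (h2 : (2 : F) ≠ 0) (ha : φ ⬝ᵥ a = 2) (hb : ψ ⬝ᵥ b = 2) (h : φ ⬝ᵥ b = 0) :
    tR a φ ≠ tR b ψ := fun e => by
  obtain ⟨k, hk⟩ := prop_of_eq h2 ha hb e
  rw [hk, dotProduct_smul, h, smul_zero] at ha
  exact h2 ha.symm

theorem eq_of_swap (hT : ∀ g ∈ P, ¬ IsTv g) (h2 : (2 : F) ≠ 0) (ha : Rt P a φ) (hb : Rt P b ψ)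
    (hd : Rt P d f) (o : φ ⬝ᵥ b = 0) (e : tR d f * tR a φ * tR d f = tR b ψ) :
    ∃ k : F, k ≠ 0 ∧ ((1 / 2 : F) • (φ - k⁻¹ • ψ)) ⬝ᵥ (a - k • b) = 2 ∧
      tR d f = tR (a - k • b) ((1 / 2 : F) • (φ - k⁻¹ • ψ)) := by
  rw [← tR_refl hd.1 ha.1] at e
  obtain ⟨k, hk⟩ := prop_of_eq h2 (hd.refl ha).1 hb.1 e
  obtain ⟨k0, k1, -⟩ := hb.of_prop hT h2 (hd.refl ha) hk
  have k2 := congrArg (φ ⬝ᵥ ·) hk
  simp only [dotProduct_sub, dotProduct_smul, ha.1, o, smul_eq_mul, mul_zero] at k2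
  have m0 : f ⬝ᵥ a ≠ 0 := fun e => h2 (by rw [e] at k2; simpa using k2)
  have e1 : a - k • b = (f ⬝ᵥ a) • d := by rw [← hk, sub_sub_cancel]
  have e2 : (1 / 2 : F) • (φ - k⁻¹ • ψ) = (f ⬝ᵥ a)⁻¹ • f := by
    rw [← k1, sub_sub_cancel, smul_smul]
    congr 1
    field_simp
    linear_combination -k2
  exact ⟨k, k0, by rw [e1, e2]; exact (hd.smul m0).1, by rw [e1, e2, tR_smul m0]⟩

theorem swap_of_sw (h2 : (2 : F) ≠ 0) (ha : φ ⬝ᵥ a = 2) (o : φ ⬝ᵥ b = 0) (o' : ψ ⬝ᵥ a = 0)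
    (h : Sw Q a φ b ψ) : ∃ d f, Rt Q d f ∧ tR d f * tR a φ * tR d f = tR b ψ := by
  obtain ⟨k, k0, h⟩ := h
  refine ⟨_, _, h, ?_⟩
  rw [← tR_refl h.1 ha, ← tR_smul k0 b ψ]
  simp only [smul_dotProduct, sub_dotProduct, dotProduct_sub, dotProduct_smul, ha, o, o',
    mul_zero, sub_zero, smul_eq_mul, smul_smul]
  rw [show 1 / 2 * 2 = (1 : F) by field_simp, show 2 * (1 / 2) = (1 : F) by field_simp, one_smul,
    one_smul, sub_sub_cancel, sub_sub_cancel]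

theorem braid_of (h2 : (2 : F) ≠ 0) (hb : ψ ⬝ᵥ b = 2) (o1 : φ ⬝ᵥ b = 0) (o2 : φ ⬝ᵥ c = 0)
    (o3 : ψ ⬝ᵥ a = 0) (o4 : ψ ⬝ᵥ c = 0) (o5 : χ ⬝ᵥ a = 0) (o6 : χ ⬝ᵥ b = 0) {k m : F} (k0 : k ≠ 0)
    (hd : ((1 / 2 : F) • (φ - k⁻¹ • ψ)) ⬝ᵥ (a - k • b) = 2)
    (hs : ((1 / 2 : F) • (ψ - m⁻¹ • χ)) ⬝ᵥ (b - m • c) = 2) :
    tR (a - k • b) ((1 / 2 : F) • (φ - k⁻¹ • ψ)) * tR (b - m • c) ((1 / 2 : F) • (ψ - m⁻¹ • χ)) *
        tR (a - k • b) ((1 / 2 : F) • (φ - k⁻¹ • ψ)) =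
      tR (b - m • c) ((1 / 2 : F) • (ψ - m⁻¹ • χ)) * tR (a - k • b) ((1 / 2 : F) • (φ - k⁻¹ • ψ)) *
        tR (b - m • c) ((1 / 2 : F) • (ψ - m⁻¹ • χ)) := by
  have e1 : ((1 / 2 : F) • (φ - k⁻¹ • ψ)) ⬝ᵥ (b - m • c) = -k⁻¹ := by
    simp only [smul_dotProduct, sub_dotProduct, dotProduct_sub, dotProduct_smul, hb, o1, o2, o4,
      smul_eq_mul]
    field_simp
    ring
  have e2 : ((1 / 2 : F) • (ψ - m⁻¹ • χ)) ⬝ᵥ (a - k • b) = -k := by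
    simp only [smul_dotProduct, sub_dotProduct, dotProduct_sub, dotProduct_smul, hb, o3, o5, o6,
      smul_eq_mul]
    field_simp
    ring
  rw [← tR_refl hd hs, ← tR_refl hs hd, e1, e2, ← tR_smul k0]
  generalize (1 / 2 : F) • (φ - k⁻¹ • ψ) = x, (1 / 2 : F) • (ψ - m⁻¹ • χ) = y, a - k • b = v,
    b - m • c = w
  congr 1 <;> simp [smul_add, smul_smul, k0, add_comm]

omit [DecidableEq ι] in
theorem ln_of_pl {a' b' : ι → F} (hb : InPl b a a') (hb' : InPl b' a a') (hc : InPl c a a')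
    (h0 : ψ ⬝ᵥ b ≠ 0) (h1 : ψ ⬝ᵥ b' = 0) (h2 : ψ ⬝ᵥ c = 0) (n : b' ≠ 0) : ∃ k : F, c = k • b' := by
  obtain ⟨x, y, rfl⟩ := hb
  obtain ⟨x', y', rfl⟩ := hb'
  obtain ⟨z, w, rfl⟩ := hc
  simp only [dotProduct_add, dotProduct_smul, smul_eq_mul] at h0 h1 h2
  have e : z * y' = w * x' := by
    apply mul_left_cancel₀ h0
    linear_combination (x * y' - y * x') * h2 + (y * z - x * w) * h1
  by_cases hx : x' = 0
  · have hy : y' ≠ 0 := fun e => n (by simp [hx, e])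
    have hz : z = 0 := by simpa [hx, hy] using e
    exact ⟨w / y', by simp [hx, hz, smul_smul, hy]⟩
  · refine ⟨z / x', ?_⟩
    rw [smul_add, smul_smul, smul_smul, div_mul_cancel₀ _ hx]
    congr 2
    field_simp
    linear_combination -e

variable {κ : Type} [Fintype κ] [DecidableEq κ] {C : Matrix ι κ F} {Φ : Matrix κ ι F}

omit [DecidableEq ι] in
theorem up_dot (h : Φ * C = 1) (β γ : κ → F) : (γ ᵥ* Φ) ⬝ᵥ (C *ᵥ β) = γ ⬝ᵥ β := by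
  rw [dotProduct_mulVec, vecMul_vecMul, h, vecMul_one]

theorem up_mem (h : Φ * C = 1) {β γ : κ → F} (hγ : γ ⬝ᵥ β = 2) :
    tR (C *ᵥ β) (γ ᵥ* Φ) ∈ cz (C * Φ) := by
  change (tR (C *ᵥ β) (γ ᵥ* Φ) : Matrix ι ι F) * (C * Φ) = C * Φ * _
  rw [tR_coe ((up_dot h β γ).trans hγ), Matrix.sub_mul, Matrix.mul_sub, mul_vecMulVec,
    vecMulVec_mul, vecMul_vecMul, mulVec_mulVec, ← Matrix.mul_assoc Φ, h, Matrix.one_mul,
    Matrix.mul_assoc C, h, Matrix.mul_one, Matrix.one_mul, Matrix.mul_one]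

theorem dn_up (h : Φ * C = 1) {β γ : κ → F} (hγ : γ ⬝ᵥ β = 2) (g : cz (C * Φ))
    (e : (g : GL ι F) = tR (C *ᵥ β) (γ ᵥ* Φ)) : dn h g = tR β γ := by
  apply Units.ext
  rw [dn_coe, e, tR_coe ((up_dot h β γ).trans hγ), tR_coe hγ, Matrix.mul_sub, Matrix.sub_mul,
    mul_vecMulVec, vecMulVec_mul, vecMul_vecMul, mulVec_mulVec, h, Matrix.mul_one, h, one_mulVec,
    vecMul_one]

end Roots

theorem tri_of (hW : WDH.{u}) {F : Type u} [Field F] [Fintype F] (h2 : (2 : F) ≠ 0) {G : Type*}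
    [Group G] {R : Set G} {S : Subgroup G} {l : Fin 3 → G} (hS : IsPGroup 2 S)
    (sq : ∀ t ∈ R, t * t = 1) (conj : ∀ g, ∀ t ∈ R, g * t * g⁻¹ ∈ R)
    (cen : ∀ i, ∀ t ∈ R, t ∈ S → Commute (l i) t)
    (nc : ∀ b, Pl R S l b → ∃ u, Pl R S l u ∧ ¬ Commute b u)
    (ρ : Subgroup.closure {b | Pl R S l b} →* GL (Fin 2) F)
    (hρ : ∀ x y : Subgroup.closure {b | Pl R S l b}, Pl R S l x → Pl R S l y →
      Commute (ρ x) (ρ y) → Commute (x : G) y) (u : Fin 3 → G) (hu : ∀ i, Pl R S l (u i)) :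
    (∃ k ∈ S, (∀ i, Commute k (l i)) ∧ ∃ i j, i ≠ j ∧ Commute (k * u i * k⁻¹) (u j)) ∨
      ∃ i, ∀ x, Pl R S l x → Commute (u i) (x * u i * x) := by
  let D := Subgroup.closure {b | Pl R S l b}
  have hD : D ≤ S := (Subgroup.closure_le _).2 fun b hb => hb.2.1
  have hl : ∀ k ∈ D, ∀ i, Commute k (l i) := fun k hk i =>
    Subgroup.mem_centralizer_singleton_iff.1 ((Subgroup.closure_le (Subgroup.centralizer {l i})).2
      (fun b hb => Subgroup.mem_centralizer_singleton_iff.2 (cen i b hb.1 hb.2.1).symm) hk)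
  have pl : ∀ k x : D, Pl R S l x → Pl R S l (k * x * k⁻¹ : D) := fun k x hx =>
    ⟨conj _ _ hx.1, hD (k * x * k⁻¹).2, fun m e => hx.2.2 m (by
      rw [Subgroup.coe_mul, Subgroup.coe_mul, Subgroup.coe_inv, mul_inv_eq_iff_eq_mul,
        ← (hl k k.2 m).eq] at e
      exact mul_left_cancel e)⟩
  let π : D →* PGL(2, F) := ProjGenLinGroup.mk.comp ρ
  have p1 : ∀ x y : D, Pl R S l x → Pl R S l y → π x = π y → Commute (x : G) y := fun x y hx hy e => by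
    obtain ⟨z, hz, e⟩ := ProjGenLinGroup.mk_eq_mk_iff'.1 e
    exact hρ x y hx hy (e ▸ (Commute.refl _).mul_right (Subgroup.mem_center_iff.1 hz _))
  let v : Fin 3 → D := fun i => ⟨u i, Subgroup.subset_closure (hu i)⟩
  have p2 : ∀ i, π (v i) ≠ 1 := fun i e => by
    obtain ⟨w, hw, n⟩ := nc _ (hu i)
    exact n (hρ (v i) ⟨w, Subgroup.subset_closure hw⟩ (hu i) hw
      (Subgroup.mem_center_iff.1 (ProjGenLinGroup.mk_eq_one.1 e) _).symm)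
  have p3 : ∀ i, π (v i) * π (v i) = 1 := fun i => by
    rw [← map_mul, show v i * v i = 1 from Subtype.ext (sq _ (hu i).1), map_one]
  obtain ⟨c, c1, c2⟩ := hW F h2 π.range ((hS.to_le hD).of_surjective _ π.rangeRestrict_surjective)
  by_cases hc : ∃ i, π (v i) = c
  · obtain ⟨i, rfl⟩ := hc
    refine .inr ⟨i, fun x hx => ?_⟩
    let y : D := ⟨x, Subgroup.subset_closure hx⟩
    have := p1 (v i) _ (hu i) (pl y (v i) (hu i)) (by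
      rw [map_mul, map_mul, c1 _ ⟨y, rfl⟩, map_inv, mul_inv_cancel_right])
    simpa [v, y, inv_eq_of_mul_eq_one_right (sq x hx.1)] using this
  obtain ⟨_, ⟨k, rfl⟩, hk⟩ := c2 _ le_rfl _ ⟨v 0, rfl⟩ _ ⟨v 1, rfl⟩ _ ⟨v 2, rfl⟩ (p3 0) (p3 1) (p3 2)
    (p2 0) (p2 1) (p2 2) (fun e => hc ⟨_, e⟩) (fun e => hc ⟨_, e⟩) (fun e => hc ⟨_, e⟩)
  refine .inl ⟨k, hD k.2, hl k k.2, ?_⟩
  simp only [← map_inv, ← map_mul] at hk
  rcases hk with e | e | e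
  · exact ⟨0, 1, by decide, p1 _ _ (pl k (v 0) (hu 0)) (hu 1) e⟩
  · exact ⟨0, 2, by decide, p1 _ _ (pl k (v 0) (hu 0)) (hu 2) e⟩
  · exact ⟨1, 2, by decide, p1 _ _ (pl k (v 1) (hu 1)) (hu 2) e⟩

variable {F : Type u} [Field F] {P : Subgroup (GL (Fin 5) F)}

/-- The negatives of reflections in `P`. -/
def RR (P : Subgroup (GL (Fin 5) F)) : Set P := {t | ∃ a φ, φ ⬝ᵥ a = 2 ∧ (t : GL (Fin 5) F) = tR a φ}

theorem RR.rt {t : P} (h : t ∈ RR P) : ∃ a φ, Rt P a φ ∧ (t : GL (Fin 5) F) = tR a φ :=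
  let ⟨a, φ, k, e⟩ := h; ⟨a, φ, ⟨k, e ▸ t.2⟩, e⟩

theorem RR.rt' {S : Sylow 2 P} {t : P} (h : t ∈ RR P) (hS : t ∈ (S : Subgroup P)) :
    ∃ a φ, Rt (sy S) a φ ∧ (t : GL (Fin 5) F) = tR a φ :=
  let ⟨a, φ, k, e⟩ := h; ⟨a, φ, ⟨k, e ▸ mem_sy.2 ⟨t.2, hS⟩⟩, e⟩

theorem RR.sq (t : P) (h : t ∈ RR P) : t * t = 1 :=
  let ⟨a, φ, _, e⟩ := h; Subtype.ext (by rw [Subgroup.coe_mul, e, tR_mul_self, Subgroup.coe_one])

theorem RR.conj (g t : P) (h : t ∈ RR P) : g * t * g⁻¹ ∈ RR P :=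
  let ⟨a, φ, k, e⟩ := h
  ⟨_, _, (vecMul_inv_dot_mulVec (g : GL (Fin 5) F) φ a).trans k, by
    rw [Subgroup.coe_mul, Subgroup.coe_mul, Subgroup.coe_inv, e, conj_tR _ k]⟩

theorem orth_of (hP : Hr P) {t s : P} {a φ b ψ : Fin 5 → F} (ha : Rt P a φ) (hb : Rt P b ψ)
    (e : (t : GL (Fin 5) F) = tR a φ) (e' : (s : GL (Fin 5) F) = tR b ψ) (n : t ≠ s)
    (c : Commute t s) : φ ⬝ᵥ b = 0 ∧ ψ ⬝ᵥ a = 0 :=
  orth_of_comm hP.nt hP.two ha hb (e ▸ e' ▸ congrArg Subtype.val c.eq)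
    fun k => n (Subtype.ext (e.trans (k.trans e'.symm)))

theorem tc_of (hW : WDH.{u}) [Fintype F] (hP : Hr P) (S : Sylow 2 P) (h : TC (sy S)) :
    ∃ l, Tc (RR P) (S : Subgroup P) l := by
  obtain ⟨a, φ, ⟨rt, ot⟩, sw, cov⟩ := h
  have h2 := hP.two
  have hT := noTv_two h2 (isPGroup_sy S)
  let el : ∀ {b ψ : Fin 5 → F}, Rt (sy S) b ψ → P := fun h => ⟨_, sy_le S h.2⟩
  have elR : ∀ {b ψ : Fin 5 → F} (h : Rt (sy S) b ψ), el h ∈ RR P := fun h => ⟨_, _, h.1, rfl⟩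
  have elS : ∀ {b ψ : Fin 5 → F} (h : Rt (sy S) b ψ), el h ∈ (S : Subgroup P) := fun h =>
    (mem_sy.1 h.2).2
  let l : Fin 3 → P := fun i => el (rt i.succ.succ)
  have o1 : ∀ (i : Fin 3) {b : Fin 5 → F}, InPl b (a 0) (a 1) → φ i.succ.succ ⬝ᵥ b = 0 := by
    rintro i _ ⟨x, y, rfl⟩
    rw [dotProduct_add, dotProduct_smul, dotProduct_smul, ot _ 0 (Fin.succ_ne_zero _),
      ot _ 1 (Fin.succ_succ_ne_one _), smul_zero, smul_zero, add_zero]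
  have pl : ∀ {b ψ : Fin 5 → F} (h : Rt (sy S) b ψ), InPl b (a 0) (a 1) →
      Pl (RR P) (S : Subgroup P) l (el h) := fun h k => ⟨elR h, elS h, fun i e =>
    ne_of_orth h2 (rt _).1 h.1 (o1 i k) (congrArg Subtype.val e).symm⟩
  have cs : ∀ t ∈ RR P, t ∈ (S : Subgroup P) → (∃ i, t = l i) ∨ ∃ b ψ, ∃ h : Rt (sy S) b ψ,
      InPl b (a 0) (a 1) ∧ t = el h := fun t ht hS => by
    obtain ⟨b, ψ, hb, e⟩ := RR.rt' ht hS
    have key : ∀ i : Fin 3, Ln b (a i.succ.succ) → ∃ i, t = l i := fun i ⟨k, hk⟩ =>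
      ⟨i, Subtype.ext (e.trans ((rt _).of_prop hT h2 hb hk).2.2)⟩
    rcases cov b ψ hb with k | k | k | k
    exacts [.inr ⟨b, ψ, hb, k, Subtype.ext e⟩, .inl (key 0 k), .inl (key 1 k), .inl (key 2 k)]
  have cs' : ∀ t, Pl (RR P) (S : Subgroup P) l t → ∃ b ψ, ∃ h : Rt (sy S) b ψ,
      InPl b (a 0) (a 1) ∧ t = el h := fun t ht =>
    (cs t ht.1 ht.2.1).resolve_left fun ⟨i, e⟩ => ht.2.2 i e
  have cm : ∀ {b ψ c χ : Fin 5 → F} (h : Rt (sy S) b ψ) (k : Rt (sy S) c χ), ψ ⬝ᵥ c = 0 →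
      Commute (el h) (el k) := fun h k e =>
    Subtype.ext (tR_comm h.1 k.1 e (h.orth_symm hT h2 k e))
  have cen : ∀ i, ∀ t ∈ RR P, t ∈ (S : Subgroup P) → Commute (l i) t := fun i t ht hS => by
    rcases cs t ht hS with ⟨j, rfl⟩ | ⟨b, ψ, hb, k, rfl⟩
    · by_cases e : i = j
      · exact e ▸ Commute.refl _
      · exact cm (rt _) (rt _) (ot _ _ fun k => e (by simpa using k))
    · exact cm (rt _) hb (o1 i k)
  have p0 : InPl (a 0) (a 0) (a 1) := ⟨1, 0, by simp⟩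
  have p1 : InPl (a 1) (a 0) (a 1) := ⟨0, 1, by simp⟩
  have mt : ∀ {b ψ : Fin 5 → F} (h : Rt (sy S) b ψ), InPl b (a 0) (a 1) → ∃ b' ψ',
      ∃ h' : Rt (sy S) b' ψ', InPl b' (a 0) (a 1) ∧ ψ ⬝ᵥ b' = 0 ∧ ∃ d f, ∃ k : Rt (sy S) d f,
        el k * el h * el k = el h' := fun {b ψ} h hb => by
    obtain ⟨d, f, hd, e⟩ := swap_of_sw h2 (rt 0).1 (ot 0 1 (by decide)) (ot 1 0 (by decide)) sw
    by_cases n0 : ψ ⬝ᵥ a 0 = 0
    · obtain ⟨k, hk⟩ := ln_of_pl p0 p1 hb (by rw [(rt 0).1]; exact h2) (ot 0 1 (by decide))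
        (h.orth_symm hT h2 (rt 0) n0) ((rt 1).ne_zero h2)
      refine ⟨_, _, rt 0, p0, n0, d, f, hd, Subtype.ext ?_⟩
      change tR d f * tR b ψ * tR d f = tR (a 0) (φ 0)
      rw [((rt 1).of_prop hT h2 h hk).2.2, ← e, ← mul_assoc, ← mul_assoc, tR_mul_self, one_mul,
        mul_assoc, tR_mul_self, mul_one]
    by_cases n1 : Ln (a 0) b
    · obtain ⟨k, hk⟩ := n1
      obtain ⟨-, k1, k2⟩ := h.of_prop hT h2 (rt 0) hk
      refine ⟨_, _, rt 1, p1, (rt 1).orth_symm hT h2 h ?_, d, f, hd, Subtype.ext ?_⟩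
      · have := ot 1 0 (by decide)
        rw [hk, dotProduct_smul, smul_eq_zero] at this
        exact this.resolve_left fun e => (rt 0).ne_zero h2 (by rw [hk, e, zero_smul])
      · change tR d f * tR b ψ * tR d f = tR (a 1) (φ 1)
        rw [← k2, e]
    obtain ⟨b', ψ', h', k1, k2, ⟨x, y, k3⟩, -, k4⟩ := two_swap h2 (isPGroup_sy S) h (rt 0) n0 n1
    obtain ⟨d', f', hd', e'⟩ := swap_of_sw h2 h.1 k1 k2 k4
    obtain ⟨z, w, hb⟩ := hb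
    exact ⟨b', ψ', h', ⟨x * z + y, x * w, by rw [k3, hb]; module⟩, k1, d', f', hd', Subtype.ext e'⟩
  have mate : ∀ b, Pl (RR P) (S : Subgroup P) l b → ∃ b', Pl (RR P) (S : Subgroup P) l b' ∧
      b ≠ b' ∧ Commute b b' ∧ (∃ u ∈ RR P, u ∈ (S : Subgroup P) ∧ u * b * u = b') ∧
        ∀ c, Pl (RR P) (S : Subgroup P) l c → Commute b c → c = b ∨ c = b' := fun t ht => by
    obtain ⟨b, ψ, h, hb, rfl⟩ := cs' t ht
    obtain ⟨b', ψ', h', hb', o, d, f, hd, e⟩ := mt h hb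
    refine ⟨_, pl h' hb', fun e => ne_of_orth h2 h.1 h'.1 o (congrArg Subtype.val e), cm h h' o,
      ⟨_, elR hd, elS hd, e⟩, fun s hs c => ?_⟩
    obtain ⟨c', χ, hc, hc', rfl⟩ := cs' s hs
    refine or_iff_not_imp_left.2 fun n => ?_
    obtain ⟨k, hk⟩ := ln_of_pl hb hb' hc' (by rw [h.1]; exact h2) o
      (orth_of hP (h.mono (sy_le S)) (hc.mono (sy_le S)) rfl rfl (Ne.symm n) c).1 (h'.ne_zero h2)
    exact Subtype.ext (h'.of_prop hT h2 hc hk).2.2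
  refine ⟨l, fun i j e => ?_, fun i => elR (rt _), fun i => elS (rt _), cen, ⟨_, pl (rt 0) p0⟩, mate, ?_⟩
  · by_contra n
    exact ne_of_orth h2 (rt _).1 (rt _).1 (ot _ _ fun k => n (by simpa using k))
      (congrArg Subtype.val e)
  let C : Matrix (Fin 5) (Fin 2) F := of fun i j => a (Fin.castLE (by decide) j) i
  let Φ : Matrix (Fin 2) (Fin 5) F := of fun i j => 2⁻¹ * φ (Fin.castLE (by decide) i) j
  have dd : ∀ i j, ∑ x, 2⁻¹ * φ i x * a j x = if i = j then 1 else 0 := fun i j => by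
    simp only [mul_assoc, ← Finset.mul_sum]
    change 2⁻¹ * (φ i ⬝ᵥ a j) = _
    split_ifs with e
    · rw [e, (rt j).1, inv_mul_cancel₀ h2]
    · rw [ot i j e, mul_zero]
  have hC : Φ * C = 1 := by
    ext i j
    simp only [Matrix.mul_apply, C, Φ, of_apply, dd, one_apply, Fin.castLE_inj]
  have hB : (of fun i j => a j i) * (of fun i j => 2⁻¹ * φ i j) = (1 : Matrix (Fin 5) (Fin 5) F) :=
    mul_eq_one_comm.1 (by ext i j; simp only [Matrix.mul_apply, of_apply, dd, one_apply])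
  have up : ∀ t, Pl (RR P) (S : Subgroup P) l t → ∃ β γ : Fin 2 → F, γ ⬝ᵥ β = 2 ∧
      Rt (sy S) (C *ᵥ β) (γ ᵥ* Φ) ∧ (t : GL (Fin 5) F) = tR (C *ᵥ β) (γ ᵥ* Φ) := fun t ht => by
    obtain ⟨b, ψ, h, hb, rfl⟩ := cs' t ht
    have o2 := fun i => (rt _).orth_symm hT h2 h (o1 i hb)
    obtain ⟨x, y, hb⟩ := hb
    have e1 : b = C *ᵥ ![x, y] := by
      ext i
      simp [hb, C, mulVec, dotProduct, Fin.sum_univ_two, mul_comm]
    have e2 : ψ = ![ψ ⬝ᵥ a 0, ψ ⬝ᵥ a 1] ᵥ* Φ := by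
      have e3 : ψ = (fun i => ψ ⬝ᵥ a i) ᵥ* (of fun i j => 2⁻¹ * φ i j) := by
        conv_lhs => rw [← vecMul_one ψ, ← hB, ← vecMul_vecMul]
        rfl
      ext i
      conv_lhs => rw [e3]
      have f2 : ψ ⬝ᵥ a 2 = 0 := o2 0
      have f3 : ψ ⬝ᵥ a 3 = 0 := o2 1
      have f4 : ψ ⬝ᵥ a 4 = 0 := o2 2
      rw [vecMul, vecMul, dotProduct, dotProduct, Fin.sum_univ_five, Fin.sum_univ_two, f2, f3, f4]
      simp [Φ]
    exact ⟨_, _, by rw [← up_dot hC, ← e1, ← e2, h.1], e1 ▸ e2 ▸ h, e1 ▸ e2 ▸ rfl⟩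
  have hz : ∀ x : Subgroup.closure {b | Pl (RR P) (S : Subgroup P) l b},
      (P.subtype.comp (Subgroup.subtype _)) x ∈ cz (C * Φ) := fun x =>
    (Subgroup.closure_le ((cz (C * Φ)).comap P.subtype)).2 (fun t ht => by
      obtain ⟨β, γ, k, -, e⟩ := up t ht
      exact (e ▸ up_mem hC k : (t : GL (Fin 5) F) ∈ cz (C * Φ))) x.2
  refine tri_of hW h2 S.isPGroup' RR.sq RR.conj cen (fun t ht => ?_)
    ((dn hC).comp (MonoidHom.codRestrict _ _ hz)) fun x y hx hy c => ?_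
  · obtain ⟨b', -, n, -, ⟨w, w1, w2, e⟩, -⟩ := mate t ht
    have n' : ¬ Commute t w := fun c => n (by rw [← e, mul_assoc, c.eq, ← mul_assoc, RR.sq w w1,
      one_mul])
    exact ⟨w, ⟨w1, w2, fun i k => n' (k ▸ (cen i t ht.1 ht.2.1).symm)⟩, n'⟩
  obtain ⟨β, γ, k, r, e⟩ := up _ hx
  obtain ⟨β', γ', k', r', e'⟩ := up _ hy
  rw [MonoidHom.comp_apply, MonoidHom.comp_apply, dn_up hC k _ e, dn_up hC k' _ e'] at c
  refine Subtype.ext ?_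
  rw [Subgroup.coe_mul, Subgroup.coe_mul, e, e']
  rcases orth_or_prop_of_comm h2 k k' c with o | ⟨m, o⟩
  · rw [← up_dot hC] at o
    exact tR_comm r.1 r'.1 o (r.orth_symm hT h2 r' o)
  · rw [(r.of_prop hT h2 r' (k := m) (by rw [o, mulVec_smul])).2.2]

end Cfsg.Lib.Five.PL3

namespace Cfsg.Lib.Five

open Matrix PL3

universe u

theorem w4c_of (h : WDH.{u}) : W4c.{u} := by
  intro F _ _ P hP hS
  refine Ax.false (R := RR P) ⟨RR.sq, RR.conj, ?_, ?_, fun S => tc_of h hP S (hS S), ?_⟩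
  · intro t ht s hs w hw u hu n1 n2 n3 c1 c2 c3 e
    obtain ⟨a, φ, ha, e1⟩ := RR.rt ht
    obtain ⟨b, ψ, hb, e2⟩ := RR.rt hs
    obtain ⟨c, χ, hc, e3⟩ := RR.rt hw
    obtain ⟨d, f, hd, e4⟩ := RR.rt hu
    obtain ⟨k, -, k1, k2⟩ := eq_of_swap hP.nt hP.two ha hb hd (orth_of hP ha hb e1 e2 n1 c1).1
      (e1 ▸ e2 ▸ e4 ▸ congrArg Subtype.val e)
    have o1 := orth_of hP hc ha e3 e1 n2 c2
    have o2 := orth_of hP hc hb e3 e2 n3 c3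
    refine Subtype.ext ?_
    rw [Subgroup.coe_mul, Subgroup.coe_mul, e3, e4, k2]
    exact tR_comm hc.1 k1 (by simp [o1.1, o2.1]) (by simp [o1.2, o2.2])
  · intro t ht s hs w hw u hu v hv n1 n2 n3 c1 c2 c3 e e'
    obtain ⟨a, φ, ha, e1⟩ := RR.rt ht
    obtain ⟨b, ψ, hb, e2⟩ := RR.rt hs
    obtain ⟨c, χ, hc, e3⟩ := RR.rt hw
    obtain ⟨d, f, hd, e4⟩ := RR.rt hu
    obtain ⟨d', f', hd', e5⟩ := RR.rt hv
    have o0 := orth_of hP ha hb e1 e2 n1 c1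
    have o1 := orth_of hP hc ha e3 e1 n2 c2
    have o2 := orth_of hP hc hb e3 e2 n3 c3
    obtain ⟨k, k0, k1, k2⟩ := eq_of_swap hP.nt hP.two ha hb hd o0.1
      (e1 ▸ e2 ▸ e4 ▸ congrArg Subtype.val e)
    obtain ⟨m, -, m1, m2⟩ := eq_of_swap hP.nt hP.two hb hc hd' o2.2
      (e2 ▸ e3 ▸ e5 ▸ congrArg Subtype.val e')
    refine Subtype.ext ?_
    simp only [Subgroup.coe_mul, e4, e5, k2, m2]
    exact braid_of hP.two hb.1 o0.1 o1.2 o0.2 o2.2 o1.1 o2.1 k0 k1 m1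
  · intro S t ht hS hc x hx
    obtain ⟨a, φ, ha, e⟩ := RR.rt' ht hS
    obtain ⟨b, ψ, hb, e'⟩ := RR.rt hx
    obtain ⟨g, hg, k⟩ := conj_of_fixed hP S ha (fun s hs => by
      obtain ⟨s1, s2⟩ := mem_sy.1 hs
      have := congrArg Subtype.val (hc _ s2).eq
      simp only [Subgroup.coe_mul, e] at this
      exact prop_of_eq hP.two (ha.conj hs).1 ha.1
        ((conj_tR s ha.1).symm.trans (mul_inv_eq_iff_eq_mul.2 this))) hb
    exact ⟨⟨g, hg⟩, Subtype.ext (by simpa [e, e'] using k)⟩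

end Cfsg.Lib.Five
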