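import Cfsg.Agent.Class.Five.RPl

/-!
# Sylow subgroups with two planes of roots: complete frames
-/

set_option autoImplicit false

namespace Cfsg.Lib.Five

open Matrix Cfsg.Geo Cfsg.Lib.Class Cfsg.Lib.Class.Asch Cfsg.Lib.Mit
open scoped MatrixGroups

universe u

section

variable {ι : Type} [Fintype ι] [DecidableEq ι] {F : Type*} [Field F]
variable {P Q : Subgroup (GL ι F)} {a₀ φ₀ a₁ φ₁ : ι → F}

theorem OF.pl {n : ℕ} {a φ : Fin n → ι → F} (h : OF Q a φ) {i j : Fin n} (hij : i ≠ j)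
    (hs : Sw Q (a i) (φ i) (a j) (φ j)) : Pl Q (a i) (φ i) (a j) (φ j) :=
  ⟨h.1 i, h.1 j, h.2 i j hij, h.2 j i hij.symm, hs⟩

/-- A root in the plane of two members of a frame is orthogonal to the other members. -/
theorem OF.kill (hT : ∀ g ∈ Q, ¬ IsTv g) (h2 : (2 : F) ≠ 0) {n : ℕ} {a φ : Fin n → ι → F}
    (h : OF Q a φ) {b ψ : ι → F} (hb : Rt Q b ψ) {i j k : Fin n} (hp : InPl b (a i) (a j))
    (hi : k ≠ i) (hj : k ≠ j) : ψ ⬝ᵥ a k = 0 :=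
  (h.1 k).orth_symm hT h2 hb (hp.dot (h.2 k i hi) (h.2 k j hj))

theorem OF.kill' (hT : ∀ g ∈ Q, ¬ IsTv g) (h2 : (2 : F) ≠ 0) {n : ℕ} {a φ : Fin n → ι → F}
    (h : OF Q a φ) {b ψ : ι → F} (hb : Rt Q b ψ) {i k : Fin n} (hp : Ln b (a i))
    (hi : k ≠ i) : ψ ⬝ᵥ a k = 0 :=
  (h.1 k).orth_symm hT h2 hb (hp.dot (h.2 k i hi))

/-- A plane that contains at most one member of an orthogonal family extends the family. -/
theorem Pl.ext (hT : ∀ g ∈ Q, ¬ IsTv g) (h2 : (2 : F) ≠ 0) (hQ : IsPGroup 2 Q)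
    (h : Pl Q a₀ φ₀ a₁ φ₁) {n : ℕ} {b ψ : Fin n → ι → F} (hb : OF Q b ψ)
    (hc : ∀ i, InPl (b i) a₀ a₁ ∨ (ψ i ⬝ᵥ a₀ = 0 ∧ ψ i ⬝ᵥ a₁ = 0)) :
    (∃ c χ, Rt Q c χ ∧ ∀ i, ψ i ⬝ᵥ c = 0) ∨
      ∃ i j, i ≠ j ∧ InPl (b i) a₀ a₁ ∧ InPl (b j) a₀ a₁ := by
  by_cases h1 : ∃ i j, i ≠ j ∧ InPl (b i) a₀ a₁ ∧ InPl (b j) a₀ a₁
  · exact .inr h1
  left
  by_cases h3 : ∃ i, InPl (b i) a₀ a₁
  · obtain ⟨i, hi⟩ := h3
    obtain ⟨c, χ, h', hp, -⟩ := h.mate hT h2 hQ (hb.1 i) hi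
    refine ⟨c, χ, h'.r1, fun j => ?_⟩
    by_cases e : j = i
    · rw [e]; exact h'.o01
    · have := (hc j).resolve_left fun hj => h1 ⟨j, i, e, hj, hi⟩
      exact hp.dot this.1 this.2
  · exact ⟨a₀, φ₀, h.r0, fun j => ((hc j).resolve_left fun hj => h3 ⟨j, hj⟩).1⟩

end

variable {F : Type*} [Field F] {P Q : Subgroup (GL (Fin 5) F)}

theorem TD.ext (hT : ∀ g ∈ Q, ¬ IsTv g) (h2 : (2 : F) ≠ 0) (hQ : IsPGroup 2 Q) (h : TD Q)
    {n : ℕ} (hn : n ≤ 4) {b ψ : Fin n → Fin 5 → F} (hb : OF Q b ψ) :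
    ∃ c χ, Rt Q c χ ∧ ∀ i, ψ i ⬝ᵥ c = 0 := by
  obtain ⟨a, φ, ha, s1, s2, hc⟩ := h
  have k := fun i {j l m : Fin 5} => ha.kill hT h2 (hb.1 i) (i := j) (j := l) (k := m)
  have k' := fun i {j m : Fin 5} => ha.kill' hT h2 (hb.1 i) (i := j) (k := m)
  by_cases h4 : ∃ l, Ln (b l) (a 4)
  swap
  · refine ⟨a 4, φ 4, ha.1 4, fun i => ?_⟩
    rcases hc _ _ (hb.1 i) with h | h | h
    · exact k i h (by decide) (by decide)
    · exact k i h (by decide) (by decide)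
    · exact absurd ⟨i, h⟩ h4
  obtain ⟨l, hl⟩ := h4
  rcases (ha.pl (by decide) s1).ext hT h2 hQ hb (fun i => by
    rcases hc _ _ (hb.1 i) with h | h | h
    · exact .inl h
    · exact .inr ⟨k i h (by decide) (by decide), k i h (by decide) (by decide)⟩
    · exact .inr ⟨k' i h (by decide), k' i h (by decide)⟩) with h | ⟨i1, i2, hi, p1, p2⟩
  · exact h
  rcases (ha.pl (by decide) s2).ext hT h2 hQ hb (fun i => by
    rcases hc _ _ (hb.1 i) with h | h | h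
    · exact .inr ⟨k i h (by decide) (by decide), k i h (by decide) (by decide)⟩
    · exact .inl h
    · exact .inr ⟨k' i h (by decide), k' i h (by decide)⟩) with h | ⟨j1, j2, hj, q1, q2⟩
  · exact h
  exfalso
  have n1 : ∀ i j, InPl (b i) (a 0) (a 1) → InPl (b j) (a 2) (a 3) → i.1 ≠ j.1 := by
    intro i j p q e
    obtain rfl := Fin.ext e
    exact h2 (by
      rw [← (hb.1 i).1, q.dot (k i p (by decide) (by decide)) (k i p (by decide) (by decide))])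
  have n2 : ∀ i {x y : Fin 5}, InPl (b i) (a x) (a y) → 4 ≠ x → 4 ≠ y → i.1 ≠ l.1 := by
    intro i x y p hx hy e
    obtain rfl := Fin.ext e
    exact h2 (by rw [← (hb.1 i).1, hl.dot (k i p hx hy)])
  have := n1 _ _ p1 q1
  have := n1 _ _ p1 q2
  have := n1 _ _ p2 q1
  have := n1 _ _ p2 q2
  have := n2 _ p1 (by decide) (by decide)
  have := n2 _ p2 (by decide) (by decide)
  have := n2 _ q1 (by decide) (by decide)
  have := n2 _ q2 (by decide) (by decide)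
  have := Fin.val_ne_of_ne hi
  have := Fin.val_ne_of_ne hj
  omega

theorem ext_of_TD (h : Hr P) (hd : ∀ S : Sylow 2 P, TD (sy S)) {n : ℕ} (hn : n ≤ 4)
    {b ψ : Fin n → Fin 5 → F} (hb : OF P b ψ) : ∃ c χ,
      OF P (Fin.snoc b c : Fin (n + 1) → Fin 5 → F) (Fin.snoc ψ χ : Fin (n + 1) → Fin 5 → F) := by
  obtain ⟨S, hS⟩ := hb.exists_sy
  obtain ⟨c, χ, hc, ho⟩ := (hd S).ext (fun g hg => h.nt g (sy_le S hg)) h.two (isPGroup_sy S) hn hS
  exact ⟨c, χ, hb.snoc h.nt h.two (hc.mono (sy_le S)) ho⟩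

/-- Every reflection is central in a Sylow subgroup containing a given frame, provided some
Sylow subgroup has a central root whose line is fixed. -/
theorem exists_sy_cen [Finite F] (h : Hr P) (S : Sylow 2 P) {e ε : Fin 5 → F}
    (he : Rt (sy S) e ε) (hfix : ∀ g ∈ sy S, Ln ((g : Matrix (Fin 5) (Fin 5) F) *ᵥ e) e)
    {n : ℕ} {a φ : Fin n → Fin 5 → F} (ha : OF P a φ) (i : Fin n) :
    ∃ S' : Sylow 2 P, OF (sy S') a φ ∧ ∀ s ∈ sy S', s * tR (a i) (φ i) = tR (a i) (φ i) * s := by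
  obtain ⟨g, hg, e1⟩ := conj_of_fixed h S he hfix (ha.1 i)
  replace e1 := e1.symm
  obtain ⟨S', h1, h3⟩ := exists_sy_central S
    (fun s hs => he.comm_of_ln (fun g hg => h.nt g (sy_le S hg)) h.two hs (hfix s hs)) hg
    (frGrp_le fun i => (ha.1 i).2) ha.isPGroup (by rw [e1]; exact frGrp_comm fun j => ha.comm j i)
  rw [e1] at h3
  exact ⟨S', ha.mono fun j => h1 (tR_mem_frGrp a φ j), h3⟩

theorem sw_of_TD [Finite F] (h : Hr P) (hd : ∀ S : Sylow 2 P, TD (sy S))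
    {b ψ : Fin 5 → Fin 5 → F} (hb : OF P b ψ) : Sw P (b 0) (ψ 0) (b 1) (ψ 1) := by
  have h2 := h.two
  have hT : ∀ S : Sylow 2 P, ∀ g ∈ sy S, ¬ IsTv g := fun S g hg => h.nt g (sy_le S hg)
  obtain ⟨S⟩ : Nonempty (Sylow 2 P) := inferInstance
  obtain ⟨a, φ, ha, s1, s2, hc⟩ := hd S
  have cen : Cen (sy S) (a 4) (φ 4) := fun b ψ hb => by
    rcases hc b ψ hb with k | k | k
    · exact .inl (k.dot (ha.2 4 0 (by decide)) (ha.2 4 1 (by decide)))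
    · exact .inl (k.dot (ha.2 4 2 (by decide)) (ha.2 4 3 (by decide)))
    · exact .inr k
  have hfix : ∀ g ∈ sy S, Ln ((g : Matrix (Fin 5) (Fin 5) F) *ᵥ a 4) (a 4) := by
    intro g hg
    have r := (ha.1 4).conj hg
    rcases hc _ _ r with k | k | k
    · exact absurd (cen.conj hg)
        ((ha.pl (by decide) s1).not_cen (hT S) h2 (isPGroup_sy S) r k)
    · exact absurd (cen.conj hg)
        ((ha.pl (by decide) s2).not_cen (hT S) h2 (isPGroup_sy S) r k)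
    · exact k
  have M : ∀ i j : Fin 5, j ≠ i → ∃ k, k ≠ i ∧ k ≠ j ∧ Sw P (b j) (ψ j) (b k) (ψ k) := by
    intro i j hij
    obtain ⟨S', h1, h3⟩ := exists_sy_cen h S (ha.1 4) hfix hb i
    obtain ⟨a', φ', ha', s1', s2', hc'⟩ := hd S'
    have hQ := isPGroup_sy S'
    have cen' := Cen.of_comm h2 (hb.1 i).1 h3
    have p1 := ha'.pl (by decide) s1'
    have p2 := ha'.pl (by decide) s2'
    have hl : Ln (b i) (a' 4) := by
      rcases hc' _ _ (h1.1 i) with k | k | k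
      · exact absurd cen' (p1.not_cen (hT S') h2 hQ (h1.1 i) k)
      · exact absurd cen' (p2.not_cen (hT S') h2 hQ (h1.1 i) k)
      · exact k
    have two : ∀ k, k ≠ i → InPl (b k) (a' 0) (a' 1) ∨ InPl (b k) (a' 2) (a' 3) := by
      intro k hk
      rcases hc' _ _ (h1.1 k) with e | e | e
      · exact .inl e
      · exact .inr e
      · exact absurd (e.trans (hl.symm ((hb.1 i).ne_zero h2)))
          ((hb.1 i).not_ln h2 (hb.1 k) (hb.2 i k hk.symm))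
    have key : ∀ {c χ d f c' χ' d' f' : Fin 5 → F}, Pl (sy S') c χ d f → Pl (sy S') c' χ' d' f' →
        InPl (b j) c d → (∀ k, k ≠ i → InPl (b k) c d ∨ InPl (b k) c' d') →
        ∃ k, k ≠ i ∧ k ≠ j ∧ Sw P (b j) (ψ j) (b k) (ψ k) := by
      intro c χ d f c' χ' d' f' q q' hj hall
      by_contra hn
      have out : ∀ k, k ≠ i → k ≠ j → InPl (b k) c' d' := fun k hi hj' =>
        (hall k hi).resolve_left fun hk => hn ⟨k, hi, hj', (q.of_orth (hT S') h2 hQ (h1.1 j) hj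
          (h1.1 k) hk (hb.2 j k hj'.symm)).1.sw.mono (sy_le S')⟩
      obtain ⟨x, y, z, x1, x2, y1, y2, z1, z2, xy, zx, zy⟩ : ∃ x y z : Fin 5, x ≠ i ∧ x ≠ j ∧
          y ≠ i ∧ y ≠ j ∧ z ≠ i ∧ z ≠ j ∧ x ≠ y ∧ z ≠ x ∧ z ≠ y := by
        clear * -
        revert i j
        decide
      exact q'.no_three (hT S') h2 hQ (h1.1 x) (out x x1 x2) (h1.1 y) (out y y1 y2) (hb.2 x y xy)
        (h1.1 z) (out z z1 z2) (hb.2 z x zx) (hb.2 z y zy)
    rcases two j hij with e | e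
    · exact key p1 p2 e two
    · exact key p2 p1 e fun k hk => (two k hk).symm
  have tr : ∀ i j k : Fin 5, i ≠ j → j ≠ k → i ≠ k → Sw P (b i) (ψ i) (b j) (ψ j) →
      Sw P (b j) (ψ j) (b k) (ψ k) → Sw P (b i) (ψ i) (b k) (ψ k) := fun i j k ij jk ik e e' =>
    Sw.trans h2 (hb.1 j).1 (hb.2 i j ij) (hb.2 i k ik) (hb.2 j i ij.symm) (hb.2 j k jk)
      (hb.2 k i ik.symm) (hb.2 k j jk.symm) e e'
  by_contra hn
  obtain ⟨x, x1, x0, ex⟩ := M 1 0 (by decide)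
  obtain ⟨x', x'x, x'0, ex'⟩ := M x 0 x0.symm
  obtain ⟨y, y0, y1, ey⟩ := M 0 1 (by decide)
  obtain ⟨y', y'y, y'1, ey'⟩ := M y 1 y1.symm
  have x'1 : x' ≠ 1 := fun e => hn (e ▸ ex')
  have y'0 : y' ≠ 0 := fun e => hn (e ▸ ey').symm
  have fin : ∀ z : Fin 5, z ≠ 0 → z ≠ 1 → Sw P (b 0) (ψ 0) (b z) (ψ z) →
      Sw P (b 1) (ψ 1) (b z) (ψ z) → False := fun z z0 z1 e e' =>
    hn (tr 0 z 1 z0.symm z1 (by decide) e e'.symm)
  have : x = y ∨ x = y' ∨ x' = y ∨ x' = y' := by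
    clear * - x1 x0 x'x x'0 y0 y1 y'y y'1 x'1 y'0
    simp only [Ne, Fin.ext_iff] at *
    omega
  rcases this with e | e | e | e
  · exact fin x x0 x1 ex (e ▸ ey)
  · exact fin x x0 x1 ex (e ▸ ey')
  · exact fin x' x'0 x'1 ex' (e ▸ ey)
  · exact fin x' x'0 x'1 ex' (e ▸ ey')

theorem w4d : W4d.{u} := by
  intro F _ _ P h hd
  refine ⟨?_, fun a φ b ψ ha hb ho => ?_, fun a φ ha => ?_⟩
  · obtain ⟨S⟩ : Nonempty (Sylow 2 P) := inferInstance
    obtain ⟨a, φ, ha, -⟩ := hd S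
    exact ⟨a, φ, ha.mono fun i => sy_le S (ha.1 i).2⟩
  · have h0 : OF P ![a, b] ![φ, ψ] := by
      refine ⟨fun i => ?_, fun i j hij => ?_⟩
      · fin_cases i
        exacts [ha, hb]
      · fin_cases i <;> fin_cases j
        exacts [absurd rfl hij, ho, ha.orth_symm h.nt h.two hb ho, absurd rfl hij]
    obtain ⟨_, _, h1⟩ := ext_of_TD h hd (by norm_num) h0
    obtain ⟨_, _, h2⟩ := ext_of_TD h hd (by norm_num) h1
    obtain ⟨_, _, h3⟩ := ext_of_TD h hd (by norm_num) h2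
    exact sw_of_TD h hd h3
  · obtain ⟨b, ψ, h1⟩ := ext_of_TD h hd (by norm_num) ha
    obtain ⟨c, χ, h2⟩ := ext_of_TD h hd (by norm_num) h1
    refine ⟨b, ψ, c, χ, ?_⟩
    convert h2 using 1 <;> funext i <;> fin_cases i <;> rfl

end Cfsg.Lib.Five
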