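import Cfsg.Agent.Class.Five.R5b

/-!
# Complete frames give the orthogonal group
-/

set_option autoImplicit false

namespace Cfsg.Lib.Five

open Matrix Cfsg.Geo Cfsg.Lib.Class Cfsg.Lib.Class.Asch Cfsg.Lib.Mit
open scoped MatrixGroups

universe u

variable {F : Type u} [Field F] [Fintype F] {X : Subgroup (GL (Fin 5) F)} {d f : Fin 5 → F} {μ : F}

local notation "M5" => Matrix (Fin 5) (Fin 5) F

omit [Field F] [Fintype F] in
theorem e5 {a b : Fin 5 → F} (h0 : a 0 = b 0) (h1 : a 1 = b 1) (h2 : a 2 = b 2) (h3 : a 3 = b 3)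
    (h4 : a 4 = b 4) : a = b := by
  ext i; fin_cases i <;> assumption

omit [Fintype F] in
theorem Rt.refl5 {a₀ a₁ a₂ a₃ a₄ p₀ p₁ p₂ p₃ p₄ b₀ b₁ b₂ b₃ b₄ q₀ q₁ q₂ q₃ q₄ : F}
    (r : Rt X ![a₀, a₁, a₂, a₃, a₄] ![p₀, p₁, p₂, p₃, p₄])
    (r' : Rt X ![b₀, b₁, b₂, b₃, b₄] ![q₀, q₁, q₂, q₃, q₄]) (s t : F)
    (hs : p₀ * b₀ + p₁ * b₁ + p₂ * b₂ + p₃ * b₃ + p₄ * b₄ = s)
    (ht : q₀ * a₀ + q₁ * a₁ + q₂ * a₂ + q₃ * a₃ + q₄ * a₄ = t) :
    Rt X ![b₀ - s * a₀, b₁ - s * a₁, b₂ - s * a₂, b₃ - s * a₃, b₄ - s * a₄]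
      ![q₀ - t * p₀, q₁ - t * p₁, q₂ - t * p₂, q₃ - t * p₃, q₄ - t * p₄] := by
  have := r.refl r'
  rw [dotProduct, dotProduct, Fin.sum_univ_five, Fin.sum_univ_five] at this
  subst hs ht
  exact this.congr (e5 rfl rfl rfl rfl rfl) (e5 rfl rfl rfl rfl rfl)

omit [Fintype F] in
theorem tR_plane {a₀ a₁ p₀ p₁ : F} (h : ![p₀, p₁, 0, 0, 0] ⬝ᵥ ![a₀, a₁, 0, 0, 0] = 2)
    (x₀ x₁ x₂ x₃ x₄ : F) :
    (tR ![a₀, a₁, 0, 0, 0] ![p₀, p₁, 0, 0, 0] : M5) *ᵥ ![x₀, x₁, x₂, x₃, x₄] =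
      ![(p₀ * x₀ + p₁ * x₁) * a₀ - x₀, (p₀ * x₀ + p₁ * x₁) * a₁ - x₁, -x₂, -x₃, -x₄] := by
  rw [tR_mulVec h]
  refine e5 ?_ ?_ ?_ ?_ ?_ <;> simp

omit [Fintype F] in
theorem NF.s0 (h : NF X) : Rt X ![1, 0, 0, 0, 0] ![2, 0, 0, 0, 0] :=
  (h.r1 0).congr (e5 rfl rfl rfl rfl rfl) (e5 rfl rfl rfl rfl rfl)

omit [Fintype F] in
theorem NF.s01 (h : NF X) : Rt X ![1, -1, 0, 0, 0] ![1, -1, 0, 0, 0] := by
  refine (h.r2 0 1 (by decide)).congr ?_ ?_ <;> refine e5 ?_ ?_ ?_ ?_ ?_ <;> simp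

omit [Fintype F] in
theorem NM.no_six (h : NM X μ) (h5 : (5 : F) = 0) {w : F} (hw : w ^ 2 + w + 1 = 0)
    (r : Rt X ![1, -w, 0, 0, 0] ![1, -w ^ 2, 0, 0, 0]) : False := by
  obtain ⟨Y, hY, k⟩ := h.chg
  have hμ := h.ne
  have h2 := h.two
  have r1 : Rt Y ![0, 0, 0, 1, -w] ![0, 0, 0, 1, -w ^ 2] := by
    refine (k _ _).2 ((h.perm r ![3, 4, 2, 0, 1]).congr ?_ ?_) <;> ext i <;> fin_cases i <;> simp
  have r2 : Rt X ![1 - w, 1 + w, 0, 0, 0] ![3 * (1 - w ^ 2), 3 * (1 + w ^ 2), 0, 0, 0] := by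
    refine (((k _ _).1 (hY.perm r1 ![3, 4, 2, 0, 1])).smul hμ).congr ?_ ?_ <;> ext i <;>
      fin_cases i <;> simp <;> field_simp <;> grind
  clear k r1
  refine h.hr.nt _ (mul_mem (mul_mem (mul_mem h.s0.2 h.s01.2) r.2) r2.2)
    (isTv_of_coe (v := ![3 * w - 1, 2 + 3 * w, 0, 0, 0]) (f := ![1, 3 * w, 0, 0, 0])
      (fun e => ?_) (fun e => by simpa using congrFun e 0) ?_ (mat_ext_mulVec fun x => ?_))
  · have e0 : 3 * w - 1 = 0 := congrFun e 0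
    have e1 : 2 + 3 * w = 0 := congrFun e 1
    exact h2 (by linear_combination h5 - e1 + e0)
  · simp [dotProduct, Fin.sum_univ_five]; linear_combination 9 * hw - 2 * h5
  · rw [show x = ![x 0, x 1, x 2, x 3, x 4] from e5 rfl rfl rfl rfl rfl, GL_mul_mulVec,
      GL_mul_mulVec, GL_mul_mulVec, tR_plane r2.1, tR_plane r.1, tR_plane h.s01.1,
      tR_plane h.s0.1, one_add_vecMulVec_mulVec]
    refine e5 ?_ ?_ ?_ ?_ ?_ <;> simp <;> grind

theorem NM.lam (hB : WB.{u}) (h : NM X μ) {l : F} (hl : l ≠ 0)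
    (r : Rt X ![1, -l, 0, 0, 0] ![1, -l⁻¹, 0, 0, 0]) : l ^ 2 = 1 := by
  refine ((hB F X h.hr _ _ μ h.b3).lam l hl (r.congr ?_ ?_)).elim id fun ⟨h5, k⟩ => ?_
  · ext i; fin_cases i <;> simp [e3]
  · ext i; fin_cases i <;> simp [e3]
  refine (h.no_six h5 (w := l ^ 2) (by linear_combination k)
    (((r.refl5 h.s01 _ _ rfl rfl).smul (neg_ne_zero.2 hl)).congr ?_ ?_)).elim <;>
    refine e5 ?_ ?_ ?_ ?_ ?_ <;> simp <;> field_simp <;> grind

theorem NM.mu4 (hB : WB.{u}) (h : NM X μ) : μ ^ 2 = 2 ∨ μ ^ 2 = -2 := by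
  obtain ⟨Y, hY, k⟩ := h.chg
  have hμ := h.ne
  have h2 := h.two
  have := h.lam hB (l := -(μ ^ 2 / 2)) (by simp [hμ, h2]) (by
    refine ((h.perm ((k _ _).1 hY.r3) ![0, 2, 1, 3, 4]).smul (div_ne_zero hμ h2)).congr ?_ ?_ <;>
      ext i <;> fin_cases i <;> simp <;> field_simp <;> ring)
  field_simp at this
  have e : (μ ^ 2 - 2) * (μ ^ 2 + 2) = 0 := by linear_combination this
  exact (mul_eq_zero.1 e).imp sub_eq_zero.1 eq_neg_of_add_eq_zero_left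

omit [Fintype F] in
theorem NM.f4 (h : NM X μ) : Rt X ![1, 1, 1, 1, 0] ![1 / 2, 1 / 2, 1 / 2, 1 / 2, 0] := by
  obtain ⟨Y, hY, k⟩ := h.chg
  have hμ := h.ne
  refine ((k _ _).1 (hY.perm hY.r3 ![2, 3, 0, 1, 4])).congr ?_ ?_ <;> ext i <;> fin_cases i <;>
    simp [hμ]

theorem NM.mu2 (hB : WB.{u}) (h : NM X μ) : μ ^ 2 = 2 := by
  refine (h.mu4 hB).resolve_right fun hm => ?_
  obtain ⟨Y, hY, k⟩ := h.chg
  obtain ⟨Z, hZ, k'⟩ := hY.chg
  have hμ := h.ne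
  have h2 := h.two
  have h4 : (4 : F) ≠ 0 := by
    rw [show (4 : F) = 2 * 2 by norm_num]; exact mul_ne_zero h2 h2
  have r1 : Rt X ![1, 1, μ, 0, -2] ![1 / 4, 1 / 4, -μ / 4, 0, -1 / 2] := by
    refine (((k _ _).1 (hY.perm hY.r3 ![0, 3, 1, 4, 2])).smul hμ).congr ?_ ?_ <;> ext i <;>
      fin_cases i <;> simp <;> field_simp <;> grind
  have r1' : Rt X ![μ, 0, 1, 1, 2] ![-μ / 4, 0, 1 / 4, 1 / 4, 1 / 2] := by
    refine (h.sign (h.perm r1 ![2, 3, 0, 1, 4]) 4).congr ?_ ?_ <;> refine e5 rfl rfl rfl rfl ?_ <;>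
      simp [neg_div]
  have r2 : Rt X ![1 + μ, 1 + μ, 1, 1, 0] ![(1 - μ) / 4, (1 - μ) / 4, 1 / 4, 1 / 4, 0] := by
    refine (h.perm (r1.refl5 r1' (-1) (-1) (by field_simp; ring) (by field_simp; ring))
      ![0, 2, 1, 3, 4]).congr ?_ ?_ <;> refine e5 ?_ ?_ ?_ ?_ ?_ <;> simp <;> ring
  have r3 : Rt Y ![μ * (1 + μ), 0, 1, 1, 0] ![(1 - μ) / (2 * μ), 0, 1 / 4, 1 / 4, 0] := by
    refine (k _ _).2 (r2.congr ?_ ?_) <;> ext i <;> fin_cases i <;> simp <;> field_simp <;> ring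
  have r4 : Rt Z ![μ, 0, μ * (1 + μ), 0, 0] ![1 / (2 * μ), 0, (1 - μ) / (2 * μ), 0, 0] := by
    refine (k' _ _).2 ((hY.perm r3 ![2, 3, 0, 1, 4]).congr ?_ ?_) <;> ext i <;> fin_cases i <;>
      simp <;> field_simp <;> ring
  refine (hB F Z hZ.hr _ _ μ hZ.b3).noq hm ?_
  rw [cb_e3, cb_e3]
  refine ((hZ.perm r4 ![2, 0, 1, 3, 4]).smul (inv_ne_zero hμ)).congr ?_ ?_ <;> ext i <;>
    fin_cases i <;> simp <;> field_simp

theorem NF.real3 (hB : WB.{u}) (h : NF X) (r : Rt X d f) (h3 : d 3 = 0) (h4 : d 4 = 0) :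
    d 0 * f 1 = d 1 * f 0 := by
  obtain ⟨μ, hμ, k⟩ := h.exists_mu
  have hM : NM X μ := ⟨h, hμ, k⟩
  refine (hB F X h.hr _ _ μ hM.b3).real (hM.mu2 hB) ![d 0, d 1, d 2] ![f 0, f 1, f 2] ?_ 0 1
  rw [cb_e3, cb_e3]
  have f3 := (h.supp r 3).1 h3
  have f4 := (h.supp r 4).1 h4
  refine r.congr ?_ ?_ <;> ext i <;> fin_cases i <;> simp [h3, h4, f3, f4]

theorem NF.pair01 (hT : WT2.{u}) (hB : WB.{u}) (h : NF X) (r : Rt X d f) :
    d 0 * f 1 = d 1 * f 0 ∨ (2 * d 0 * f 0 = 1 ∧ 2 * d 1 * f 1 = 1 ∧ d 0 * f 1 + d 1 * f 0 = 0) := by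
  by_cases hn : d 0 * f 1 = d 1 * f 0
  · exact .inl hn
  have h2 := h.two
  have s : Rt X (Pi.single 0 1 - Pi.single 1 1)
      ((1 / 2 : F) • (Pi.single 0 2 - Pi.single 1 2 : Fin 5 → F)) :=
    (h.r2 0 1 (by decide)).congr rfl (by ext i; fin_cases i <;> simp [h2])
  rcases hT F X h.hr _ _ _ _ d f (h.r1 0) (h.r1 1) (by simp) s r (by
    simpa [h2, mul_assoc] using hn) with ⟨x, y, e⟩ | ⟨c, χ, hc, c0, c1, z, x, y, e⟩ | ⟨k0, k1, k2⟩
  · exact absurd (h.real3 hB r (by simp [e]) (by simp [e])) hn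
  · have o : OF X ![Pi.single 0 1, Pi.single 1 1, c] ![Pi.single 0 2, Pi.single 1 2, χ] := by
      have a0 := (h.r1 0).orth_symm h.hr.nt h2 hc c0
      have a1 := (h.r1 1).orth_symm h.hr.nt h2 hc c1
      refine ⟨fun i => ?_, fun i j hij => ?_⟩
      · fin_cases i
        exacts [h.r1 0, h.r1 1, hc]
      · fin_cases i <;> fin_cases j <;> first | exact absurd rfl hij | assumption | simp
    obtain ⟨b, ψ, b', ψ', o'⟩ := h.qf.q2 _ _ o
    obtain ⟨m, hf, m0, m1, hm, hN⟩ := nf_of h.hr h.qf o' s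
    rw [sub_eq_iff_eq_add] at e
    have := hN.real3 hB (rt_frame' hf r) (by
      have a0 := o'.2 3 0 (by decide)
      have a1 := o'.2 3 1 (by decide)
      have a2 := o'.2 3 2 (by decide)
      simp at a0 a1 a2
      simp [e, a0, a1, a2]) (by
      have a0 := o'.2 4 0 (by decide)
      have a1 := o'.2 4 1 (by decide)
      have a2 := o'.2 4 2 (by decide)
      simp at a0 a1 a2
      simp [e, a0, a1, a2])
    exact absurd (by simpa [m0, m1, h2] using this) hn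
  · simp [xx, h2, smul_sub, ← Pi.single_smul] at k0 k1 k2
    exact .inr ⟨k0, k1, by grind⟩

theorem NF.pair (hT : WT2.{u}) (hB : WB.{u}) (h : NF X) (r : Rt X d f) {i j : Fin 5} (hij : i ≠ j) :
    d i * f j = d j * f i ∨ (2 * d i * f i = 1 ∧ 2 * d j * f j = 1 ∧ d i * f j + d j * f i = 0) := by
  have : ∀ i j : Fin 5, i ≠ j → ∃ σ : Equiv.Perm (Fin 5), σ 0 = i ∧ σ 1 = j := by decide +kernel
  obtain ⟨σ, rfl, rfl⟩ := this i j hij
  exact h.pair01 hT hB (h.perm' σ r)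

omit [Fintype F] in
theorem NF.f4' (h : NF X) : Rt X ![1, 1, 1, -1, 0] ![1 / 2, 1 / 2, 1 / 2, -(1 / 2), 0] := by
  obtain ⟨μ, hμ, k⟩ := h.exists_mu
  exact (h.sign (NM.f4 ⟨h, hμ, k⟩) 3).congr (e5 rfl rfl rfl rfl rfl) (e5 rfl rfl rfl rfl rfl)

theorem NF.noA (hT : WT2.{u}) (hB : WB.{u}) (h : NF X) {i : F} (hi : i * i = -1)
    (r : Rt X ![1, i, 1, 1, 0] ![1 / 2, -i / 2, 1 / 2, 1 / 2, 0]) : False := by
  have h2 := h.two
  have := h.pair hT hB (h.f4'.refl5 r ((1 + i) / 2) ((1 - i) / 2) (by ring) (by ring))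
    (i := 0) (j := 3) (by decide)
  simp only [cons_val] at this
  have h16 : (2 : F) ^ 4 ≠ 0 := pow_ne_zero _ h2
  rcases this with k | ⟨k, -⟩ <;> field_simp at k
  · exact h16 (by linear_combination (2 * i) * k + 16 * hi)
  · exact h16 (by linear_combination -8 * k - 8 * hi)

theorem NF.noB (hT : WT2.{u}) (hB : WB.{u}) (h : NF X) {i : F} (hi : i * i = -1)
    (r : Rt X ![1, i, 1, i, 0] ![1 / 2, -i / 2, 1 / 2, -i / 2, 0]) : False := by
  have h2 := h.two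
  have := h.pair hT hB (h.f4'.refl5 r 1 1 (by field_simp; ring) (by field_simp; ring))
    (i := 1) (j := 3) (by decide)
  simp only [cons_val] at this
  have h4 : (2 : F) ^ 2 ≠ 0 := pow_ne_zero _ h2
  rcases this with k | ⟨k, -⟩ <;> field_simp at k
  · exact h4 (by linear_combination -i * k + 4 * hi)
  · exact h4 (by linear_combination 4 * k + 4 * hi)

/-- The entries of a non-real root. -/
theorem NF.entry (hT : WT2.{u}) (hB : WB.{u}) (h : NF X) {i : F} (hi : i * i = -1) (r : Rt X d f)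
    (d0 : d 0 = 1) (f0 : f 0 = 1 / 2) (d1 : d 1 = i) (f1 : f 1 = -i / 2) {k : Fin 5} (k0 : 0 ≠ k)
    (k1 : 1 ≠ k) : ∃ s : F, (s = 1 ∨ s = -1) ∧ ((d k = 0 ∧ f k = 0) ∨
      (s * d k = 1 ∧ s * f k = 1 / 2) ∨ (s * d k = i ∧ s * f k = -i / 2)) := by
  have h2 := h.two
  have p0 := h.pair hT hB r k0
  have p1 := h.pair hT hB r k1
  rw [d0, f0] at p0
  rw [d1, f1] at p1
  have i0 := i_ne_zero hi
  rcases p0 with p0 | ⟨-, p0, p0'⟩
  · rcases p1 with p1 | ⟨-, p1, -⟩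
    · have : d k = 0 := mul_left_cancel₀ i0 (by
        field_simp at p0 p1; apply mul_left_cancel₀ h2; grind)
      exact ⟨1, .inl rfl, .inl ⟨this, (h.supp r k).1 this⟩⟩
    · have : d k * d k = 1 := by field_simp at p0; grind
      exact ⟨d k, mul_self_eq_one_iff.1 this, .inr (.inl ⟨this, by field_simp; grind⟩)⟩
  · have : d k * d k = -1 := by field_simp at p0'; grind
    exact ⟨-(i * d k), mul_self_eq_one_iff.1 (by grind), .inr (.inr ⟨by grind, by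
      field_simp at p0' ⊢; grind⟩)⟩

omit [Fintype F] in
theorem NF.sgn (h : NF X) (r : Rt X d f) (k : Fin 5) {s : F} (hs : s = 1 ∨ s = -1) :
    Rt X (Function.update d k (s * d k)) (Function.update f k (s * f k)) := by
  rcases hs with rfl | rfl
  · simpa using r
  · refine (h.sign r k).congr ?_ ?_ <;> ext m <;> simp [Function.update_apply] <;> split_ifs <;>
      simp_all

theorem NF.core (hT : WT2.{u}) (hB : WB.{u}) (h : NF X) {i a b p q : F} (hi : i * i = -1)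
    (r : Rt X ![1, i, a, b, 0] ![1 / 2, -i / 2, p, q, 0])
    (ha : (a = 1 ∧ p = 1 / 2) ∨ (a = i ∧ p = -i / 2))
    (hb : (b = 1 ∧ q = 1 / 2) ∨ (b = i ∧ q = -i / 2)) : False := by
  rcases ha with ⟨rfl, rfl⟩ | ⟨rfl, rfl⟩ <;> rcases hb with ⟨rfl, rfl⟩ | ⟨rfl, rfl⟩
  · exact h.noA hT hB hi r
  · exact h.noB hT hB hi r
  · exact h.noB hT hB hi ((h.perm r ![0, 1, 3, 2, 4]).congr (e5 rfl rfl rfl rfl rfl)
      (e5 rfl rfl rfl rfl rfl))
  · have i0 := i_ne_zero hi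
    have := h.two
    refine h.noA hT hB (i := -b) (by linear_combination hi)
      (((h.perm r ![1, 0, 2, 3, 4]).smul (inv_ne_zero i0)).congr ?_ ?_) <;>
      refine e5 ?_ ?_ ?_ ?_ ?_ <;> simp <;> field_simp <;> grind

theorem NF.real01 (hT : WT2.{u}) (hB : WB.{u}) (h : NF X) (r : Rt X d f) :
    d 0 * f 1 = d 1 * f 0 := by
  refine (h.pair01 hT hB r).elim id fun ⟨u0, u1, u2⟩ => ?_
  exfalso
  have h2 := h.two
  have n0 : d 0 ≠ 0 := fun e => by simp [e] at u0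
  have r' := r.smul (inv_ne_zero n0)
  rw [inv_inv] at r'
  have hi : d 1 / d 0 * (d 1 / d 0) = -1 := by field_simp; grind
  have E := fun k => h.entry hT hB hi r' (by simp [n0]) (by simp; field_simp; grind)
    (by simp [div_eq_inv_mul]) (by simp; field_simp; grind) (k := k)
  obtain ⟨s2, t2, e2⟩ := E 2 (by decide) (by decide)
  obtain ⟨s3, t3, e3⟩ := E 3 (by decide) (by decide)
  obtain ⟨s4, t4, e4⟩ := E 4 (by decide) (by decide)
  have r2 : Rt X ![1, d 1 / d 0, s2 * ((d 0)⁻¹ • d) 2, s3 * ((d 0)⁻¹ • d) 3, s4 * ((d 0)⁻¹ • d) 4]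
      ![1 / 2, -(d 1 / d 0) / 2, s2 * (d 0 • f) 2, s3 * (d 0 • f) 3, s4 * (d 0 • f) 4] := by
    refine (h.sgn (h.sgn (h.sgn r' 2 t2) 3 t3) 4 t4).congr (e5 ?_ ?_ rfl rfl rfl)
      (e5 ?_ ?_ rfl rfl rfl) <;> simp <;> field_simp <;> grind
  generalize d 1 / d 0 = i at *
  have z : ∀ {s a p : F}, a = 0 ∧ p = 0 → s * a = 0 ∧ s * p = 0 := fun k => by simp [k.1, k.2]
  replace e2 := e2.imp_left (z (s := s2))
  replace e3 := e3.imp_left (z (s := s3))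
  replace e4 := e4.imp_left (z (s := s4))
  generalize s2 * ((d 0)⁻¹ • d) 2 = a at *
  generalize s3 * ((d 0)⁻¹ • d) 3 = b at *
  generalize s4 * ((d 0)⁻¹ • d) 4 = c at *
  generalize s2 * (d 0 • f) 2 = p at *
  generalize s3 * (d 0 • f) 3 = q at *
  generalize s4 * (d 0 • f) 4 = t at *
  have w : ∀ {a p : F}, (a = 1 ∧ p = 1 / 2) ∨ (a = i ∧ p = -i / 2) → 2 * (p * a) = 1 := by
    rintro a p (⟨rfl, rfl⟩ | ⟨rfl, rfl⟩) <;> field_simp
    linear_combination -hi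
  have sm : 2 * (p * a) + 2 * (q * b) + 2 * (t * c) = 2 := by
    have := r2.1
    simp only [dotProduct, Fin.sum_univ_five, cons_val] at this
    field_simp at this
    linear_combination this + hi
  rcases e2 with ⟨rfl, rfl⟩ | e2 <;> rcases e3 with ⟨rfl, rfl⟩ | e3 <;>
    rcases e4 with ⟨rfl, rfl⟩ | e4
  · exact h2 (by linear_combination -sm)
  · exact one_ne_zero (by linear_combination w e4 - sm)
  · exact one_ne_zero (by linear_combination w e3 - sm)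
  · exact h.core hT hB hi ((h.perm r2 ![0, 1, 3, 4, 2]).congr (e5 rfl rfl rfl rfl rfl)
      (e5 rfl rfl rfl rfl rfl)) e3 e4
  · exact one_ne_zero (by linear_combination w e2 - sm)
  · exact h.core hT hB hi ((h.perm r2 ![0, 1, 2, 4, 3]).congr (e5 rfl rfl rfl rfl rfl)
      (e5 rfl rfl rfl rfl rfl)) e2 e4
  · exact h.core hT hB hi r2 e2 e3
  · exact one_ne_zero (by linear_combination sm - w e2 - w e3 - w e4)

theorem NF.real (hT : WT2.{u}) (hB : WB.{u}) (h : NF X) (r : Rt X d f) (i j : Fin 5) :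
    d i * f j = d j * f i := by
  by_cases hij : i = j
  · rw [hij]
  have : ∀ i j : Fin 5, i ≠ j → ∃ σ : Equiv.Perm (Fin 5), σ 0 = i ∧ σ 1 = j := by decide +kernel
  obtain ⟨σ, rfl, rfl⟩ := this i j hij
  exact h.real01 hT hB (h.perm' σ r)

theorem w5_of (hT : WT2.{u}) (hB : WB.{u}) : W5.{u} := by
  intro F _ _ P hP hQ
  obtain ⟨a, φ, ha⟩ := hQ.ex
  obtain ⟨k, hk, r⟩ := hQ.q1 _ _ _ _ (ha.1 0) (ha.1 1) (ha.2 0 1 (by decide))
  have ha' : OF P (Function.update a 1 (k • a 1)) (Function.update φ 1 (k⁻¹ • φ 1)) := by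
    refine ⟨fun i => ?_, fun i j hij => ?_⟩
    · by_cases e : i = 1
      · simpa [e] using (ha.1 1).smul hk
      · simpa [e] using ha.1 i
    · have := ha.2 i j hij
      by_cases e : i = 1 <;> by_cases e' : j = 1 <;> simp_all
  obtain ⟨c, hf, -, -, -, hN⟩ := nf_of hP hQ ha' (by simpa using r)
  refine fixQ_of_cj (T := frameGL hf) hP.qs fun g hg => ?_
  have key : ((g⁻¹ : GL (Fin 5) F) : Matrix (Fin 5) (Fin 5) F) = (g : Matrix (Fin 5) (Fin 5) F)ᵀ := by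
    rw [← closure_roots hN.hr.qs hN.two (hN.r1 0)] at hg
    induction hg using Subgroup.closure_induction with
    | mem x hx =>
      obtain ⟨d, f, r, rfl⟩ := hx
      rw [tR_inv, tR_coe r.1]
      ext i j
      simp [vecMulVec_apply, one_apply, eq_comm, hN.real hT hB r i j]
    | one => simp
    | mul x y _ _ hx hy => rw [_root_.mul_inv_rev, Units.val_mul, hx, hy, Units.val_mul, transpose_mul]
    | inv x _ hx => rw [inv_inv, hx, transpose_transpose]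
  rw [tr5, key, trace_transpose, tr5]

end Cfsg.Lib.Five
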