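import Cfsg.Agent.Class.Five.R53B

/-!
# Transport from dimension five to dimension three: the packages `WM1`, `WT2` and `WB`
-/

set_option autoImplicit false

namespace Cfsg.Lib.Five

open Matrix Cfsg.Geo Cfsg.Lib.Class Cfsg.Lib.Class.Asch Cfsg.Lib.Mit
open scoped MatrixGroups

universe u

namespace R53

variable {F : Type*} [Field F]

theorem exists_frame {ι : Type} [Fintype ι] {a φ b ψ c χ : ι → F} (ha : φ ⬝ᵥ a = 2)
    (hb : ψ ⬝ᵥ b = 2) (hc : χ ⬝ᵥ c = 2) (hg : gram a φ b ψ c χ ≠ 0) :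
    ∃ (C : Matrix ι (Fin 3) F) (Φ : Matrix (Fin 3) ι F) (f g k : Fin 3 → F), Φ * C = 1 ∧
      (∀ x, C *ᵥ x = x 0 • a + x 1 • b + x 2 • c) ∧ f ᵥ* Φ = φ ∧ g ᵥ* Φ = ψ ∧ k ᵥ* Φ = χ := by
  rw [gram_eq_det ha hb hc] at hg
  have key : ∀ i, (Matrix.of ![φ, ψ, χ] * (Matrix.of ![a, b, c])ᵀ) i ᵥ*
      ((Matrix.of ![φ, ψ, χ] * (Matrix.of ![a, b, c])ᵀ)⁻¹ * Matrix.of ![φ, ψ, χ]) =
      ![φ, ψ, χ] i := fun i => by
    have := congrFun (mul_nonsing_inv_cancel_left _ (Matrix.of ![φ, ψ, χ]) hg.isUnit) i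
    exact this
  refine ⟨(Matrix.of ![a, b, c])ᵀ, _, _, _, _, ?_, fun x => ?_, key 0, key 1, key 2⟩
  · rw [Matrix.mul_assoc, nonsing_inv_mul _ hg.isUnit]
  · ext i; simp [mulVec, dotProduct, Fin.sum_univ_three, mul_comm]

variable {P : Subgroup (GL (Fin 5) F)} {C : Matrix (Fin 5) (Fin 3) F} {Φ : Matrix (Fin 3) (Fin 5) F}

theorem tri_up (hT : WT.{u}) {F : Type u} [Field F] [Fintype F] {P : Subgroup (GL (Fin 5) F)}
    (hP : Hr P) {C : Matrix (Fin 5) (Fin 3) F} {Φ : Matrix (Fin 3) (Fin 5) F} (h : Φ * C = 1)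
    {a φ b ψ c χ : Fin 3 → F} (ha : Rt P (C *ᵥ a) (φ ᵥ* Φ)) (hb : Rt P (C *ᵥ b) (ψ ᵥ* Φ))
    (hc : Rt P (C *ᵥ c) (χ ᵥ* Φ))
    (hy : yy (C *ᵥ a) (φ ᵥ* Φ) (C *ᵥ b) (ψ ᵥ* Φ) (C *ᵥ c) (χ ᵥ* Φ) ≠
      yy (C *ᵥ a) (φ ᵥ* Φ) (C *ᵥ c) (χ ᵥ* Φ) (C *ᵥ b) (ψ ᵥ* Φ))
    (hg : gram (C *ᵥ a) (φ ᵥ* Φ) (C *ᵥ b) (ψ ᵥ* Φ) (C *ᵥ c) (χ ᵥ* Φ) ≠ 0) :
    Two1 (C *ᵥ a) (φ ᵥ* Φ) (C *ᵥ b) (ψ ᵥ* Φ) (C *ᵥ c) (χ ᵥ* Φ) ∨ Exc3 (Xd P C Φ) := by
  have := tri hT (h3_Xd hP h) (down h ha) (down h hb) (down h hc)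
  simp only [Two1, gram, xx, yy, dot_up h] at this hy hg ⊢
  exact this hy hg

theorem half (hD : WD.{u}) (hT : WT.{u}) {F : Type u} [Field F] [Fintype F]
    {P : Subgroup (GL (Fin 5) F)} (hP : Hr P) {a φ b ψ d f : Fin 5 → F} (ha : Rt P a φ)
    (hb : Rt P b ψ) (ho : φ ⬝ᵥ b = 0) (hab : Rt P (a - b) ((1 / 2 : F) • (φ - ψ))) (hd : Rt P d f)
    (hy : (φ ⬝ᵥ d) * (f ⬝ᵥ b) ≠ (ψ ⬝ᵥ d) * (f ⬝ᵥ a)) :
    InPl d a b ∨ (∃ c χ, Rt P c χ ∧ φ ⬝ᵥ c = 0 ∧ ψ ⬝ᵥ c = 0 ∧ ∃ z : F, InPl (d - z • c) a b) ∨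
      (xx a φ d f = 1 ∧ xx (a - b) ((1 / 2 : F) • (φ - ψ)) d f = 1) := by
  have h2 := hP.two
  have ho' := ha.orth_symm hP.nt h2 hb ho
  have hy' : yy a φ (a - b) ((1 / 2 : F) • (φ - ψ)) d f ≠
      yy a φ d f (a - b) ((1 / 2 : F) • (φ - ψ)) := fun e => hy (by
    simp only [yy, dotProduct_sub, sub_dotProduct, smul_dotProduct, ha.1, ho, ho', smul_eq_mul] at e
    field_simp at e
    linear_combination e)
  by_cases hg : gram a φ (a - b) ((1 / 2 : F) • (φ - ψ)) d f = 0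
  · obtain ⟨g, h1, i, hi⟩ := Fintype.not_linearIndependent_iff.1
      (hD F P hP _ _ _ _ _ _ ha hab hd hy' hg).2
    simp only [Fin.sum_univ_three, cons_val_zero, cons_val_one, cons_val_two, Nat.succ_eq_add_one,
      Nat.reduceAdd, tail_cons, head_cons] at h1
    by_cases h3 : g 2 = 0
    · have k1 := congrArg (φ ⬝ᵥ ·) h1
      have k2 := congrArg (ψ ⬝ᵥ ·) h1
      simp only [h3, zero_smul, add_zero, dotProduct_add, dotProduct_smul, dotProduct_sub, ha.1,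
        hb.1, ho, ho', smul_eq_mul, dotProduct_zero] at k1 k2
      have k3 : g 1 = 0 := mul_right_cancel₀ h2 (by linear_combination -k2)
      have k4 : g 0 = 0 := mul_right_cancel₀ h2 (by linear_combination k1 + k2)
      fin_cases i
      exacts [absurd k4 hi, absurd k3 hi, absurd h3 hi]
    · refine .inl ⟨-(g 0 + g 1) / g 2, g 1 / g 2, funext fun i => ?_⟩
      have := congrFun h1 i
      simp only [Pi.add_apply, Pi.smul_apply, Pi.sub_apply, smul_eq_mul, Pi.zero_apply] at this ⊢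
      field_simp
      linear_combination this
  obtain ⟨C, Φ, f₀, f₁, f₂, h, hC, e₀, e₁, e₂⟩ := exists_frame ha.1 hab.1 hd.1 hg
  have c₀ : C *ᵥ ![1, 0, 0] = a := by simp [hC]
  have c₁ : C *ᵥ ![0, 1, 0] = a - b := by simp [hC]
  have c₂ : C *ᵥ ![0, 0, 1] = d := by simp [hC]
  have c₃ : C *ᵥ ![1, -1, 0] = b := by simp [hC]
  have e₃ : (f₀ - (2 : F) • f₁) ᵥ* Φ = ψ := by
    rw [sub_vecMul, smul_vecMul, e₀, e₁, smul_smul, mul_one_div_cancel h2, one_smul, sub_sub_cancel]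
  have ra : Rt P (C *ᵥ ![1, 0, 0]) (f₀ ᵥ* Φ) := ha.congr c₀.symm e₀.symm
  have rb : Rt P (C *ᵥ ![1, -1, 0]) ((f₀ - (2 : F) • f₁) ᵥ* Φ) := hb.congr c₃.symm e₃.symm
  have := tri_up hT hP h ra (hab.congr c₁.symm e₁.symm) (hd.congr c₂.symm e₂.symm)
  rw [c₀, c₁, c₂, e₀, e₁, e₂] at this
  have x2 : xx a φ (a - b) ((1 / 2 : F) • (φ - ψ)) ≠ 1 := fun e => by
    simp only [xx, dotProduct_sub, sub_dotProduct, smul_dotProduct, ha.1, ho, ho', smul_eq_mul] at e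
    rw [sub_zero, one_div, inv_mul_cancel₀ h2] at e
    exact one_ne_zero (α := F) (by linear_combination e)
  rcases this hy' hg with (k | k | k) | k
  · exact absurd k.1 x2
  · exact absurd k.1 x2
  · exact .inr (.inr k)
  obtain ⟨M, hM, k1, k2⟩ := exists_third (h3_Xd hP h) k (down h ra) (down h rb)
    (by rw [← dot_up h, e₀, c₃, ho])
  have rc := up_conj h hM ra
  rw [← dot_up h] at k1 k2
  rw [e₀] at k1
  rw [e₃] at k2
  refine .inr (.inl ⟨_, _, rc, k1, k2, ?_⟩)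
  have hne := rc.ne_zero h2
  rw [hC] at k1 k2 hne ⊢
  generalize (M : Matrix (Fin 3) (Fin 3) F) *ᵥ ![1, 0, 0] = x at *
  by_cases h3 : x 2 = 0
  · simp only [h3, zero_smul, add_zero, dotProduct_add, dotProduct_smul, dotProduct_sub, ha.1,
      hb.1, ho, ho', smul_eq_mul] at k1 k2 hne
    have k3 : x 1 = 0 := mul_right_cancel₀ h2 (by linear_combination -k2)
    have k4 : x 0 = 0 := mul_right_cancel₀ h2 (by linear_combination k1 + k2)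
    exact absurd (by simp [k3, k4]) hne
  · refine ⟨(x 2)⁻¹, -(x 0 + x 1) / x 2, x 1 / x 2, funext fun i => ?_⟩
    simp only [Pi.add_apply, Pi.smul_apply, Pi.sub_apply, smul_eq_mul]
    field_simp
    ring

theorem cb_std (d : Fin 3 → F) : cb d (fun i => Pi.single i 1) = d := by
  ext i
  simp [cb, Finset.sum_apply, Pi.single_apply]

end R53

open R53

theorem wM1_of (hD : WD.{u}) (hT : WT.{u}) : WM1.{u} := by
  intro F _ _ P hP h4 a φ b ψ c χ ha hb hc hy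
  by_cases hg : gram a φ b ψ c χ = 0
  · exact absurd (hD F P hP _ _ _ _ _ _ ha hb hc hy hg).1 h4
  obtain ⟨C, Φ, f₀, f₁, f₂, h, hC, e₀, e₁, e₂⟩ := exists_frame ha.1 hb.1 hc.1 hg
  have c₀ : C *ᵥ ![1, 0, 0] = a := by simp [hC]
  have c₁ : C *ᵥ ![0, 1, 0] = b := by simp [hC]
  have c₂ : C *ᵥ ![0, 0, 1] = c := by simp [hC]
  have ra : Rt P (C *ᵥ ![1, 0, 0]) (f₀ ᵥ* Φ) := ha.congr c₀.symm e₀.symm
  have := tri_up hT hP h ra (hb.congr c₁.symm e₁.symm) (hc.congr c₂.symm e₂.symm)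
  rw [c₀, c₁, c₂, e₀, e₁, e₂] at this
  refine (this hy hg).resolve_right fun k => h4 ?_
  obtain ⟨M, hM, N, hN, e⟩ := exists_four (h3_Xd hP h) k (down h ra)
  exact ⟨_, _, _, _, up_conj h hM ra, up_conj h hN ra, by simpa only [xx, dot_up h] using e⟩

theorem wT2_of (hD : WD.{u}) (hT : WT.{u}) : WT2.{u} := by
  intro F _ _ P hP a φ b ψ d f ha hb ho hab hd hy
  rcases half hD hT hP ha hb ho hab hd hy with k | k | k
  · exact .inl k
  · exact .inr (.inl k)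
  rcases half hD hT hP hb ha (ha.orth_symm hP.nt hP.two hb ho)
    (hab.neg.congr (neg_sub a b) (by rw [← smul_neg, neg_sub])) hd hy.symm with
    ⟨x, y, e⟩ | ⟨c, χ, hc, k1, k2, z, x, y, e⟩ | k'
  · exact .inl ⟨y, x, e.trans (add_comm _ _)⟩
  · exact .inr (.inl ⟨c, χ, hc, k2, k1, z, y, x, e.trans (add_comm _ _)⟩)
  · exact .inr (.inr ⟨k.1, k'.1, k.2⟩)

theorem wB_of (h : WB3.{u}) : WB.{u} := by
  intro F _ _ P hP e ε μ hB
  have h1 : Matrix.of ε * (Matrix.of e)ᵀ = 1 := by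
    ext i j
    exact (hB.fr i j).trans (one_apply).symm
  have hC : ∀ d, (Matrix.of e)ᵀ *ᵥ d = cb d e := fun d => by
    ext i; simp [cb, mulVec, dotProduct, Finset.sum_apply, mul_comm]
  have hΦ : ∀ f, f ᵥ* Matrix.of ε = cb f ε := fun f => by
    ext i; simp [cb, vecMul, dotProduct, Finset.sum_apply]
  have hC' : ∀ i, (Matrix.of e)ᵀ *ᵥ Pi.single i 1 = e i := fun i => by ext j; simp
  have hΦ' : ∀ i, Pi.single i 1 ᵥ* Matrix.of ε = ε i := fun i => by ext j; simp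
  have D : ∀ {d f : Fin 3 → F}, Rt P (cb d e) (cb f ε) →
      Rt (Xd P (Matrix.of e)ᵀ (Matrix.of ε)) (cb d fun i => Pi.single i 1)
        (cb f fun i => Pi.single i 1) := fun {d f} k => by
    rw [cb_std, cb_std]
    exact down h1 (k.congr (hC d).symm (hΦ f).symm)
  have := h F _ (h3_Xd hP h1) μ ⟨fun i j => by simp [Pi.single_apply, eq_comm], hB.ne,
    fun i => down h1 ((hB.r1 i).congr (hC' i).symm (by rw [smul_vecMul, hΦ'])),
    fun i j hij => down h1 ((hB.r2 i j hij).congr (by rw [mulVec_sub, hC', hC'])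
      (by rw [sub_vecMul, hΦ', hΦ'])), D hB.r3⟩
  exact ⟨fun l hl k => this.lam l hl (down h1 (k.congr
      (by rw [mulVec_sub, mulVec_smul, hC', hC']) (by rw [sub_vecMul, smul_vecMul, hΦ', hΦ']))),
    fun hμ d f k => this.real hμ d f (D k), fun hμ k => this.noq hμ (D k)⟩

end Cfsg.Lib.Five
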