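import Cfsg.Agent.Class.Five.RDefs
import Cfsg.Agent.Mit.L27
import Cfsg.Agent.Class.PSLSimple

/-!
# Transport of roots from dimension five to dimension three: lifts, small groups, monomial triples
-/

set_option autoImplicit false

namespace Cfsg.Lib.Five.R53

open Matrix Cfsg.Geo Cfsg.Lib.Class Cfsg.Lib.Class.Asch Cfsg.Lib.Mit Equiv Equiv.Perm
open scoped MatrixGroups

section Transport

variable {ι κ : Type} [Fintype ι] [DecidableEq ι] [Fintype κ] [DecidableEq κ] {F : Type*} [Field F]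
  {P : Subgroup (GL ι F)} {C : Matrix ι κ F} {Φ : Matrix κ ι F}

/-- The group generated by the roots of `P` in the image of `C`. -/
def Xd (P : Subgroup (GL ι F)) (C : Matrix ι κ F) (Φ : Matrix κ ι F) : Subgroup (GL κ F) :=
  Subgroup.closure {g | ∃ a f, Rt P (C *ᵥ a) (f ᵥ* Φ) ∧ g = tR a f}

/-- The lift with sign `s`. -/
def lift (C : Matrix ι κ F) (Φ : Matrix κ ι F) (s : F) (M : Matrix κ κ F) : Matrix ι ι F :=
  C * M * Φ + s • (1 - C * Φ)

theorem lift_mul (h : Φ * C = 1) (s t : F) (M N : Matrix κ κ F) :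
    lift C Φ s M * lift C Φ t N = lift C Φ (s * t) (M * N) := by
  have e : ∀ X : Matrix κ ι F, Φ * (C * X) = X := fun X => by
    rw [← Matrix.mul_assoc, h, Matrix.one_mul]
  simp only [lift, Matrix.add_mul, Matrix.mul_add, Matrix.mul_smul, Matrix.smul_mul, Matrix.mul_sub,
    Matrix.sub_mul, Matrix.mul_one, Matrix.one_mul, Matrix.mul_assoc, e]
  module

theorem lift_one : lift C Φ 1 1 = 1 := by simp [lift]

theorem lift_mulVec (h : Φ * C = 1) (s : F) (M : Matrix κ κ F) (a : κ → F) :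
    lift C Φ s M *ᵥ (C *ᵥ a) = C *ᵥ (M *ᵥ a) := by
  simp only [lift, mulVec_mulVec, Matrix.add_mul, Matrix.smul_mul, Matrix.sub_mul, Matrix.mul_assoc,
    h, Matrix.mul_one, Matrix.one_mul, sub_self, smul_zero, add_zero]

theorem vecMul_lift (h : Φ * C = 1) (s : F) (M : Matrix κ κ F) (f : κ → F) :
    (f ᵥ* Φ) ᵥ* lift C Φ s M = (f ᵥ* M) ᵥ* Φ := by
  simp only [lift, vecMul_vecMul, Matrix.mul_add, Matrix.mul_smul, Matrix.mul_sub,
    ← Matrix.mul_assoc, h, Matrix.mul_one, Matrix.one_mul, sub_self, smul_zero, add_zero]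

theorem dot_up (h : Φ * C = 1) (f a : κ → F) : (f ᵥ* Φ) ⬝ᵥ (C *ᵥ a) = f ⬝ᵥ a := by
  rw [← dotProduct_mulVec, mulVec_mulVec, h, one_mulVec]

theorem lift_vv (s : F) (a f : κ → F) (k : F) : lift C Φ s (vecMulVec a f + k • 1) =
    vecMulVec (C *ᵥ a) (f ᵥ* Φ) + (k - s) • (C * Φ) + s • 1 := by
  simp only [lift, Matrix.mul_add, Matrix.add_mul, mul_vecMulVec, vecMulVec_mul, Matrix.mul_smul,
    Matrix.smul_mul, Matrix.mul_one]
  module

theorem down (h : Φ * C = 1) {a f : κ → F} (hr : Rt P (C *ᵥ a) (f ᵥ* Φ)) : Rt (Xd P C Φ) a f :=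
  ⟨(dot_up h f a).symm.trans hr.1, Subgroup.subset_closure ⟨a, f, hr, rfl⟩⟩

theorem inv_lift (h : Φ * C = 1) {s : F} (hs : s * s = 1) {g : GL ι F} {M : GL κ F}
    (e : (g : Matrix ι ι F) = lift C Φ s M) :
    ((g⁻¹ : GL ι F) : Matrix ι ι F) = lift C Φ s (M⁻¹ : GL κ F) := by
  apply Units.inv_eq_of_mul_eq_one_right
  rw [e, lift_mul h, hs, Units.mul_inv, lift_one]

theorem exists_up (h : Φ * C = 1) {M : GL κ F} (hM : M ∈ Xd P C Φ) :
    ∃ s : F, s * s = 1 ∧ ∃ g ∈ P, (g : Matrix ι ι F) = lift C Φ s M := by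
  induction hM using Subgroup.closure_induction with
  | mem x hx =>
    obtain ⟨a, f, hr, rfl⟩ := hx
    refine ⟨-1, by ring, _, hr.2, ?_⟩
    have := lift_vv (C := C) (Φ := Φ) (-1) a f (-1)
    rw [tR_coe hr.1, tR_coe (down h hr).1, sub_eq_add_neg (vecMulVec a f),
      ← neg_one_smul F (1 : Matrix κ κ F), this]
    module
  | one => exact ⟨1, by ring, 1, one_mem _, lift_one.symm⟩
  | mul x y _ _ hx hy =>
    obtain ⟨s, hs, g, hg, e⟩ := hx
    obtain ⟨t, ht, k, hk, e'⟩ := hy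
    exact ⟨s * t, by linear_combination t * t * hs + ht, g * k, mul_mem hg hk, by
      rw [Units.val_mul, e, e', lift_mul h, Units.val_mul]⟩
  | inv x _ hx =>
    obtain ⟨s, hs, g, hg, e⟩ := hx
    exact ⟨s, hs, g⁻¹, inv_mem hg, inv_lift h hs e⟩

theorem up_conj (h : Φ * C = 1) {M : GL κ F} (hM : M ∈ Xd P C Φ) {a f : κ → F}
    (hr : Rt P (C *ᵥ a) (f ᵥ* Φ)) :
    Rt P (C *ᵥ ((M : Matrix κ κ F) *ᵥ a)) ((f ᵥ* ((M⁻¹ : GL κ F) : Matrix κ κ F)) ᵥ* Φ) := by
  obtain ⟨s, hs, g, hg, e⟩ := exists_up h hM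
  have := hr.conj hg
  rwa [inv_lift h hs e, e, lift_mulVec h, vecMul_lift h] at this

theorem noTv_Xd (h : Φ * C = 1) (h2 : (2 : F) ≠ 0) (hT : ∀ g ∈ P, ¬ IsTv g) :
    ∀ M ∈ Xd P C Φ, ¬ IsTv M := by
  rintro M hM ⟨h1, v, f, hv, rfl⟩
  obtain ⟨s, hs, g, hg, e⟩ := exists_up h hM
  have hv0 : v ≠ 0 := fun k => h1 ((tv_eq_one_iff hv).2 (.inl k))
  have hf0 : f ≠ 0 := fun k => h1 ((tv_eq_one_iff hv).2 (.inr k))
  refine hT _ (mul_mem hg hg) (isTv_of_coe (v := C *ᵥ ((2 : F) • v)) (f := f ᵥ* Φ)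
    (fun k => ?_) (fun k => ?_) (by rw [dot_up h, dotProduct_smul, hv, smul_zero]) ?_)
  · have := congrArg (Φ *ᵥ ·) k
    simp only [mulVec_mulVec, h, one_mulVec, mulVec_zero] at this
    exact (smul_eq_zero.1 this).elim h2 hv0
  · have := congrArg (· ᵥ* C) k
    simp only [vecMul_vecMul, h, vecMul_one, zero_vecMul] at this
    exact hf0 this
  · have e2 : (1 + vecMulVec v f) * (1 + vecMulVec v f) =
        vecMulVec ((2 : F) • v) f + (1 : F) • (1 : Matrix κ κ F) := by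
      simp only [Matrix.add_mul, Matrix.mul_add, Matrix.mul_one, Matrix.one_mul,
        vecMulVec_mul_vecMulVec, hv, zero_smul, vecMulVec_zero, smul_vecMulVec]
      module
    rw [Units.val_mul, e, lift_mul h, hs, tv_coe hv, e2, lift_vv]
    module

end Transport

variable {F : Type*} [Field F]

theorem det_tR {a φ : Fin 3 → F} (h : φ ⬝ᵥ a = 2) :
    (tR a φ : Matrix (Fin 3) (Fin 3) F).det = 1 := by
  rw [tR_coe h, det_fin_three]
  simp only [dotProduct, Fin.sum_univ_three] at h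
  simp [vecMulVec_apply]
  linear_combination h

theorem h3_Xd {P : Subgroup (GL (Fin 5) F)} (hP : Hr P) {C : Matrix (Fin 5) (Fin 3) F}
    {Φ : Matrix (Fin 3) (Fin 5) F} (h : Φ * C = 1) : H3 (Xd P C Φ) := by
  refine ⟨hP.two, (Subgroup.closure_le _).2 ?_, noTv_Xd h hP.two hP.nt, Subgroup.closure_mono ?_⟩
  · rintro _ ⟨a, f, hr, rfl⟩
    simp only [specialLinear, SetLike.mem_coe, MonoidHom.mem_ker]
    exact Units.ext (by simpa using det_tR (down h hr).1)
  · rintro _ ⟨a, f, hr, rfl⟩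
    exact ⟨(down h hr).2, tR_mul_self a f⟩

/-! ## The three small groups -/

/-- One class of involutions, two of which generate a dihedral group of order eight. -/
def Good (G : Type*) [Group G] : Prop :=
  (∀ x y : G, x * x = 1 → y * y = 1 → x ≠ 1 → y ≠ 1 → IsConj x y) ∧
    ∃ u v : G, u * u = 1 ∧ v * v = 1 ∧ u ≠ 1 ∧ v ≠ 1 ∧ u * (v * u * v) = v * u * v * u ∧
      v * u * v ≠ u

theorem Good.of_equiv {G H : Type*} [Group G] [Group H] (h : Good H) (e : G ≃* H) : Good G := by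
  obtain ⟨h1, u, v, k1, k2, k3, k4, k5, k6⟩ := h
  refine ⟨fun x y hx hy hx1 hy1 => ?_, e.symm u, e.symm v, ?_, ?_, ?_, ?_, ?_, ?_⟩
  · simpa using e.symm.toMonoidHom.map_isConj (h1 (e x) (e y) (by rw [← map_mul, hx, map_one])
      (by rw [← map_mul, hy, map_one]) (by simpa using hx1) (by simpa using hy1))
  · rw [← map_mul, k1, map_one]
  · rw [← map_mul, k2, map_one]
  · simpa using k3
  · simpa using k4
  · simp only [← map_mul, k5]
  · simpa only [← map_mul, ne_eq, EmbeddingLike.apply_eq_iff_eq] using k6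

theorem good_tab : Good Known.G168.tab.El := by
  have h : ∀ s : Known.G168.tab.El, s * s = 1 → s ≠ 1 →
      ∃ g, g * Known.G168.tab.el 2 * g⁻¹ = s := by decide +kernel
  refine ⟨fun x y hx hy hx1 hy1 => (isConj_iff.2 (h x hx hx1)).symm.trans
    (isConj_iff.2 (h y hy hy1)), Known.G168.tab.el 2, ?_⟩
  decide +kernel

theorem good_l32 : Good PSL(3, ZMod 2) := by
  have := PSL_isSimpleGroup (ι := Fin 3) (F := ZMod 2) (by simp)
  obtain ⟨e⟩ := Known.G168.nonempty_equiv (G := PSL(3, ZMod 2)) card_PSL_three_two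
  exact good_tab.of_equiv e.symm

theorem cycleType_invol {n : ℕ} (hn : n ≤ 7) {g : Perm (Fin n)} (h : g * g = 1) (h1 : g ≠ 1)
    (hs : sign g = 1) : g.cycleType = {2, 2} := by
  have : Fact (Nat.Prime 2) := ⟨Nat.prime_two⟩
  obtain ⟨k, hk⟩ := cycleType_prime_order (σ := g)
    (by rw [orderOf_eq_prime (by rwa [pow_two]) h1]; exact Nat.prime_two)
  rw [orderOf_eq_prime (by rwa [pow_two]) h1] at hk
  have h2 := sum_cycleType_le g
  have h3 := sign_of_cycleType g
  rw [hk] at h2 h3 ⊢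
  simp only [Multiset.sum_replicate, smul_eq_mul, Fintype.card_fin, Multiset.card_replicate,
    hs] at h2 h3
  have : k ≤ 2 := by omega
  interval_cases k
  · exact absurd h3 (by decide)
  · rfl
  · exact absurd h3 (by decide)

theorem conj_alt {n : ℕ} (h6 : 6 ≤ n) (hn : n ≤ 7) (x y : alternatingGroup (Fin n))
    (hx : x * x = 1) (hy : y * y = 1) (hx1 : x ≠ 1) (hy1 : y ≠ 1) : IsConj x y := by
  have k : ∀ z : alternatingGroup (Fin n), z * z = 1 → z ≠ 1 → z.1.cycleType = {2, 2} :=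
    fun z h h1 => cycleType_invol hn (congrArg Subtype.val h) (fun e => h1 (Subtype.ext e))
      (mem_alternatingGroup.1 z.2)
  refine alternatingGroup.isConj_of (isConj_iff_cycleType_eq.2 ((k x hx hx1).trans
    (k y hy hy1).symm)) ?_
  rw [← sum_cycleType, k x hx hx1]
  simpa using h6

theorem good_a6 : Good (alternatingGroup (Fin 6)) :=
  ⟨conj_alt le_rfl (by norm_num), ⟨swap 0 1 * swap 2 3, mem_alternatingGroup.2 (by decide)⟩,
    ⟨swap 0 2 * swap 4 5, mem_alternatingGroup.2 (by decide)⟩, by decide, by decide, by decide,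
    by decide, by decide, by decide⟩

theorem good_a7 : Good (alternatingGroup (Fin 7)) :=
  ⟨conj_alt (by norm_num) le_rfl, ⟨swap 0 1 * swap 2 3, mem_alternatingGroup.2 (by decide)⟩,
    ⟨swap 0 2 * swap 4 5, mem_alternatingGroup.2 (by decide)⟩, by decide, by decide, by decide,
    by decide, by decide, by decide⟩

theorem good_of_exc {X : Subgroup (GL (Fin 3) F)} (h : Exc3 X) : Good (Bar X) := by
  rcases h with ⟨⟨e⟩⟩ | ⟨⟨e⟩⟩ | ⟨-, ⟨e⟩⟩
  exacts [good_l32.of_equiv e, good_a6.of_equiv e, good_a7.of_equiv e]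

/-- Involutions of `X` are determined by their images. -/
theorem eq_of_mk {X : Subgroup (GL (Fin 3) F)} (h : H3 X) {x y : X} (hx : x * x = 1)
    (hy : y * y = 1) (e : (x : Bar X) = y) : x = y := by
  obtain ⟨π, hπ⟩ : ∃ π : X →* Bar X, Proj X π ∧ ∀ z, π z = z :=
    ⟨QuotientGroup.mk' _, ⟨QuotientGroup.mk'_surjective _, fun x => by
      simp [Subgroup.mem_subgroupOf]⟩, fun _ => rfl⟩
  exact hπ.1.lift_unique h.sl (k := 2) (by decide) (by rw [hπ.2, hπ.2, e]) (by rwa [pow_two])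
    (by rwa [pow_two])

theorem tR_ne_one {ι : Type} [Fintype ι] [DecidableEq ι] [Nontrivial ι] (h2 : (2 : F) ≠ 0)
    {a φ : ι → F} (h : φ ⬝ᵥ a = 2) : tR a φ ≠ 1 := fun e => by
  have e1 := fun v => congrFun (tR_mulVec h v)
  simp only [e, Units.val_one, one_mulVec] at e1
  obtain ⟨i, j, hij⟩ := exists_pair_ne ι
  have f1 := e1 (Pi.single i 1) i
  have f2 := e1 (Pi.single i 1) j
  have f3 := e1 (Pi.single j 1) j
  simp [hij.symm] at f1 f2 f3
  rcases f2 with f2 | f2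
  · exact h2 (by rw [f2] at f1; linear_combination f1)
  · exact h2 (by rw [f2] at f3; linear_combination f3)

/-- In the exceptional case every involution of `X` is conjugate to a given root. -/
theorem exists_conj {X : Subgroup (GL (Fin 3) F)} (h : H3 X) (hE : Exc3 X) {a φ : Fin 3 → F}
    (ha : Rt X a φ) {u : Bar X} (hu : u * u = 1) (hu1 : u ≠ 1) :
    ∃ M : X, ((M * ⟨tR a φ, ha.2⟩ * M⁻¹ : X) : Bar X) = u := by
  have ht : (⟨tR a φ, ha.2⟩ : X) * ⟨tR a φ, ha.2⟩ = 1 := Subtype.ext (tR_mul_self a φ)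
  obtain ⟨g, hg⟩ := isConj_iff.1 ((good_of_exc hE).1 ((⟨tR a φ, ha.2⟩ : X) : Bar X) u
    (by rw [← QuotientGroup.mk_mul, ht, QuotientGroup.mk_one]) hu (fun e =>
      tR_ne_one h.two ha.1 (congrArg Subtype.val (eq_of_mk h ht (mul_one 1) e))) hu1)
  obtain ⟨M, rfl⟩ := QuotientGroup.mk_surjective g
  exact ⟨M, hg⟩

end Cfsg.Lib.Five.R53
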