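import Cfsg.Agent.Class.Five.R53A

/-!
# Asymmetric triples of roots in dimension three
-/

set_option autoImplicit false

namespace Cfsg.Lib.Five.R53

open Matrix Cfsg.Geo Cfsg.Lib.Class Cfsg.Lib.Class.Asch Cfsg.Lib.Mit
open scoped MatrixGroups

universe u

variable {F : Type*} [Field F]

theorem gram_eq_det {ι : Type} [Fintype ι] {a φ b ψ c χ : ι → F} (ha : φ ⬝ᵥ a = 2)
    (hb : ψ ⬝ᵥ b = 2) (hc : χ ⬝ᵥ c = 2) :
    gram a φ b ψ c χ = (Matrix.of ![φ, ψ, χ] * (Matrix.of ![a, b, c])ᵀ).det := by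
  have e : ∀ i j, (Matrix.of ![φ, ψ, χ] * (Matrix.of ![a, b, c])ᵀ) i j =
      ![φ, ψ, χ] i ⬝ᵥ ![a, b, c] j := fun i j => rfl
  rw [det_fin_three]
  simp only [e, gram, xx, yy, cons_val_zero, cons_val_one, cons_val_two, Nat.succ_eq_add_one,
    Nat.reduceAdd, tail_cons, head_cons, ha, hb, hc]
  ring

/-- The conclusion of `MT1`. -/
def Two1 {ι : Type} [Fintype ι] (a φ b ψ c χ : ι → F) : Prop :=
  (xx a φ b ψ = 1 ∧ xx a φ c χ = 1) ∨ (xx a φ b ψ = 1 ∧ xx b ψ c χ = 1) ∨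
    (xx a φ c χ = 1 ∧ xx b ψ c χ = 1)

section Mon

variable {A B A' B' A'' B'' : Fin 3 → F}

theorem third : ∀ i j : Fin 3, i ≠ j → ∃ k, k ≠ i ∧ k ≠ j ∧ ∀ l, l ≠ k → l = i ∨ l = j := by decide

theorem third' : ∀ i j k l : Fin 3, i ≠ j → k ≠ i → k ≠ j → l ≠ i → l ≠ j → k = l := by decide

theorem dot3 {i j k : Fin 3} (h1 : i ≠ j) (h2 : k ≠ i) (h3 : k ≠ j) (B A : Fin 3 → F) :
    B ⬝ᵥ A = B i * A i + B j * A j + B k * A k := by
  simp only [dotProduct, Fin.sum_univ_three]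
  fin_cases i <;> fin_cases j <;> fin_cases k <;> simp at h1 h2 h3 ⊢ <;> ring

/-- A diagonal root. -/
def TyD (A B : Fin 3 → F) (k : Fin 3) : Prop := ∀ l, l ≠ k → A l = 0 ∧ B l = 0

/-- A root interchanging two lines of the frame. -/
def TyS (A B : Fin 3 → F) (k : Fin 3) : Prop := A k = 0 ∧ B k = 0 ∧ ∀ l, l ≠ k → B l * A l = 1

theorem typ (h2 : (2 : F) ≠ 0) (hs : B ⬝ᵥ A = 2)
    (hm : ∀ i, ∃ j, ∀ l, l ≠ j → B i * A l = if l = i then 1 else 0) :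
    ∃ k, TyD A B k ∨ TyS A B k := by
  obtain ⟨i, hi⟩ : ∃ i, B i * A i ≠ 0 := by
    by_contra k
    push Not at k
    exact h2 (by rw [← hs]; simp [dotProduct, k])
  have K : ∀ l, A l = 0 → B l = 0 := fun l hl => by
    obtain ⟨j, hj⟩ := hm l
    have hli : i ≠ l := fun e => hi (by rw [e, hl, mul_zero])
    by_cases e : l = j
    · have := hj i (e ▸ hli)
      rw [if_neg hli] at this
      exact (mul_eq_zero.1 this).resolve_right (right_ne_zero_of_mul hi)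
    · have := hj l e
      rw [if_pos rfl, hl, mul_zero] at this
      exact absurd this zero_ne_one
  obtain ⟨j, hj⟩ := hm i
  have K' : ∀ l, l ≠ j → l ≠ i → A l = 0 := fun l h1 h3 => by
    have := hj l h1
    rw [if_neg h3] at this
    exact (mul_eq_zero.1 this).resolve_left (left_ne_zero_of_mul hi)
  by_cases e : i = j
  · exact ⟨i, .inl fun l hl => ⟨K' l (e ▸ hl) hl, K l (K' l (e ▸ hl) hl)⟩⟩
  obtain ⟨k, k1, k2, k3⟩ := third i j e
  have h1 := hj i e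
  rw [if_pos rfl] at h1
  refine ⟨k, .inr ⟨K' k k2 k1, K k (K' k k2 k1), fun l hl => ?_⟩⟩
  rcases k3 l hl with rfl | rfl
  · exact h1
  · rw [dot3 e k1 k2, h1, K' k k2 k1] at hs
    linear_combination hs

theorem TyD.left {k : Fin 3} (h : TyD A B k) (v : Fin 3 → F) : B ⬝ᵥ v = B k * v k :=
  Finset.sum_eq_single k (fun l _ hl => by rw [(h l hl).2, zero_mul]) (by simp)

theorem TyD.right {k : Fin 3} (h : TyD A B k) (f : Fin 3 → F) : f ⬝ᵥ A = f k * A k :=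
  Finset.sum_eq_single k (fun l _ hl => by rw [(h l hl).1, mul_zero]) (by simp)

theorem supp (h : ∃ k, TyD A B k ∨ TyS A B k) : (∀ i, A i = 0 → B i = 0 ∨ B ⬝ᵥ A = 0) ∧
    ∃ m, A m = 0 := by
  obtain ⟨k, h | h⟩ := h
  · refine ⟨fun i hi => ?_, (exists_ne k).imp fun m hm => (h m hm).1⟩
    by_cases e : i = k
    · exact .inr (by rw [h.left, ← e, hi, mul_zero])
    · exact .inl (h i e).2
  · refine ⟨fun i hi => .inl ?_, k, h.1⟩
    by_cases e : i = k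
    · exact e ▸ h.2.1
    · have := h.2.2 i e
      rw [hi, mul_zero] at this
      exact absurd this zero_ne_one

theorem yy_diag {k : Fin 3} (hD : TyD A B k) (hb : (∀ i, A' i = 0 → B' i = 0) ∧ ∃ m, A' m = 0)
    (hc : (∀ i, A'' i = 0 → B'' i = 0) ∧ ∃ m, A'' m = 0)
    (np : ∀ m, A m = 0 → A' m = 0 → A'' m = 0 → False) :
    yy A B A' B' A'' B'' = yy A B A'' B'' A' B' := by
  have key : ∀ n, A' k * B'' k * (B' n * A'' n) = A'' k * B' k * (B'' n * A' n) := fun n => by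
    by_cases e : n = k
    · rw [e]; ring
    by_cases h1 : A' k = 0
    · simp [h1, hb.1 k h1]
    by_cases h2 : A' n = 0
    · simp [h2, hb.1 n h2]
    by_cases h3 : A'' k = 0
    · simp [h3, hc.1 k h3]
    by_cases h4 : A'' n = 0
    · simp [h4, hc.1 n h4]
    obtain ⟨m, hm⟩ := hb.2
    obtain ⟨m', hm'⟩ := hc.2
    have k1 : m ≠ k := fun e => h1 (e ▸ hm)
    obtain rfl := third' n k m m' e (fun e => h2 (e ▸ hm)) k1 (fun e => h4 (e ▸ hm'))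
      fun e => h3 (e ▸ hm')
    exact (np m (hD m k1).1 hm hm').elim
  have : A' k * B'' k * (B' ⬝ᵥ A'') = A'' k * B' k * (B'' ⬝ᵥ A') := by
    simp only [dotProduct, Finset.mul_sum, key]
  simp only [yy, hD.left, hD.right]
  linear_combination B k * A k * this

theorem xx_swap {k l : Fin 3} (h : TyS A B k) (h' : TyS A' B' l) (e : k ≠ l) :
    xx A B A' B' = 1 := by
  obtain ⟨m, m1, m2, -⟩ := third k l e
  rw [xx, dot3 e m1 m2, dot3 e m1 m2, h.1, h.2.1, h'.1, h'.2.1]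
  linear_combination B' m * A' m * h.2.2 m m1 + h'.2.2 m m2

theorem mon_core (h2 : (2 : F) ≠ 0) (ha : B ⬝ᵥ A = 2) (hb : B' ⬝ᵥ A' = 2) (hc : B'' ⬝ᵥ A'' = 2)
    (ta : ∃ k, TyD A B k ∨ TyS A B k) (tb : ∃ k, TyD A' B' k ∨ TyS A' B' k)
    (tc : ∃ k, TyD A'' B'' k ∨ TyS A'' B'' k)
    (hy : yy A B A' B' A'' B'' ≠ yy A B A'' B'' A' B') (hg : gram A B A' B' A'' B'' ≠ 0) :
    Two1 A B A' B' A'' B'' := by
  have np : ∀ m, A m = 0 → A' m = 0 → A'' m = 0 → False := fun m h1 h3 h4 => hg (by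
    rw [gram_eq_det ha hb hc, det_mul, det_eq_zero_of_row_eq_zero (A := (Matrix.of ![A, A', A''])ᵀ)
      m (fun j => by fin_cases j <;> simpa), mul_zero])
  have S : ∀ {A B : Fin 3 → F}, B ⬝ᵥ A = 2 → (∃ k, TyD A B k ∨ TyS A B k) →
      (∀ i, A i = 0 → B i = 0) ∧ ∃ m, A m = 0 := fun h t =>
    ⟨fun i hi => ((supp t).1 i hi).resolve_right (h ▸ h2), (supp t).2⟩
  have sa := S ha ta
  have sb := S hb tb
  have sc := S hc tc
  obtain ⟨k, ta | ta⟩ := ta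
  · exact absurd (yy_diag ta sb sc np) hy
  obtain ⟨l, tb | tb⟩ := tb
  · have := yy_diag tb sc sa fun m h1 h3 h4 => np m h4 h1 h3
    exact absurd (by simp only [yy] at this ⊢; linear_combination this) hy
  obtain ⟨m, tc | tc⟩ := tc
  · have := yy_diag tc sa sb fun m h1 h3 h4 => np m h3 h4 h1
    exact absurd (by simp only [yy] at this ⊢; linear_combination this) hy
  by_cases e1 : k = l
  · have e2 : k ≠ m := fun e2 => np k ta.1 (e1 ▸ tb.1) (e2 ▸ tc.1)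
    exact .inr (.inr ⟨xx_swap ta tc e2, xx_swap tb tc (e1 ▸ e2)⟩)
  by_cases e2 : k = m
  · exact .inr (.inl ⟨xx_swap ta tb e1, xx_swap tb tc fun e => e1 (e2.trans e.symm)⟩)
  · exact .inl ⟨xx_swap ta tb e1, xx_swap ta tc e2⟩

end Mon

variable {X : Subgroup (GL (Fin 3) F)} {a φ b ψ c χ : Fin 3 → F}

theorem dot_co {e ε : Fin 3 → Fin 3 → F} (h : Fr e ε) (f v : Fin 3 → F) :
    f ⬝ᵥ v = (fun i => f ⬝ᵥ e i) ⬝ᵥ fun i => ε i ⬝ᵥ v := by
  have h1 : Matrix.of ε * (Matrix.of e)ᵀ = 1 := by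
    ext i j
    exact (h i j).trans (one_apply).symm
  have h2 := mul_eq_one_comm.1 h1
  have := dot_up h2 f v
  rw [← this]
  congr 1

theorem mon_two1 (h2 : (2 : F) ≠ 0) (hM : Mon3 X) (ha : Rt X a φ) (hb : Rt X b ψ) (hc : Rt X c χ)
    (hy : yy a φ b ψ c χ ≠ yy a φ c χ b ψ) (hg : gram a φ b ψ c χ ≠ 0) : Two1 a φ b ψ c χ := by
  obtain ⟨e, ε, hF, hM⟩ := hM
  have T : ∀ {a φ : Fin 3 → F}, Rt X a φ → ∃ k, TyD (fun i => ε i ⬝ᵥ a) (fun i => φ ⬝ᵥ e i) k ∨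
      TyS (fun i => ε i ⬝ᵥ a) (fun i => φ ⬝ᵥ e i) k := fun {a φ} ha =>
    typ h2 ((dot_co hF φ a).symm.trans ha.1) fun i => by
      obtain ⟨j, k, hk⟩ := hM _ ha.2 i
      refine ⟨j, fun l hl => ?_⟩
      have := congrArg (ε l ⬝ᵥ ·) hk
      simp only [tR_mulVec ha.1, dotProduct_sub, dotProduct_smul, hF l j, if_neg hl, hF l i,
        smul_eq_mul, mul_zero] at this
      exact sub_eq_zero.1 this
  have := mon_core h2 ((dot_co hF φ a).symm.trans ha.1) ((dot_co hF ψ b).symm.trans hb.1)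
    ((dot_co hF χ c).symm.trans hc.1) (T ha) (T hb) (T hc)
  simp only [Two1, gram, xx, yy, ← dot_co hF] at this hy hg ⊢
  exact this hy hg

theorem trace_three (ha : φ ⬝ᵥ a = 2) (hb : ψ ⬝ᵥ b = 2) (hc : χ ⬝ᵥ c = 2) :
    ((tR a φ * tR b ψ * tR c χ : GL (Fin 3) F) : Matrix (Fin 3) (Fin 3) F).trace =
      yy a φ b ψ c χ - xx a φ b ψ - xx a φ c χ - xx b ψ c χ + 3 := by
  simp only [Units.val_mul, tR_coe ha, tR_coe hb, tR_coe hc, Matrix.sub_mul, Matrix.mul_sub,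
    Matrix.mul_one, Matrix.one_mul, vecMulVec_mul_vecMulVec, trace_sub, trace_vecMulVec, trace_one,
    dotProduct_smul, smul_dotProduct, smul_eq_mul, xx, yy, dotProduct_comm a, dotProduct_comm b,
    dotProduct_comm c, ha, hb, hc, Fintype.card_fin, Nat.cast_ofNat]
  ring

theorem real_sym (hR : Real3 X) (ha : Rt X a φ) (hb : Rt X b ψ) (hc : Rt X c χ) :
    yy a φ b ψ c χ = yy a φ c χ b ψ := by
  have := hR _ (mul_mem (mul_mem ha.2 hb.2) hc.2)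
  rw [_root_.mul_inv_rev, _root_.mul_inv_rev, tR_inv, tR_inv, tR_inv, ← mul_assoc,
    trace_three hc.1 hb.1 ha.1, trace_three ha.1 hb.1 hc.1] at this
  simp only [xx, yy] at this ⊢
  linear_combination -this

theorem irr (h : H3 X) (ha : Rt X a φ) (hb : Rt X b ψ) (hc : Rt X c χ)
    (hy : yy a φ b ψ c χ ≠ yy a φ c χ b ψ) (hg : gram a φ b ψ c χ ≠ 0) : Irr X := by
  have n1 : φ ⬝ᵥ b ≠ 0 := fun e => hy (by simp [yy, e, ha.orth_symm h.nt h.two hb e])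
  have n2 : ψ ⬝ᵥ c ≠ 0 := fun e => hy (by simp [yy, e, hb.orth_symm h.nt h.two hc e])
  have n3 : χ ⬝ᵥ a ≠ 0 := fun e => hy (by simp [yy, e, hc.orth_symm h.nt h.two ha e])
  rw [gram_eq_det ha.1 hb.1 hc.1, det_mul] at hg
  intro W hW
  have K : ∀ {a φ : Fin 3 → F}, Rt X a φ → ∀ w ∈ W, φ ⬝ᵥ w ≠ 0 → a ∈ W := fun {a φ} ha w hw hn => by
    have := add_mem (hW _ ha.2 w hw) hw
    rw [tR_mulVec ha.1, sub_add_cancel] at this
    exact (W.smul_mem_iff hn).1 this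
  by_cases hW0 : ∀ w ∈ W, φ ⬝ᵥ w = 0 ∧ ψ ⬝ᵥ w = 0 ∧ χ ⬝ᵥ w = 0
  · refine .inl (eq_bot_iff.2 fun w hw => eq_zero_of_mulVec_eq_zero (left_ne_zero_of_mul hg) ?_)
    ext i
    obtain ⟨k1, k2, k3⟩ := hW0 w hw
    fin_cases i
    exacts [k1, k2, k3]
  have k : a ∈ W ∧ b ∈ W ∧ c ∈ W := by
    have k1 : b ∈ W → a ∈ W := fun k => K ha b k n1
    have k2 : c ∈ W → b ∈ W := fun k => K hb c k n2
    have k3 : a ∈ W → c ∈ W := fun k => K hc a k n3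
    by_contra hn
    refine hW0 fun w hw => ⟨by_contra fun e => ?_, by_contra fun e => ?_, by_contra fun e => ?_⟩
    · have := K ha w hw e; tauto
    · have := K hb w hw e; tauto
    · have := K hc w hw e; tauto
  refine .inr (eq_top_iff.2 fun v _ => ?_)
  have hu := (right_ne_zero_of_mul hg).isUnit
  have e : v = (Matrix.of ![a, b, c])ᵀ *ᵥ (((Matrix.of ![a, b, c])ᵀ)⁻¹ *ᵥ v) := by
    rw [mulVec_mulVec, mul_nonsing_inv _ hu, one_mulVec]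
  generalize ((Matrix.of ![a, b, c])ᵀ)⁻¹ *ᵥ v = x at e
  have e' : v = x 0 • a + x 1 • b + x 2 • c := by
    rw [e]; ext i; simp [mulVec, dotProduct, Fin.sum_univ_three, mul_comm]
  exact e' ▸ add_mem (add_mem (W.smul_mem _ k.1) (W.smul_mem _ k.2.1)) (W.smul_mem _ k.2.2)

theorem tri (hT : WT.{u}) {F : Type u} [Field F] [Fintype F] {X : Subgroup (GL (Fin 3) F)}
    {a φ b ψ c χ : Fin 3 → F} (h : H3 X) (ha : Rt X a φ) (hb : Rt X b ψ) (hc : Rt X c χ)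
    (hy : yy a φ b ψ c χ ≠ yy a φ c χ b ψ) (hg : gram a φ b ψ c χ ≠ 0) :
    Two1 a φ b ψ c χ ∨ Exc3 X := by
  rcases hT F X h (irr h ha hb hc hy hg) with k | k | k
  · exact .inl (mon_two1 h.two k ha hb hc hy hg)
  · exact absurd (real_sym k ha hb hc) hy
  · exact .inr k

theorem exists_four (h : H3 X) (hE : Exc3 X) (ha : Rt X a φ) : ∃ M ∈ X, ∃ N ∈ X,
    xx ((M : Matrix (Fin 3) (Fin 3) F) *ᵥ a) (φ ᵥ* ((M⁻¹ : GL (Fin 3) F) : Matrix (Fin 3) (Fin 3) F))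
      ((N : Matrix (Fin 3) (Fin 3) F) *ᵥ a)
      (φ ᵥ* ((N⁻¹ : GL (Fin 3) F) : Matrix (Fin 3) (Fin 3) F)) = 2 := by
  obtain ⟨u, v, k1, k2, k3, k4, k5, k6⟩ := (good_of_exc hE).2
  obtain ⟨M, hM⟩ := exists_conj h hE ha k1 k3
  obtain ⟨N, hN⟩ := exists_conj h hE ha k2 k4
  refine ⟨M, M.2, N, N.2, ?_⟩
  have r1 := ha.conj M.2
  have r2 := ha.conj N.2
  have e1 : M * ⟨tR a φ, ha.2⟩ * M⁻¹ = ⟨_, r1.2⟩ := Subtype.ext (conj_tR M.1 ha.1)
  have e2 : N * ⟨tR a φ, ha.2⟩ * N⁻¹ = ⟨_, r2.2⟩ := Subtype.ext (conj_tR N.1 ha.1)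
  rw [e1] at hM
  rw [e2] at hN
  clear e1 e2
  generalize (M.1 : Matrix (Fin 3) (Fin 3) F) *ᵥ a = a₁ at *
  generalize φ ᵥ* ((M.1⁻¹ : GL (Fin 3) F) : Matrix (Fin 3) (Fin 3) F) = f₁ at *
  generalize (N.1 : Matrix (Fin 3) (Fin 3) F) *ᵥ a = a₂ at *
  generalize φ ᵥ* ((N.1⁻¹ : GL (Fin 3) F) : Matrix (Fin 3) (Fin 3) F) = f₂ at *
  have r3 := r1.conj r2.2
  have e3 := conj_tR (tR a₂ f₂) r1.1
  have hw : ((⟨_, r3.2⟩ : X) : Bar X) = v * u * v := by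
    rw [← hM, ← hN, ← QuotientGroup.mk_mul, ← QuotientGroup.mk_mul]
    congr 1
    exact Subtype.ext (e3.symm.trans (by rw [tR_inv]; rfl))
  have s1 : (⟨_, r1.2⟩ : X) * ⟨_, r1.2⟩ = 1 := Subtype.ext (tR_mul_self _ _)
  have s3 : (⟨_, r3.2⟩ : X) * ⟨_, r3.2⟩ = 1 := Subtype.ext (tR_mul_self _ _)
  have hc := eq_of_mk h (x := ⟨_, r1.2⟩ * ⟨_, r3.2⟩ * ⟨_, r1.2⟩) (y := ⟨_, r3.2⟩) (by
    rw [mul_assoc, mul_assoc, mul_assoc, ← mul_assoc (⟨_, r1.2⟩ : X) ⟨_, r1.2⟩, s1, one_mul,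
      ← mul_assoc (⟨_, r3.2⟩ : X), s3, one_mul, s1]) s3 (by
    rw [QuotientGroup.mk_mul, QuotientGroup.mk_mul, hw, hM, k5, mul_assoc, k1, mul_one])
  rcases orth_or_prop_of_comm h.two r1.1 r3.1 (by
    have := congrArg (fun z : X => z.1 * tR a₁ f₁) hc
    simpa only [Subgroup.coe_mul, mul_assoc, tR_mul_self, mul_one] using this) with k | ⟨k, hk⟩
  · rw [tR_mulVec r2.1, dotProduct_sub, dotProduct_smul, r1.1, smul_eq_mul] at k
    rw [xx]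
    linear_combination k
  · refine absurd ?_ k6
    rw [← hw, ← hM]
    congr 1
    exact Subtype.ext (r1.of_prop h.nt h.two r3 hk).2.2

theorem exists_third (h : H3 X) (hE : Exc3 X) (ha : Rt X a φ) (hb : Rt X b ψ) (ho : φ ⬝ᵥ b = 0) :
    ∃ M ∈ X, φ ⬝ᵥ ((M : Matrix (Fin 3) (Fin 3) F) *ᵥ a) = 0 ∧
      ψ ⬝ᵥ ((M : Matrix (Fin 3) (Fin 3) F) *ᵥ a) = 0 := by
  have ho' := ha.orth_symm h.nt h.two hb ho
  have hc := tR_comm ha.1 hb.1 ho ho'
  have za : ((tR a φ * tR b ψ : GL (Fin 3) F) : Matrix (Fin 3) (Fin 3) F) *ᵥ a = -a := by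
    rw [GL_mul_mulVec, tR_mulVec hb.1, ho', tR_mulVec ha.1]
    simp [ha.1, two_smul]
  have zb : ((tR a φ * tR b ψ : GL (Fin 3) F) : Matrix (Fin 3) (Fin 3) F) *ᵥ b = -b := by
    rw [GL_mul_mulVec, tR_mulVec hb.1, hb.1, tR_mulVec ha.1]
    simp [ho, two_smul]
  have hz : (⟨_, mul_mem ha.2 hb.2⟩ : X) * ⟨_, mul_mem ha.2 hb.2⟩ = 1 := Subtype.ext (by
    change tR a φ * tR b ψ * (tR a φ * tR b ψ) = 1
    nth_rewrite 1 [hc]
    rw [mul_assoc, ← mul_assoc (tR a φ), tR_mul_self, one_mul, tR_mul_self])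
  obtain ⟨M, hM⟩ := exists_conj h hE ha (u := ((⟨_, mul_mem ha.2 hb.2⟩ : X) : Bar X))
    (by rw [← QuotientGroup.mk_mul, hz, QuotientGroup.mk_one]) fun e => by
      have := congrArg Subtype.val (eq_of_mk h hz (mul_one 1) e)
      simp only [OneMemClass.coe_one] at this
      rw [this, Units.val_one, one_mulVec, eq_neg_iff_add_eq_zero, ← two_smul F] at za
      exact (smul_eq_zero.1 za).elim h.two (ha.ne_zero h.two)
  have r1 := ha.conj M.2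
  have e1 : M * ⟨tR a φ, ha.2⟩ * M⁻¹ = ⟨_, r1.2⟩ := Subtype.ext (conj_tR M.1 ha.1)
  rw [e1] at hM
  have e2 := congrArg Subtype.val (eq_of_mk h (Subtype.ext (tR_mul_self _ _)) hz hM)
  simp only at e2
  rw [← e2, tR_mulVec r1.1, sub_eq_neg_self, smul_eq_zero] at za zb
  exact ⟨M, M.2, r1.orth_symm h.nt h.two ha (za.resolve_right (r1.ne_zero h.two)),
    r1.orth_symm h.nt h.two hb (zb.resolve_right (r1.ne_zero h.two))⟩

end Cfsg.Lib.Five.R53
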