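import Cfsg.Agent.Class.Five.RBase

/-!
# Change of frame
-/

set_option autoImplicit false

namespace Cfsg.Lib.Five

open Matrix Cfsg.Geo Cfsg.Lib.Class Cfsg.Lib.Class.Asch Cfsg.Lib.Mit
open scoped MatrixGroups commutatorElement

section General

variable {ι : Type} [Fintype ι] [DecidableEq ι] {F : Type*} [Field F] {P : Subgroup (GL ι F)}
  {T g : GL ι F} {d f : ι → F}

/-- The pull-back of a subgroup along conjugation. -/
def cj (T : GL ι F) (P : Subgroup (GL ι F)) : Subgroup (GL ι F) :=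
  P.comap (MulAut.conj T).toMonoidHom

theorem mem_cj : g ∈ cj T P ↔ T * g * T⁻¹ ∈ P := Iff.rfl

theorem rt_cj : Rt (cj T P) d f ↔
    Rt P ((T : Matrix ι ι F) *ᵥ d) (f ᵥ* ((T⁻¹ : GL ι F) : Matrix ι ι F)) :=
  ⟨fun h => ⟨(vecMul_inv_dot_mulVec T f d).trans h.1, conj_tR T h.1 ▸ h.2⟩, fun h =>
    have e := (vecMul_inv_dot_mulVec T f d).symm.trans h.1
    ⟨e, mem_cj.2 ((conj_tR T e).symm ▸ h.2)⟩⟩

theorem rt_cj' (h : Rt P d f) :
    Rt (cj T P) (((T⁻¹ : GL ι F) : Matrix ι ι F) *ᵥ d) (f ᵥ* (T : Matrix ι ι F)) :=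
  rt_cj.2 (by simpa using h)

theorem qs_cj (h : QS P) (T : GL ι F) : QS (cj T P) := by
  have e0 : cj T P = P.map (MulAut.conj T).symm.toMonoidHom :=
    Subgroup.comap_equiv_eq_map_symm' _ _
  let e1 : cj T P ≃* P :=
    { toFun := fun x => ⟨_, x.2⟩
      invFun := fun x => ⟨T⁻¹ * x * T, mem_cj.2 (by simp [mul_assoc])⟩
      left_inv := fun x => Subtype.ext (by simp [mul_assoc])
      right_inv := fun x => Subtype.ext (by simp [mul_assoc])
      map_mul' := fun x y => Subtype.ext (by simp) }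
  have e : Bar (cj T P) ≃* Bar P := QuotientGroup.congr _ _ e1 (by
    ext x
    refine ⟨fun ⟨y, hy, k⟩ => k ▸ conj_mem_scalars hy T, fun hx => ⟨e1.symm x, ?_, by simp⟩⟩
    exact conj_mem_scalars (z := (x : GL ι F)) hx T⁻¹)
  have := h.simple
  refine ⟨by rw [e0, ← Subgroup.map_commutator, h.perfect], e.isSimpleGroup, fun k =>
    h.nonabelian ⟨⟨fun x y => e.symm.injective (by simpa using k.is_comm.comm _ _)⟩⟩, ?_⟩
  have key : ∀ M ∈ env P, ((T⁻¹ : GL ι F) : Matrix ι ι F) * M * T ∈ env (cj T P) := fun M hM => by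
    induction hM using Algebra.adjoin_induction with
    | mem x hx =>
      obtain ⟨g, hg, rfl⟩ := hx
      exact coe_mem_env (g := T⁻¹ * g * T) (mem_cj.2 (by simpa [mul_assoc] using hg))
    | algebraMap r =>
      rw [Matrix.mul_assoc, Algebra.commutes, ← Matrix.mul_assoc, Units.inv_mul, Matrix.one_mul]
      exact Subalgebra.algebraMap_mem _ r
    | add x y _ _ hx hy => simpa only [Matrix.mul_add, Matrix.add_mul] using add_mem hx hy
    | mul x y _ _ hx hy =>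
      simpa only [Matrix.mul_assoc, Units.mul_inv_cancel_left] using mul_mem hx hy
  refine eq_top_iff.2 fun M _ => ?_
  simpa only [Matrix.mul_assoc, Units.inv_mul_cancel_left, Units.inv_mul, Matrix.mul_one] using
    key (T * M * (T⁻¹ : GL ι F)) (h.env_top.ge trivial)

theorem noTv_cj (h : ∀ g ∈ P, ¬ IsTv g) : ∀ g ∈ cj T P, ¬ IsTv g :=
  fun g hg k => h _ hg (k.conj T)

theorem sw_cj {a φ b ψ : ι → F} (h : Sw P ((T : Matrix ι ι F) *ᵥ a)
    (φ ᵥ* ((T⁻¹ : GL ι F) : Matrix ι ι F)) ((T : Matrix ι ι F) *ᵥ b)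
    (ψ ᵥ* ((T⁻¹ : GL ι F) : Matrix ι ι F))) : Sw (cj T P) a φ b ψ := by
  obtain ⟨k, hk, h⟩ := h
  exact ⟨k, hk, rt_cj.2 (by simpa only [mulVec_sub, mulVec_smul, smul_vecMul, sub_vecMul] using h)⟩

theorem cb_dot {n : ℕ} {e ε : Fin n → ι → F} (h : Fr e ε) (d f : Fin n → F) :
    cb f ε ⬝ᵥ cb d e = f ⬝ᵥ d := by
  simp only [cb, sum_dotProduct, dotProduct_sum, smul_dotProduct, dotProduct_smul, h _ _]
  simp [dotProduct, eq_comm, mul_comm]

end General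

variable {F : Type*} [Field F] {P : Subgroup (GL (Fin 5) F)} {T : GL (Fin 5) F}

local notation "M5" => Matrix (Fin 5) (Fin 5) F

theorem Hr.cj (h : Hr P) (T : GL (Fin 5) F) : Hr (cj T P) :=
  ⟨qs_cj h.qs T, noTv_cj h.nt, h.two⟩

theorem of_cj {n : ℕ} {a φ : Fin n → Fin 5 → F} : OF (cj T P) a φ ↔
    OF P (fun i => (T : M5) *ᵥ a i) fun i => φ i ᵥ* ((T⁻¹ : GL (Fin 5) F) : M5) := by
  simp only [OF, rt_cj, vecMul_inv_dot_mulVec]

theorem QF.cj (h : QF P) (T : GL (Fin 5) F) : QF (cj T P) := by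
  refine ⟨?_, fun a φ b ψ ha hb e => sw_cj (h.q1 _ _ _ _ (rt_cj.1 ha) (rt_cj.1 hb)
    ((vecMul_inv_dot_mulVec T φ b).trans e)), fun a φ ha => ?_⟩
  · obtain ⟨a, φ, k⟩ := h.ex
    exact ⟨fun i => ((T⁻¹ : GL (Fin 5) F) : M5) *ᵥ a i, fun i => φ i ᵥ* (T : M5),
      of_cj.2 (by simpa using k)⟩
  · obtain ⟨b, ψ, c, χ, k⟩ := h.q2 _ _ (of_cj.1 ha)
    refine ⟨((T⁻¹ : GL (Fin 5) F) : M5) *ᵥ b, ψ ᵥ* (T : M5), ((T⁻¹ : GL (Fin 5) F) : M5) *ᵥ c,
      χ ᵥ* (T : M5), of_cj.2 ?_⟩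
    convert k using 2 with i i <;> fin_cases i <;> simp

theorem fixQ_of_cj [Fintype F] (h : QS P) (k : ∀ g ∈ cj T P, tr5 g⁻¹ = tr5 g) : FixQ P :=
  (fixQ_of_real5 h.env_top fun g hg => by
    have := k (T⁻¹ * g * T⁻¹⁻¹) (mem_cj.2 (by simpa [mul_assoc] using hg))
    rwa [conj_inv, tr5_conj, tr5_conj] at this).1

/-- The matrix whose columns form the frame. -/
def frameGL {e ε : Fin 5 → Fin 5 → F} (h : Fr e ε) : GL (Fin 5) F :=
  have k : of ε * (of e)ᵀ = 1 := by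
    ext i j
    simpa [mul_apply, one_apply, dotProduct] using h i j
  ⟨(of e)ᵀ, of ε, mul_eq_one_comm.1 k, k⟩

variable {e ε : Fin 5 → Fin 5 → F}

theorem frameGL_mulVec (h : Fr e ε) (d : Fin 5 → F) : (frameGL h : M5) *ᵥ d = cb d e := by
  ext i
  simp [frameGL, cb, mulVec, dotProduct, mul_comm]

theorem vecMul_frameGL_inv (h : Fr e ε) (f : Fin 5 → F) :
    f ᵥ* (((frameGL h)⁻¹ : GL (Fin 5) F) : M5) = cb f ε := by
  ext i
  simp [frameGL, cb, vecMul, dotProduct]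

theorem frameGL_inv_mulVec (h : Fr e ε) (d : Fin 5 → F) (i : Fin 5) :
    ((((frameGL h)⁻¹ : GL (Fin 5) F) : M5) *ᵥ d) i = ε i ⬝ᵥ d := rfl

theorem vecMul_frameGL (h : Fr e ε) (f : Fin 5 → F) (i : Fin 5) :
    (f ᵥ* (frameGL h : M5)) i = f ⬝ᵥ e i := rfl

theorem rt_frame (h : Fr e ε) {d f : Fin 5 → F} :
    Rt (cj (frameGL h) P) d f ↔ Rt P (cb d e) (cb f ε) := by
  rw [rt_cj, frameGL_mulVec, vecMul_frameGL_inv]

theorem rt_frame' (h : Fr e ε) {d f : Fin 5 → F} (k : Rt P d f) :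
    Rt (cj (frameGL h) P) (fun i => ε i ⬝ᵥ d) fun i => f ⬝ᵥ e i := rt_cj' k

end Cfsg.Lib.Five
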