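import Cfsg.Agent.Class.Five.R5a

/-!
# Normalised frames
-/

set_option autoImplicit false

namespace Cfsg.Lib.Five

open Matrix Cfsg.Geo Cfsg.Lib.Class Cfsg.Lib.Class.Asch Cfsg.Lib.Mit
open scoped MatrixGroups

universe u

variable {F : Type*} [Field F] {X : Subgroup (GL (Fin 5) F)} {d f : Fin 5 → F} {μ : F}

local notation "M5" => Matrix (Fin 5) (Fin 5) F

/-- The roots of `B₅` in the standard basis. -/
structure NF (X : Subgroup (GL (Fin 5) F)) : Prop where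
  hr : Hr X
  qf : QF X
  r1 : ∀ i, Rt X (Pi.single i 1) (Pi.single i 2)
  r2 : ∀ i j, i ≠ j → Rt X (Pi.single i 1 - Pi.single j 1) (Pi.single i 1 - Pi.single j 1)

theorem NF.mk' (h : Hr X) (k : QF X) (r1 : Rt X (Pi.single 0 1) (Pi.single 0 2))
    (r2 : ∀ j, j ≠ 0 → Rt X (Pi.single 0 1 - Pi.single j 1) (Pi.single 0 1 - Pi.single j 1)) :
    NF X := by
  refine ⟨h, k, fun i => ?_, fun i j hij => ?_⟩
  · by_cases hi : i = 0
    · exact hi ▸ r1
    refine ((r2 i hi).refl r1).congr ?_ ?_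
    · simp [hi]
    · ext m; simp [hi, Pi.single_apply]; split_ifs <;> simp
  · by_cases hi : i = 0
    · exact hi ▸ r2 j (hi ▸ hij.symm)
    by_cases hj : j = 0
    · simpa [hj] using (r2 i hi).neg
    refine ((r2 i hi).refl (r2 j hj)).congr ?_ ?_ <;> simp [hi, hj, hij, hij.symm, Ne.symm hi]

namespace NF

variable (h : NF X)
include h

theorem two : (2 : F) ≠ 0 := h.hr.two

theorem swap (k : Rt X d f) (i j : Fin 5) : Rt X (d ∘ Equiv.swap i j) (f ∘ Equiv.swap i j) := by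
  by_cases hij : i = j
  · simpa [hij] using k
  refine ((h.r2 i j hij).refl k).congr ?_ ?_ <;> ext m <;>
    simp [Pi.single_apply, Equiv.swap_apply_def] <;> split_ifs <;> simp_all

theorem perm' (σ : Equiv.Perm (Fin 5)) : ∀ {d f : Fin 5 → F}, Rt X d f → Rt X (d ∘ σ) (f ∘ σ) := by
  induction σ using Equiv.Perm.swap_induction_on with
  | one => exact fun k => k
  | swap_mul σ i j _ ih => exact fun k => ih (h.swap k i j)

theorem perm (k : Rt X d f) (p : Fin 5 → Fin 5) (hp : Function.Bijective p := by decide) :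
    Rt X (d ∘ p) (f ∘ p) := h.perm' (Equiv.ofBijective p hp) k

theorem sign (k : Rt X d f) (i : Fin 5) :
    Rt X (fun m => if m = i then -d m else d m) fun m => if m = i then -f m else f m := by
  refine ((h.r1 i).refl k).congr ?_ ?_ <;> ext m <;> simp [Pi.single_apply] <;> split_ifs <;>
    simp_all <;> ring

theorem supp (k : Rt X d f) (i : Fin 5) : d i = 0 ↔ f i = 0 :=
  ⟨fun e => by simpa using (h.r1 i).orth_symm h.hr.nt h.two k (by simp [e]),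
    fun e => by simpa [h.two] using k.orth_symm h.hr.nt h.two (h.r1 i) (by simp [e])⟩

theorem exists_mu : ∃ μ : F, μ ≠ 0 ∧ Rt X ![1, 1, μ, 0, 0] ![1 / 2, 1 / 2, μ⁻¹, 0, 0] := by
  obtain ⟨k, hk, r⟩ := h.qf.q1 _ _ _ _ (h.sign (h.r2 0 1 (by decide)) 1) (h.r1 2)
    (by simp [dotProduct, Fin.sum_univ_five])
  have := h.two
  refine ⟨-k, neg_ne_zero.2 hk, r.congr ?_ ?_⟩ <;> ext i <;> fin_cases i <;> simp
  field_simp

end NF

theorem nf_of (h : Hr X) (k : QF X) {a φ : Fin 5 → Fin 5 → F} (ha : OF X a φ)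
    (h01 : Rt X (a 0 - a 1) ((1 / 2 : F) • (φ 0 - φ 1))) : ∃ (c : Fin 5 → F)
    (hf : Fr (fun i => c i • a i) fun i => (2 * c i)⁻¹ • φ i), c 0 = 1 ∧ c 1 = 1 ∧ (∀ i, c i ≠ 0) ∧
      NF (cj (frameGL hf) X) := by
  have h2 := h.two
  have : ∀ j : Fin 5, ∃ c : F, c ≠ 0 ∧ (j = 0 ∨ j = 1 → c = 1) ∧
      (j ≠ 0 → Rt X (a 0 - c • a j) ((1 / 2 : F) • (φ 0 - c⁻¹ • φ j))) := fun j => by
    by_cases h0 : j = 0
    · exact ⟨1, one_ne_zero, fun _ => rfl, fun e => absurd h0 e⟩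
    by_cases h1 : j = 1
    · exact ⟨1, one_ne_zero, fun _ => rfl, fun _ => by simpa [h1] using h01⟩
    obtain ⟨c, hc, r⟩ := k.q1 _ _ _ _ (ha.1 0) (ha.1 j) (ha.2 0 j (Ne.symm h0))
    exact ⟨c, hc, fun e => (e.elim h0 h1).elim, fun _ => r⟩
  choose c h0 h1 hc using this
  have hf : Fr (fun i => c i • a i) fun i => (2 * c i)⁻¹ • φ i := fun i j => by
    rw [smul_dotProduct, dotProduct_smul]
    split_ifs with e
    · have := h0 j
      rw [e, (ha.1 j).1, smul_eq_mul, smul_eq_mul]; field_simp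
    · rw [ha.2 i j e, smul_zero, smul_zero]
  have c0 := h1 0 (.inl rfl)
  refine ⟨c, hf, c0, h1 1 (.inr rfl), h0, NF.mk' (h.cj _) (k.cj _) ((rt_frame hf).2 ?_)
    fun j hj => (rt_frame hf).2 ?_⟩
  · simpa [cb, Pi.single_apply, c0, h2] using ha.1 0
  · refine (hc j hj).congr ?_ ?_ <;> simp only [cb, Pi.sub_apply, sub_smul,
      Finset.sum_sub_distrib] <;> simp [Pi.single_apply, c0, smul_sub, smul_smul, mul_comm]

/-- A normalised frame with the root `e₀ + e₁ + μ e₂`. -/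
structure NM (X : Subgroup (GL (Fin 5) F)) (μ : F) : Prop extends NF X where
  ne : μ ≠ 0
  r3 : Rt X ![1, 1, μ, 0, 0] ![1 / 2, 1 / 2, μ⁻¹, 0, 0]

/-- The frame `(e₀ + e₁) / μ, (e₀ - e₁) / μ, e₂, e₃, e₄`. -/
theorem NM.chg (h : NM X μ) : ∃ Y, NM Y μ ∧ ∀ d f : Fin 5 → F, Rt Y d f ↔
    Rt X ![(d 0 + d 1) / μ, (d 0 - d 1) / μ, d 2, d 3, d 4]
      ![μ * (f 0 + f 1) / 2, μ * (f 0 - f 1) / 2, f 2, f 3, f 4] := by
  have h2 := h.two
  have hμ := h.ne
  have hf : Fr ![![μ⁻¹, μ⁻¹, 0, 0, 0], ![μ⁻¹, -μ⁻¹, 0, 0, 0], ![0, 0, 1, 0, 0], ![0, 0, 0, 1, 0],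
      ![0, 0, 0, 0, (1 : F)]] ![![μ / 2, μ / 2, 0, 0, 0], ![μ / 2, -μ / 2, 0, 0, 0],
      ![0, 0, 1, 0, 0], ![0, 0, 0, 1, 0], ![0, 0, 0, 0, 1]] := fun i j => by
    fin_cases i <;> fin_cases j <;> simp [dotProduct, Fin.sum_univ_five] <;> field_simp <;> ring
  have key : ∀ d f : Fin 5 → F, Rt (cj (frameGL hf) X) d f ↔
      Rt X ![(d 0 + d 1) / μ, (d 0 - d 1) / μ, d 2, d 3, d 4]
        ![μ * (f 0 + f 1) / 2, μ * (f 0 - f 1) / 2, f 2, f 3, f 4] := fun d f => by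
    rw [rt_frame]
    congr! <;> ext i <;> fin_cases i <;> simp [cb, Fin.sum_univ_five] <;> ring
  have r := (h.sign h.r3 2).smul (inv_ne_zero hμ)
  have hN : NF (cj (frameGL hf) X) := by
    refine NF.mk' (h.hr.cj _) (h.qf.cj _) ((key _ _).2 ?_) fun j hj => (key _ _).2 ?_
    · refine ((h.sign (h.r2 0 1 (by decide)) 1).smul (inv_ne_zero hμ)).congr ?_ ?_ <;> ext i <;>
        fin_cases i <;> simp [h2]
    · fin_cases j
      · exact absurd rfl hj
      · refine ((h.r1 1).smul (div_ne_zero h2 hμ)).congr ?_ ?_ <;> ext i <;> fin_cases i <;>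
          simp <;> field_simp <;> ring
      · refine r.congr ?_ ?_ <;> ext i <;> fin_cases i <;> simp [hμ, div_eq_mul_inv]
      · refine (h.perm r ![0, 1, 3, 2, 4]).congr ?_ ?_ <;> ext i <;> fin_cases i <;>
          simp [hμ, div_eq_mul_inv]
      · refine (h.perm r ![0, 1, 4, 3, 2]).congr ?_ ?_ <;> ext i <;> fin_cases i <;>
          simp [hμ, div_eq_mul_inv]
  refine ⟨_, ⟨hN, hμ, ?_⟩, key⟩
  have r' : Rt (cj (frameGL hf) X) ![0, 0, μ, 1, 1] ![0, 0, μ⁻¹, 1 / 2, 1 / 2] := by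
    refine (key _ _).2 ((h.perm h.r3 ![3, 4, 2, 0, 1]).congr ?_ ?_) <;> ext i <;> fin_cases i <;>
      simp
  refine (hN.perm r' ![3, 4, 2, 0, 1]).congr ?_ ?_ <;> ext i <;> fin_cases i <;> simp

/-- The first three basis vectors. -/
def e3 (F : Type*) [Field F] : Fin 3 → Fin 5 → F :=
  ![![1, 0, 0, 0, 0], ![0, 1, 0, 0, 0], ![0, 0, 1, 0, 0]]

theorem cb_e3 (d : Fin 3 → F) : cb d (e3 F) = ![d 0, d 1, d 2, 0, 0] := by
  ext i; fin_cases i <;> simp [cb, e3, Fin.sum_univ_three]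

theorem NM.b3 (h : NM X μ) : B3 X (e3 F) (e3 F) μ := by
  have e : ∀ i, e3 F i = Pi.single (Fin.castLE (by decide) i) 1 := fun i => by
    ext m; fin_cases i <;> fin_cases m <;> simp [e3]
  refine ⟨fun i j => ?_, h.ne, fun i => ?_, fun i j hij => ?_, ?_⟩
  · fin_cases i <;> fin_cases j <;> simp [e3, dotProduct, Fin.sum_univ_five]
  · rw [e, ← Pi.single_smul, smul_eq_mul, mul_one]; exact h.r1 _
  · rw [e, e]; exact h.r2 _ _ fun k => hij (Fin.castLE_injective _ k)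
  · rw [cb_e3, cb_e3]; exact h.r3

end Cfsg.Lib.Five
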