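import Cfsg.Agent.Class.Five.RDefs
import Cfsg.Agent.Mit.Hom4
import Cfsg.Agent.Trans.TransferTools

/-!
# Roots in `2`-groups, transfer, and symmetric triples
-/

set_option autoImplicit false

namespace Cfsg.Lib.Five

open Matrix Cfsg.Geo Cfsg.Lib.Class Cfsg.Lib.Class.Asch Cfsg.Lib.Mit
open scoped MatrixGroups

universe u

section Roots

variable {ι : Type} [Fintype ι] [DecidableEq ι] {F : Type*} [Field F]
  {P Q : Subgroup (GL ι F)} {a φ b ψ c χ w θ : ι → F}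

/-- The Heisenberg group of `(a, φ, w, θ)`. -/
def hz (a φ w θ : ι → F) (x y z : F) : Matrix ι ι F :=
  1 + x • vecMulVec w φ + y • vecMulVec a θ + z • vecMulVec w θ

theorem hz_mul (h : φ ⬝ᵥ a = 2) (h1 : φ ⬝ᵥ w = 0) (h2 : θ ⬝ᵥ a = 0) (h3 : θ ⬝ᵥ w = 0)
    (x y z x' y' z' : F) : hz a φ w θ x y z * hz a φ w θ x' y' z' =
      hz a φ w θ (x + x') (y + y') (z + z' + 2 * x * y') := by
  simp only [hz, Matrix.add_mul, Matrix.mul_add, Matrix.smul_mul, Matrix.mul_smul, Matrix.one_mul,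
    Matrix.mul_one, vecMulVec_mul_vecMulVec, h, h1, h2, h3, vecMulVec_smul]
  module

theorem tR_mul_hz (h : φ ⬝ᵥ a = 2) (h1 : φ ⬝ᵥ w = 0) (h2 : θ ⬝ᵥ a = 0) (h3 : θ ⬝ᵥ w = 0)
    (s t s' t' : F) : ((tR (a + s • w) (φ + t • θ) * tR (a + s' • w) (φ + t' • θ) : GL ι F) :
      Matrix ι ι F) = hz a φ w θ (s - s') (t' - t) (2 * s * t' - s * t - s' * t') := by
  have e : ∀ s t s' : F, (φ + t • θ) ⬝ᵥ (a + s' • w) = 2 := fun s t s' => by
    simp [add_dotProduct, dotProduct_add, h, h1, h2, h3]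
  rw [Units.val_mul, tR_coe (e s t s), tR_coe (e s t' s'), Matrix.sub_mul, Matrix.mul_sub,
    Matrix.mul_sub, vecMulVec_mul_vecMulVec, e s t s']
  simp only [hz, add_vecMulVec, vecMulVec_add, smul_vecMulVec, vecMulVec_smul, Matrix.one_mul,
    Matrix.mul_one, smul_add]
  module

/-- Three roots of a Heisenberg family give a transvection. -/
theorem heis (hT : ∀ g ∈ P, ¬ IsTv g) (h2 : (2 : F) ≠ 0) (h : φ ⬝ᵥ a = 2) (hw : φ ⬝ᵥ w = 0)
    (ha : θ ⬝ᵥ a = 0) (h0 : θ ⬝ᵥ w = 0) {s₁ s₂ s₃ : F} (n₁ : s₁ ≠ 0) (n₂ : s₂ ≠ 0) (n₃ : s₃ ≠ 0)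
    (d₁₂ : s₁ ≠ s₂) (d₁₃ : s₁ ≠ s₃) (d₂₃ : s₂ ≠ s₃) (r₁ : Rt P (a + s₁ • w) (φ + s₁⁻¹ • θ))
    (r₂ : Rt P (a + s₂ • w) (φ + s₂⁻¹ • θ)) (r₃ : Rt P (a + s₃ • w) (φ + s₃⁻¹ • θ)) :
    w = 0 ∧ θ = 0 := by
  by_cases k1 : w = 0
  · refine ⟨k1, ?_⟩
    subst k1
    rw [smul_zero] at r₁ r₂
    have := add_left_cancel (r₁.coroot_eq hT h2 r₂)
    rw [← sub_eq_zero, ← sub_smul, smul_eq_zero, sub_eq_zero, _root_.inv_inj] at this
    exact this.resolve_left d₁₂
  by_cases k2 : θ = 0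
  · subst k2
    rw [smul_zero] at r₁ r₂
    have := add_left_cancel (r₁.root_eq hT h2 r₂)
    rw [← sub_eq_zero, ← sub_smul, smul_eq_zero, sub_eq_zero] at this
    exact absurd (this.resolve_left d₁₂) k1
  exfalso
  have um := mul_mem r₁.2 r₂.2
  have vm := mul_mem r₁.2 r₃.2
  let k := 2 * ((s₁ - s₂) * (s₃⁻¹ - s₁⁻¹) - (s₁ - s₃) * (s₂⁻¹ - s₁⁻¹))
  have hk : k ≠ 0 := by
    have : k = 2 * (s₁ - s₂) * (s₁ - s₃) * (s₂ - s₃) * (s₁ * s₂ * s₃)⁻¹ := by
      simp only [k]; field_simp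
    rw [this]
    simp [h2, n₁, n₂, n₃, sub_ne_zero, d₁₂, d₁₃, d₂₃]
  refine hT _ (mul_mem (mul_mem um vm) (inv_mem (mul_mem vm um)))
    (isTv_of_coe (smul_ne_zero hk k1) k2 (by rw [dotProduct_smul, h0, smul_zero]) ?_)
  rw [Units.val_mul, Units.mul_inv_eq_iff_eq_mul, Units.val_mul (_ * _), Units.val_mul (_ * _),
    tR_mul_hz h hw ha h0, tR_mul_hz h hw ha h0,
    show 1 + vecMulVec (k • w) θ = hz a φ w θ 0 0 k by simp [hz, smul_vecMulVec],
    hz_mul h hw ha h0, hz_mul h hw ha h0, hz_mul h hw ha h0]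
  simp only [k]
  congr 1 <;> ring

/-- If `x = 4` and the product has order prime to the characteristic the roots are
proportional. -/
theorem prop_of_four (h2 : (2 : F) ≠ 0) (ha : φ ⬝ᵥ a = 2) (hb : ψ ⬝ᵥ b = 2) (hx : xx a φ b ψ = 4)
    {n : ℕ} (hn : (n : F) ≠ 0) (h : (tR a φ * tR b ψ) ^ n = 1) :
    ∃ k : F, k ≠ 0 ∧ b = k • a ∧ ψ = k⁻¹ • φ := by
  rw [xx] at hx
  have h4 : (4 : F) ≠ 0 := by
    rw [show (4 : F) = 2 * 2 by norm_num]; exact mul_ne_zero h2 h2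
  have k0 : φ ⬝ᵥ b ≠ 0 := fun e => h4 (by rw [← hx, e, zero_mul])
  set k := φ ⬝ᵥ b / 2 with hk
  have hk0 : k ≠ 0 := div_ne_zero k0 h2
  have e1 : φ ⬝ᵥ b = 2 * k := by rw [hk]; field_simp
  have e2 : k * (ψ ⬝ᵥ a) = 2 := by
    apply mul_left_cancel₀ h2
    rw [← mul_assoc, ← e1, hx]; norm_num
  set w := k⁻¹ • b - a with hw
  set θ := k • ψ - φ with hθ
  have f1 : φ ⬝ᵥ w = 0 := by
    rw [hw, dotProduct_sub, dotProduct_smul, e1, ha, smul_eq_mul]; field_simp; ring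
  have f2 : θ ⬝ᵥ a = 0 := by rw [hθ, sub_dotProduct, smul_dotProduct, ha, smul_eq_mul, e2, sub_self]
  have f3 : θ ⬝ᵥ w = 0 := by
    rw [hw, dotProduct_sub, f2, hθ, sub_dotProduct, smul_dotProduct, dotProduct_smul,
      dotProduct_smul, hb, e1]
    simp only [smul_eq_mul]; field_simp; ring
  have g1 : ((tR a φ * tR b ψ : GL ι F) : Matrix ι ι F) = hz a φ w θ (-1) 1 (-1) := by
    have := tR_mul_hz ha f1 f2 f3 0 0 1 1
    rw [← tR_smul (inv_ne_zero hk0) b ψ, inv_inv]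
    simpa [hw, hθ] using this
  have g2 : ∀ m : ℕ, ∃ z, hz a φ w θ (-1) 1 (-1) ^ m = hz a φ w θ (-m) m z := fun m => by
    induction m with
    | zero => exact ⟨0, by simp [hz]⟩
    | succ m ih =>
      obtain ⟨z, hz'⟩ := ih
      exact ⟨_, by rw [pow_succ, hz', hz_mul ha f1 f2 f3]; congr 1 <;> push_cast <;> ring⟩
  obtain ⟨z, g3⟩ := g2 n
  rw [← g1, ← Units.val_pow_eq_pow_val, h, Units.val_one] at g3
  have g4 := congrArg (· *ᵥ a) g3
  have g5 := congrArg (φ ᵥ* ·) g3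
  simp only [hz, add_mulVec, smul_mulVec, vecMulVec_mulVec, ha, f2, one_mulVec, op_smul_eq_smul,
    vecMul_add, vecMul_smul, vecMul_vecMulVec, f1, vecMul_one, zero_smul, smul_zero, add_zero,
    left_eq_add, smul_eq_zero, neg_eq_zero, hn, h2, false_or] at g4 g5
  refine ⟨k, hk0, ?_, ?_⟩
  · rw [← sub_eq_zero.1 g4, smul_inv_smul₀ hk0]
  · rw [← sub_eq_zero.1 g5, inv_smul_smul₀ hk0]

/-- A `2`-group in odd characteristic has no transvections. -/
theorem noTv_two (h2 : (2 : F) ≠ 0) (hQ : IsPGroup 2 Q) : ∀ g ∈ Q, ¬ IsTv g := by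
  rintro g hg ⟨h1, v, f, h0, rfl⟩
  obtain ⟨k, hk⟩ := hQ ⟨_, hg⟩
  have := congrArg Subtype.val hk
  rw [Subgroup.coe_pow, tv_pow h0, OneMemClass.coe_one,
    tv_eq_one_iff (by rw [dotProduct_smul, h0, smul_zero]), smul_eq_zero] at this
  refine h1 ((tv_eq_one_iff h0).2 (this.imp_left fun e => e.resolve_left ?_))
  simpa using fun e => absurd e h2

theorem xx_refl (ha : φ ⬝ᵥ a = 2) (b ψ : ι → F) :
    xx a φ (a - (ψ ⬝ᵥ a) • b) (φ - (φ ⬝ᵥ b) • ψ) = (2 - xx a φ b ψ) ^ 2 := by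
  simp only [xx, dotProduct_sub, sub_dotProduct, dotProduct_smul, smul_dotProduct, ha, smul_eq_mul]
  ring

theorem tR_refl (ha : φ ⬝ᵥ a = 2) (hb : ψ ⬝ᵥ b = 2) :
    tR (b - (φ ⬝ᵥ b) • a) (ψ - (ψ ⬝ᵥ a) • φ) = tR a φ * tR b ψ * tR a φ := by
  have := conj_tR (tR a φ) hb
  rw [tR_inv, tR_mulVec ha, vecMul_tR ha] at this
  rw [this, ← tR_smul (k := -1) (by simp)]
  simp

theorem exists_two (j : ℕ) : ∀ {b ψ : ι → F}, Rt Q a φ → Rt Q b ψ →
    (tR a φ * tR b ψ) ^ 2 ^ j = 1 → xx a φ b ψ ≠ 0 → xx a φ b ψ ≠ 4 →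
    ∃ c χ, Rt Q c χ ∧ InPl c a b ∧ xx a φ c χ = 2 := by
  induction j with
  | zero =>
    intro b ψ ha hb h h0 h4
    rw [pow_zero, pow_one, mul_eq_one_iff_inv_eq, tR_inv] at h
    have e := tR_mulVec ha.1 b
    rw [h, tR_mulVec hb.1, hb.1] at e
    have e2 := congrArg (ψ ⬝ᵥ ·) e
    simp only [dotProduct_sub, dotProduct_smul, hb.1, smul_eq_mul] at e2
    exact absurd (by rw [xx]; linear_combination -e2) h4
  | succ j ih =>
    intro b ψ ha hb h h0 h4
    by_cases hx : xx a φ b ψ = 2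
    · exact ⟨b, ψ, hb, ⟨0, 1, by simp⟩, hx⟩
    obtain ⟨c, χ, hc, ⟨x, y, e⟩, k⟩ := ih ha (hb.refl ha)
      (by rw [tR_refl hb.1 ha.1, ← h, pow_succ', pow_mul, pow_two]; simp only [mul_assoc])
      (by rw [xx_refl ha.1]; exact pow_ne_zero _ (sub_ne_zero.2 (Ne.symm hx)))
      (by
        rw [xx_refl ha.1]
        intro e
        have : xx a φ b ψ * (xx a φ b ψ - 4) = 0 := by linear_combination e
        exact (mul_eq_zero.1 this).elim h0 fun e => h4 (sub_eq_zero.1 e))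
    exact ⟨c, χ, hc, ⟨x + y, -(y * (ψ ⬝ᵥ a)), by rw [e]; module⟩, k⟩

/-- Two connected roots of a `2`-group: the mate of the first one and an interchanging root. -/
theorem two_swap (h2 : (2 : F) ≠ 0) (hQ : IsPGroup 2 Q) (ha : Rt Q a φ) (hb : Rt Q b ψ)
    (h0 : φ ⬝ᵥ b ≠ 0) (hl : ¬ Ln b a) : ∃ a' φ', Rt Q a' φ' ∧ φ ⬝ᵥ a' = 0 ∧ φ' ⬝ᵥ a = 0 ∧
      InPl a' a b ∧ InPl b a a' ∧ Sw Q a φ a' φ' := by
  obtain ⟨j, hj⟩ := hQ ⟨_, mul_mem ha.2 hb.2⟩
  have hj' : (tR a φ * tR b ψ) ^ 2 ^ j = 1 := congrArg Subtype.val hj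
  obtain ⟨c, χ, hc, ⟨x, y, e⟩, k⟩ := exists_two j ha hb hj'
    (mul_ne_zero h0 fun e => h0 (hb.orth_symm (noTv_two h2 hQ) h2 ha e)) fun e => by
      obtain ⟨k, -, k1, -⟩ := prop_of_four h2 ha.1 hb.1 e (by simpa using fun e => absurd e h2) hj'
      exact hl ⟨k, k1⟩
  rw [xx] at k
  have k1 : χ ⬝ᵥ a ≠ 0 := fun e => h2 (by rw [← k, e, mul_zero])
  have hy : y ≠ 0 := fun e0 => by
    have e1 := hc.1
    rw [e0, zero_smul, add_zero] at e
    rw [e, dotProduct_smul, smul_eq_mul] at e1 k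
    rw [ha.1] at k
    exact h2 (by linear_combination k - 2 * e1)
  refine ⟨_, _, hc.refl ha, ?_, ?_, ⟨1 - (χ ⬝ᵥ a) * x, -((χ ⬝ᵥ a) * y), ?_⟩,
    ⟨y⁻¹ * ((χ ⬝ᵥ a)⁻¹ - x), -(y⁻¹ * (χ ⬝ᵥ a)⁻¹), ?_⟩, 1, one_ne_zero, ?_⟩
  · rw [dotProduct_sub, dotProduct_smul, ha.1, smul_eq_mul]; linear_combination -k
  · rw [sub_dotProduct, smul_dotProduct, ha.1, smul_eq_mul]; linear_combination -k
  · generalize χ ⬝ᵥ a = t
    rw [e]; module
  · generalize χ ⬝ᵥ a = t at k1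
    rw [e]
    ext i
    simp only [Pi.add_apply, Pi.sub_apply, Pi.smul_apply, smul_eq_mul]
    field_simp
    ring
  · refine (hc.smul k1).congr (by simp) ?_
    rw [inv_one, one_smul, sub_sub_cancel, smul_smul]
    congr 1
    field_simp
    linear_combination -k

theorem mem_sy {S : Sylow 2 P} {g : GL ι F} : g ∈ sy S ↔ ∃ h : g ∈ P, ⟨g, h⟩ ∈ (S : Subgroup P) :=
  ⟨fun ⟨x, hx, e⟩ => e ▸ ⟨x.2, hx⟩, fun ⟨_, h⟩ => ⟨_, h, rfl⟩⟩

theorem sy_le (S : Sylow 2 P) : sy S ≤ P := Subgroup.map_subtype_le _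

theorem isPGroup_sy (S : Sylow 2 P) : IsPGroup 2 (sy S) := S.isPGroup'.map _

theorem mem_sy_smul {S : Sylow 2 P} {g : P} {x : GL ι F} :
    x ∈ sy (g • S) ↔ (g : GL ι F)⁻¹ * x * g ∈ sy S := by
  simp only [mem_sy, Sylow.coe_subgroup_smul, Subgroup.mem_pointwise_smul_iff_inv_smul_mem,
    MulAut.smul_def, MulAut.conj_inv_apply]
  exact ⟨fun ⟨h, k⟩ => ⟨mul_mem (mul_mem (inv_mem g.2) h) g.2, k⟩, fun ⟨h, k⟩ =>
    ⟨by simpa [mul_assoc] using mul_mem (mul_mem g.2 h) (inv_mem g.2), k⟩⟩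

theorem exists_sy {H : Subgroup (GL ι F)} (hH : H ≤ P) (h : IsPGroup 2 H) :
    ∃ S : Sylow 2 P, H ≤ sy S := by
  obtain ⟨S, hS⟩ := (h.comap_subtype (K := P)).exists_le_sylow
  exact ⟨S, fun g hg => mem_sy.2 ⟨hH hg, hS hg⟩⟩

/-- A `2`-subgroup is conjugate into a given Sylow subgroup. -/
theorem exists_conj_sy [Finite F] (S : Sylow 2 P) {H : Subgroup (GL ι F)} (hH : H ≤ P)
    (h : IsPGroup 2 H) : ∃ g ∈ P, ∀ x ∈ H, g * x * g⁻¹ ∈ sy S := by
  obtain ⟨T, hT⟩ := exists_sy hH h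
  obtain ⟨g, rfl⟩ := MulAction.exists_smul_eq P S T
  exact ⟨(g : GL ι F)⁻¹, inv_mem g.2, fun x hx => by simpa using mem_sy_smul.1 (hT hx)⟩

theorem exists_sy_central [Finite F] (S : Sylow 2 P) {t g : GL ι F}
    (ht : ∀ s ∈ sy S, s * t = t * s) (hg : g ∈ P) {H : Subgroup (GL ι F)} (hH : H ≤ P)
    (h : IsPGroup 2 H) (hc : ∀ x ∈ H, x * (g * t * g⁻¹) = g * t * g⁻¹ * x) :
    ∃ T : Sylow 2 P, H ≤ sy T ∧ ∀ s ∈ sy T, s * (g * t * g⁻¹) = g * t * g⁻¹ * s := by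
  let C : Subgroup P := (Subgroup.centralizer {g * t * g⁻¹}).subgroupOf P
  have hC : ∀ x : P, x ∈ C ↔ (x : GL ι F) * (g * t * g⁻¹) = g * t * g⁻¹ * x := fun x => by
    simp [C, Subgroup.mem_subgroupOf, Subgroup.mem_centralizer_singleton_iff]
  have h1 : (((⟨g, hg⟩ : P) • S : Sylow 2 P) : Subgroup P) ≤ C := fun x hx => (hC x).2 (by
    have := ht _ (mem_sy_smul.1 (mem_sy.2 ⟨x.2, hx⟩))
    simp only at this
    calc (x : GL ι F) * (g * t * g⁻¹) = g * (g⁻¹ * x * g * t) * g⁻¹ := by group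
      _ = g * t * g⁻¹ * x := by rw [this]; group)
  obtain ⟨T, hT⟩ := ((h.comap_subtype (K := P)).comap_subtype (K := C)).exists_le_sylow
  obtain ⟨k, rfl⟩ := MulAction.exists_smul_eq C (Sylow.subtype _ h1) T
  rw [Sylow.smul_subtype] at hT
  refine ⟨k • ((⟨g, hg⟩ : P) • S), fun x hx => mem_sy.2 ⟨hH hx, ?_⟩, fun s hs => ?_⟩
  · exact hT (x := ⟨⟨x, hH hx⟩, (hC _).2 (hc x hx)⟩) hx
  · obtain ⟨k1, k2⟩ := mem_sy.1 hs
    exact (hC _).1 (Sylow.smul_le h1 k k2)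

/-- Transfer: no character of a Sylow subgroup is constant and non-trivial on the conjugates of an
involution. -/
theorem no_char [Finite F] (hP : QS P) (S : Sylow 2 P) {A : Type*} [CommGroup A]
    (ρ : sy S →* A) {t : GL ι F} (ht : t ∈ P) (h2 : t * t = 1) (h1 : t ≠ 1) {τ : A} (hτ : τ ≠ 1)
    (h : ∀ g ∈ P, ∀ k : g * t * g⁻¹ ∈ sy S, ρ ⟨_, k⟩ = τ) : False := by
  have ho : orderOf (⟨t, ht⟩ : P) = 2 :=
    orderOf_eq_prime (Subtype.ext (by simpa [pow_two] using h2)) fun e => h1 (congrArg Subtype.val e)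
  let ρ' : (S : Subgroup P) →* A := ρ.comp (P.subtype.subgroupMap S)
  have hρ : ∀ (g : P) (k : g⁻¹ * ⟨t, ht⟩ * g ∈ (S : Subgroup P)), ρ' ⟨_, k⟩ = τ := fun g k => by
    have := h g⁻¹ (inv_mem g.2) (by simpa using mem_sy.2 ⟨_, k⟩)
    rw [← this]
    exact congrArg ρ (Subtype.ext (by simp))
  obtain ⟨g, hg, k⟩ := exists_conj_sy S (H := Subgroup.zpowers t) (by simpa using ht)
    (IsPGroup.of_card (n := 1) (by rw [Nat.card_zpowers, ← ho, pow_one]; exact
      (Subgroup.orderOf_coe (⟨t, ht⟩ : P))))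
  have hτ2 : τ ^ 2 = 1 := by
    rw [← h g hg (k t (Subgroup.mem_zpowers t)), ← map_pow, ← ρ.map_one]
    refine congrArg ρ (Subtype.ext ?_)
    simp [pow_two, mul_assoc, ← mul_assoc t t, h2]
  have hc : _root_.commutator P = ⊤ := by
    apply Subgroup.map_injective P.subtype_injective
    rw [_root_.commutator_def, Subgroup.map_commutator, ← MonoidHom.range_eq_map,
      Subgroup.range_subtype, hP.perfect]
  obtain ⟨x, hx, e, -⟩ := Trans.thompson_transfer ρ' S.not_dvd_index ⟨t, ht⟩ ⟨1, ho⟩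
    (fun m hm hm1 x hx => by
      obtain rfl : m = 2 := ((Nat.dvd_prime Nat.prime_two).1 (ho ▸ hm)).resolve_left hm1
      rw [← ρ'.map_one]
      exact congrArg ρ' (Subtype.ext (Subtype.ext (by simp [pow_two, h2]))))
    τ hτ2 (fun x hx => .inr (hρ x hx))
    (Abelianization.commutator_subset_ker _ (hc.ge (Subgroup.mem_top _))) ⊥ IsPGroup.of_bot
    (fun r hr => by rw [Subgroup.mem_bot.1 hr, one_mul, mul_one])
  exact hτ ((hρ x hx).symm.trans e)

theorem tR_ne_one [Nontrivial ι] (h2 : (2 : F) ≠ 0) (h : φ ⬝ᵥ a = 2) : tR a φ ≠ 1 := fun e => by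
  have k := fun v => tR_mulVec h v
  simp only [e, Units.val_one, one_mulVec] at k
  obtain ⟨i, j, hij⟩ := exists_pair_ne ι
  have f1 := congrFun (k (Pi.single i 1)) i
  have f2 := congrFun (k (Pi.single i 1)) j
  have f3 := congrFun (k (Pi.single j 1)) j
  simp [hij.symm] at f1 f2 f3
  rcases f2 with f2 | f2
  · exact h2 (by rw [f2] at f1; linear_combination f1)
  · exact h2 (by rw [f2] at f3; linear_combination f3)

/-- The action on an invariant line. -/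
def lineChar (Q : Subgroup (GL ι F)) {v f : ι → F} (h : f ⬝ᵥ v = 1)
    (hQ : ∀ s ∈ Q, Ln ((s : Matrix ι ι F) *ᵥ v) v) : Q →* Fˣ :=
  MonoidHom.toHomUnits
    { toFun := fun s => f ⬝ᵥ ((s : GL ι F) : Matrix ι ι F) *ᵥ v
      map_one' := by simp [h]
      map_mul' := fun s t => by
        obtain ⟨x, hx⟩ := hQ t t.2
        rw [Subgroup.coe_mul, GL_mul_mulVec, hx, mulVec_smul, dotProduct_smul, dotProduct_smul, h,
          smul_eq_mul, smul_eq_mul, mul_one, mul_comm] }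

theorem lineChar_coe {v f : ι → F} (h : f ⬝ᵥ v = 1)
    (hQ : ∀ s ∈ Q, Ln ((s : Matrix ι ι F) *ᵥ v) v) (s : Q) :
    (lineChar Q h hQ s : F) = f ⬝ᵥ ((s : GL ι F) : Matrix ι ι F) *ᵥ v := rfl

/-- A Sylow subgroup fixes no line that is negated by all conjugates of a reflection. -/
theorem no_fixed_line [Finite F] [Nontrivial ι] (hP : QS P) (h2 : (2 : F) ≠ 0) (S : Sylow 2 P)
    {v : ι → F} (hv : v ≠ 0) (hS : ∀ s ∈ sy S, Ln ((s : Matrix ι ι F) *ᵥ v) v) (hb : Rt P b ψ)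
    (h : ∀ c χ, Rt (sy S) c χ → (∃ g ∈ P, tR c χ = g * tR b ψ * g⁻¹) → χ ⬝ᵥ v = 0) : False := by
  obtain ⟨f, hf⟩ := exists_dot_eq_one hv
  refine no_char hP S (lineChar _ hf hS) hb.2 (tR_mul_self _ _) (tR_ne_one h2 hb.1) (τ := -1)
    (fun e => h2 ?_) fun g hg k => Units.ext ?_
  · have := congrArg Units.val e
    simp only [Units.val_neg, Units.val_one] at this
    linear_combination -this
  · have e := conj_tR g hb.1
    have := h _ _ ⟨(hb.conj hg).1, e ▸ k⟩ ⟨g, hg, e.symm⟩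
    rw [lineChar_coe]
    simp only [e]
    rw [tR_mulVec (hb.conj hg).1, this]
    simp [hf]

/-- The rank one matrix of a pair. -/
def nn (r : (ι → F) × (ι → F)) : Matrix ι ι F := vecMulVec r.1 r.2

theorem nn_three (r s t : (ι → F) × (ι → F)) :
    nn r * nn s * nn t = ((r.2 ⬝ᵥ s.1) * (s.2 ⬝ᵥ t.1)) • vecMulVec r.1 t.2 := by
  simp only [nn, vecMulVec_mul_vecMulVec, vecMulVec_smul, Matrix.smul_mul, smul_smul]

theorem nn_two (r s : (ι → F) × (ι → F)) : nn r * nn s = (r.2 ⬝ᵥ s.1) • vecMulVec r.1 s.2 := by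
  simp only [nn, vecMulVec_mul_vecMulVec, vecMulVec_smul]

theorem trace_cycle (hT : ∀ g ∈ P, ¬ IsTv g) (h2 : (2 : F) ≠ 0) (hS : Sym3 P) (n : ℕ) :
    ∀ l : List ((ι → F) × (ι → F)), l.length = n → (∀ r ∈ l, Rt P r.1 r.2) →
      (l.map nn).prod.trace = (l.reverse.map nn).prod.trace := by
  induction n using Nat.strong_induction_on with
  | _ n ih =>
  have short : ∀ (r s t : (ι → F) × (ι → F)), Rt P r.1 r.2 → Rt P s.1 s.2 → Rt P t.1 t.2 →
      r.2 ⬝ᵥ t.1 ≠ 0 → ∃ k : F, nn r * nn s * nn t = k • (nn r * nn t) ∧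
        nn t * nn s * nn r = k • (nn t * nn r) := fun r s t hr hs ht h0 => by
    have h1 : t.2 ⬝ᵥ r.1 ≠ 0 := fun e => h0 (ht.orth_symm hT h2 hr e)
    have := hS _ _ _ _ _ _ hr hs ht
    simp only [yy] at this
    refine ⟨(r.2 ⬝ᵥ s.1) * (s.2 ⬝ᵥ t.1) / (r.2 ⬝ᵥ t.1), ?_, ?_⟩
    · rw [nn_three, nn_two, smul_smul, div_mul_cancel₀ _ h0]
    · rw [nn_three, nn_two, smul_smul]
      congr 1
      field_simp
      linear_combination -this
  intro l hl hR
  match l, hl with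
  | [], _ => rfl
  | [r], _ => rfl
  | [r, s], _ => simpa using trace_mul_comm _ _
  | [r, s, t], _ =>
    have := hS _ _ _ _ _ _ (hR r (by simp)) (hR s (by simp)) (hR t (by simp))
    simp only [yy] at this
    simp only [List.map_cons, List.map_nil, List.prod_cons, List.prod_nil, List.reverse_cons,
      List.reverse_nil, List.nil_append, List.cons_append, Matrix.mul_one, ← Matrix.mul_assoc,
      nn_three, trace_smul, trace_vecMulVec, smul_eq_mul]
    rw [dotProduct_comm r.1, dotProduct_comm t.1]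
    linear_combination this
  | r :: s :: t :: v :: k, hl =>
    have hr := hR r (by simp)
    have hs := hR s (by simp)
    have ht := hR t (by simp)
    have hv := hR v (by simp)
    have hk : ∀ x ∈ k, Rt P x.1 x.2 := fun x hx => hR x (by simp [hx])
    have IH := fun (x : (ι → F) × (ι → F)) (hx : Rt P x.1 x.2) =>
      ih (n - 1) (by simp at hl; omega) (r :: x :: v :: k) (by simp at hl ⊢; omega) (by
        simp only [List.mem_cons]
        rintro z (rfl | rfl | rfl | hz)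
        exacts [hr, hx, hv, hk z hz])
    simp only [List.map_cons, List.prod_cons, List.reverse_cons, List.map_append, List.prod_append,
      List.map_nil, List.prod_nil, Matrix.mul_one] at IH ⊢
    generalize (k.map nn).prod = K at IH ⊢
    generalize (k.reverse.map nn).prod = K' at IH ⊢
    have key : ∀ (x : (ι → F) × (ι → F)) (m : F), Rt P x.1 x.2 →
        nn r * nn s * nn t * nn v = m • (nn r * nn x * nn v) →
        nn v * nn t * nn s * nn r = m • (nn v * nn x * nn r) →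
        (nn r * (nn s * (nn t * (nn v * K)))).trace = (K' * nn v * nn t * nn s * nn r).trace :=
      fun x m hx e1 e2 => by
        have f1 : nn r * (nn s * (nn t * (nn v * K))) = m • (nn r * (nn x * (nn v * K))) := by
          simp only [← Matrix.mul_assoc, e1, Matrix.smul_mul]
        have f2 : K' * nn v * nn t * nn s * nn r = m • (K' * nn v * nn x * nn r) := by
          simp only [Matrix.mul_assoc] at e2 ⊢
          rw [e2, Matrix.mul_smul]
        rw [f1, f2, trace_smul, trace_smul, IH x hx]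
    by_cases h1 : r.2 ⬝ᵥ t.1 = 0
    swap
    · obtain ⟨m, e1, e2⟩ := short r s t hr hs ht h1
      refine key t m ht (by rw [e1, Matrix.smul_mul]) ?_
      rw [Matrix.mul_assoc, Matrix.mul_assoc, ← Matrix.mul_assoc (nn t), e2, Matrix.mul_smul,
        Matrix.mul_assoc]
    by_cases h3 : s.2 ⬝ᵥ v.1 = 0
    swap
    · obtain ⟨m, e1, e2⟩ := short s t v hs ht hv h3
      refine key s m hs ?_ (by rw [e2, Matrix.smul_mul])
      rw [Matrix.mul_assoc, Matrix.mul_assoc, ← Matrix.mul_assoc (nn s), e1, Matrix.mul_smul,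
        Matrix.mul_assoc]
    have h4 := hr.orth_symm hT h2 ht h1
    have h5 := hs.orth_symm hT h2 hv h3
    refine key (_, _) (-1) (hs.refl ht) ?_ ?_
    · rw [nn_three, nn_three, Matrix.smul_mul, nn, vecMulVec_mul_vecMulVec, vecMulVec_smul,
        smul_smul, smul_smul]
      simp only [dotProduct_sub, sub_dotProduct, dotProduct_smul, smul_dotProduct, h1, h3,
        smul_eq_mul]
      congr 1; ring
    · rw [nn_three, nn_three, Matrix.smul_mul, nn, vecMulVec_mul_vecMulVec, vecMulVec_smul,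
        smul_smul, smul_smul]
      simp only [dotProduct_sub, sub_dotProduct, dotProduct_smul, smul_dotProduct, h4, h5,
        smul_eq_mul]
      congr 1; ring

theorem trace_word (hT : ∀ g ∈ P, ¬ IsTv g) (h2 : (2 : F) ≠ 0) (hS : Sym3 P)
    (l : List ((ι → F) × (ι → F))) (hl : ∀ r ∈ l, Rt P r.1 r.2) :
    ∀ k : List ((ι → F) × (ι → F)), (∀ r ∈ k, Rt P r.1 r.2) →
      ((k.map nn).prod * (l.map fun r => nn r - 1).prod).trace =
        ((l.reverse.map fun r => nn r - 1).prod * (k.reverse.map nn).prod).trace := by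
  induction l with
  | nil => simpa using fun k hk => trace_cycle hT h2 hS _ k rfl fun r hr => hk _ _ hr
  | cons r l ih =>
    intro k hk
    have h1 := ih (fun x hx => hl x (by simp [hx])) k hk
    have h3 := ih (fun x hx => hl x (by simp [hx])) (k ++ [r]) (by
      simp only [List.mem_append, List.mem_singleton]
      rintro x (hx | rfl)
      exacts [hk x hx, hl _ (by simp)])
    simp only [List.map_cons, List.prod_cons, List.reverse_cons, List.map_append, List.prod_append,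
      List.map_nil, List.prod_nil, Matrix.mul_one, List.reverse_append, List.reverse_nil,
      List.nil_append, List.cons_append, Matrix.sub_mul, Matrix.mul_sub, Matrix.one_mul,
      Matrix.mul_assoc, trace_sub] at h1 h3 ⊢
    rw [h1, h3]

/-- Every element is a word in the roots. -/
theorem exists_word [Nontrivial ι] (h : QS P) (h2 : (2 : F) ≠ 0) (ha : Rt P a φ) {g : GL ι F}
    (hg : g ∈ P) : ∃ l : List ((ι → F) × (ι → F)), (∀ r ∈ l, Rt P r.1 r.2) ∧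
      g = (l.map fun r => tR r.1 r.2).prod := by
  rw [← closure_roots h h2 ha] at hg
  induction hg using Subgroup.closure_induction_left with
  | one => exact ⟨[], by simp, rfl⟩
  | mul_left x hx y _ ih =>
    obtain ⟨b, ψ, hb, rfl⟩ := hx
    obtain ⟨l, hl, rfl⟩ := ih
    exact ⟨(b, ψ) :: l, by simpa using ⟨hb, fun a b h => hl _ h⟩, by simp⟩
  | inv_mul_cancel x hx y _ ih =>
    obtain ⟨b, ψ, hb, rfl⟩ := hx
    obtain ⟨l, hl, rfl⟩ := ih
    exact ⟨(b, ψ) :: l, by simpa using ⟨hb, fun a b h => hl _ h⟩, by simp [tR_inv]⟩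

end Roots

theorem wS : WS.{u} := by
  rintro F _ _ P hP ⟨a, φ, ha⟩ hS
  refine (fixQ_of_real5 hP.qs.env_top fun g hg => ?_).1
  obtain ⟨l, hl, rfl⟩ := exists_word hP.qs hP.two ha hg
  have e : ∀ l : List ((Fin 5 → F) × (Fin 5 → F)), (∀ r ∈ l, Rt P r.1 r.2) →
      (((l.map fun r => tR r.1 r.2).prod : GL (Fin 5) F) : Matrix (Fin 5) (Fin 5) F) =
        (l.map fun r => nn r - 1).prod := fun l hl => by
    induction l with
    | nil => rfl
    | cons r l ih => rw [List.map_cons, List.prod_cons, Units.val_mul, tR_coe (hl r (by simp)).1,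
        ih fun x hx => hl x (by simp [hx]), List.map_cons, List.prod_cons, nn]
  have := trace_word hP.nt hP.two hS l hl [] (by simp)
  rw [tr5, tr5, List.prod_inv_reverse, List.map_map, ← List.map_reverse,
    show ((fun x => x⁻¹) ∘ fun r : (Fin 5 → F) × (Fin 5 → F) => tR r.1 r.2) =
      fun r => tR r.1 r.2 from funext fun r => tR_inv _ _, e l hl,
    e _ fun r hr => hl r (List.mem_reverse.1 hr)]
  simpa using this.symm

variable {F : Type*} [Field F] {P : Subgroup (GL (Fin 5) F)} {a φ b ψ : Fin 5 → F}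

/-- If a Sylow subgroup fixes the line of one of its roots, all roots are conjugate. -/
theorem conj_of_fixed [Finite F] (hP : Hr P) (S : Sylow 2 P) (ha : Rt (sy S) a φ)
    (hS : ∀ s ∈ sy S, Ln ((s : Matrix (Fin 5) (Fin 5) F) *ᵥ a) a) (hb : Rt P b ψ) :
    ∃ g ∈ P, tR b ψ = g * tR a φ * g⁻¹ := by
  by_contra hn
  refine no_fixed_line hP.qs hP.two S (ha.ne_zero hP.two) hS hb fun c χ hc ⟨g, hg, e⟩ => ?_
  by_contra h0
  obtain ⟨x, hx⟩ := hS _ hc.2
  rw [tR_mulVec hc.1, sub_eq_iff_eq_add] at hx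
  have := ((ha.mono (sy_le S)).of_prop hP.nt hP.two (hc.mono (sy_le S))
    (k := (χ ⬝ᵥ a)⁻¹ * (x + 1)) (by
      rw [mul_smul, add_smul, one_smul, ← hx, inv_smul_smul₀ h0])).2.2
  exact hn ⟨g⁻¹, inv_mem hg, by rw [← this, e]; group⟩

end Cfsg.Lib.Five
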