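import Cfsg.Agent.Class.Five.RDPl

/-!
# Degenerate asymmetric triples of roots
-/

set_option autoImplicit false

namespace Cfsg.Lib.Five

open Matrix Cfsg.Lib.Class Cfsg.Lib.Mit
open scoped MatrixGroups

universe u

namespace RD

variable {ι : Type} [Fintype ι] [DecidableEq ι] {F : Type*} [Field F]

section Ker

variable {Z : Subgroup (GL ι F)} {c χ α β α' β' d f : ι → F}

theorem zero_of_tv (hT : ∀ g ∈ Z, ¬ IsTv g) {k : GL ι F} (hk : k ∈ Z) {v f : ι → F}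
    (h : f ⬝ᵥ v = 0) (e : (k : Matrix ι ι F) = 1 + vecMulVec v f) : v = 0 ∨ f = 0 := by
  by_contra k0
  rw [not_or] at k0
  exact hT k hk (isTv_of_coe k0.1 k0.2 h e)

/-- The elements acting trivially on the sections of the flag. -/
def KX (Z : Subgroup (GL ι F)) (c χ α β : ι → F) : Prop :=
  α ⬝ᵥ c = 0 ∧ χ ⬝ᵥ β = 0 ∧ ∃ k ∈ Z, (k : Matrix ι ι F) = 1 + vecMulVec c α + vecMulVec β χ

theorem KX.congr (h : KX Z c χ α β) (e : α = α') (e' : β = β') : KX Z c χ α' β' := e ▸ e' ▸ h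

theorem kx_mul (h0 : χ ⬝ᵥ c = 0) (h1 : α ⬝ᵥ c = 0) (h2 : χ ⬝ᵥ β' = 0) :
    (1 + vecMulVec c α + vecMulVec β χ) * (1 + vecMulVec c α' + vecMulVec β' χ) =
      1 + vecMulVec c (α + α' + (α ⬝ᵥ β') • χ) + vecMulVec (β + β') χ := by
  simp only [Matrix.add_mul, Matrix.mul_add, Matrix.one_mul, Matrix.mul_one,
    vecMulVec_mul_vecMulVec, h0, h1, h2, zero_smul, vecMulVec_zero, vecMulVec_add, add_vecMulVec]
  abel

theorem KX.mul (h0 : χ ⬝ᵥ c = 0) (h : KX Z c χ α β) (h' : KX Z c χ α' β') :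
    KX Z c χ (α + α' + (α ⬝ᵥ β') • χ) (β + β') := by
  obtain ⟨h1, h2, k, hk, e⟩ := h
  obtain ⟨h3, h4, k', hk', e'⟩ := h'
  exact ⟨by simp [h0, h1, h3], by simp [h2, h4], k * k', mul_mem hk hk',
    by rw [Units.val_mul, e, e', kx_mul h0 h1 h4]⟩

theorem KX.inv (h0 : χ ⬝ᵥ c = 0) (h : KX Z c χ α β) :
    KX Z c χ (-α + (α ⬝ᵥ β) • χ) (-β) := by
  obtain ⟨h1, h2, k, hk, e⟩ := h
  refine ⟨by simp [h0, h1], by simp [h2], k⁻¹, inv_mem hk, Units.inv_eq_of_mul_eq_one_right ?_⟩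
  rw [e, kx_mul h0 h1 (by simp [h2])]
  simp

theorem KX.conj (h : KX Z c χ α β) (hr : rf d f ∈ Z) (hd : f ⬝ᵥ d = 2) (h1 : f ⬝ᵥ c = 0)
    (h2 : χ ⬝ᵥ d = 0) : KX Z c χ (α - (α ⬝ᵥ d) • f) (β - (f ⬝ᵥ β) • d) := by
  obtain ⟨h3, h4, k, hk, e⟩ := h
  refine ⟨by simp [h1, h3], by simp [h2, h4], rf d f * k * rf d f, mul_mem (mul_mem hr hk) hr, ?_⟩
  have e1 : (rf d f : Matrix ι ι F) * rf d f = 1 := by rw [← Units.val_mul, rf_mul_self]; rfl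
  have e2 : ∀ v, (rf d f : Matrix ι ι F) *ᵥ v = v - (f ⬝ᵥ v) • d := fun v => by
    rw [rf_coe hd, sub_mulVec, one_mulVec, vecMulVec_mulVec, op_smul_eq_smul]
  have e3 : ∀ v, v ᵥ* (rf d f : Matrix ι ι F) = v - (v ⬝ᵥ d) • f := fun v => by
    rw [rf_coe hd, vecMul_sub, vecMul_one, vecMul_vecMulVec]
  rw [Units.val_mul, Units.val_mul, e]
  simp only [Matrix.add_mul, Matrix.mul_add, Matrix.mul_one, e1, mul_vecMulVec, vecMulVec_mul, e2,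
    e3, h1, h2, zero_smul, sub_zero]

theorem KX.step (h0 : χ ⬝ᵥ c = 0) (h : KX Z c χ α β) (hr : rf d f ∈ Z) (hd : f ⬝ᵥ d = 2)
    (h1 : f ⬝ᵥ c = 0) (h2 : χ ⬝ᵥ d = 0) :
    ∃ γ : F, KX Z c χ ((α ⬝ᵥ d) • f + γ • χ) ((f ⬝ᵥ β) • d) :=
  have key : ∀ s t : F, α + (-(α - (α ⬝ᵥ d) • f) + s • χ) + t • χ = (α ⬝ᵥ d) • f + (s + t) • χ :=
    fun s t => by module
  ⟨_, (h.mul h0 ((h.conj hr hd h1 h2).inv h0)).congr (key _ _) (by abel)⟩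

theorem KX.comm (hT : ∀ g ∈ Z, ¬ IsTv g) (h0 : χ ⬝ᵥ c = 0) (hc : c ≠ 0) (hχ : χ ≠ 0)
    (h : KX Z c χ α β) (h' : KX Z c χ α' β') : α ⬝ᵥ β' = α' ⬝ᵥ β := by
  obtain ⟨k1, -, k, hk, e⟩ := ((h.mul h0 h').mul h0 ((h'.mul h0 h).inv h0)).congr
    (α' := (α ⬝ᵥ β' - α' ⬝ᵥ β) • χ) (β' := 0) (by
      simp only [add_dotProduct, dotProduct_add, dotProduct_neg, smul_dotProduct, h.2.1, h'.2.1]
      module) (by abel)
  rw [zero_vecMulVec, add_zero] at e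
  exact sub_eq_zero.1 ((smul_eq_zero.1 ((zero_of_tv hT hk k1 e).resolve_left hc)).resolve_right hχ)

/-- A non-trivial element of the kernel makes the triples symmetric. -/
theorem KX.sym (h2 : (2 : F) ≠ 0) (hT : ∀ g ∈ Z, ¬ IsTv g) (h0 : χ ⬝ᵥ c = 0) (hc : c ≠ 0)
    (hχ : χ ≠ 0) (h : KX Z c χ α β) {a φ : Fin 3 → ι → F} (hr : ∀ i, rf (a i) (φ i) ∈ Z)
    (hd : ∀ i, φ i ⬝ᵥ a i = 2) (h1 : ∀ i, φ i ⬝ᵥ c = 0) (h3 : ∀ i, χ ⬝ᵥ a i = 0) (i j l : Fin 3)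
    (hα : α ⬝ᵥ a i ≠ 0) :
    yy (a i) (φ i) (a j) (φ j) (a l) (φ l) = yy (a i) (φ i) (a l) (φ l) (a j) (φ j) := by
  obtain ⟨γ, k⟩ := h.step h0 (hr i) (hd i) (h1 i) (h3 i)
  have hβ : φ i ⬝ᵥ β ≠ 0 := fun e => by
    obtain ⟨k1, -, k, hk, e'⟩ := k
    rw [e, zero_smul, zero_vecMulVec, add_zero] at e'
    have := congrArg (· ⬝ᵥ a i) ((zero_of_tv hT hk k1 e').resolve_left hc)
    simp [hd, h3, hα, h2] at this
  obtain ⟨γ1, k1⟩ := k.step h0 (hr j) (hd j) (h1 j) (h3 j)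
  obtain ⟨γ2, k2⟩ := k.step h0 (hr l) (hd l) (h1 l) (h3 l)
  have := k1.comm hT h0 hc hχ k2
  simp only [add_dotProduct, smul_dotProduct, dotProduct_smul, h3, smul_eq_mul, mul_zero,
    add_zero] at this
  apply mul_left_cancel₀ (mul_ne_zero hα hβ)
  simp only [yy]
  linear_combination this

end Ker

/-- The inclusion of the plane. -/
def J (F : Type*) [Field F] : Matrix (Fin 3) (Fin 2) F := !![1, 0; 0, 1; 0, 0]

/-- The third basis vector. -/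
def e3 (F : Type*) [Field F] : Fin 3 → F := ![0, 0, 1]

theorem J_mul : (J F)ᵀ * J F = 1 := by
  ext i j
  fin_cases i <;> fin_cases j <;> simp [J, Matrix.mul_apply, Fin.sum_univ_three]

theorem J_add : J F * (J F)ᵀ + vecMulVec (e3 F) (e3 F) = 1 := by
  ext i j
  rw [Matrix.add_apply, Matrix.mul_apply, vecMulVec_apply]
  fin_cases i <;> fin_cases j <;> simp [J, e3]

theorem J_e3 : (J F)ᵀ *ᵥ e3 F = 0 := by
  ext i
  fin_cases i <;> simp [J, e3, mulVec, dotProduct, Fin.sum_univ_three]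

theorem e3_J : e3 F ᵥ* J F = 0 := by
  rw [← J_e3, mulVec_transpose]

/-- The elements `1 + D A Ψ`. -/
def Sh (D : Matrix ι (Fin 3) F) (Ψ : Matrix (Fin 3) ι F) : Subgroup (GL ι F) where
  carrier := {z | ∃ A : Matrix (Fin 3) (Fin 3) F, (z : Matrix ι ι F) = 1 + D * A * Ψ}
  one_mem' := ⟨0, by simp⟩
  mul_mem' := by
    rintro z w ⟨A, hA⟩ ⟨B, hB⟩
    refine ⟨A + B + A * Ψ * D * B, ?_⟩
    simp only [Units.val_mul, hA, hB, Matrix.add_mul, Matrix.mul_add, Matrix.one_mul,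
      Matrix.mul_one, Matrix.mul_assoc]
    abel
  inv_mem' := by
    rintro z ⟨A, hA⟩
    refine ⟨-A + A * Ψ * ((z⁻¹ : GL ι F) : Matrix ι ι F) * D * A, ?_⟩
    have e : D * A * Ψ = (z : Matrix ι ι F) - 1 := by rw [hA, add_sub_cancel_left]
    have e' : D * (-A + A * Ψ * ((z⁻¹ : GL ι F) : Matrix ι ι F) * D * A) * Ψ =
        -(D * A * Ψ) + D * A * Ψ * ((z⁻¹ : GL ι F) : Matrix ι ι F) * (D * A * Ψ) := by
      simp only [Matrix.add_mul, Matrix.mul_add, Matrix.mul_assoc, Matrix.mul_neg, Matrix.neg_mul]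
    rw [e', e, Matrix.sub_mul, Units.mul_inv, Matrix.one_mul, Matrix.sub_mul, Matrix.one_mul,
      Matrix.mul_sub, Units.inv_mul, Matrix.mul_one]
    abel

variable {D : Matrix ι (Fin 3) F} {Ψ : Matrix (Fin 3) ι F}

theorem th_aux (h : Ψ * D = J F * (J F)ᵀ) (A : Matrix (Fin 3) (Fin 3) F) :
    Ψ * (1 + D * A * Ψ) * D = J F * (1 + (J F)ᵀ * A * J F) * (J F)ᵀ := by
  have : Ψ * (1 + D * A * Ψ) * D = Ψ * D + Ψ * D * A * (Ψ * D) := by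
    simp only [Matrix.add_mul, Matrix.mul_add, Matrix.mul_assoc, Matrix.one_mul]
  rw [this, h]
  simp only [Matrix.add_mul, Matrix.mul_add, Matrix.mul_assoc, Matrix.one_mul]

theorem th_aux' (h : Ψ * D = J F * (J F)ᵀ) (A : Matrix (Fin 3) (Fin 3) F) :
    (J F)ᵀ * (Ψ * (1 + D * A * Ψ) * D) * J F = 1 + (J F)ᵀ * A * J F := by
  rw [th_aux h, Matrix.mul_assoc, Matrix.mul_assoc (J F), Matrix.mul_assoc (J F),
    ← Matrix.mul_assoc _ (J F), J_mul, Matrix.one_mul, Matrix.mul_assoc, J_mul, Matrix.mul_one]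

/-- The action on the plane. -/
def th (h : Ψ * D = J F * (J F)ᵀ) : Sh D Ψ →* GL (Fin 2) F :=
  MonoidHom.toHomUnits
    { toFun := fun z => (J F)ᵀ * (Ψ * ((z : GL ι F) : Matrix ι ι F) * D) * J F
      map_one' := by simpa using th_aux' h 0
      map_mul' := by
        rintro ⟨z, A, hA⟩ ⟨w, B, hB⟩
        have e : (z : Matrix ι ι F) * (w : Matrix ι ι F) = 1 + D * (A + B + A * (Ψ * D) * B) * Ψ := by
          simp only [hA, hB, Matrix.add_mul, Matrix.mul_add, Matrix.one_mul,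
            Matrix.mul_one, Matrix.mul_assoc]
          abel
        simp only [Subgroup.coe_mul, Units.val_mul]
        rw [e, hA, hB, th_aux' h, th_aux' h, th_aux' h, h]
        simp only [Matrix.add_mul, Matrix.mul_add, Matrix.one_mul, Matrix.mul_one, Matrix.mul_assoc]
        abel }

theorem th_coe (h : Ψ * D = J F * (J F)ᵀ) (z : Sh D Ψ) {A : Matrix (Fin 3) (Fin 3) F}
    (hA : ((z : GL ι F) : Matrix ι ι F) = 1 + D * A * Ψ) :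
    (th h z : Matrix (Fin 2) (Fin 2) F) = 1 + (J F)ᵀ * A * J F := by
  rw [← th_aux' h, ← hA]; rfl

theorem th_pair (h : Ψ * D = J F * (J F)ᵀ) (z : Sh D Ψ) (A B : Fin 3 → F) :
    (B ᵥ* Ψ) ⬝ᵥ (((z : GL ι F) : Matrix ι ι F) *ᵥ (D *ᵥ A)) =
      (B ᵥ* J F) ⬝ᵥ ((th h z : Matrix (Fin 2) (Fin 2) F) *ᵥ ((J F)ᵀ *ᵥ A)) := by
  obtain ⟨M, hM⟩ := z.2
  rw [th_coe h z hM, hM, ← dotProduct_mulVec, ← dotProduct_mulVec]
  simp only [mulVec_mulVec, ← Matrix.mul_assoc, th_aux h]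

theorem pair_one (h : Ψ * D = J F * (J F)ᵀ) (A B : Fin 3 → F) :
    (B ᵥ* Ψ) ⬝ᵥ (D *ᵥ A) = (B ᵥ* J F) ⬝ᵥ ((J F)ᵀ *ᵥ A) := by
  simpa using th_pair h 1 A B

theorem rf_sh {A B : Fin 3 → F} (hA : (B ᵥ* Ψ) ⬝ᵥ (D *ᵥ A) = 2) :
    (rf (D *ᵥ A) (B ᵥ* Ψ) : Matrix ι ι F) = 1 + D * (-vecMulVec A B) * Ψ := by
  rw [rf_coe hA, Matrix.mul_neg, Matrix.neg_mul, mul_vecMulVec, vecMulVec_mul, sub_eq_add_neg]

theorem th_rf (h : Ψ * D = J F * (J F)ᵀ) {A B : Fin 3 → F} (hA : (B ᵥ* Ψ) ⬝ᵥ (D *ᵥ A) = 2) :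
    th h ⟨rf (D *ᵥ A) (B ᵥ* Ψ), _, rf_sh hA⟩ = rf ((J F)ᵀ *ᵥ A) (B ᵥ* J F) := by
  apply Units.ext
  rw [th_coe h _ (rf_sh hA), rf_coe ((pair_one h A B).symm.trans hA), Matrix.mul_neg,
    Matrix.neg_mul, mul_vecMulVec, vecMulVec_mul, sub_eq_add_neg]

omit [Fintype ι] [DecidableEq ι] in
theorem split (D : Matrix ι (Fin 3) F) (Ψ : Matrix (Fin 3) ι F) (A : Matrix (Fin 3) (Fin 3) F) :
    D * A * Ψ = D * J F * ((J F)ᵀ * A * J F) * ((J F)ᵀ * Ψ) +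
      vecMulVec (D *ᵥ e3 F) (e3 F ᵥ* (A * Ψ)) +
      vecMulVec ((D * J F * (J F)ᵀ * A) *ᵥ e3 F) (e3 F ᵥ* Ψ) := by
  have e1 : D * A * Ψ = D * (J F * (J F)ᵀ + vecMulVec (e3 F) (e3 F)) * (A * Ψ) := by
    rw [J_add, Matrix.mul_one, Matrix.mul_assoc]
  have e2 : D * (J F * (J F)ᵀ) * (A * Ψ) =
      D * J F * (J F)ᵀ * A * (J F * (J F)ᵀ + vecMulVec (e3 F) (e3 F)) * Ψ := by
    rw [J_add, Matrix.mul_one]
    simp only [Matrix.mul_assoc]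
  rw [e1, Matrix.mul_add, Matrix.add_mul, e2, Matrix.mul_add, Matrix.add_mul, mul_vecMulVec,
    mul_vecMulVec, vecMulVec_mul, vecMulVec_mul]
  simp only [Matrix.mul_assoc]
  abel

theorem core [Fintype F] (h2 : (2 : F) ≠ 0) (h : Ψ * D = J F * (J F)ᵀ) {Q : Subgroup (GL ι F)}
    (hT : ∀ g ∈ Q, ¬ IsTv g) {a φ : Fin 3 → ι → F} {A B : Fin 3 → Fin 3 → F}
    (hA : ∀ i, a i = D *ᵥ A i) (hB : ∀ i, φ i = B i ᵥ* Ψ) (hd : ∀ i, φ i ⬝ᵥ a i = 2)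
    (hr : ∀ i, rf (a i) (φ i) ∈ Q)
    (h0 : xx (a 0) (φ 0) (a 1) (φ 1) ≠ 0) (h4 : xx (a 0) (φ 0) (a 1) (φ 1) ≠ 4)
    (hg : gram (a 0) (φ 0) (a 1) (φ 1) (a 2) (φ 2) = 0)
    (hy : yy (a 0) (φ 0) (a 1) (φ 1) (a 2) (φ 2) ≠ yy (a 0) (φ 0) (a 2) (φ 2) (a 1) (φ 1))
    (hα : ∀ α : ι → F, α ⬝ᵥ a 0 = 0 → α ⬝ᵥ a 1 = 0 → α ᵥ* (D * J F) = 0)
    (hc : ∃ s : Fin 3 → F, D *ᵥ e3 F = ∑ i, s i • a i)
    (hχ : ∃ s : Fin 3 → F, e3 F ᵥ* Ψ = ∑ i, s i • φ i) :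
    D *ᵥ e3 F = 0 ∧ ∃ g ∈ Q, ∃ i j, xx (a i) (φ i) ((g : Matrix ι ι F) *ᵥ a j)
      (φ j ᵥ* ((g⁻¹ : GL ι F) : Matrix ι ι F)) = 2 := by
  have hJ : (J F)ᵀ * Ψ * (D * J F) = 1 := by
    rw [Matrix.mul_assoc, ← Matrix.mul_assoc Ψ, h, Matrix.mul_assoc, J_mul, Matrix.mul_one, J_mul]
  have hΨ : Ψ *ᵥ (D *ᵥ e3 F) = 0 := by rw [mulVec_mulVec, h, ← mulVec_mulVec, J_e3, mulVec_zero]
  have hD : (e3 F ᵥ* Ψ) ᵥ* D = 0 := by rw [vecMul_vecMul, h, ← vecMul_vecMul, e3_J, zero_vecMul]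
  have hΨ' : ∀ v, (v ᵥ* Ψ) ⬝ᵥ (D *ᵥ e3 F) = 0 := fun v => by
    rw [← dotProduct_mulVec, hΨ, dotProduct_zero]
  have hD' : ∀ v, (e3 F ᵥ* Ψ) ⬝ᵥ (D *ᵥ v) = 0 := fun v => by
    rw [dotProduct_mulVec, hD, zero_dotProduct]
  have h1 : ∀ i, φ i ⬝ᵥ (D *ᵥ e3 F) = 0 := fun i => hB i ▸ hΨ' _
  have h3 : ∀ i, (e3 F ᵥ* Ψ) ⬝ᵥ a i = 0 := fun i => hA i ▸ hD' _
  have ker : ∀ z : Sh D Ψ, (z : GL ι F) ∈ Q → th h z = 1 → z = 1 := by
    intro z hz hz1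
    obtain ⟨M, hM⟩ := z.2
    have hM0 : (J F)ᵀ * M * J F = 0 := by
      have := th_coe h z hM
      rw [hz1, Units.val_one] at this
      exact left_eq_add.1 this
    rw [split, hM0, Matrix.mul_zero, Matrix.zero_mul, zero_add, ← add_assoc] at hM
    have k1 : (e3 F ᵥ* (M * Ψ)) ⬝ᵥ (D *ᵥ e3 F) = 0 := by rw [← vecMul_vecMul, hΨ']
    have k2 : (e3 F ᵥ* Ψ) ⬝ᵥ ((D * J F * (J F)ᵀ * M) *ᵥ e3 F) = 0 := by
      rw [Matrix.mul_assoc, Matrix.mul_assoc, ← mulVec_mulVec, hD']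
    have fin : ∀ v f : ι → F, f ⬝ᵥ v = 0 → ((z : GL ι F) : Matrix ι ι F) = 1 + vecMulVec v f →
        z = 1 := fun v f e e' => by
      refine Subtype.ext (Units.ext ?_)
      rcases zero_of_tv hT hz e e' with rfl | rfl <;> simpa using e'
    by_cases hc0 : D *ᵥ e3 F = 0
    · exact fin _ _ k2 (by rw [hM, hc0, zero_vecMulVec, add_zero])
    by_cases hχ0 : e3 F ᵥ* Ψ = 0
    · exact fin _ _ k1 (by rw [hM, hχ0, vecMulVec_zero, add_zero])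
    have kx : KX Q _ _ _ _ := ⟨k1, k2, z, hz, hM⟩
    by_cases p0 : (e3 F ᵥ* (M * Ψ)) ⬝ᵥ a 0 = 0
    swap
    · exact absurd (kx.sym h2 hT (hD' _) hc0 hχ0 hr hd h1 h3 0 1 2 p0) hy
    by_cases p1 : (e3 F ᵥ* (M * Ψ)) ⬝ᵥ a 1 = 0
    swap
    · have := kx.sym h2 hT (hD' _) hc0 hχ0 hr hd h1 h3 1 2 0 p1
      refine absurd ?_ hy
      simp only [yy] at this ⊢
      linear_combination this
    have p2 := hα _ p0 p1
    rw [vecMul_vecMul, Matrix.mul_assoc, ← Matrix.mul_assoc Ψ, h, Matrix.mul_assoc, J_mul,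
      Matrix.mul_one] at p2
    have p3 : e3 F ᵥ* (M * Ψ) = ((e3 F ᵥ* M) ⬝ᵥ e3 F) • (e3 F ᵥ* Ψ) := by
      conv_lhs => rw [← Matrix.mul_one M, ← J_add]
      rw [Matrix.mul_add, Matrix.add_mul, vecMul_add, ← Matrix.mul_assoc, Matrix.mul_assoc (M * _),
        ← vecMul_vecMul, p2, zero_vecMul, zero_add, ← vecMul_vecMul, ← vecMul_vecMul,
        vecMul_vecMulVec, smul_vecMul]
    refine fin (((e3 F ᵥ* M) ⬝ᵥ e3 F) • (D *ᵥ e3 F) + (D * J F * (J F)ᵀ * M) *ᵥ e3 F) _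
      (by rw [dotProduct_add, k2, dotProduct_smul, hD', smul_zero, add_zero]) ?_
    rw [hM, p3, add_vecMulVec, smul_vecMulVec, vecMulVec_smul, add_assoc]
  have hd' : ∀ i, (B i ᵥ* Ψ) ⬝ᵥ (D *ᵥ A i) = 2 := fun i => hA i ▸ hB i ▸ hd i
  let r : Fin 3 → Sh D Ψ := fun i => ⟨rf (D *ᵥ A i) (B i ᵥ* Ψ), _, rf_sh (hd' i)⟩
  have hrr : ∀ i, (r i : GL ι F) = rf (a i) (φ i) := fun i => by rw [hA i, hB i]
  have pr : ∀ i j, (B i ᵥ* J F) ⬝ᵥ ((J F)ᵀ *ᵥ A j) = φ i ⬝ᵥ a j := fun i j => by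
    rw [hA, hB, pair_one h]
  obtain ⟨⟨z, hz, ez⟩, hpl⟩ := plane h2 (a := fun i => (J F)ᵀ *ᵥ A i) (φ := fun i => B i ᵥ* J F)
    (fun i => (pr i i).trans (hd i)) (by simpa only [xx, pr] using h0)
    (by simpa only [xx, pr] using h4) (by simpa only [gram, xx, yy, pr] using hg)
    (by simpa only [yy, pr] using hy) (X := (Q.subgroupOf (Sh D Ψ)).map (th h))
    (fun i => ⟨r i, Subgroup.mem_subgroupOf.2 (hrr i ▸ hr i), th_rf h (hd' i)⟩)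
  replace hz : (z : GL ι F) ∈ Q := hz
  have cen : ∀ i, ((z : GL ι F) : Matrix ι ι F) *ᵥ a i = -a i ∧
      φ i ᵥ* ((z : GL ι F) : Matrix ι ι F) = -φ i := fun i => by
    have e1 := ker (z * r i * z⁻¹ * (r i)⁻¹) (by
      simpa only [Subgroup.coe_mul, Subgroup.coe_inv, hrr] using
        mul_mem (mul_mem (mul_mem hz (hr i)) (inv_mem hz)) (inv_mem (hr i))) (by simp [ez])
    rw [mul_inv_eq_one, mul_inv_eq_iff_eq_mul] at e1
    have e2 := congrArg (fun x : Sh D Ψ => ((x : GL ι F) : Matrix ι ι F)) e1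
    simp only [Subgroup.coe_mul, Units.val_mul, hrr, rf_coe (hd i), Matrix.mul_sub, Matrix.sub_mul,
      Matrix.mul_one, Matrix.one_mul, sub_right_inj, mul_vecMulVec, vecMulVec_mul] at e2
    have e3 : φ i ⬝ᵥ (((z : GL ι F) : Matrix ι ι F) *ᵥ a i) = -2 := by
      rw [hA, hB, th_pair h, ez, Units.val_neg, Units.val_one, neg_mulVec, one_mulVec,
        dotProduct_neg, pr, hd]
    have e4 := congrArg (· *ᵥ a i) e2
    have e5 := congrArg (φ i ᵥ* ·) e2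
    simp only [vecMulVec_mulVec, op_smul_eq_smul, vecMul_vecMulVec, ← dotProduct_mulVec, e3,
      hd] at e4 e5
    exact ⟨smul_right_injective _ h2 (by simpa using e4),
      smul_right_injective _ h2 (by simpa using e5.symm)⟩
  obtain ⟨M, hM⟩ := z.2
  have hc0 : D *ᵥ e3 F = 0 := by
    obtain ⟨s, hs⟩ := hc
    have e1 : ((z : GL ι F) : Matrix ι ι F) *ᵥ (D *ᵥ e3 F) = D *ᵥ e3 F := by
      rw [hM, add_mulVec, one_mulVec, ← mulVec_mulVec, hΨ, mulVec_zero, add_zero]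
    have e2 : ((z : GL ι F) : Matrix ι ι F) *ᵥ (D *ᵥ e3 F) = -(D *ᵥ e3 F) := by
      simp only [hs, mulVec_sum, mulVec_smul, fun i => (cen i).1, smul_neg, Finset.sum_neg_distrib]
    refine smul_right_injective _ h2 ?_
    simp only [two_smul, add_zero]
    exact add_eq_zero_iff_eq_neg.2 (e1.symm.trans e2)
  have hχ0 : e3 F ᵥ* Ψ = 0 := by
    obtain ⟨s, hs⟩ := hχ
    have e1 : (e3 F ᵥ* Ψ) ᵥ* ((z : GL ι F) : Matrix ι ι F) = e3 F ᵥ* Ψ := by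
      rw [hM, vecMul_add, vecMul_one, Matrix.mul_assoc, ← vecMul_vecMul, hD, zero_vecMul, add_zero]
    have e2 : (e3 F ᵥ* Ψ) ᵥ* ((z : GL ι F) : Matrix ι ι F) = -(e3 F ᵥ* Ψ) := by
      simp only [hs, sum_vecMul, smul_vecMul, fun i => (cen i).2, smul_neg, Finset.sum_neg_distrib]
    refine smul_right_injective _ h2 ?_
    simp only [two_smul, add_zero]
    exact add_eq_zero_iff_eq_neg.2 (e1.symm.trans e2)
  refine ⟨hc0, ?_⟩
  rcases hpl with ⟨_, ⟨w, hw, rfl⟩, hw1, v, f, hv, e⟩ | ⟨_, ⟨w, hw, rfl⟩, i, j, e⟩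
  · exfalso
    obtain ⟨N, hN⟩ := w.2
    have e1 := th_coe h w hN
    rw [e, tv_coe hv, add_right_inj] at e1
    rw [split, hc0, hχ0, ← e1, zero_vecMulVec, vecMulVec_zero, add_zero, add_zero, mul_vecMulVec,
      vecMulVec_mul] at hN
    rw [e, Ne, tv_eq_one_iff hv] at hw1
    refine hw1 ((zero_of_tv hT hw ?_ hN).imp (fun k => ?_) fun k => ?_)
    · rw [dotProduct_mulVec, vecMul_vecMul, hJ, vecMul_one, hv]
    · rw [← one_mulVec v, ← hJ, ← mulVec_mulVec, k, mulVec_zero]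
    · rw [← vecMul_one f, ← hJ, ← vecMul_vecMul, k, zero_vecMul]
  · refine ⟨w, hw, i, j, ?_⟩
    rw [xx, ← dotProduct_mulVec (B j ᵥ* J F), ← map_inv, ← th_pair h, ← th_pair h] at e
    rw [xx, ← dotProduct_mulVec (φ j), hA, hA, hB, hB]
    exact e

/-- The elements of `P` and their negatives. -/
def pm (P : Subgroup (GL ι F)) : Subgroup (GL ι F) where
  carrier := {g | g ∈ P ∨ -g ∈ P}
  one_mem' := .inl P.one_mem
  mul_mem' := by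
    rintro g k (hg | hg) (hk | hk)
    · exact .inl (mul_mem hg hk)
    · exact .inr (by simpa using mul_mem hg hk)
    · exact .inr (by simpa using mul_mem hg hk)
    · exact .inl (by simpa using mul_mem hg hk)
  inv_mem' := by
    rintro g (hg | hg)
    · exact .inl (inv_mem hg)
    · exact .inr (by simpa using inv_mem hg)

theorem pm_noTv (h2 : (2 : F) ≠ 0) {P : Subgroup (GL ι F)} (hT : ∀ g ∈ P, ¬ IsTv g) :
    ∀ g ∈ pm P, ¬ IsTv g := by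
  rintro g (hg | hg)
  · exact hT g hg
  rintro ⟨h1, v, f, h, rfl⟩
  have := mul_mem hg hg
  rw [neg_mul_neg, ← tv_add_left h h, ← two_smul F] at this
  have h' : f ⬝ᵥ (2 : F) • v = 0 := by simp [h]
  refine hT _ this ⟨fun k => h1 ?_, _, _, h', rfl⟩
  rw [tv_eq_one_iff h', smul_eq_zero, or_iff_right h2] at k
  exact (tv_eq_one_iff h).2 k

theorem rt_pm {P : Subgroup (GL ι F)} {a φ : ι → F} (h : Rt P a φ) {g : GL ι F} (hg : g ∈ pm P) :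
    Rt P ((g : Matrix ι ι F) *ᵥ a) (φ ᵥ* ((g⁻¹ : GL ι F) : Matrix ι ι F)) := by
  rcases hg with hg | hg
  · exact h.conj hg
  · simpa [neg_mulVec, vecMul_neg] using (h.conj hg).neg

theorem main [Fintype F] (h2 : (2 : F) ≠ 0) {P : Subgroup (GL ι F)} (hT : ∀ g ∈ P, ¬ IsTv g)
    {a φ b ψ c χ : ι → F} (ha : Rt P a φ) (hb : Rt P b ψ) (hc : Rt P c χ)
    (hy : yy a φ b ψ c χ ≠ yy a φ c χ b ψ) (hg : gram a φ b ψ c χ = 0) (h4 : xx a φ b ψ ≠ 4) :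
    O4 P ∧ ∃ s t : F, c = s • a + t • b := by
  have h0 : xx a φ b ψ ≠ 0 := by
    have : φ ⬝ᵥ b = 0 → ψ ⬝ᵥ a = 0 → False := fun k k' => hy (by simp [yy, k, k'])
    exact mul_ne_zero (fun k => this k (ha.orth_symm hT h2 hb k))
      fun k => this (hb.orth_symm hT h2 ha k) k
  have hΔ : 4 - (φ ⬝ᵥ b) * (ψ ⬝ᵥ a) ≠ 0 := sub_ne_zero.2 h4.symm
  obtain ⟨δ, hδ⟩ : ∃ δ : F, δ * (4 - (φ ⬝ᵥ b) * (ψ ⬝ᵥ a)) = 1 := ⟨_, inv_mul_cancel₀ hΔ⟩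
  obtain ⟨α, hα⟩ : ∃ α : ι → F, α = (2 * δ) • φ - (δ * (φ ⬝ᵥ b)) • ψ := ⟨_, rfl⟩
  obtain ⟨β, hβ⟩ : ∃ β : ι → F, β = (2 * δ) • ψ - (δ * (ψ ⬝ᵥ a)) • φ := ⟨_, rfl⟩
  have p1 : α ⬝ᵥ a = 1 := by simp [hα, ha.1]; linear_combination hδ
  have p2 : α ⬝ᵥ b = 0 := by simp [hα, hb.1]; ring
  have p3 : β ⬝ᵥ a = 0 := by simp [hβ, ha.1]; ring
  have p4 : β ⬝ᵥ b = 1 := by simp [hβ, hb.1]; linear_combination hδ
  have q1 : φ = (2 : F) • α + (φ ⬝ᵥ b) • β := by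
    ext i
    simp only [hα, hβ, Pi.add_apply, Pi.sub_apply, Pi.smul_apply, smul_eq_mul]
    linear_combination (-φ i) * hδ
  have q2 : ψ = (ψ ⬝ᵥ a) • α + (2 : F) • β := by
    ext i
    simp only [hα, hβ, Pi.add_apply, Pi.sub_apply, Pi.smul_apply, smul_eq_mul]
    linear_combination (-ψ i) * hδ
  have q3 : 2 - (α ⬝ᵥ c) * (χ ⬝ᵥ a) - (β ⬝ᵥ c) * (χ ⬝ᵥ b) = 0 := by
    simp only [gram, xx, yy] at hg
    simp only [hα, hβ, sub_dotProduct, smul_dotProduct, smul_eq_mul]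
    linear_combination δ * hg - 2 * hδ
  obtain ⟨c', hc'⟩ : ∃ c' : ι → F, c' = c - (α ⬝ᵥ c) • a - (β ⬝ᵥ c) • b := ⟨_, rfl⟩
  obtain ⟨χ', hχ'⟩ : ∃ χ' : ι → F, χ' = χ - (χ ⬝ᵥ a) • α - (χ ⬝ᵥ b) • β := ⟨_, rfl⟩
  have p5 : α ⬝ᵥ c' = 0 := by simp [hc', p1, p2]
  have p6 : β ⬝ᵥ c' = 0 := by simp [hc', p3, p4]
  have p7 : χ' ⬝ᵥ a = 0 := by simp [hχ', p1, p3]
  have p8 : χ' ⬝ᵥ b = 0 := by simp [hχ', p2, p4]
  have p9 : χ' ⬝ᵥ c' = 0 := by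
    rw [hχ', sub_dotProduct, sub_dotProduct, smul_dotProduct, smul_dotProduct, p5, p6, hc']
    simpa [hc.1] using q3
  have eD : ∀ v : Fin 3 → F, (of ![a, b, c'])ᵀ *ᵥ v = v 0 • a + v 1 • b + v 2 • c' := fun v => by
    ext i
    simp [mulVec, dotProduct, Fin.sum_univ_three, mul_comm]
  have eΨ : ∀ v : Fin 3 → F, v ᵥ* of ![α, β, χ'] = v 0 • α + v 1 • β + v 2 • χ' := fun v => by
    ext i
    simp [vecMul, dotProduct, Fin.sum_univ_three]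
  obtain ⟨k0, g, hgP, i, j, k⟩ := core h2 (D := (of ![a, b, c'])ᵀ) (Ψ := of ![α, β, χ'])
    (by
      ext i j
      rw [show (of ![α, β, χ'] * (of ![a, b, c'])ᵀ) i j = ![α, β, χ'] i ⬝ᵥ ![a, b, c'] j from rfl,
        Matrix.mul_apply]
      fin_cases i <;> fin_cases j <;> simp [J, p1, p2, p3, p4, p5, p6, p7, p8, p9])
    (pm_noTv h2 hT) (a := ![a, b, c]) (φ := ![φ, ψ, χ])
    (A := ![![1, 0, 0], ![0, 1, 0], ![α ⬝ᵥ c, β ⬝ᵥ c, 1]])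
    (B := ![![2, φ ⬝ᵥ b, 0], ![ψ ⬝ᵥ a, 2, 0], ![χ ⬝ᵥ a, χ ⬝ᵥ b, 1]])
    (fun i => by
      rw [eD]
      fin_cases i
      · simp
      · simp
      · simp [hc'])
    (fun i => by
      rw [eΨ]
      fin_cases i
      · simpa using q1
      · simpa using q2
      · simp [hχ'])
    (fun i => by fin_cases i; exacts [ha.1, hb.1, hc.1])
    (fun i => by
      refine .inr ?_
      rw [rf, neg_neg]
      fin_cases i; exacts [ha.2, hb.2, hc.2])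
    h0 h4 hg hy
    (fun γ l0 l1 => by
      ext i
      rw [← vecMul_vecMul]
      have : γ ᵥ* (of ![a, b, c'])ᵀ = ![0, 0, γ ⬝ᵥ c'] := by
        ext j
        rw [show (γ ᵥ* (of ![a, b, c'])ᵀ) j = γ ⬝ᵥ ![a, b, c'] j from rfl]
        fin_cases j
        exacts [l0, l1, rfl]
      rw [this]
      fin_cases i <;> simp [J])
    ⟨![-(α ⬝ᵥ c), -(β ⬝ᵥ c), 1], by
      rw [eD, Fin.sum_univ_three]
      simp [e3, hc']
      abel⟩
    ⟨![(χ ⬝ᵥ b) * δ * (ψ ⬝ᵥ a) - (χ ⬝ᵥ a) * (2 * δ), (χ ⬝ᵥ a) * δ * (φ ⬝ᵥ b) - (χ ⬝ᵥ b) * (2 * δ), 1],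
      by
        rw [eΨ, Fin.sum_univ_three]
        simp [e3, hχ', hα, hβ]
        module⟩
  have rt : ∀ i, Rt P (![a, b, c] i) (![φ, ψ, χ] i) := fun i => by
    fin_cases i; exacts [ha, hb, hc]
  refine ⟨⟨_, _, _, _, rt i, rt_pm (rt j) hgP, k⟩, α ⬝ᵥ c, β ⬝ᵥ c, ?_⟩
  rw [eD] at k0
  simp only [e3, cons_val_zero, zero_smul, cons_val_one, add_zero, cons_val, one_smul, zero_add,
    hc'] at k0
  rw [← sub_eq_zero, ← k0, sub_sub]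

end RD

theorem wD : WD.{u} := by
  intro F _ _ P hP a φ b ψ c χ ha hb hc hy hg
  have dep : ∀ x y z : F, x ≠ 0 ∨ y ≠ 0 ∨ z ≠ 0 → x • a + y • b + z • c = 0 →
      ¬ LinearIndependent F ![a, b, c] := fun x y z h e k => by
    have := Fintype.linearIndependent_iff.1 k ![x, y, z] (by simpa [Fin.sum_univ_three] using e)
    rcases h with h | h | h
    exacts [h (this 0), h (this 1), h (this 2)]
  by_cases h1 : xx a φ b ψ = 4
  swap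
  · obtain ⟨k, s, t, e⟩ := RD.main hP.two hP.nt ha hb hc hy hg h1
    exact ⟨k, dep s t (-1) (by simp) (by rw [e]; module)⟩
  by_cases h2 : xx b ψ c χ = 4
  swap
  · obtain ⟨k, s, t, e⟩ := RD.main hP.two hP.nt hb hc ha
      (fun k => hy (by simp only [yy] at k ⊢; linear_combination k))
      (by simp only [gram, xx, yy] at hg ⊢; linear_combination hg) h2
    exact ⟨k, dep (-1) s t (by simp) (by rw [e]; module)⟩
  by_cases h3 : xx c χ a φ = 4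
  swap
  · obtain ⟨k, s, t, e⟩ := RD.main hP.two hP.nt hc ha hb
      (fun k => hy (by simp only [yy] at k ⊢; linear_combination k))
      (by simp only [gram, xx, yy] at hg ⊢; linear_combination hg) h3
    exact ⟨k, dep t (-1) s (by simp) (by rw [e]; module)⟩
  exfalso
  have e1 : yy a φ b ψ c χ + yy a φ c χ b ψ = 16 := by
    simp only [gram, xx] at hg h1 h2 h3
    linear_combination hg + 2 * h1 + 2 * h2 + 2 * h3
  have e2 : yy a φ b ψ c χ * yy a φ c χ b ψ = 64 := by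
    have : yy a φ b ψ c χ * yy a φ c χ b ψ = xx a φ b ψ * xx b ψ c χ * xx c χ a φ := by
      simp only [xx, yy]; ring
    rw [this, h1, h2, h3]; norm_num
  refine hy (sub_eq_zero.1 (pow_eq_zero_iff two_ne_zero |>.1 ?_))
  linear_combination (yy a φ b ψ c χ + yy a φ c χ b ψ + 16) * e1 - 4 * e2

end Cfsg.Lib.Five
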