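import Cfsg.Agent.Class.Five.RDefs
import Cfsg.Agent.Class.PGL2Torus
import Cfsg.Agent.Known.ZassSylow

/-!
# Involutions in `2`-subgroups of `PGL₂`
-/

set_option autoImplicit false

namespace Cfsg.Lib.Five

open Matrix Cfsg.Lib.Class
open scoped MatrixGroups

universe u

/-- A cyclic group has at most one involution. -/
theorem invol_eq_of_zpowers {G : Type*} [Group G] [Finite G] {r a b : G}
    (ha : a ∈ Subgroup.zpowers r) (hb : b ∈ Subgroup.zpowers r) (a2 : a * a = 1) (b2 : b * b = 1)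
    (a1 : a ≠ 1) (b1 : b ≠ 1) : a = b := by
  classical
  have := Fintype.ofFinite (Subgroup.zpowers r)
  by_contra hne
  have h := IsCyclic.card_pow_eq_one_le (α := Subgroup.zpowers r) (n := 2) (by norm_num)
  have hs : ({1, ⟨a, ha⟩, ⟨b, hb⟩} : Finset (Subgroup.zpowers r)) ⊆
      Finset.univ.filter (fun x => x ^ 2 = 1) := by
    intro x hx
    simp only [Finset.mem_insert, Finset.mem_singleton] at hx
    rcases hx with rfl | rfl | rfl <;> simp [pow_two, Subtype.ext_iff, a2, b2]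
  have h3 := Finset.card_le_card hs
  rw [Finset.card_eq_three.2 ⟨_, _, _, fun e => a1 (congrArg Subtype.val e).symm,
    fun e => b1 (congrArg Subtype.val e).symm, fun e => hne (congrArg Subtype.val e), rfl⟩] at h3
  omega

theorem wDH : WDH.{u} := by
  intro F _ _ h2 Y hY
  have : Fact (Nat.Prime 2) := ⟨Nat.prime_two⟩
  by_cases hb : Y = ⊥
  · exact ⟨1, by simp, fun T hT u hu _ _ _ _ _ _ _ u1 => absurd (by simpa [hb] using hT hu) u1⟩
  obtain ⟨z, zY, z1, zc⟩ := Known.exists_center_ne_one_of_isPGroup hY hb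
  obtain ⟨n, hn⟩ := IsPGroup.iff_orderOf.1 hY ⟨z, zY⟩
  rw [← Subgroup.orderOf_coe] at hn
  simp only at hn
  have hd : 2 ∣ orderOf z := by
    rw [hn]
    refine dvd_pow_self 2 fun e => z1 (orderOf_eq_one_iff.1 (by rw [hn, e, pow_zero]))
  have ho : orderOf (z ^ (orderOf z / 2)) = 2 := orderOf_pow_orderOf_div (orderOf_pos z).ne' hd
  set c := z ^ (orderOf z / 2) with hc
  have cc : ∀ y ∈ Y, y * c = c * y := fun y hy => (Commute.pow_right (zc y hy) _).eq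
  have c1 : c ≠ 1 := fun e => by simp [e] at ho
  have c2 : c * c = 1 := by
    have := pow_orderOf_eq_one c
    rwa [ho, pow_two] at this
  obtain ⟨p, hp⟩ := CharP.exists F
  have hpp : Fact p.Prime := ⟨CharP.char_is_prime F p⟩
  have hcp : c ^ p ≠ 1 := by
    rw [Ne, ← orderOf_dvd_iff_pow_eq_one, ho, Nat.prime_dvd_prime_iff_eq Nat.prime_two hpp.out]
    rintro rfl
    exact h2 (by exact_mod_cast CharP.cast_eq_zero F 2)
  obtain ⟨x, y, hxy, hcx⟩ := exists_torusPair p hcp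
  refine ⟨c, cc, fun T hT u hu v hv w hw u2 v2 w2 u1 v1 w1 uc vc wc => ?_⟩
  have hs : ∀ t ∈ T, t ∈ stabPair x y := fun t ht =>
    mem_stabPair_of_commute hxy.ne c1 hcx (cc t (hT ht)).symm
  obtain ⟨r, -, hr, -⟩ := exists_generator_of_le_fixPair hxy.ne (le_refl (fixPair x y))
  have out : ∀ t, t * t = 1 → t ≠ 1 → t ≠ c → t ∉ fixPair x y := fun t t2 t1 tc ht =>
    tc (invol_eq_of_zpowers (hr ▸ ht) (hr ▸ hcx) t2 c2 t1 c1)
  obtain ⟨g, hg, hgz, -⟩ := exists_generator_of_le_fixPair hxy.ne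
    (inf_le_right : T ⊓ fixPair x y ≤ _)
  have prod : ∀ a ∈ T, ∀ b ∈ T, a ∉ fixPair x y → b ∉ fixPair x y → ∃ i : ℤ, g ^ i = a * b :=
    fun a ha b hb a' b' => Subgroup.mem_zpowers_iff.1 (hgz ▸ ⟨mul_mem ha hb,
      mul_mem_fixPair_of_not_mem (hs a ha) a' (hs b hb) b'⟩)
  have key : ∀ a ∈ T, ∀ b, a * a = 1 → a ∉ fixPair x y → ∀ j : ℤ, g ^ (j + j) = a * b →
      g ^ (-j) * a * (g ^ (-j))⁻¹ = b := by
    intro a ha b a2 a' j e
    have h1 := conj_eq_inv_of_not_mem_fixPair hxy.ne (hs a ha) a' (zpow_mem (Subgroup.mem_inf.1 hg).2 j)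
    have ai : a⁻¹ = a := inv_eq_of_mul_eq_one_right a2
    calc g ^ (-j) * a * (g ^ (-j))⁻¹ = (g ^ j)⁻¹ * a * g ^ j := by group
      _ = a * g ^ j * (a⁻¹ * a) * g ^ j := by rw [← h1]; group
      _ = a * g ^ (j + j) := by group
      _ = b := by rw [e, ← mul_assoc, a2, one_mul]
  have u' := out u u2 u1 uc
  have v' := out v v2 v1 vc
  obtain ⟨i, hi⟩ := prod u hu v hv u' v'
  obtain ⟨j, hj⟩ := prod v hv w hw v' (out w w2 w1 wc)
  rcases Int.even_or_odd i with ⟨a, rfl⟩ | ⟨a, rfl⟩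
  · exact ⟨_, zpow_mem (Subgroup.mem_inf.1 hg).1 _, .inl (key u hu v u2 u' a hi)⟩
  rcases Int.even_or_odd j with ⟨b, rfl⟩ | ⟨b, rfl⟩
  · exact ⟨_, zpow_mem (Subgroup.mem_inf.1 hg).1 _, .inr (.inr (key v hv w v2 v' b hj))⟩
  refine ⟨_, zpow_mem (Subgroup.mem_inf.1 hg).1 _, .inr (.inl (key u hu w u2 u' (a + b + 1) ?_))⟩
  rw [show a + b + 1 + (a + b + 1) = 2 * a + 1 + (2 * b + 1) by ring, _root_.zpow_add, hi, hj,
    mul_assoc, ← mul_assoc v, v2, one_mul]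

end Cfsg.Lib.Five
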