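import Cfsg.Agent.Class.Five.RDefs
import Cfsg.Agent.Mit.PGL2p

/-!
# Three reflections of a plane
-/

set_option autoImplicit false

namespace Cfsg.Lib.Five.RD

open Matrix Cfsg.Lib.Class Cfsg.Lib.Mit P1 MulAction
open scoped MatrixGroups

theorem poly_inv {G : Type*} [Group G] (h : IsPoly G) {u : G} (hu : u * u = 1) (h1 : u ≠ 1) :
    ∃ g : G, u ≠ g * u * g⁻¹ ∧ u * (g * u * g⁻¹) = g * u * g⁻¹ * u := by
  have key : ∀ {X : Type} [Group X], Nonempty (G ≃* X) → (∀ x : X, x * x = 1 → x ≠ 1 →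
      ∃ g : X, x ≠ g * x * g⁻¹ ∧ x * (g * x * g⁻¹) = g * x * g⁻¹ * x) →
      ∃ g : G, u ≠ g * u * g⁻¹ ∧ u * (g * u * g⁻¹) = g * u * g⁻¹ * u := by
    rintro X _ ⟨e⟩ hX
    obtain ⟨g, k1, k2⟩ := hX (e u) (by rw [← map_mul, hu, map_one])
      ((map_ne_one_iff _ e.injective).2 h1)
    obtain ⟨g, rfl⟩ := e.surjective g
    refine ⟨g, fun k => k1 ?_, e.injective ?_⟩
    · rw [← map_inv, ← map_mul, ← map_mul, ← k]
    · simpa only [map_mul, map_inv] using k2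
  rcases h with h | h | h
  · exact key h (by decide +kernel)
  · exact key h (by decide +kernel)
  · exact key h (by decide +kernel)

variable {F : Type*} [Field F]

theorem pgl_three [Finite F] {u : Fin 3 → PGL(2, F)} (hu : ∀ i, u i * u i = 1)
    (h1 : ∀ i, u i ≠ 1) {H : Subgroup PGL(2, F)} (hH : ∀ i, u i ∈ H) :
    (∃ x : P1 F, ∀ i, u i • x = x) ∨
      (u 0 * u 1 * u 2 ≠ 1 ∧ u 0 * u 1 * u 2 * (u 0 * u 1 * u 2) = 1) ∨
      (∃ g ∈ H, ∃ i j, u i ≠ g * u j * g⁻¹ ∧ u i * (g * u j * g⁻¹) = g * u j * g⁻¹ * u i) ∨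
      ∃ c : PGL(2, F), c * aff 1 1 * c⁻¹ ∈ H ∧ c * mob 1 0 (-1) 1 (by simp) * c⁻¹ ∈ H := by
  obtain ⟨p, hp⟩ := CharP.exists F
  have : Fact p.Prime := ⟨CharP.char_is_prime F p⟩
  have inv : ∀ i, (u i)⁻¹ = u i := fun i => inv_eq_of_mul_eq_one_right (hu i)
  have hpoly : IsPoly H → ∃ g ∈ H, ∃ i j, u i ≠ g * u j * g⁻¹ ∧
      u i * (g * u j * g⁻¹) = g * u j * g⁻¹ * u i := fun h => by
    obtain ⟨g, k1, k2⟩ := poly_inv h (u := ⟨u 0, hH 0⟩) (Subtype.ext (hu 0))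
      (fun k => h1 0 (congrArg Subtype.val k))
    exact ⟨g, g.2, 0, 0, fun k => k1 (Subtype.ext k), congrArg Subtype.val k2⟩
  have hcomm : ∀ i j, u i ≠ u j → u i * u j = u j * u i → ∃ g ∈ H, ∃ i j, u i ≠ g * u j * g⁻¹ ∧
      u i * (g * u j * g⁻¹) = g * u j * g⁻¹ * u i := fun i j k1 k2 =>
    ⟨1, one_mem _, i, j, by simpa using k1, by simpa using k2⟩
  have hsq : u 0 * u 1 * u 2 * (u 0 * u 1 * u 2) = 1 →
      (u 0 * u 1 * u 2 ≠ 1 ∧ u 0 * u 1 * u 2 * (u 0 * u 1 * u 2) = 1) ∨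
      (∃ g ∈ H, ∃ i j, u i ≠ g * u j * g⁻¹ ∧ u i * (g * u j * g⁻¹) = g * u j * g⁻¹ * u i) := by
    intro k
    by_cases k1 : u 0 * u 1 * u 2 = 1
    · have k2 : u 0 * u 1 = u 2 := by rw [← inv 2]; exact eq_inv_of_mul_eq_one_left k1
      refine .inr (hcomm 0 1 (fun k3 => h1 2 (by rw [← k2, k3, hu])) ?_)
      have k4 : (u 0 * u 1)⁻¹ = u 0 * u 1 := by rw [k2, inv]
      rw [_root_.mul_inv_rev, inv, inv] at k4
      exact k4.symm
    · exact .inl ⟨k1, k⟩
  rcases dickson_pgl' p H with ⟨x, hx⟩ | ⟨x, y, hT, -, h⟩ | ⟨-, h⟩ | ⟨-, h⟩ | ⟨F₀, c, -, h⟩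
  · exact .inl ⟨x, fun i => hx (hH i)⟩
  · have mix : ∀ i j, u i ∈ fixPair x y → u j ∉ fixPair x y → ∃ g ∈ H, ∃ i j,
        u i ≠ g * u j * g⁻¹ ∧ u i * (g * u j * g⁻¹) = g * u j * g⁻¹ * u i := fun i j k1 k2 => by
      have := conj_eq_inv_of_not_mem_fixPair hT.ne (h (hH j)) k2 k1
      rw [inv, inv] at this
      refine hcomm i j (fun k => k2 (k ▸ k1)) ?_
      calc u i * u j = u j * u i * u j * u j := by rw [this]
        _ = u j * u i := by rw [mul_assoc, hu, mul_one]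
    by_cases hall : ∀ i, u i ∈ fixPair x y
    · refine .inr ((hsq ?_).imp_right .inl)
      have c01 := commute_of_mem_fixPair hT.ne (hall 0) (hall 1)
      have c02 := commute_of_mem_fixPair hT.ne (hall 0) (hall 2)
      have c12 := commute_of_mem_fixPair hT.ne (hall 1) (hall 2)
      calc u 0 * u 1 * u 2 * (u 0 * u 1 * u 2) = u 0 * u 1 * (u 2 * u 0) * u 1 * u 2 := by group
        _ = u 0 * (u 1 * u 0) * (u 2 * u 1) * u 2 := by rw [← c02]; group
        _ = (u 0 * u 0) * (u 1 * u 1) * (u 2 * u 2) := by rw [← c01, ← c12]; group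
        _ = 1 := by rw [hu, hu, hu]; simp
    by_cases hno : ∀ i, u i ∉ fixPair x y
    · refine .inr ((hsq ?_).imp_right .inl)
      refine mul_self_of_not_mem_fixPair hT.ne (h (mul_mem (mul_mem (hH 0) (hH 1)) (hH 2))) ?_
      intro k
      exact hno 2 ((mul_mem_cancel_left
        (mul_mem_fixPair_of_not_mem (h (hH 0)) (hno 0) (h (hH 1)) (hno 1))).1 k)
    · push Not at hall hno
      obtain ⟨j, hj⟩ := hall
      obtain ⟨i, hi⟩ := hno
      exact .inr (.inr (.inl (mix i j hi hj)))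
  · exact .inr (.inr (.inl (hpoly h)))
  · exact .inr (.inr (.inl (hpoly (.inr (.inr h)))))
  · have hge := IsSubfieldType.ge h
    exact .inr (.inr (.inr ⟨c, hge ⟨_, aff_one_mem_pslSub F₀.one_mem, rfl⟩,
      hge ⟨_, lower_mem_pslSub (F₀.neg_mem F₀.one_mem), rfl⟩⟩))

theorem trace_zero {g : GL (Fin 2) F} (h1 : ProjGenLinGroup.mk g ≠ 1)
    (h : ProjGenLinGroup.mk g * ProjGenLinGroup.mk g = 1) :
    (g : Matrix (Fin 2) (Fin 2) F).trace = 0 := by
  rw [mk_eq_mob] at h h1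
  rw [mob_mul, mob_eq_one_iff] at h
  rw [Ne, mob_eq_one_iff] at h1
  rw [trace_fin_two]
  by_contra k
  obtain ⟨k1, k2, k3⟩ := h
  refine h1 ⟨mul_right_cancel₀ k ?_, mul_right_cancel₀ k ?_, mul_right_cancel₀ k ?_⟩
  · linear_combination k1
  · linear_combination k2
  · linear_combination k3

theorem anti {g h : Matrix (Fin 2) (Fin 2) F} (hg : g.trace = 0) (hh : h.trace = 0)
    (k : (g * h).trace = 0) : h * g = -(g * h) := by
  rw [trace_fin_two] at hg hh k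
  simp only [Matrix.mul_apply, Fin.sum_univ_two] at k
  have e1 : g 1 1 = -g 0 0 := by linear_combination hg
  have e2 : h 1 1 = -h 0 0 := by linear_combination hh
  ext i j
  fin_cases i <;> fin_cases j <;> simp [Matrix.mul_apply, Fin.sum_univ_two, e1, e2] at k ⊢
  · linear_combination k
  · ring
  · ring
  · linear_combination k

theorem mem_of_mk_mem [Fintype F] {X : Subgroup (GL (Fin 2) F)} {T : GL (Fin 2) F}
    (hT : T ^ Fintype.card F = 1) (h : ProjGenLinGroup.mk T ∈ X.map ProjGenLinGroup.mk) :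
    T ∈ X := by
  obtain ⟨g, hg, e⟩ := h
  obtain ⟨u, rfl⟩ := ProjGenLinGroup.mk_eq_mk_iff.1 e.symm
  have hc : Commute T (GeneralLinearGroup.scalar (Fin 2) u) :=
    (Subgroup.mem_center_iff.1 (ProjGenLinGroup.mk_eq_one.1 (ProjGenLinGroup.mk_scalar u)) T)
  have h1 := pow_mem hg (Fintype.card F - 1)
  classical
  rw [hc.mul_pow, ← map_pow, ← Fintype.card_units, pow_card_eq_one, map_one, mul_one,
    Fintype.card_units] at h1
  have h2 : T ^ (Fintype.card F - 1) * T = 1 := by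
    rw [← pow_succ, Nat.sub_add_cancel Fintype.card_pos, hT]
  rw [eq_inv_of_mul_eq_one_left h2] at h1
  exact inv_mem_iff.1 h1

theorem tv_pow_card [Fintype F] {ι : Type} [Fintype ι] [DecidableEq ι] {v f : ι → F}
    (h : f ⬝ᵥ v = 0) : tv v f ^ Fintype.card F = 1 := by
  have : ∀ n : ℕ, tv v f ^ n = tv ((n : F) • v) f := fun n => by
    induction n with
    | zero => exact ((tv_eq_one_iff (by simp)).2 (.inl (by simp))).symm
    | succ n ih =>
      rw [pow_succ, ih, ← tv_add_left (by simp [h]) h, Nat.cast_succ, add_smul, one_smul]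
  rw [this, FiniteField.cast_card_eq_zero]
  exact (tv_eq_one_iff (by simp)).2 (.inl (by simp))

/-- The reflection with root `a` and coroot `φ`. -/
noncomputable def rf {ι : Type} [Fintype ι] [DecidableEq ι] (a φ : ι → F) : GL ι F := -tR a φ

section
variable {ι : Type} [Fintype ι] [DecidableEq ι] {a φ : ι → F}

theorem rf_coe (h : φ ⬝ᵥ a = 2) : (rf a φ : Matrix ι ι F) = 1 - vecMulVec a φ := by
  rw [rf, Units.val_neg, tR_coe h, neg_sub]

theorem rf_mul_self (a φ : ι → F) : rf a φ * rf a φ = 1 := by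
  rw [rf, neg_mul_neg, tR_mul_self]

theorem rf_inv (a φ : ι → F) : (rf a φ)⁻¹ = rf a φ := inv_eq_of_mul_eq_one_right (rf_mul_self a φ)

theorem conj_rf (g : GL ι F) (h : φ ⬝ᵥ a = 2) : g * rf a φ * g⁻¹ =
    rf ((g : Matrix ι ι F) *ᵥ a) (φ ᵥ* ((g⁻¹ : GL ι F) : Matrix ι ι F)) := by
  rw [rf, rf, ← conj_tR g h, mul_neg, neg_mul]

end

theorem trace_rf {a φ : Fin 2 → F} (h : φ ⬝ᵥ a = 2) :
    (rf a φ : Matrix (Fin 2) (Fin 2) F).trace = 0 := by
  rw [rf_coe h, trace_sub, trace_vecMulVec, dotProduct_comm, h, trace_one]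
  simp

theorem trace_rf_mul {a φ b ψ : Fin 2 → F} (h : φ ⬝ᵥ a = 2) (h' : ψ ⬝ᵥ b = 2) :
    ((rf a φ : Matrix (Fin 2) (Fin 2) F) * rf b ψ).trace = xx a φ b ψ - 2 := by
  simp only [rf_coe h, rf_coe h', Matrix.sub_mul, Matrix.mul_sub, Matrix.mul_one, Matrix.one_mul,
    vecMulVec_mul_vecMulVec, trace_sub, trace_vecMulVec, trace_one, smul_dotProduct,
    dotProduct_comm a, dotProduct_comm b, h, h', smul_eq_mul, xx, Fintype.card_fin, Nat.cast_ofNat]
  ring

theorem trace_rf_three {a φ b ψ c χ : Fin 2 → F} (h : φ ⬝ᵥ a = 2) (h' : ψ ⬝ᵥ b = 2)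
    (h'' : χ ⬝ᵥ c = 2) : 2 * ((rf a φ : Matrix (Fin 2) (Fin 2) F) * rf b ψ * rf c χ).trace =
      yy a φ c χ b ψ - yy a φ b ψ c χ - gram a φ b ψ c χ := by
  simp only [rf_coe h, rf_coe h', rf_coe h'', Matrix.sub_mul, Matrix.mul_sub, Matrix.mul_one,
    Matrix.one_mul, vecMulVec_mul_vecMulVec, trace_sub, trace_vecMulVec, trace_one,
    smul_dotProduct, dotProduct_comm a, dotProduct_comm b, dotProduct_comm c, h, h', h'',
    smul_eq_mul, xx, yy, gram, Fintype.card_fin, Nat.cast_ofNat]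
  ring

theorem mk_rf_ne_one (h2 : (2 : F) ≠ 0) {a φ : Fin 2 → F} (h : φ ⬝ᵥ a = 2) :
    ProjGenLinGroup.mk (rf a φ) ≠ 1 := by
  rw [mk_eq_mob, Ne, mob_eq_one_iff, rf_coe h]
  rintro ⟨k1, k2, k3⟩
  simp [vecMulVec_apply, dotProduct, Fin.sum_univ_two] at k1 k2 k3 h
  apply mul_ne_zero h2 h2
  have k4 : a 0 * φ 0 = 1 := mul_left_cancel₀ h2 (by linear_combination h + k3)
  have k5 : a 1 * φ 1 = 1 := by rw [← k3, k4]
  rcases k1 with k1 | k1
  · rw [k1, zero_mul] at k4; exact absurd k4 zero_ne_one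
  · rw [k1, mul_zero] at k5; exact absurd k5 zero_ne_one

theorem eig_rf {a φ v : Fin 2 → F} (h : φ ⬝ᵥ a = 2) (hv : v ≠ 0)
    (k : ProjGenLinGroup.mk (rf a φ) • Projectivization.mk F v hv = Projectivization.mk F v hv) :
    φ ⬝ᵥ v = 0 ∨ a 0 * v 1 = a 1 * v 0 := by
  rw [mk_eq_mob, mob_smul_mk_eq_mk_iff, rf_coe h] at k
  simp [vecMulVec_apply] at k
  rw [← sub_eq_zero (a := a 0 * v 1), ← mul_eq_zero]
  simp only [dotProduct, Fin.sum_univ_two]
  linear_combination -k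

/-- Three reflections of the plane whose product is not an involution. -/
theorem plane [Fintype F] (h2 : (2 : F) ≠ 0) {a φ : Fin 3 → Fin 2 → F} (ha : ∀ i, φ i ⬝ᵥ a i = 2)
    (h0 : xx (a 0) (φ 0) (a 1) (φ 1) ≠ 0) (h4 : xx (a 0) (φ 0) (a 1) (φ 1) ≠ 4)
    (hg : gram (a 0) (φ 0) (a 1) (φ 1) (a 2) (φ 2) = 0)
    (hy : yy (a 0) (φ 0) (a 1) (φ 1) (a 2) (φ 2) ≠ yy (a 0) (φ 0) (a 2) (φ 2) (a 1) (φ 1))
    {X : Subgroup (GL (Fin 2) F)} (hX : ∀ i, rf (a i) (φ i) ∈ X) :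
    -1 ∈ X ∧ ((∃ g ∈ X, IsTv g) ∨ ∃ g ∈ X, ∃ i j, xx (a i) (φ i)
      ((g : Matrix (Fin 2) (Fin 2) F) *ᵥ a j)
      (φ j ᵥ* ((g⁻¹ : GL (Fin 2) F) : Matrix (Fin 2) (Fin 2) F)) = 2) := by
  rcases pgl_three (u := fun i => ProjGenLinGroup.mk (rf (a i) (φ i)))
    (fun i => by rw [← map_mul, rf_mul_self, map_one]) (fun i => mk_rf_ne_one h2 (ha i))
    (H := X.map ProjGenLinGroup.mk) (fun i => ⟨_, hX i, rfl⟩) with
    ⟨x, hx⟩ | ⟨k1, k2⟩ | ⟨_, ⟨g, hg, rfl⟩, i, j, k1, k2⟩ | ⟨c, k1, k2⟩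
  · exfalso
    induction x using Projectivization.ind with | _ v hv =>
    have a0 := ha 0
    have a1 := ha 1
    have e0 := eig_rf (ha 0) hv (hx 0)
    have e1 := eig_rf (ha 1) hv (hx 1)
    have p0 := left_ne_zero_of_mul h0
    have p1 := right_ne_zero_of_mul h0
    have h4' := sub_ne_zero.2 h4
    simp only [xx, dotProduct, Fin.sum_univ_two] at a0 a1 e0 e1 p0 p1 h4'
    apply hv
    have fin : ∀ t : F, t ≠ 0 → t * v 0 = 0 → t * v 1 = 0 → v = 0 := fun t ht l0 l1 => by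
      ext k
      fin_cases k
      · exact (mul_eq_zero.1 l0).resolve_left ht
      · exact (mul_eq_zero.1 l1).resolve_left ht
    rcases e0 with e0 | e0 <;> rcases e1 with e1 | e1
    · refine fin (φ 0 0 * φ 1 1 - φ 0 1 * φ 1 0) (fun k => h4' ?_)
        (by linear_combination φ 1 1 * e0 - φ 0 1 * e1)
        (by linear_combination φ 0 0 * e1 - φ 1 0 * e0)
      linear_combination (-(a 0 0 * a 1 1 - a 0 1 * a 1 0)) * k +
        (φ 1 0 * a 1 0 + φ 1 1 * a 1 1) * a0 + 2 * a1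
    · exact fin _ p0 (by linear_combination a 1 0 * e0 - φ 0 1 * e1)
        (by linear_combination a 1 1 * e0 + φ 0 0 * e1)
    · exact fin _ p1 (by linear_combination a 0 0 * e1 - φ 1 1 * e0)
        (by linear_combination a 0 1 * e1 + φ 1 0 * e0)
    · refine fin (a 0 0 * a 1 1 - a 0 1 * a 1 0) (fun k => h4' ?_)
        (by linear_combination a 1 0 * e0 - a 0 0 * e1)
        (by linear_combination a 1 1 * e0 - a 0 1 * e1)
      linear_combination (-(φ 0 0 * φ 1 1 - φ 0 1 * φ 1 0)) * k +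
        (φ 1 0 * a 1 0 + φ 1 1 * a 1 1) * a0 + 2 * a1
  · exfalso
    simp only [← map_mul] at k1
    have := trace_zero k1 (by simpa only [map_mul] using k2)
    have e := trace_rf_three (ha 0) (ha 1) (ha 2)
    rw [← Units.val_mul, ← Units.val_mul, this, hg] at e
    exact hy (by linear_combination e)
  · simp only [← map_inv, ← map_mul, conj_rf g (ha j)] at k1
    rw [← map_inv, ← map_mul, ← map_mul, ← map_mul, ← map_mul, conj_rf g (ha j)] at k2
    have hb := (vecMul_inv_dot_mulVec g (φ j) (a j)).trans (ha j)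
    have hbX : rf _ _ ∈ X := conj_rf g (ha j) ▸ mul_mem (mul_mem hg (hX j)) (inv_mem hg)
    suffices key : ∀ b ψ : Fin 2 → F, ψ ⬝ᵥ b = 2 → rf b ψ ∈ X →
        ProjGenLinGroup.mk (rf (a i) (φ i)) ≠ ProjGenLinGroup.mk (rf b ψ) →
        ProjGenLinGroup.mk (rf (a i) (φ i) * rf b ψ) =
          ProjGenLinGroup.mk (rf b ψ * rf (a i) (φ i)) → -1 ∈ X ∧ xx (a i) (φ i) b ψ = 2 by
      obtain ⟨l1, l2⟩ := key _ _ hb hbX k1 k2
      exact ⟨l1, .inr ⟨g, hg, i, j, l2⟩⟩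
    intro b ψ hb hbX k1 k2
    have t0 : ((rf (a i) (φ i) * rf b ψ : GL (Fin 2) F) : Matrix (Fin 2) (Fin 2) F).trace = 0 := by
      refine trace_zero (fun k => k1 ?_) ?_
      · rw [map_mul, mul_eq_one_iff_eq_inv, ← map_inv, rf_inv] at k
        exact k
      · nth_rewrite 2 [k2]
        rw [← map_mul, mul_assoc, ← mul_assoc (rf b ψ), rf_mul_self, one_mul, rf_mul_self, map_one]
    rw [Units.val_mul] at t0
    have t1 : rf b ψ * rf (a i) (φ i) = -(rf (a i) (φ i) * rf b ψ) :=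
      Units.ext (anti (trace_rf (ha i)) (trace_rf hb) t0)
    refine ⟨?_, by rw [trace_rf_mul (ha i) hb] at t0; linear_combination t0⟩
    have := mul_mem (mul_mem (hX i) hbX) (mul_mem (hX i) hbX)
    rwa [mul_assoc, ← mul_assoc (rf b ψ), t1, neg_mul, mul_neg, mul_assoc, rf_mul_self, mul_one,
      rf_mul_self] at this
  · induction c using ProjGenLinGroup.induction_on with | mk C =>
    have e1 : aff (1 : Fˣ) (1 : F) = ProjGenLinGroup.mk (tv ![1, 0] ![0, 1]) := by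
      rw [mk_eq_mob]
      apply mob_congr' <;> rw [tv_coe (by simp)] <;> simp
    have e2 : mob (1 : F) 0 (-1) 1 (by simp) = ProjGenLinGroup.mk (tv ![0, -1] ![1, 0]) := by
      rw [mk_eq_mob]
      apply mob_congr' <;> rw [tv_coe (by simp)] <;> simp
    rw [e1, ← map_inv, ← map_mul, ← map_mul] at k1
    rw [e2, ← map_inv, ← map_mul, ← map_mul] at k2
    have l1 := mem_of_mk_mem (by rw [conj_pow, tv_pow_card (by simp)]; simp) k1
    have l2 := mem_of_mk_mem (by rw [conj_pow, tv_pow_card (by simp)]; simp) k2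
    refine ⟨?_, .inl ⟨_, l1, fun k => ?_, _, _, ?_, conj_tv C _ _⟩⟩
    · have := pow_mem (mul_mem (mul_mem l1 l2) l1) 2
      have e3 : (tv ![1, 0] ![0, 1] * tv ![0, -1] ![1, 0] * tv ![1, 0] ![0, 1] : GL (Fin 2) F) ^ 2
          = -1 := by
        apply Units.ext
        rw [pow_two]
        simp only [Units.val_mul, tv_coe (show ![0, 1] ⬝ᵥ ![(1 : F), 0] = 0 by simp),
          tv_coe (show ![1, 0] ⬝ᵥ ![(0 : F), -1] = 0 by simp)]
        ext i j
        fin_cases i <;> fin_cases j <;>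
          simp [Matrix.mul_apply, Fin.sum_univ_two, Matrix.one_apply]
      rwa [conj_mul, conj_mul, conj_pow, e3, mul_neg, neg_mul, mul_one, mul_inv_cancel] at this
    · rw [conj_eq_one_iff, tv_eq_one_iff (by simp)] at k
      simp at k
    · rw [vecMul_inv_dot_mulVec]; simp

end Cfsg.Lib.Five.RD
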