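import Cfsg.Agent.Class.Five.Defs

/-!
# Subgroups of `SL₅` generated by negatives of reflections: vocabulary and the packages
-/

set_option autoImplicit false

namespace Cfsg.Lib.Five

open Matrix Cfsg.Geo Cfsg.Lib.Class Cfsg.Lib.Class.Asch Cfsg.Lib.Mit
open scoped MatrixGroups

universe u

section Roots

variable {ι : Type} [Fintype ι] [DecidableEq ι] {F : Type*} [Field F]

theorem mrefl_mul_self {a φ : ι → F} (h : φ ⬝ᵥ a = 2) :
    (vecMulVec a φ - 1) * (vecMulVec a φ - 1) = 1 := by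
  rw [Matrix.sub_mul, Matrix.mul_sub, Matrix.mul_sub, vecMulVec_mul_vecMulVec, h, Matrix.mul_one,
    Matrix.one_mul, Matrix.one_mul, two_smul, vecMulVec_add]
  abel

open Classical in
/-- Minus the reflection with root `a` and coroot `φ`. -/
noncomputable def tR (a φ : ι → F) : GL ι F :=
  if h : φ ⬝ᵥ a = 2 then ⟨_, _, mrefl_mul_self h, mrefl_mul_self h⟩ else 1

/-- `(a, φ)` is a root of `P`. -/
def Rt (P : Subgroup (GL ι F)) (a φ : ι → F) : Prop := φ ⬝ᵥ a = 2 ∧ tR a φ ∈ P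

variable {P Q : Subgroup (GL ι F)} {a φ b ψ c χ : ι → F}

theorem tR_coe (h : φ ⬝ᵥ a = 2) : (tR a φ : Matrix ι ι F) = vecMulVec a φ - 1 := by
  rw [tR, dif_pos h]

theorem tR_mul_self (a φ : ι → F) : tR a φ * tR a φ = 1 := by
  by_cases h : φ ⬝ᵥ a = 2
  · exact Units.ext (by rw [Units.val_mul, tR_coe h, mrefl_mul_self h, Units.val_one])
  · rw [tR, dif_neg h, one_mul]

theorem tR_inv (a φ : ι → F) : (tR a φ)⁻¹ = tR a φ := inv_eq_of_mul_eq_one_right (tR_mul_self a φ)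

theorem tR_mulVec (h : φ ⬝ᵥ a = 2) (v : ι → F) :
    (tR a φ : Matrix ι ι F) *ᵥ v = (φ ⬝ᵥ v) • a - v := by
  rw [tR_coe h, sub_mulVec, one_mulVec, vecMulVec_mulVec, op_smul_eq_smul]

theorem vecMul_tR (h : φ ⬝ᵥ a = 2) (f : ι → F) :
    f ᵥ* (tR a φ : Matrix ι ι F) = (f ⬝ᵥ a) • φ - f := by
  rw [tR_coe h, vecMul_sub, vecMul_one, vecMul_vecMulVec]

theorem conj_tR (g : GL ι F) (h : φ ⬝ᵥ a = 2) : g * tR a φ * g⁻¹ =
    tR ((g : Matrix ι ι F) *ᵥ a) (φ ᵥ* ((g⁻¹ : GL ι F) : Matrix ι ι F)) := by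
  apply Units.ext
  rw [tR_coe ((vecMul_inv_dot_mulVec g φ a).trans h), Units.val_mul, Units.val_mul, tR_coe h,
    Matrix.mul_sub, Matrix.sub_mul, Matrix.mul_one, Units.mul_inv, mul_vecMulVec, vecMulVec_mul]

theorem tR_smul {k : F} (hk : k ≠ 0) (a φ : ι → F) : tR (k • a) (k⁻¹ • φ) = tR a φ := by
  have e : (k⁻¹ • φ) ⬝ᵥ (k • a) = φ ⬝ᵥ a := by
    rw [smul_dotProduct, dotProduct_smul, smul_smul, inv_mul_cancel₀ hk, one_smul]
  by_cases h : φ ⬝ᵥ a = 2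
  · apply Units.ext
    rw [tR_coe h, tR_coe (e.trans h), smul_vecMulVec, vecMulVec_smul, smul_smul,
      mul_inv_cancel₀ hk, one_smul]
  · rw [tR, tR, dif_neg h, dif_neg (e ▸ h)]

theorem Rt.mono (h : Rt P a φ) (hPQ : P ≤ Q) : Rt Q a φ := ⟨h.1, hPQ h.2⟩

theorem Rt.of_coe {g : GL ι F} (hg : g ∈ P) (h : φ ⬝ᵥ a = 2)
    (e : (g : Matrix ι ι F) = vecMulVec a φ - 1) : Rt P a φ :=
  ⟨h, (Units.ext (e.trans (tR_coe h).symm) : g = tR a φ) ▸ hg⟩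

theorem Rt.conj (h : Rt P a φ) {g : GL ι F} (hg : g ∈ P) :
    Rt P ((g : Matrix ι ι F) *ᵥ a) (φ ᵥ* ((g⁻¹ : GL ι F) : Matrix ι ι F)) :=
  ⟨(vecMul_inv_dot_mulVec g φ a).trans h.1,
    conj_tR g h.1 ▸ mul_mem (mul_mem hg h.2) (inv_mem hg)⟩

theorem Rt.smul (h : Rt P a φ) {k : F} (hk : k ≠ 0) : Rt P (k • a) (k⁻¹ • φ) :=
  ⟨by rw [smul_dotProduct, dotProduct_smul, smul_smul, inv_mul_cancel₀ hk, one_smul, h.1],
    (tR_smul hk a φ).symm ▸ h.2⟩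

theorem Rt.neg (h : Rt P a φ) : Rt P (-a) (-φ) := by
  simpa using h.smul (k := -1) (by simp)

/-- The reflection in `a` of the root `b`. -/
theorem Rt.refl (ha : Rt P a φ) (hb : Rt P b ψ) :
    Rt P (b - (φ ⬝ᵥ b) • a) (ψ - (ψ ⬝ᵥ a) • φ) := by
  have := (hb.conj ha.2).neg
  rwa [tR_inv, tR_mulVec ha.1, vecMul_tR ha.1, neg_sub, neg_sub] at this

theorem Rt.congr (h : Rt P a φ) (e₁ : a = b) (e₂ : φ = ψ) : Rt P b ψ := e₁ ▸ e₂ ▸ h

theorem Rt.ne_zero (h : Rt P a φ) (h2 : (2 : F) ≠ 0) : a ≠ 0 := fun e =>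
  h2 (by rw [← h.1, e, dotProduct_zero])

theorem Rt.ne_zero' (h : Rt P a φ) (h2 : (2 : F) ≠ 0) : φ ≠ 0 := fun e =>
  h2 (by rw [← h.1, e, zero_dotProduct])

theorem isTv_of_coe {g : GL ι F} {v f : ι → F} (hv : v ≠ 0) (hf : f ≠ 0) (h : f ⬝ᵥ v = 0)
    (e : (g : Matrix ι ι F) = 1 + vecMulVec v f) : IsTv g := by
  have : g = tv v f := Units.ext (e.trans (tv_coe h).symm)
  exact ⟨this ▸ fun k => ((tv_eq_one_iff h).1 k).elim hv hf, v, f, h, this⟩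

/-- The root determines the coroot. -/
theorem Rt.coroot_eq (hT : ∀ g ∈ P, ¬ IsTv g) (h2 : (2 : F) ≠ 0) (h : Rt P a φ) (h' : Rt P a ψ) :
    φ = ψ := by
  by_contra hne
  refine hT _ (mul_mem h.2 h'.2) (isTv_of_coe (h.ne_zero h2) (sub_ne_zero.2 (Ne.symm hne))
    (by rw [sub_dotProduct, h.1, h'.1, sub_self]) ?_)
  rw [Units.val_mul, tR_coe h.1, tR_coe h'.1, Matrix.sub_mul, Matrix.mul_sub, Matrix.mul_sub,
    vecMulVec_mul_vecMulVec, h.1, Matrix.mul_one, Matrix.one_mul, Matrix.one_mul, two_smul,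
    vecMulVec_add, vecMulVec_sub]
  abel

/-- The coroot determines the root. -/
theorem Rt.root_eq (hT : ∀ g ∈ P, ¬ IsTv g) (h2 : (2 : F) ≠ 0) (h : Rt P a φ) (h' : Rt P b φ) :
    a = b := by
  by_contra hne
  refine hT _ (mul_mem h.2 h'.2) (isTv_of_coe (sub_ne_zero.2 hne) (h.ne_zero' h2)
    (by rw [dotProduct_sub, h.1, h'.1, sub_self]) ?_)
  rw [Units.val_mul, tR_coe h.1, tR_coe h'.1, Matrix.sub_mul, Matrix.mul_sub, Matrix.mul_sub,
    vecMulVec_mul_vecMulVec, h'.1, Matrix.mul_one, Matrix.one_mul, Matrix.one_mul, two_smul,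
    vecMulVec_add, sub_vecMulVec]
  abel

/-- Orthogonality of roots is symmetric. -/
theorem Rt.orth_symm (hT : ∀ g ∈ P, ¬ IsTv g) (h2 : (2 : F) ≠ 0) (ha : Rt P a φ) (hb : Rt P b ψ)
    (h : φ ⬝ᵥ b = 0) : ψ ⬝ᵥ a = 0 := by
  have h1 := ha.refl hb
  rw [h, zero_smul, sub_zero] at h1
  have h3 := sub_eq_self.1 (h1.coroot_eq hT h2 hb)
  exact (smul_eq_zero.1 h3).resolve_right (ha.ne_zero' h2)

/-- Proportional roots have the same reflection. -/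
theorem Rt.of_prop (hT : ∀ g ∈ P, ¬ IsTv g) (h2 : (2 : F) ≠ 0) (ha : Rt P a φ) (hb : Rt P b ψ)
    {k : F} (h : b = k • a) : k ≠ 0 ∧ ψ = k⁻¹ • φ ∧ tR b ψ = tR a φ := by
  have hk : k ≠ 0 := fun e => hb.ne_zero h2 (by rw [h, e, zero_smul])
  have : ψ = k⁻¹ • φ := (h ▸ hb).coroot_eq hT h2 (ha.smul hk)
  exact ⟨hk, this, by rw [h, this, tR_smul hk]⟩

theorem tR_comm (ha : φ ⬝ᵥ a = 2) (hb : ψ ⬝ᵥ b = 2) (h : φ ⬝ᵥ b = 0) (h' : ψ ⬝ᵥ a = 0) :
    tR a φ * tR b ψ = tR b ψ * tR a φ := by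
  apply Units.ext
  simp only [Units.val_mul, tR_coe ha, tR_coe hb, Matrix.sub_mul, Matrix.mul_sub,
    vecMulVec_mul_vecMulVec, h, h', zero_smul, vecMulVec_zero, Matrix.mul_one, Matrix.one_mul]
  abel

/-- Commuting reflections have orthogonal or proportional roots. -/
theorem orth_or_prop_of_comm (h2 : (2 : F) ≠ 0) (ha : φ ⬝ᵥ a = 2) (hb : ψ ⬝ᵥ b = 2)
    (h : tR a φ * tR b ψ = tR b ψ * tR a φ) : φ ⬝ᵥ b = 0 ∨ ∃ k : F, b = k • a := by
  have e := congrArg (fun g : GL ι F => (g : Matrix ι ι F) *ᵥ b) h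
  simp only [GL_mul_mulVec, tR_mulVec ha, tR_mulVec hb, hb, dotProduct_sub, dotProduct_smul,
    smul_eq_mul] at e
  by_cases h0 : φ ⬝ᵥ b = 0
  · exact .inl h0
  by_cases h1 : ψ ⬝ᵥ a = 0
  · refine .inr ⟨0, ?_⟩
    exfalso
    have e' : ((2 : F) * (φ ⬝ᵥ b)) • a = 0 := by
      rw [h1] at e
      ext i
      have := congrFun e i
      simp only [Pi.sub_apply, Pi.smul_apply, smul_eq_mul, Pi.zero_apply] at this ⊢
      linear_combination this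
    exact h2 (by rw [← ha, (smul_eq_zero.1 e').resolve_left (mul_ne_zero h2 h0), dotProduct_zero])
  refine .inr ⟨2 / (ψ ⬝ᵥ a), ?_⟩
  ext i
  have := congrFun e i
  simp only [Pi.sub_apply, Pi.smul_apply, smul_eq_mul] at this ⊢
  field_simp
  apply mul_left_cancel₀ h0
  linear_combination -this

/-- The product of the two pairings. -/
def xx (a φ b ψ : ι → F) : F := (φ ⬝ᵥ b) * (ψ ⬝ᵥ a)

/-- The cyclic product of three roots; the reverse product is `yy a φ c χ b ψ`. -/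
def yy (a φ b ψ c χ : ι → F) : F := (φ ⬝ᵥ b) * (ψ ⬝ᵥ c) * (χ ⬝ᵥ a)

/-- The Gram determinant of three roots. -/
def gram (a φ b ψ c χ : ι → F) : F :=
  8 - 2 * (xx a φ b ψ + xx a φ c χ + xx b ψ c χ) + yy a φ b ψ c χ + yy a φ c χ b ψ

/-- All triples of roots are symmetric. -/
def Sym3 (P : Subgroup (GL ι F)) : Prop := ∀ a φ b ψ c χ, Rt P a φ → Rt P b ψ → Rt P c χ →
  yy a φ b ψ c χ = yy a φ c χ b ψ

/-- Two of the reflections have a product of order four. -/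
def O4 (P : Subgroup (GL ι F)) : Prop := ∃ a φ b ψ, Rt P a φ ∧ Rt P b ψ ∧ xx a φ b ψ = 2

/-- In an asymmetric triple two of the products have order three. -/
def MT1 (P : Subgroup (GL ι F)) : Prop := ∀ a φ b ψ c χ, Rt P a φ → Rt P b ψ → Rt P c χ →
  yy a φ b ψ c χ ≠ yy a φ c χ b ψ → (xx a φ b ψ = 1 ∧ xx a φ c χ = 1) ∨
    (xx a φ b ψ = 1 ∧ xx b ψ c χ = 1) ∨ (xx a φ c χ = 1 ∧ xx b ψ c χ = 1)

/-- In an asymmetric triple all products have order three. -/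
def MT3 (P : Subgroup (GL ι F)) : Prop := ∀ a φ b ψ c χ, Rt P a φ → Rt P b ψ → Rt P c χ →
  yy a φ b ψ c χ ≠ yy a φ c χ b ψ → xx a φ b ψ = 1

/-- Vectors `e i` and covectors `ε i` in duality. -/
def Fr {n : ℕ} (e ε : Fin n → ι → F) : Prop := ∀ i j, ε i ⬝ᵥ e j = if i = j then 1 else 0

/-- A linear combination. -/
def cb {n : ℕ} (A : Fin n → F) (e : Fin n → ι → F) : ι → F := ∑ i, A i • e i

/-- The generating roots of `G(m, m, 3)`. -/
structure Sys3 (P : Subgroup (GL ι F)) (e ε : Fin 3 → ι → F) (l : F) : Prop where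
  fr : Fr e ε
  ne : l ≠ 0
  sq : l ^ 2 ≠ 1
  r01 : Rt P (e 0 - e 1) (ε 0 - ε 1)
  r12 : Rt P (e 1 - e 2) (ε 1 - ε 2)
  r20 : Rt P (e 2 - l • e 0) (ε 2 - l⁻¹ • ε 0)

/-- Every root meets the frame in at most two places, with weight one. -/
def Pat01 (P : Subgroup (GL ι F)) (e ε : Fin 3 → ι → F) : Prop := ∀ d f, Rt P d f →
  (∀ i, (ε i ⬝ᵥ d = 0 ∧ f ⬝ᵥ e i = 0) ∨ (ε i ⬝ᵥ d) * (f ⬝ᵥ e i) = 1) ∧ ∃ i, ε i ⬝ᵥ d = 0

/-- A family of mutually orthogonal roots. -/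
def OF {n : ℕ} (P : Subgroup (GL ι F)) (a φ : Fin n → ι → F) : Prop :=
  (∀ i, Rt P (a i) (φ i)) ∧ ∀ i j, i ≠ j → φ i ⬝ᵥ a j = 0

/-- A root in the plane of the orthogonal roots `a`, `b` interchanges them. -/
def Sw (P : Subgroup (GL ι F)) (a φ b ψ : ι → F) : Prop :=
  ∃ k : F, k ≠ 0 ∧ Rt P (a - k • b) ((1 / 2 : F) • (φ - k⁻¹ • ψ))

/-- `v` lies in the plane of `a` and `b`. -/
def InPl (v a b : ι → F) : Prop := ∃ x y : F, v = x • a + y • b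

/-- `v` lies on the line of `a`. -/
def Ln (v a : ι → F) : Prop := ∃ x : F, v = x • a

/-- A subgroup of `P` as a group of matrices. -/
abbrev sy {P : Subgroup (GL ι F)} (S : Sylow 2 P) : Subgroup (GL ι F) :=
  (S : Subgroup P).map P.subtype

/-- The elements commuting with the matrix `E`. -/
def cz (E : Matrix ι ι F) : Subgroup (GL ι F) where
  carrier := {g | (g : Matrix ι ι F) * E = E * g}
  one_mem' := by simp
  mul_mem' := fun {g h} hg hh => by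
    simp only [Set.mem_ofPred_eq, Units.val_mul] at *
    rw [Matrix.mul_assoc, hh, ← Matrix.mul_assoc, hg, Matrix.mul_assoc]
  inv_mem' := fun {g} hg => by
    simp only [Set.mem_ofPred_eq] at *
    rw [Units.inv_mul_eq_iff_eq_mul, ← Matrix.mul_assoc, Units.eq_mul_inv_iff_mul_eq, hg]

/-- The action on the image of the projection `C * Φ`. -/
def dn {κ : Type} [Fintype κ] [DecidableEq κ] {C : Matrix ι κ F} {Φ : Matrix κ ι F}
    (h : Φ * C = 1) : cz (C * Φ) →* GL κ F :=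
  MonoidHom.toHomUnits
    { toFun := fun g => Φ * ((g : GL ι F) : Matrix ι ι F) * C
      map_one' := by simp [h]
      map_mul' := fun g k => by
        have e : ((k : GL ι F) : Matrix ι ι F) * (C * Φ) =
          C * Φ * ((k : GL ι F) : Matrix ι ι F) := k.2
        simp only [Subgroup.coe_mul, Units.val_mul, Matrix.mul_assoc] at e ⊢
        rw [← Matrix.mul_assoc C Φ, ← Matrix.mul_assoc (C * Φ), Matrix.mul_assoc C Φ, ← e]
        simp only [Matrix.mul_assoc, h, Matrix.mul_one] }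

theorem dn_coe {κ : Type} [Fintype κ] [DecidableEq κ] {C : Matrix ι κ F} {Φ : Matrix κ ι F}
    (h : Φ * C = 1) (g : cz (C * Φ)) :
    (dn h g : Matrix κ κ F) = Φ * ((g : GL ι F) : Matrix ι ι F) * C := rfl

/-- A quasisimple group of dimension at least two is generated by its roots. -/
theorem closure_roots [Nontrivial ι] (h : QS P) (h2 : (2 : F) ≠ 0) (ha : Rt P a φ) :
    Subgroup.closure {g | ∃ b ψ, Rt P b ψ ∧ g = tR b ψ} = P := by
  refine h.eq_of_normal ((Subgroup.closure_le _).2 fun g ⟨b, ψ, hb, e⟩ => e ▸ hb.2)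
    (fun g hg x hx => ?_) fun hs => ?_
  · induction hx using Subgroup.closure_induction with
    | mem x hx =>
      obtain ⟨b, ψ, hb, rfl⟩ := hx
      exact Subgroup.subset_closure ⟨_, _, hb.conj hg, conj_tR g hb.1⟩
    | one => simp
    | mul x y _ _ hx hy => simpa [mul_assoc] using mul_mem hx hy
    | inv x _ hx => simpa [mul_assoc] using inv_mem hx
  · obtain ⟨k, hk⟩ := (mem_scalars_iff' _).1 (hs (Subgroup.subset_closure ⟨a, φ, ha, rfl⟩))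
    have e := fun v => tR_mulVec ha.1 v
    simp only [hk, smul_mulVec, one_mulVec] at e
    have k1 : k = 1 := by
      have := e a
      rw [ha.1, two_smul, add_sub_cancel_right] at this
      exact smul_left_injective F (ha.ne_zero h2) (this.trans (one_smul F a).symm)
    obtain ⟨i, j, hij⟩ := exists_pair_ne ι
    have e1 := fun v => congrFun (e v)
    have f1 := e1 (Pi.single i 1) i
    have f2 := e1 (Pi.single i 1) j
    have f3 := e1 (Pi.single j 1) j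
    simp [k1, hij.symm] at f1 f2 f3
    rcases f2 with f2 | f2
    · exact h2 (by rw [f2] at f1; linear_combination f1)
    · exact h2 (by rw [f2] at f3; linear_combination f3)

end Roots

variable {F : Type*} [Field F]

theorem exists_rt_of_not_noRefl {P : Subgroup (GL (Fin 5) F)} (h : ¬ NoRefl P) :
    ∃ a φ, Rt P a φ := by
  by_contra k
  exact h fun g hg a φ e => k ⟨a, φ, Rt.of_coe hg e.1 e.2⟩

/-- The standing hypotheses of the reflection case. -/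
structure Hr (P : Subgroup (GL (Fin 5) F)) : Prop where
  qs : QS P
  nt : NoTv P
  two : (2 : F) ≠ 0

/-- The coordinates of the 45 roots of `U₄(2)`. -/
def StdRoot (ω : F) (A B : Fin 5 → F) : Prop :=
  (∃ (i j : Fin 5) (k : ℕ), i ≠ j ∧ i ≠ 4 ∧ j ≠ 4 ∧ A = Pi.single i 1 - Pi.single j (ω ^ k) ∧
    B = Pi.single i 1 - Pi.single j (ω ^ (2 * k))) ∨
  ∃ k₀ k₁ k₂ k₃ : ℕ, 3 ∣ k₀ + k₁ + k₂ + k₃ ∧ A = ![ω ^ k₀, ω ^ k₁, ω ^ k₂, ω ^ k₃, 1] ∧
    B = (1 / 3 : F) • ![ω ^ (2 * k₀), ω ^ (2 * k₁), ω ^ (2 * k₂), ω ^ (2 * k₃), 2]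

/-- The roots of `P` are the 45 standard ones. -/
def Std45 (P : Subgroup (GL (Fin 5) F)) : Prop :=
  ∃ (ω : F) (e ε : Fin 5 → Fin 5 → F), ω ^ 2 + ω + 1 = 0 ∧ (3 : F) ≠ 0 ∧ Fr e ε ∧
    ∀ a φ, Rt P a φ ↔ ∃ (k : F) (A B : Fin 5 → F), k ≠ 0 ∧ StdRoot ω A B ∧
      a = k • cb A e ∧ φ = k⁻¹ • cb B ε

/-- The roots of a `2`-group: a plane and a line. -/
def TB (S : Subgroup (GL (Fin 5) F)) : Prop := ∃ a φ : Fin 3 → Fin 5 → F, OF S a φ ∧
  Sw S (a 0) (φ 0) (a 1) (φ 1) ∧ ∀ b ψ, Rt S b ψ → InPl b (a 0) (a 1) ∨ Ln b (a 2)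

/-- The roots of a `2`-group: a plane and three lines. -/
def TC (S : Subgroup (GL (Fin 5) F)) : Prop := ∃ a φ : Fin 5 → Fin 5 → F, OF S a φ ∧
  Sw S (a 0) (φ 0) (a 1) (φ 1) ∧
    ∀ b ψ, Rt S b ψ → InPl b (a 0) (a 1) ∨ Ln b (a 2) ∨ Ln b (a 3) ∨ Ln b (a 4)

/-- The roots of a `2`-group: two planes and a line. -/
def TD (S : Subgroup (GL (Fin 5) F)) : Prop := ∃ a φ : Fin 5 → Fin 5 → F, OF S a φ ∧
  Sw S (a 0) (φ 0) (a 1) (φ 1) ∧ Sw S (a 2) (φ 2) (a 3) (φ 3) ∧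
    ∀ b ψ, Rt S b ψ → InPl b (a 0) (a 1) ∨ InPl b (a 2) (a 3) ∨ Ln b (a 4)

/-- Orthogonal roots are interchanged by a root, and orthogonal triples extend to frames. -/
structure QF (P : Subgroup (GL (Fin 5) F)) : Prop where
  ex : ∃ a φ : Fin 5 → Fin 5 → F, OF P a φ
  q1 : ∀ a φ b ψ, Rt P a φ → Rt P b ψ → φ ⬝ᵥ b = 0 → Sw P a φ b ψ
  q2 : ∀ a φ : Fin 3 → Fin 5 → F, OF P a φ → ∃ b ψ c χ,
    OF P ![a 0, a 1, a 2, b, c] ![φ 0, φ 1, φ 2, ψ, χ]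

/-- A monomial group of dimension three. -/
def Mon3 (X : Subgroup (GL (Fin 3) F)) : Prop := ∃ e ε : Fin 3 → Fin 3 → F, Fr e ε ∧
  ∀ g ∈ X, ∀ i, ∃ (j : Fin 3) (k : F), (g : Matrix (Fin 3) (Fin 3) F) *ᵥ e i = k • e j

/-- All traces are real. -/
def Real3 (X : Subgroup (GL (Fin 3) F)) : Prop := ∀ g ∈ X,
  ((g⁻¹ : GL (Fin 3) F) : Matrix (Fin 3) (Fin 3) F).trace = (g : Matrix (Fin 3) (Fin 3) F).trace

/-- The projective image is `L₃(2)`, `A₆` or, in characteristic five, `A₇`. -/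
def Exc3 (X : Subgroup (GL (Fin 3) F)) : Prop :=
  Nonempty (Bar X ≃* PSL(3, ZMod 2)) ∨ Nonempty (Bar X ≃* alternatingGroup (Fin 6)) ∨
    ((5 : F) = 0 ∧ Nonempty (Bar X ≃* alternatingGroup (Fin 7)))

/-- A subgroup of `SL₃` of odd characteristic without transvections, generated by involutions. -/
structure H3 (X : Subgroup (GL (Fin 3) F)) : Prop where
  two : (2 : F) ≠ 0
  sl : X ≤ specialLinear (Fin 3) F
  nt : ∀ g ∈ X, ¬ IsTv g
  gen : X ≤ Subgroup.closure {g | g ∈ X ∧ g * g = 1}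

/-- The roots of `B₃` in a frame, and the root `e₀ + e₁ + μ e₂`. -/
structure B3 {ι : Type} [Fintype ι] [DecidableEq ι] (P : Subgroup (GL ι F))
    (e ε : Fin 3 → ι → F) (μ : F) : Prop where
  fr : Fr e ε
  ne : μ ≠ 0
  r1 : ∀ i, Rt P (e i) ((2 : F) • ε i)
  r2 : ∀ i j, i ≠ j → Rt P (e i - e j) (ε i - ε j)
  r3 : Rt P (cb ![1, 1, μ] e) (cb ![1 / 2, 1 / 2, μ⁻¹] ε)

/-- What is known about the roots in the span of such a frame. -/
structure B3Out {ι : Type} [Fintype ι] [DecidableEq ι] (P : Subgroup (GL ι F))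
    (e ε : Fin 3 → ι → F) (μ : F) : Prop where
  lam : ∀ l : F, l ≠ 0 → Rt P (e 0 - l • e 1) (ε 0 - l⁻¹ • ε 1) →
    l ^ 2 = 1 ∨ ((5 : F) = 0 ∧ l ^ 4 + l ^ 2 + 1 = 0)
  real : μ ^ 2 = 2 → ∀ d f : Fin 3 → F, Rt P (cb d e) (cb f ε) → ∀ i j, d i * f j = d j * f i
  noq : μ ^ 2 = -2 → ¬ Rt P (cb ![1 + μ, 1, 0] e) (cb ![(1 - μ) / 2, 1 / 2, 0] ε)

/-! ## The packages -/

/-- Degenerate asymmetric triples. -/
def WD : Prop := ∀ (F : Type u) [Field F] [Fintype F] (P : Subgroup (GL (Fin 5) F)), Hr P →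
  ∀ a φ b ψ c χ, Rt P a φ → Rt P b ψ → Rt P c χ → yy a φ b ψ c χ ≠ yy a φ c χ b ψ →
    gram a φ b ψ c χ = 0 → O4 P ∧ ¬ LinearIndependent F ![a, b, c]

/-- Irreducible subgroups of `SL₃` generated by involutions. -/
def WT : Prop := ∀ (F : Type u) [Field F] [Fintype F] (X : Subgroup (GL (Fin 3) F)), H3 X →
  Irr X → Mon3 X ∨ Real3 X ∨ Exc3 X

/-- The `B₃` frame in dimension three. -/
def WB3 : Prop := ∀ (F : Type u) [Field F] [Fintype F] (X : Subgroup (GL (Fin 3) F)), H3 X →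
  ∀ μ : F, B3 X (fun i => Pi.single i 1) (fun i => Pi.single i 1) μ →
    B3Out X (fun i => Pi.single i 1) (fun i => Pi.single i 1) μ

/-- The `B₃` frame in dimension five. -/
def WB : Prop := ∀ (F : Type u) [Field F] [Fintype F] (P : Subgroup (GL (Fin 5) F)), Hr P →
  ∀ (e ε : Fin 3 → Fin 5 → F) (μ : F), B3 P e ε μ → B3Out P e ε μ

/-- Asymmetric triples when no product has order four. -/
def WM1 : Prop := ∀ (F : Type u) [Field F] [Fintype F] (P : Subgroup (GL (Fin 5) F)), Hr P →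
  ¬ O4 P → MT1 P

/-- Asymmetric triples containing a `B₂`. -/
def WT2 : Prop := ∀ (F : Type u) [Field F] [Fintype F] (P : Subgroup (GL (Fin 5) F)), Hr P →
  ∀ a φ b ψ d f, Rt P a φ → Rt P b ψ → φ ⬝ᵥ b = 0 → Rt P (a - b) ((1 / 2 : F) • (φ - ψ)) →
    Rt P d f → (φ ⬝ᵥ d) * (f ⬝ᵥ b) ≠ (ψ ⬝ᵥ d) * (f ⬝ᵥ a) →
    InPl d a b ∨ (∃ c χ, Rt P c χ ∧ φ ⬝ᵥ c = 0 ∧ ψ ⬝ᵥ c = 0 ∧ ∃ z : F, InPl (d - z • c) a b) ∨
      (xx a φ d f = 1 ∧ xx b ψ d f = 1 ∧ xx (a - b) ((1 / 2 : F) • (φ - ψ)) d f = 1)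

/-- The monomial case does not occur. -/
def WMon : Prop := ∀ (F : Type u) [Field F] [Fintype F] (P : Subgroup (GL (Fin 5) F)), Hr P →
  ∀ (e ε : Fin 3 → Fin 5 → F) (l : F), Sys3 P e ε l → ¬ Pat01 P e ε

/-- An asymmetric triple gives `G(3, 3, 3)`. -/
def WSys : Prop := ∀ (F : Type u) [Field F] [Fintype F] (P : Subgroup (GL (Fin 5) F)), Hr P →
  ¬ O4 P → MT1 P → ¬ Sym3 P → MT3 P ∧ ∃ (e ε : Fin 3 → Fin 5 → F) (ω : F), Sys3 P e ε ω ∧
    ω ^ 2 + ω + 1 = 0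

/-- The 45 roots. -/
def WStd : Prop := ∀ (F : Type u) [Field F] [Fintype F] (P : Subgroup (GL (Fin 5) F)), Hr P →
  MT3 P → ∀ (e ε : Fin 3 → Fin 5 → F) (ω : F), Sys3 P e ε ω → ω ^ 2 + ω + 1 = 0 → Std45 P

/-- The group of the 45 roots. -/
def WQ : Prop := ∀ (F : Type u) [Field F] [Fintype F] (P : Subgroup (GL (Fin 5) F)), Hy P →
  (2 : F) ≠ 0 → Std45 P → Exc5 P

/-- Involutions in `2`-subgroups of `PGL₂`. -/
def WDH : Prop := ∀ (F : Type u) [Field F] [Fintype F], (2 : F) ≠ 0 → ∀ Y : Subgroup PGL(2, F),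
  IsPGroup 2 Y → ∃ c : PGL(2, F), (∀ y ∈ Y, y * c = c * y) ∧ ∀ T ≤ Y, ∀ u ∈ T, ∀ v ∈ T, ∀ w ∈ T,
    u * u = 1 → v * v = 1 → w * w = 1 → u ≠ 1 → v ≠ 1 → w ≠ 1 → u ≠ c → v ≠ c → w ≠ c →
      ∃ k ∈ T, k * u * k⁻¹ = v ∨ k * u * k⁻¹ = w ∨ k * v * k⁻¹ = w

/-- The roots of the Sylow `2`-subgroups. -/
def W4a : Prop := ∀ (F : Type u) [Field F] [Fintype F] (P : Subgroup (GL (Fin 5) F)), Hr P →
  O4 P → (∀ S : Sylow 2 P, TB (sy S)) ∨ (∀ S : Sylow 2 P, TC (sy S)) ∨ ∀ S : Sylow 2 P, TD (sy S)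

def W4b : Prop := ∀ (F : Type u) [Field F] [Fintype F] (P : Subgroup (GL (Fin 5) F)), Hr P →
  ¬ ∀ S : Sylow 2 P, TB (sy S)

def W4c : Prop := ∀ (F : Type u) [Field F] [Fintype F] (P : Subgroup (GL (Fin 5) F)), Hr P →
  ¬ ∀ S : Sylow 2 P, TC (sy S)

def W4d : Prop := ∀ (F : Type u) [Field F] [Fintype F] (P : Subgroup (GL (Fin 5) F)), Hr P →
  (∀ S : Sylow 2 P, TD (sy S)) → QF P

/-- Complete frames give the orthogonal group. -/
def W5 : Prop := ∀ (F : Type u) [Field F] [Fintype F] (P : Subgroup (GL (Fin 5) F)), Hr P →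
  QF P → FixQ P

/-- Symmetric triples give the orthogonal group. -/
def WS : Prop := ∀ (F : Type u) [Field F] [Fintype F] (P : Subgroup (GL (Fin 5) F)), Hr P →
  (∃ a φ, Rt P a φ) → Sym3 P → FixQ P

theorem wR_of (hS : WS.{u}) (h1 : WM1.{u}) (h2 : WSys.{u}) (h3 : WStd.{u}) (hQ : WQ.{u})
    (ha : W4a.{u}) (hb : W4b.{u}) (hc : W4c.{u}) (hd : W4d.{u}) (h5 : W5.{u}) : WR.{u} := by
  intro F _ _ P hP ht hR
  have h : Hr P := ⟨hP.qs, hP.nt, ht⟩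
  by_cases h4 : O4 P
  · rcases ha F P h h4 with k | k | k
    · exact absurd k (hb F P h)
    · exact absurd k (hc F P h)
    · exact .inl (h5 F P h (hd F P h k))
  by_cases hs : Sym3 P
  · exact .inl (hS F P h (exists_rt_of_not_noRefl hR) hs)
  obtain ⟨k, e, ε, ω, k1, k2⟩ := h2 F P h h4 (h1 F P h h4) hs
  exact .inr (hQ F P hP ht (h3 F P h k e ε ω k1 k2))

end Cfsg.Lib.Five
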