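import Cfsg.Agent.Class.Five.RMon

/-!
# The reflection case in dimension five: an asymmetric triple gives `G(3, 3, 3)`
-/

set_option autoImplicit false
set_option linter.unusedSectionVars false

namespace Cfsg.Lib.Five

open Matrix Cfsg.Geo Cfsg.Lib.Class Cfsg.Lib.Class.Asch Cfsg.Lib.Mit
open scoped MatrixGroups

universe u

namespace RM1

variable {ι : Type} [Fintype ι] [DecidableEq ι] {F : Type*} [Field F]
  {P : Subgroup (GL ι F)} {e ε : Fin 3 → ι → F} {l m n : F} {i j k : Fin 3}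
  {a φ b ψ c χ d f : ι → F}

theorem three_roots {α β γ x y z : F} (hxy : x ≠ y) (hxz : x ≠ z) (hyz : y ≠ z)
    (h1 : α * x ^ 2 + β * x + γ = 0) (h2 : α * y ^ 2 + β * y + γ = 0)
    (h3 : α * z ^ 2 + β * z + γ = 0) : α = 0 ∧ β = 0 ∧ γ = 0 := by
  have k1 : α * (x + y) + β = 0 :=
    mul_left_cancel₀ (sub_ne_zero.2 hxy) (by linear_combination h1 - h2)
  have k2 : α * (x + z) + β = 0 :=
    mul_left_cancel₀ (sub_ne_zero.2 hxz) (by linear_combination h1 - h3)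
  have k3 : α = 0 := mul_left_cancel₀ (sub_ne_zero.2 hyz) (by linear_combination k1 - k2)
  have k4 : β = 0 := by linear_combination k1 - (x + y) * k3
  exact ⟨k3, k4, by linear_combination h1 - x ^ 2 * k3 - x * k4⟩

theorem exists_avoid (l0 : l ≠ 0) (h2 : l ^ 2 ≠ 1) (h4 : l ^ 2 + 1 ≠ 0) (h3 : l ^ 2 + l + 1 ≠ 0)
    {s p : F} (hs : s ≠ 0) (hp : p ≠ 0) (v w q : F) : ∃ n : ℕ, l ^ n * s ≠ v ∧ l ^ n * s ≠ w ∧
      p * (l ^ n * s) ^ 2 + q * (l ^ n * s) + p ≠ 0 := by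
  have h1 : l ≠ 1 := fun k => h2 (by rw [k, one_pow])
  have key : ∀ k : ℕ, k < 5 → l ^ k = 1 → k = 0 := by
    intro k hk h
    interval_cases k
    · rfl
    · exact absurd (by simpa using h) h1
    · exact absurd h h2
    · exact absurd (mul_left_cancel₀ (sub_ne_zero.2 h1) (by linear_combination h)) h3
    · exact absurd (mul_left_cancel₀ (sub_ne_zero.2 h2) (by linear_combination h)) h4
  have inj : Function.Injective fun n : Fin 5 => l ^ (n : ℕ) * s := by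
    have aux : ∀ n m : Fin 5, (n : ℕ) ≤ m → l ^ (n : ℕ) * s = l ^ (m : ℕ) * s → n = m := by
      intro n m hnm h
      obtain ⟨k, hk⟩ := Nat.exists_eq_add_of_le hnm
      have h' := mul_right_cancel₀ hs h
      rw [hk, pow_add] at h'
      have := key k (by omega) (mul_left_cancel₀ (pow_ne_zero _ l0) (h'.symm.trans (mul_one _).symm))
      exact Fin.ext (by omega)
    intro n m h
    rcases le_total (n : ℕ) m with k | k
    · exact aux n m k h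
    · exact (aux m n k h.symm).symm
  by_contra hc
  push Not at hc
  have z := Polynomial.eq_zero_of_natDegree_lt_card_of_eval_eq_zero
    ((Polynomial.X - Polynomial.C v) * (Polynomial.X - Polynomial.C w) *
      (Polynomial.C p * Polynomial.X ^ 2 + Polynomial.C q * Polynomial.X + Polynomial.C p))
    inj (fun n => by
      simp only [Polynomial.eval_mul, Polynomial.eval_sub, Polynomial.eval_add, Polynomial.eval_pow,
        Polynomial.eval_X, Polynomial.eval_C]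
      by_cases k1 : l ^ (n : ℕ) * s = v
      · rw [k1, sub_self, zero_mul, zero_mul]
      by_cases k2 : l ^ (n : ℕ) * s = w
      · rw [k2, sub_self, mul_zero, zero_mul]
      rw [hc n k1 k2, mul_zero])
    (by rw [Fintype.card_fin]; apply Nat.lt_succ_of_le; compute_degree)
  rcases mul_eq_zero.1 z with z | z
  · rcases mul_eq_zero.1 z with z | z <;> exact Polynomial.X_sub_C_ne_zero _ z
  · have := congrArg (Polynomial.eval 0) z
    simp at this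
    exact hp this

theorem rij_dot (d : ι → F) : (ε i - m⁻¹ • ε j) ⬝ᵥ d = ε i ⬝ᵥ d - m⁻¹ * (ε j ⬝ᵥ d) := by
  rw [sub_dotProduct, smul_dotProduct, smul_eq_mul]

theorem dot_rij (f : ι → F) : f ⬝ᵥ (e i - m • e j) = f ⬝ᵥ e i - m * (f ⬝ᵥ e j) := by
  rw [dotProduct_sub, dotProduct_smul, smul_eq_mul]

/-- A root of weight zero at all places is orthogonal to the frame. -/
theorem zero_case (hT : ∀ g ∈ P, ¬ IsTv g) (h2 : (2 : F) ≠ 0) (h : Sys3 P e ε l) (hd : Rt P d f)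
    (hp : ∀ i, (ε i ⬝ᵥ d) * (f ⬝ᵥ e i) = 0) (i : Fin 3) : ε i ⬝ᵥ d = 0 ∧ f ⬝ᵥ e i = 0 := by
  have l0 := h.ne
  have l1 : l ≠ 1 := fun k => h.sq (by rw [k, one_pow])
  have A : ∀ {m}, Mu P e ε m → ∀ {i j}, i ≠ j → f ⬝ᵥ e i = 0 → f ⬝ᵥ e j = 0 →
      ε i ⬝ᵥ d - m⁻¹ * (ε j ⬝ᵥ d) = 0 := fun hm i j hij k1 k2 => by
    rw [← rij_dot]
    exact hd.orth_symm hT h2 (hm.2 i j hij) (by rw [dot_rij, k1, k2, mul_zero, sub_zero])
  have B : ∀ {m}, Mu P e ε m → ∀ {i j}, i ≠ j → ε i ⬝ᵥ d = 0 → ε j ⬝ᵥ d = 0 →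
      f ⬝ᵥ e i - m * (f ⬝ᵥ e j) = 0 := fun hm i j hij k1 k2 => by
    rw [← dot_rij]
    exact Rt.orth_symm hT h2 (hm.2 i j hij) hd (by rw [rij_dot, k1, k2, mul_zero, sub_zero])
  have A' : ∀ {i j}, i ≠ j → f ⬝ᵥ e i = 0 → f ⬝ᵥ e j = 0 → ε i ⬝ᵥ d = 0 := fun hij k1 k2 => by
    have e1 := A (mu_one h) hij k1 k2
    have e2 := A (mu_self h) hij k1 k2
    field_simp at e1 e2
    exact mul_left_cancel₀ (sub_ne_zero.2 l1) (by linear_combination e2 - e1)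
  have B' : ∀ {i j}, i ≠ j → ε i ⬝ᵥ d = 0 → ε j ⬝ᵥ d = 0 → f ⬝ᵥ e j = 0 := fun hij k1 k2 =>
    mul_left_cancel₀ (sub_ne_zero.2 l1)
      (by linear_combination B (mu_one h) hij k1 k2 - B (mu_self h) hij k1 k2)
  have D : ∀ i, ε i ⬝ᵥ d = 0 := by
    intro i
    by_contra hi
    have fi := (mul_eq_zero.1 (hp i)).resolve_left hi
    have o : ∀ j, i ≠ j → ε j ⬝ᵥ d = 0 := fun j hj =>
      (mul_eq_zero.1 (hp j)).resolve_right fun k => hi (A' hj fi k)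
    obtain ⟨j, hj⟩ := exists_ne i
    obtain ⟨k, k1, k2⟩ := exists_third hj.symm
    exact hi (A' hj.symm fi (B' k2 (o k k1) (o j hj.symm)))
  obtain ⟨j, hj⟩ := exists_ne i
  exact ⟨D i, B' hj (D j) (D i)⟩

/-- Two places of different weight. -/
theorem ne_case (hM : MT1 P) (h : Sys3 P e ε l) (h3 : l ^ 2 + l + 1 ≠ 0) (hd : Rt P d f)
    (hij : i ≠ j) (hne : (ε i ⬝ᵥ d) * (f ⬝ᵥ e i) ≠ (ε j ⬝ᵥ d) * (f ⬝ᵥ e j)) :
    (ε i ⬝ᵥ d) * (f ⬝ᵥ e j) = 0 ∧ (ε j ⬝ᵥ d) * (f ⬝ᵥ e i) = 0 ∧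
      (ε i ⬝ᵥ d) * (f ⬝ᵥ e i) + (ε j ⬝ᵥ d) * (f ⬝ᵥ e j) = 1 := by
  have fr := h.fr
  have l0 := h.ne
  have l1 : l ≠ 1 := fun k => h.sq (by rw [k, one_pow])
  have X : ∀ m, Mu P e ε m → (ε i ⬝ᵥ d) * (f ⬝ᵥ e j) * m ^ 2 +
      (1 - ((ε i ⬝ᵥ d) * (f ⬝ᵥ e i) + (ε j ⬝ᵥ d) * (f ⬝ᵥ e j))) * m +
      (ε j ⬝ᵥ d) * (f ⬝ᵥ e i) = 0 := by
    intro m hm
    have m0 := hm.1
    have key := hM _ _ _ _ _ _ (hm.2 i j hij) ((hm.mul fr (mu_self h)).2 i j hij) hd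
    simp only [xx, yy, rij_dot, dot_rij, fr_same fr, fr_ne fr hij, fr_ne fr hij.symm, mul_zero,
      sub_zero, mul_one, zero_sub] at key
    have fin : (ε i ⬝ᵥ d - m⁻¹ * ε j ⬝ᵥ d) * (f ⬝ᵥ e i - m * f ⬝ᵥ e j) = 1 := by
      rcases key (fun k => by
        field_simp at k
        exact hne (mul_left_cancel₀ (mul_ne_zero m0 (sub_ne_zero.2 h.sq))
          (by linear_combination k))) with k | k | k
      · exact k.2
      · have k1 := k.1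
        field_simp at k1
        exact absurd (by linear_combination k1) h3
      · exact k.1
    field_simp at fin
    linear_combination -fin
  obtain ⟨k1, k2, k3⟩ := three_roots (Ne.symm l1) (Ne.symm h.sq)
    (fun k => l1 (mul_left_cancel₀ l0 (by rw [mul_one, ← sq]; exact k.symm)))
    (X _ (mu_one h)) (X _ (mu_self h)) (X _ (mu_pow h 2))
  exact ⟨k1, k3, by linear_combination -k2⟩

/-- All places of the same non-zero weight. -/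
theorem eq_case (hM : MT1 P) (h : Sys3 P e ε l) (h3 : l ^ 2 + l + 1 ≠ 0) (h4 : l ^ 2 + 1 ≠ 0)
    (hd : Rt P d f) {p : F} (hp : p ≠ 0) (he : ∀ i, (ε i ⬝ᵥ d) * (f ⬝ᵥ e i) = p) : False := by
  have fr := h.fr
  have d0 : ∀ i, ε i ⬝ᵥ d ≠ 0 := fun i k => hp (by rw [← he i, k, zero_mul])
  have f0 : ∀ i, f ⬝ᵥ e i = p / (ε i ⬝ᵥ d) := fun i => by
    rw [eq_div_iff (d0 i), mul_comm, he i]
  obtain ⟨n₁, s1, -, s2⟩ := exists_avoid h.ne h.sq h4 h3 (div_ne_zero (d0 0) (d0 1)) hp 1 1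
    (1 - 2 * p)
  obtain ⟨n₂, t1, t2, t3⟩ := exists_avoid h.ne h.sq h4 h3 (div_ne_zero (d0 1) (d0 2)) hp 1
    (l ^ n₁ * (ε 0 ⬝ᵥ d / ε 1 ⬝ᵥ d))⁻¹ (1 - 2 * p)
  have hm := mu_pow h n₁
  have hk := mu_pow h n₂
  generalize l ^ n₁ = m at *
  generalize l ^ n₂ = k at *
  have key := hM _ _ _ _ _ _ (hm.2 0 1 (by decide)) (hk.2 1 2 (by decide)) hd
  simp only [xx, yy, rij_dot, dot_rij, fr _ _, f0] at key
  have m0 := hm.1
  have k0 := hk.1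
  have x0 := d0 0
  have x1 := d0 1
  have x2 := d0 2
  generalize ε 0 ⬝ᵥ d = x at *
  generalize ε 1 ⬝ᵥ d = y at *
  generalize ε 2 ⬝ᵥ d = z at *
  simp only [Fin.reduceEq, if_true, if_false] at key
  have s1' : m * x - y ≠ 0 := fun q => s1 (by field_simp; linear_combination q)
  have t1' : k * y - z ≠ 0 := fun q => t1 (by field_simp; linear_combination q)
  have t2' : m * k * x - z ≠ 0 := fun q => t2 (by field_simp; linear_combination q)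
  rcases key (fun q => by
    field_simp at q
    exact mul_ne_zero (mul_ne_zero s1' t1') t2' (by linear_combination -q)) with q | q | q
  · have q2 := q.2
    field_simp at q2
    exact s2 (by field_simp; linear_combination -q2)
  · have q2 := q.2
    field_simp at q2
    exact t3 (by field_simp; linear_combination -q2)
  · have q2 := q.1
    field_simp at q2
    exact s2 (by field_simp; linear_combination -q2)

theorem pat_of (hT : ∀ g ∈ P, ¬ IsTv g) (h2 : (2 : F) ≠ 0) (hM : MT1 P) (h : Sys3 P e ε l)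
    (h3 : l ^ 2 + l + 1 ≠ 0) (h4 : l ^ 2 + 1 ≠ 0) : Pat01 P e ε := by
  intro d f hd
  by_cases hc : ∀ i, (ε i ⬝ᵥ d) * (f ⬝ᵥ e i) = (ε 0 ⬝ᵥ d) * (f ⬝ᵥ e 0)
  · by_cases hp : (ε 0 ⬝ᵥ d) * (f ⬝ᵥ e 0) = 0
    · have := zero_case hT h2 h hd fun i => (hc i).trans hp
      exact ⟨fun i => .inl (this i), 0, (this 0).1⟩
    · exact (eq_case hM h h3 h4 hd hp hc).elim
  have two : ∀ i j, (ε i ⬝ᵥ d) * (f ⬝ᵥ e i) ≠ (ε j ⬝ᵥ d) * (f ⬝ᵥ e j) →
      (ε i ⬝ᵥ d = 0 ∧ f ⬝ᵥ e i = 0) ∨ ((ε i ⬝ᵥ d) * (f ⬝ᵥ e i) = 1 ∧ ε j ⬝ᵥ d = 0) := by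
    intro i j hne
    obtain ⟨k1, k2, k3⟩ := ne_case hM h h3 hd (fun k => hne (by rw [k])) hne
    by_cases di : ε i ⬝ᵥ d = 0
    · refine .inl ⟨di, (mul_eq_zero.1 k2).resolve_left fun dj => ?_⟩
      rw [di, dj] at k3
      simp at k3
    · have fj := (mul_eq_zero.1 k1).resolve_left di
      rw [fj, mul_zero, add_zero] at k3
      exact .inr ⟨k3, (mul_eq_zero.1 k2).resolve_right fun fi => by rw [fi] at k3; simp at k3⟩
  push Not at hc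
  obtain ⟨j, hj⟩ := hc
  refine ⟨fun i => ?_, (two j 0 hj).elim (fun k => ⟨j, k.1⟩) fun k => ⟨0, k.2⟩⟩
  by_cases hi : (ε i ⬝ᵥ d) * (f ⬝ᵥ e i) = (ε j ⬝ᵥ d) * (f ⬝ᵥ e j)
  · exact (two i 0 (hi ▸ hj)).imp_right And.left
  · exact (two i j hi).imp_right And.left

theorem cube [Nontrivial ι] (hq : QS P) (hT : ∀ g ∈ P, ¬ IsTv g) (h2 : (2 : F) ≠ 0) (h4 : ¬ O4 P)
    (hM : MT1 P) (h : Sys3 P e ε l) : l ^ 2 + l + 1 = 0 := by
  by_contra h3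
  refine not_pat hq hT h2 h (pat_of hT h2 hM h h3 fun k => h4 ?_)
  have n01 : (0 : Fin 3) ≠ 1 := by decide
  refine ⟨_, _, _, _, (mu_one h).2 0 1 n01, (mu_self h).2 0 1 n01, ?_⟩
  have l0 := h.ne
  simp only [xx, rij_dot, dot_rij, fr_same h.fr, fr_ne h.fr n01, fr_ne h.fr n01.symm]
  field_simp
  linear_combination k

theorem sys_of_norm (ha : Rt P a φ) (hb : Rt P b ψ) (hc : Rt P c χ) (l0 : l ≠ 0) (h : l ^ 2 ≠ 1)
    (e1 : φ ⬝ᵥ b = -1) (e2 : ψ ⬝ᵥ a = -1) (e3 : ψ ⬝ᵥ c = -1) (e4 : χ ⬝ᵥ b = -1)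
    (e5 : φ ⬝ᵥ c = -l) (e6 : χ ⬝ᵥ a = -l⁻¹) : ∃ e ε, Sys3 P e ε l := by
  have l1 : 1 - l ≠ 0 := fun k => h (by rw [← sub_eq_zero.1 k, one_pow])
  have l2 : l - 1 ≠ 0 := fun k => l1 (by linear_combination -k)
  refine ⟨![(1 - l)⁻¹ • (a + b + c), (1 - l)⁻¹ • (a + b + c) - a, (1 - l)⁻¹ • (a + b + c) - a - b],
    ![(l / (l - 1)) • (φ + ψ + χ), (l / (l - 1)) • (φ + ψ + χ) - φ,
      (l / (l - 1)) • (φ + ψ + χ) - φ - ψ], fun i j => ?_, l0, h, ha.congr ?_ ?_, hb.congr ?_ ?_,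
    hc.congr ?_ ?_⟩
  · fin_cases i <;> fin_cases j <;>
      simp [add_dotProduct, dotProduct_add, ha.1, hb.1, hc.1, e1, e2, e3, e4, e5, e6] <;>
      field_simp <;> ring
  · simp
  · simp
  · simp
  · simp
  · simp only [cons_val]
    match_scalars <;> field_simp <;> ring
  · simp only [cons_val]
    match_scalars <;> field_simp <;> ring

theorem sys_of_one (ha : Rt P a φ) (hb : Rt P b ψ) (hc : Rt P c χ) (x1 : xx a φ b ψ = 1)
    (x2 : xx a φ c χ = 1) (x3 : xx b ψ c χ = 1) (hne : yy a φ b ψ c χ ≠ yy a φ c χ b ψ) :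
    ∃ e ε, Sys3 P e ε (-yy a φ c χ b ψ) := by
  simp only [xx, yy] at *
  have n1 : ψ ⬝ᵥ a ≠ 0 := right_ne_zero_of_mul_eq_one x1
  have n2 : φ ⬝ᵥ c ≠ 0 := left_ne_zero_of_mul_eq_one x2
  have n3 : χ ⬝ᵥ b ≠ 0 := right_ne_zero_of_mul_eq_one x3
  have v1 := eq_inv_of_mul_eq_one_left x1
  have v2 := eq_inv_of_mul_eq_one_right x2
  have v3 := eq_inv_of_mul_eq_one_left x3
  refine sys_of_norm ha (hb.smul (neg_ne_zero.2 n1)) (hc.smul (mul_ne_zero n1 n3))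
    (neg_ne_zero.2 (mul_ne_zero (mul_ne_zero n2 n3) n1)) (fun k => hne ?_) ?_ ?_ ?_ ?_ ?_ ?_
  · rw [v1, v2, v3]
    field_simp
    linear_combination -k
  all_goals
    simp only [smul_dotProduct, dotProduct_smul, smul_eq_mul, v1, v2, v3]
    field_simp

theorem two_ones [Nontrivial ι] (hq : QS P) (hT : ∀ g ∈ P, ¬ IsTv g) (h2 : (2 : F) ≠ 0)
    (h4 : ¬ O4 P) (hM : MT1 P) (ha : Rt P a φ) (hb : Rt P b ψ) (hc : Rt P c χ)
    (x2 : xx a φ c χ = 1) (x3 : xx b ψ c χ = 1) (hne : yy a φ b ψ c χ ≠ yy a φ c χ b ψ) :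
    xx a φ b ψ = 1 := by
  by_contra x1
  have k1 := hM _ _ _ _ _ _ ha hb (ha.refl hc)
  have k2 := sys_of_one (hc.refl ha) hb hc
  simp only [xx, yy, sub_dotProduct, dotProduct_sub, smul_dotProduct, dotProduct_smul, smul_eq_mul,
    ha.1, hc.1] at k1 k2 x1 x2 x3 hne
  have s : φ ⬝ᵥ b * ψ ⬝ᵥ c * χ ⬝ᵥ a + φ ⬝ᵥ c * χ ⬝ᵥ b * ψ ⬝ᵥ a = φ ⬝ᵥ b * ψ ⬝ᵥ a := by
    rcases k1 (fun k => hne (by linear_combination -k)) with k | k | k
    · exact absurd k.1 x1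
    · exact absurd k.1 x1
    · linear_combination -k.2 + x3 + (φ ⬝ᵥ b * ψ ⬝ᵥ a) * x2
  obtain ⟨e, ε, hs⟩ := k2 (by linear_combination -s + (ψ ⬝ᵥ c * χ ⬝ᵥ b) * x2 + x3)
    (by linear_combination x2) x3 (fun k => hne (by linear_combination -k))
  have q := cube hq hT h2 h4 hM hs
  have aux : ∀ x y z : F, y * z = x → y + z = x → (z - 1) ^ 2 + (z - 1) + 1 = 0 → x = 1 :=
    fun x y z k1 k2 k3 => by linear_combination (y - 1) * k3 - z * k1 + (z - 1) * k2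
  have e1 : -((φ ⬝ᵥ c - φ ⬝ᵥ c * 2) * χ ⬝ᵥ b * (ψ ⬝ᵥ a - χ ⬝ᵥ a * ψ ⬝ᵥ c)) =
      φ ⬝ᵥ c * χ ⬝ᵥ b * ψ ⬝ᵥ a - 1 := by linear_combination -(ψ ⬝ᵥ c * χ ⬝ᵥ b) * x2 - x3
  rw [e1] at q
  exact x1 (aux _ _ _ (by
    linear_combination (φ ⬝ᵥ b * ψ ⬝ᵥ a) * ((ψ ⬝ᵥ c * χ ⬝ᵥ b) * x2 + x3)) s q)

theorem all_one [Nontrivial ι] (hq : QS P) (hT : ∀ g ∈ P, ¬ IsTv g) (h2 : (2 : F) ≠ 0)
    (h4 : ¬ O4 P) (hM : MT1 P) : MT3 P := by
  intro a φ b ψ c χ ha hb hc hne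
  rcases hM _ _ _ _ _ _ ha hb hc hne with k | k | k
  · exact k.1
  · exact k.1
  · exact two_ones hq hT h2 h4 hM ha hb hc k.1 k.2 hne

end RM1

/-- An asymmetric triple gives `G(3, 3, 3)`. -/
theorem wSys : WSys.{u} := by
  intro F _ _ P hP h4 hM hS
  have h3 := RM1.all_one hP.qs hP.nt hP.two h4 hM
  refine ⟨h3, ?_⟩
  simp only [Sym3, not_forall] at hS
  obtain ⟨a, φ, b, ψ, c, χ, ha, hb, hc, hne⟩ := hS
  obtain ⟨e, ε, hs⟩ := RM1.sys_of_one ha hb hc (h3 _ _ _ _ _ _ ha hb hc hne)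
    (h3 _ _ _ _ _ _ ha hc hb (Ne.symm hne))
    (h3 _ _ _ _ _ _ hb hc ha fun k => hne (by simp only [yy] at k ⊢; linear_combination k)) hne
  exact ⟨e, ε, _, hs, RM1.cube hP.qs hP.nt hP.two h4 hM hs⟩

end Cfsg.Lib.Five
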