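import Cfsg.Agent.Class.Five.RDefs

/-!
# The 45 roots
-/

set_option autoImplicit false

namespace Cfsg.Lib.Five

open Matrix Cfsg.Geo Cfsg.Lib.Class Cfsg.Lib.Class.Asch Cfsg.Lib.Mit

universe u

namespace RM2

variable {ι : Type} [Fintype ι] {F : Type*} [Field F]

/-- The properties of the set of roots that are used. -/
structure RS (R : (ι → F) → (ι → F) → Prop) (ω : F) : Prop where
  om : ω ^ 2 + ω + 1 = 0
  three : (3 : F) ≠ 0
  two : (2 : F) ≠ 0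
  dot : ∀ {a φ}, R a φ → φ ⬝ᵥ a = 2
  smul : ∀ {a φ}, R a φ → ∀ {k : F}, k ≠ 0 → R (k • a) (k⁻¹ • φ)
  refl : ∀ {a φ b ψ}, R a φ → R b ψ → R (b - (φ ⬝ᵥ b) • a) (ψ - (ψ ⬝ᵥ a) • φ)
  co : ∀ {a φ ψ}, R a φ → R a ψ → φ = ψ
  ro : ∀ {a b φ}, R a φ → R b φ → a = b
  orth : ∀ {a φ b ψ}, R a φ → R b ψ → φ ⬝ᵥ b = 0 → ψ ⬝ᵥ a = 0
  mt : ∀ {a φ b ψ c χ}, R a φ → R b ψ → R c χ →
    yy a φ b ψ c χ = yy a φ c χ b ψ ∨ xx a φ b ψ = 1

variable {R : (ι → F) → (ι → F) → Prop} {ω : F} {n : ℕ} {e ε : Fin n → ι → F} {i j k : Fin n}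
  {d f : ι → F} {m l : F}

theorem RS.cases (h : RS R ω) (hm : m ^ 3 = 1) : m = 1 ∨ m = ω ∨ m = ω ^ 2 := by
  have := h.om
  have : (m - 1) * ((m - ω) * (m - ω ^ 2)) = 0 := by grind
  simpa only [mul_eq_zero, sub_eq_zero] using this

theorem RS.cube (h : RS R ω) : ω ^ 3 = 1 := by have := h.om; grind

theorem RS.zero (h : RS R ω) {A B C : F} (k : ∀ m, m ^ 3 = 1 → A + m * B + m ^ 2 * C = 0) :
    A = 0 ∧ B = 0 ∧ C = 0 := by
  have := h.om
  have k1 := k 1 (by ring)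
  have k2 := k ω h.cube
  have k3 := k (ω ^ 2) (by grind)
  refine ⟨mul_left_cancel₀ h.three ?_, mul_left_cancel₀ h.three ?_, mul_left_cancel₀ h.three ?_⟩ <;>
    grind

theorem RS.congr {a φ b ψ : ι → F} (h : R a φ) (e₁ : a = b) (e₂ : φ = ψ) : R b ψ := e₁ ▸ e₂ ▸ h

/-- The root `e i - m e j`. -/
def RR (R : (ι → F) → (ι → F) → Prop) (e ε : Fin n → ι → F) (i j : Fin n) (m : F) : Prop :=
  R (e i - m • e j) (ε i - m ^ 2 • ε j)

theorem RR.symm (h : RS R ω) (hm : m ^ 3 = 1) (r : RR R e ε i j m) : RR R e ε j i (m ^ 2) := by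
  have h0 : -m ^ 2 ≠ 0 := by grind
  refine RS.congr (h.smul r h0) ?_ ?_
  · ext x; simp; grind
  · ext x; simp; grind

theorem RR.trans (h : RS R ω) (hf : Fr e ε) (hm : m ^ 3 = 1) (r : RR R e ε i j m)
    (r' : RR R e ε j k l) (h1 : i ≠ j := by decide) (h2 : j ≠ k := by decide)
    (h3 : i ≠ k := by decide) : RR R e ε i k (m * l) := by
  have h0 : m ≠ 0 := by grind
  refine RS.congr (h.smul (h.refl r r') h0) ?_ ?_
  · ext x; simp [hf _ _, h1, h2, h3]; grind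
  · ext x; simp [hf _ _, h1.symm, h2.symm, h3.symm]; grind

/-- A frame with all roots of `G(3, 3, n)`. -/
structure FG (R : (ι → F) → (ι → F) → Prop) (e ε : Fin n → ι → F) : Prop where
  fr : Fr e ε
  rt : ∀ i j, i ≠ j → ∀ m, m ^ 3 = 1 → RR R e ε i j m

theorem FG.of_om (h : RS R ω) (hf : Fr e ε) (h1 : ∀ i j, i ≠ j → RR R e ε i j 1)
    (h2 : ∀ i j, i ≠ j → RR R e ε i j ω) : FG R e ε := ⟨hf, fun i j hij m hm => by
  rcases h.cases hm with rfl | rfl | rfl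
  exacts [h1 i j hij, h2 i j hij, (h2 j i hij.symm).symm h h.cube]⟩

theorem FG.three (h : RS R ω) {e ε : Fin 3 → ι → F} (hf : Fr e ε) (a : RR R e ε 0 1 1)
    (b : RR R e ε 1 2 1) (c : RR R e ε 2 0 ω) : FG R e ε := by
  have o : (1 : F) ^ 3 = 1 := one_pow 3
  have a' := a.trans h hf o b
  have c1 := c.trans h hf h.cube a
  have c2 := b.trans h hf o c
  have c3 := a'.trans h hf (by simp) c1
  have c4 := c2.trans h hf (by simp [h.cube]) a'
  have c5 := c3.trans h hf (by simp [h.cube]) b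
  have s1 := a.symm h o
  have s2 := b.symm h o
  have s3 := a'.symm h (by simp)
  simp only [mul_one, one_mul, one_pow] at *
  refine .of_om h hf (fun i j hij => ?_) fun i j hij => ?_ <;> fin_cases i <;> fin_cases j <;>
    first | exact absurd rfl hij | assumption

theorem FG.comp (g : FG R e ε) {s : ℕ} {σ : Fin s → Fin n} (hσ : Function.Injective σ) :
    FG R (e ∘ σ) (ε ∘ σ) :=
  ⟨fun i j => by simp [g.fr _ _, hσ.eq_iff], fun i j hij => g.rt _ _ (hσ.ne hij)⟩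

theorem FG.four (h : RS R ω) {e ε : Fin 4 → ι → F} (hf : Fr e ε)
    (g : FG R (e ∘ Fin.castSucc) (ε ∘ Fin.castSucc)) (a : RR R e ε 0 3 1) : FG R e ε := by
  have o : (1 : F) ^ 3 = 1 := one_pow 3
  have s := a.symm h o
  have k1 : ∀ m, m ^ 3 = 1 → RR R e ε 3 1 m := fun m hm => by
    simpa using s.trans h hf (by simp) (show RR R e ε 0 1 m from g.rt 0 1 (by decide) m hm)
  have k : ∀ j : Fin 3, ∀ m, m ^ 3 = 1 → RR R e ε 3 j.castSucc m := fun j m hm => by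
    fin_cases j
    · simpa using (k1 m hm).trans h hf hm (show RR R e ε 1 0 1 from g.rt 1 0 (by decide) 1 o)
    · exact k1 m hm
    · simpa using s.trans h hf (by simp) (show RR R e ε 0 2 m from g.rt 0 2 (by decide) m hm)
  refine ⟨hf, fun i j hij m hm => ?_⟩
  induction i using Fin.lastCases with
  | last =>
    induction j using Fin.lastCases with
    | last => exact absurd rfl hij
    | cast j => exact k j m hm
  | cast i =>
    induction j using Fin.lastCases with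
    | last => exact (show (m ^ 2) ^ 2 = m by grind) ▸ (k i (m ^ 2) (by grind)).symm h (by grind)
    | cast j => exact g.rt i j (fun e => hij (e ▸ rfl)) m hm

theorem FG.scale (h : RS R ω) (g : FG R e ε) {t : Fin n → F} (ht : ∀ i, t i ^ 3 = 1) :
    FG R (fun i => t i • e i) fun i => t i ^ 2 • ε i := by
  refine ⟨fun i j => ?_, fun i j hij m hm => ?_⟩
  · have := ht i
    simp only [smul_dotProduct, dotProduct_smul, g.fr _ _, smul_eq_mul]
    split_ifs with e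
    · grind
    · simp
  have h1 := ht i
  have h2 := ht j
  refine RS.congr (h.smul (g.rt i j hij (m * t j * t i ^ 2) (by grind)) (k := t i) (by grind)) ?_ ?_
  · ext x; simp; grind
  · ext x; simp; grind

theorem FG.pair (h : RS R ω) (g : FG R e ε) (hij : i ≠ j) (hd : R d f) :
    ε i ⬝ᵥ d * f ⬝ᵥ e i = ε j ⬝ᵥ d * f ⬝ᵥ e j ∨ (ε i ⬝ᵥ d * f ⬝ᵥ e j = 0 ∧ ε j ⬝ᵥ d * f ⬝ᵥ e i = 0 ∧
      ε i ⬝ᵥ d * f ⬝ᵥ e i + ε j ⬝ᵥ d * f ⬝ᵥ e j = 1) := by
  have h1 := h.om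
  have h3 := h.three
  have k := fun m hm => h.mt (g.rt i j hij m hm) hd (g.rt i j hij (ω * m) (by grind))
  simp only [xx, yy, sub_dotProduct, dotProduct_sub, smul_dotProduct, dotProduct_smul, g.fr _ _,
    hij, hij.symm, if_true, if_false, smul_eq_mul] at k
  refine or_iff_not_imp_left.2 fun hp => ?_
  have := h.zero (A := 1 - (ε i ⬝ᵥ d * f ⬝ᵥ e i + ε j ⬝ᵥ d * f ⬝ᵥ e j)) (B := ε i ⬝ᵥ d * f ⬝ᵥ e j)
    (C := ε j ⬝ᵥ d * f ⬝ᵥ e i) fun m hm => by
      have := (k m hm).resolve_left fun e => by grind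
      grind
  exact ⟨this.2.1, this.2.2, (sub_eq_zero.1 this.1).symm⟩

theorem FG.orth (h : RS R ω) (g : FG R e ε) (hij : i ≠ j) (hd : R d f) :
    ε i ⬝ᵥ d = 0 ∧ ε j ⬝ᵥ d = 0 ↔ f ⬝ᵥ e i = 0 ∧ f ⬝ᵥ e j = 0 := by
  have h1 := h.om
  have h3 := h.three
  have k := fun m hm => h.orth (g.rt i j hij m hm) hd
  have k' := fun m hm => h.orth hd (g.rt i j hij m hm)
  simp only [sub_dotProduct, dotProduct_sub, smul_dotProduct, dotProduct_smul, smul_eq_mul] at k k'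
  have k1 := k 1 (by ring)
  have k2 := k ω (by grind)
  have k3 := k' 1 (by ring)
  have k4 := k' ω (by grind)
  grind

theorem FG.third (h : RS R ω) (g : FG R e ε) (hij : i ≠ j) (hjk : j ≠ k) (hik : i ≠ k) (hd : R d f)
    {p : F} (hp : p ≠ 0) (e1 : ε i ⬝ᵥ d * f ⬝ᵥ e i = p) (e2 : ε j ⬝ᵥ d * f ⬝ᵥ e j = p)
    (e3 : ε k ⬝ᵥ d * f ⬝ᵥ e k = p) : 3 * p = 1 ∧ (ε i ⬝ᵥ d) ^ 3 = (ε j ⬝ᵥ d) ^ 3 := by
  have h1 := h.om
  have h3 := h.three
  have q := fun m hm l hl => h.mt (g.rt i j hij m hm) hd (g.rt j k hjk l hl)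
  simp only [xx, yy, sub_dotProduct, dotProduct_sub, smul_dotProduct, dotProduct_smul, g.fr _ _,
    hij, hij.symm, hjk, hjk.symm, hik, hik.symm, if_true, if_false, smul_eq_mul] at q
  generalize ε i ⬝ᵥ d = a, ε j ⬝ᵥ d = b, ε k ⬝ᵥ d = c, f ⬝ᵥ e i = x, f ⬝ᵥ e j = y, f ⬝ᵥ e k = z at *
  have q' : ∀ m, m ^ 3 = 1 → m * a ≠ b → (a - m ^ 2 * b) * (x - m * y) = 1 := fun m hm h0 => by
    by_contra h4
    have := h.zero (A := a * b * y + m ^ 2 * p * b) (B := -(a * b * z)) (C := -(m ^ 2 * p * c))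
      fun l hl => mul_left_cancel₀ (sub_ne_zero.2 h0) (by
        linear_combination -(a * b) * (q m hm l hl).resolve_right h4 + a * b ^ 2 * (y - l * z) * hm +
          m ^ 2 * (b - l ^ 2 * c) * (b * e1 - m * a * e2))
    exact pow_ne_zero 2 hp (by grind)
  clear q
  by_cases hm : ∃ m, m ^ 3 = 1 ∧ m * a = b
  · obtain ⟨m, hm, rfl⟩ := hm
    have := q' (ω * m) (by grind) (by grind)
    grind
  have := h.zero (A := 1 - 2 * p) (B := a * y) (C := b * x) fun m hm' => by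
    have := q' m hm' fun e => hm ⟨m, hm', e⟩
    grind
  exact absurd (by grind) (pow_ne_zero 2 hp)

/-- The three indices carry weight one third. -/
def Th (e ε : Fin n → ι → F) (d f : ι → F) : Prop :=
  ∀ i j, 3 * (ε i ⬝ᵥ d * f ⬝ᵥ e i) = 1 ∧ (ε i ⬝ᵥ d) ^ 3 = (ε j ⬝ᵥ d) ^ 3

theorem FG.pat (h : RS R ω) (g : FG R e ε) (hn : 3 ≤ n) (hd : R d f) : Th e ε d f ∨
    (∀ i, (ε i ⬝ᵥ d = 0 ∧ f ⬝ᵥ e i = 0) ∨ ε i ⬝ᵥ d * f ⬝ᵥ e i = 1) ∧
      ∀ i j k, i ≠ j → j ≠ k → i ≠ k → ε i ⬝ᵥ d = 0 ∨ ε j ⬝ᵥ d = 0 ∨ ε k ⬝ᵥ d = 0 := by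
  have h2 := h.two
  have ex : ∀ i j : Fin n, ∃ k, j ≠ k ∧ i ≠ k := fun i j => by
    by_contra! H
    have := H ⟨0, by omega⟩
    have := H ⟨1, by omega⟩
    have := H ⟨2, by omega⟩
    grind
  refine or_iff_not_imp_left.2 fun hT => ?_
  have k : ∀ i j k, i ≠ j → j ≠ k → i ≠ k → ε i ⬝ᵥ d * f ⬝ᵥ e i ≠ 0 → ε j ⬝ᵥ d * f ⬝ᵥ e j ≠ 0 →
      ε k ⬝ᵥ d * f ⬝ᵥ e k = 0 := fun i j k hij hjk hik hi hj => by_contra fun hk => hT (by
    have a := g.pair h hij hd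
    have b := g.pair h hik hd
    have c := (g.third h hij hjk hik hd hi rfl (by grind) (by grind)).1
    have q : ∀ l, ε l ⬝ᵥ d * f ⬝ᵥ e l = ε i ⬝ᵥ d * f ⬝ᵥ e i := fun l => by
      rcases eq_or_ne l i with rfl | hl
      · rfl
      · have := g.pair h hl hd
        grind
    refine fun l s => ⟨q l ▸ c, ?_⟩
    rcases eq_or_ne l s with rfl | hl
    · rfl
    · obtain ⟨t, h3, h4⟩ := ex l s
      exact (g.third h hl h3 h4 hd hi (q _) (q _) (q _)).2)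
  have k' : ∀ i, (ε i ⬝ᵥ d = 0 ∧ f ⬝ᵥ e i = 0) ∨ ε i ⬝ᵥ d * f ⬝ᵥ e i = 1 := fun i => by
    obtain ⟨j, hij, -⟩ := ex i i
    obtain ⟨l, hjl, hil⟩ := ex i j
    have := k i j l hij hjl hil
    have := g.pair h hij hd
    have := g.pair h hjl hd
    have := g.pair h hil hd
    have := g.orth h hij hd
    have := g.orth h hjl hd
    have := g.orth h hil hd
    grind [mul_eq_zero]
  refine ⟨k', fun i j l hij hjl hil => ?_⟩
  have := k i j l hij hjl hil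
  have := k' i
  have := k' j
  have := k' l
  grind [mul_eq_zero]

/-- Normalisation of a root of weight one third. -/
theorem FG.norm (h : RS R ω) (g : FG R e ε) (i : Fin n) (hd : R d f) (hT : Th e ε d f) :
    ∃ (e ε : Fin n → ι → F) (d f : ι → F), FG R e ε ∧ R d f ∧
      ∀ j, ε j ⬝ᵥ d = 1 ∧ 3 * f ⬝ᵥ e j = 1 := by
  have h0 : ε i ⬝ᵥ d ≠ 0 := by have := (hT i i).1; grind
  refine ⟨_, _, _, _, g.scale h (t := fun j => ε j ⬝ᵥ d / ε i ⬝ᵥ d) fun j => ?_,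
    h.smul hd (inv_ne_zero h0), fun j => ?_⟩
  · have := (hT j i).2
    grind
  · have := hT j i
    simp only [smul_dotProduct, dotProduct_smul, smul_eq_mul]
    grind

theorem FG.ext4 (h : RS R ω) {e ε : Fin 3 → ι → F} (g : FG R e ε) (hd : R d f)
    (hT : ∀ j, ε j ⬝ᵥ d = 1 ∧ 3 * f ⬝ᵥ e j = 1) : ∃ e ε : Fin 4 → ι → F, FG R e ε := by
  have h1 := h.om
  have h3 := h.three
  have hf : ∀ j, f ⬝ᵥ e j = 3⁻¹ := fun j => eq_inv_of_mul_eq_one_right (hT j).2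
  have hF : Fr ![e 0 + e 1 + e 2, e 0 + ω • e 1 + ω ^ 2 • e 2, e 0 + ω ^ 2 • e 1 + ω • e 2,
      e 0 + e 1 + e 2 - d] ![(3 : F)⁻¹ • (ε 0 + ε 1 + ε 2),
      (3 : F)⁻¹ • (ε 0 + ω ^ 2 • ε 1 + ω • ε 2), (3 : F)⁻¹ • (ε 0 + ω • ε 1 + ω ^ 2 • ε 2),
      (3 : F)⁻¹ • (ε 0 + ε 1 + ε 2) - f] := fun i j => by
    fin_cases i <;> fin_cases j <;> simp [g.fr _ _, (hT _).1, hf, h.dot hd] <;> grind
  refine ⟨_, _, .four h hF (.three h (fun i j => by simpa using hF i.castSucc j.castSucc) ?_ ?_ ?_)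
    (by simpa [RR] using hd)⟩
  · refine RS.congr (h.smul (g.rt 1 2 (by decide) (ω ^ 2) (by grind)) (k := 1 - ω) (by grind)) ?_ ?_ <;>
      ext x <;> simp <;> grind
  · refine RS.congr (h.smul (g.rt 1 2 (by decide) 1 (by grind)) (k := ω - ω ^ 2) (by grind)) ?_ ?_ <;>
      ext x <;> simp <;> grind
  · refine RS.congr (h.smul (g.rt 0 1 (by decide) ω (by grind)) (k := 1 - ω) (by grind)) ?_ ?_ <;>
      ext x <;> simp <;> grind

theorem dot_cb (hf : Fr e ε) (A : Fin n → F) (i : Fin n) : ε i ⬝ᵥ cb A e = A i := by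
  simp [cb, dotProduct_sum, hf _ _]

theorem cb_dot (hf : Fr e ε) (B : Fin n → F) (i : Fin n) : cb B ε ⬝ᵥ e i = B i := by
  simp [cb, sum_dotProduct, hf _ _]

theorem cb_cb (hf : Fr e ε) (A B : Fin n → F) : cb B ε ⬝ᵥ cb A e = B ⬝ᵥ A := by
  rw [cb, sum_dotProduct]
  simp only [smul_dotProduct, dot_cb hf]
  rfl

omit [Fintype ι] in
theorem cb_smul (c : F) (A : Fin n → F) : cb (c • A) e = c • cb A e := by
  simp [cb, Finset.smul_sum, smul_smul]

omit [Fintype ι] in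
theorem cb_sub (A B : Fin n → F) : cb (A - B) e = cb A e - cb B e := by simp [cb, sub_smul]

omit [Fintype ι] in
theorem cb_single (i : Fin n) : cb (Pi.single i 1) e = e i := by simp [cb, Pi.single_apply]

theorem RS.comap (h : RS R ω) (hf : Fr e ε) : RS (fun A B => R (cb A e) (cb B ε)) ω where
  om := h.om
  three := h.three
  two := h.two
  dot r := cb_cb hf _ _ ▸ h.dot r
  smul r k hk := by simpa only [cb_smul] using h.smul r hk
  refl r r' := by simpa only [cb_smul, cb_sub, cb_cb hf] using h.refl r r'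
  co r r' := funext fun i => by simpa only [cb_dot hf] using congrArg (· ⬝ᵥ e i) (h.co r r')
  ro r r' := funext fun i => by simpa only [dot_cb hf] using congrArg (ε i ⬝ᵥ ·) (h.ro r r')
  orth r r' := by simpa only [cb_cb hf] using h.orth r r'
  mt r r' r'' := by simpa only [xx, yy, cb_cb hf] using h.mt r r' r''

theorem exists_cb {e ε : Fin n → Fin n → F} (hf : Fr e ε) (a φ : Fin n → F) :
    ∃ A B, a = cb A e ∧ φ = cb B ε := by
  have h1 : of ε * (of e)ᵀ = 1 := by ext i j; exact hf i j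
  have h2 := mul_eq_one_comm.1 h1
  refine ⟨of ε *ᵥ a, φ ᵥ* (of e)ᵀ, ?_, ?_⟩
  · conv_lhs => rw [← one_mulVec a, ← h2, ← mulVec_mulVec, mulVec_transpose, vecMul_eq_sum]
    rfl
  · conv_lhs => rw [← vecMul_one φ, ← h2, ← vecMul_vecMul, vecMul_eq_sum]
    rfl

/-- The first four standard basis vectors. -/
abbrev st (F : Type*) [Field F] (i : Fin 4) : Fin 5 → F := Pi.single i.castSucc 1

/-- The standard configuration. -/
structure SC (R : (Fin 5 → F) → (Fin 5 → F) → Prop) (ω : F) : Prop where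
  rs : RS R ω
  fg : FG R (st F) (st F)
  one : R ![1, 1, 1, 1, 1] ((1 / 3 : F) • ![1, 1, 1, 1, 2])

namespace SC

variable {R : (Fin 5 → F) → (Fin 5 → F) → Prop} {A B t : Fin 5 → F}

theorem rt (h : SC R ω) (i j : Fin 5) (hm : m ^ 3 = 1) (hij : i ≠ j := by decide)
    (hi : i ≠ 4 := by decide) (hj : j ≠ 4 := by decide) :
    R (Pi.single i 1 - Pi.single j m) (Pi.single i 1 - Pi.single j (m ^ 2)) := by
  obtain ⟨i, rfl⟩ := Fin.exists_castSucc_eq.2 hi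
  obtain ⟨j, rfl⟩ := Fin.exists_castSucc_eq.2 hj
  simpa [RR, ← Pi.single_smul] using h.fg.rt i j (fun e => hij (e ▸ rfl)) m hm

theorem dg (h : SC R ω) (r : R A B) (ht : ∀ x, t x ^ 3 = 1) (h4 : t 4 = 1)
    (hp : t 0 * t 1 * t 2 * t 3 = 1) : R (t * A) (t ^ 2 * B) := by
  have := ht 0
  have := ht 1
  have := ht 2
  have := ht 3
  have o := one_pow (M := F) 3
  refine RS.congr (h.rs.refl (h.rt 2 3 (ht 3)) (h.rs.refl (h.rt 2 3 o) (h.rs.refl
    (h.rt 1 2 (m := t 2 * t 3) (by grind)) (h.rs.refl (h.rt 1 2 o) (h.rs.refl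
    (h.rt 0 1 (m := t 0 ^ 2) (by grind)) (h.rs.refl (h.rt 0 1 o) r)))))) ?_ ?_ <;> ext x <;>
    fin_cases x <;> simp <;> grind

theorem tt (h : SC R ω) {a b c d : F} (ha : a ^ 3 = 1) (hb : b ^ 3 = 1) (hc : c ^ 3 = 1)
    (hd : d ^ 3 = 1) (hp : a * b * c * d = 1) :
    R ![a, b, c, d, 1] ((1 / 3 : F) • ![a ^ 2, b ^ 2, c ^ 2, d ^ 2, 2]) := by
  refine RS.congr (h.dg h.one (t := ![a, b, c, d, 1]) (fun x => ?_) rfl hp) ?_ ?_
  · fin_cases x <;> simp [*]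
  all_goals ext x; fin_cases x <;> simp <;> ring

theorem eq_one (h : SC R ω) {c c' : F} (r : R ![1, 1, 1, 1, c] ((1 / 3 : F) • ![1, 1, 1, 1, c'])) :
    c = 1 ∧ c' = 2 := by
  have h1 := h.rs.om
  have h2 := h.rs.two
  have h3 := h.rs.three
  have o := h.rs.cube
  have a := h.rt 0 1 o
  have k0 := h.rs.dot r
  have k1 := h.rs.mt r (h.tt (a := 1) (b := 1) (c := ω) (d := ω ^ 2) (by ring) (by ring) o (by grind)
    (by grind)) a
  have k2 := h.rs.mt r (h.tt (d := 1) o o o (by ring) (by grind)) a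
  simp [xx, yy] at k0 k1 k2
  have e0 : c * c' = 2 := by field_simp at k0; linear_combination k0
  have e1 : (c - 1) * ((c - 1) * (c + 1)) = 0 := mul_left_cancel₀ h2 (by
    rcases k1 with e | e <;> field_simp at e
    · have : c' = 2 * c := mul_left_cancel₀ h3 (by grind)
      linear_combination (c - 1) * (e0 - c * this)
    · have : 2 * c + c' = 4 := by grind
      linear_combination (c + 1) * (c * this - e0))
  have k4 : c + 1 ≠ 0 := fun e => by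
    obtain rfl : c = -1 := by grind
    obtain rfl : c' = -2 := by grind
    rcases k2 with e | e <;> field_simp at e
    · have : 3 * (2 * ω + 1) = 0 := by grind
      exact pow_ne_zero 2 h3 (by linear_combination -(2 * ω + 1) * this + 12 * h1)
    · exact pow_ne_zero 2 h2 (by grind)
  obtain rfl : c = 1 := by simpa [k4, sub_eq_zero] using e1
  grind

theorem not_zero (h : SC R ω) {c c' : F} : ¬ R ![0, 0, 0, 0, c] ![0, 0, 0, 0, c'] := fun r => by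
  have h1 := h.rs.om
  have h3 := h.rs.three
  obtain ⟨s, hs⟩ : ∃ s : F, 3 * s = 1 := ⟨_, mul_inv_cancel₀ h3⟩
  obtain ⟨u, hu⟩ : ∃ s : F, 2 * s = 1 := ⟨_, mul_inv_cancel₀ h.rs.two⟩
  have o := h.rs.cube
  have k0 := h.rs.dot r
  have k1 := h.rs.mt r h.one (h.tt (d := 1) o o o (by ring) (by grind))
  simp [xx, yy, one_div, ← eq_inv_of_mul_eq_one_right hs] at k0 k1
  grind

theorem not_one (h : SC R ω) {a b c c' : F} (hab : a * b = 1) :
    ¬ R ![a, 0, 0, 0, c] ![b, 0, 0, 0, c'] := fun r => by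
  have h1 := h.rs.om
  have h3 := h.rs.three
  have k0 := h.rs.dot r
  have k : ∀ t, t ^ 3 = 1 → 2 * (b * c * t) ^ 2 + 1 = 0 := fun t ht => by
    have q := h.tt (d := 1) ht ht ht (by ring) (by grind)
    have k1 := h.rs.mt r q (h.rt 0 1 h.rs.cube)
    have k2 := h.rs.mt r q (h.rt 0 1 (m := ω ^ 2) (by grind))
    simp [xx, yy] at k0 k1 k2
    rcases k1 with k1 | k1 <;> field_simp at k1
    · rcases k2 with k2 | k2 <;> field_simp at k2
      · have h0 : 1 - ω ≠ 0 := by grind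
        have e1 : t ^ 2 * (b * t + c') * a = 1 + c' * t ^ 2 * a := by grind
        have e2 : b * t * (t ^ 2 * a + 2 * c) = 1 + 2 * b * c * t := by grind
        have e3 : 1 + 2 * b * c * t = 0 := mul_left_cancel₀ (pow_ne_zero 2 h0) (by
          linear_combination (1 + ω) * k1 - k2 - (1 - ω) ^ 2 * (e2 - b * t * (t ^ 2 * a + 2 * c) * h1))
        have e4 : 1 + c' * t ^ 2 * a = 0 := mul_left_cancel₀ h0 (by
          linear_combination k1 - (1 - ω) * e1 + (1 - ω ^ 2) * (e2 + e3))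
        grind
      · grind
    · grind
  have := k 1 (by ring)
  have := k ω h.rs.cube
  grind

/-- The root is a multiple of a standard one. -/
def Std (ω : F) (A B : Fin 5 → F) : Prop :=
  ∃ (k : F) (A' B' : Fin 5 → F), k ≠ 0 ∧ StdRoot ω A' B' ∧ A = k • A' ∧ B = k⁻¹ • B'

theorem exists_pow (h : SC R ω) (hm : m ^ 3 = 1) : ∃ k, m = ω ^ k := by
  rcases h.rs.cases hm with rfl | rfl | rfl
  exacts [⟨0, by simp⟩, ⟨1, by simp⟩, ⟨2, rfl⟩]

theorem dvd_iff (h : SC R ω) {k : ℕ} : 3 ∣ k ↔ ω ^ k = 1 := by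
  have := Fact.mk Nat.prime_three
  have h1 := h.rs.om
  have h3 := h.rs.three
  rw [← orderOf_dvd_iff_pow_eq_one, orderOf_eq_prime h.rs.cube (by grind)]

theorem std_th (h : SC R ω) (r : R A B) (hT : Th (st F) (st F) A B) : Std ω A B := by
  simp only [Th, single_dotProduct, dotProduct_single, one_mul, mul_one] at hT
  have h0 : 3 * (A 0 * B 0) = 1 := (hT 0 0).1
  have h1 : 3 * (A 1 * B 1) = 1 ∧ A 1 ^ 3 = A 0 ^ 3 := hT 1 0
  have h2 : 3 * (A 2 * B 2) = 1 ∧ A 2 ^ 3 = A 0 ^ 3 := hT 2 0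
  have h3 : 3 * (A 3 * B 3) = 1 ∧ A 3 ^ 3 = A 0 ^ 3 := hT 3 0
  have h4 := h.rs.three
  obtain ⟨k, l, hk, hkl, h5⟩ : ∃ k l : F, k ^ 3 = A 0 ^ 3 ∧ k * l = 1 ∧ k ^ 4 = A 0 * A 1 * A 2 * A 3 :=
    ⟨A 1 * A 2 * A 3 * (3 * B 0) ^ 2, A 0 ^ 2 * 27 * B 1 * B 2 * B 3, by grind⟩
  have e : ∀ {a b : F}, 3 * (a * b) = 1 → a ^ 3 = A 0 ^ 3 →
      (a * l) ^ 3 = 1 ∧ 3 * k * b = (a * l) ^ 2 := fun {a b} h1 h2 => by
    have E : (a * l) ^ 3 = 1 := by
      linear_combination l ^ 3 * (h2 - hk) + ((k * l) ^ 2 + k * l + 1) * hkl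
    exact ⟨E, by linear_combination -(3 * k * b) * E + (a * l) ^ 2 * (k * l * h1 + hkl)⟩
  have e0 := e h0 rfl
  have e1 := e h1.1 h1.2
  have e2 := e h2.1 h2.2
  have e3 := e h3.1 h3.2
  have e4 : A 0 * l * (A 1 * l) * (A 2 * l) * (A 3 * l) = 1 := by
    linear_combination -l ^ 4 * h5 + ((k * l) ^ 3 + (k * l) ^ 2 + k * l + 1) * hkl
  clear h0 h1 h2 h3 hT hk h5 e
  have := h.eq_one (c := A 4 * l) (c' := 3 * k * B 4) (RS.congr (h.dg (h.rs.smul r (k := l) (by grind))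
    (t := ![(A 0 * l) ^ 2, (A 1 * l) ^ 2, (A 2 * l) ^ 2, (A 3 * l) ^ 2, 1])
    (fun x => by fin_cases x <;> simp <;> grind) rfl (by simp; grind))
    (by ext x; fin_cases x <;> simp <;> grind)
    (by ext x; fin_cases x <;> simp [inv_eq_of_mul_eq_one_left hkl] <;> grind))
  obtain ⟨a, ha⟩ := h.exists_pow e0.1
  obtain ⟨b, hb⟩ := h.exists_pow e1.1
  obtain ⟨c, hc⟩ := h.exists_pow e2.1
  obtain ⟨d, hd⟩ := h.exists_pow e3.1
  refine ⟨k, _, _, left_ne_zero_of_mul_eq_one hkl, .inr ⟨a, b, c, d, h.dvd_iff.2 (by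
    simpa only [pow_add, ha, hb, hc, hd] using e4), rfl, rfl⟩, ?_, ?_⟩ <;>
    simp only [pow_mul', ← ha, ← hb, ← hc, ← hd, inv_eq_of_mul_eq_one_right hkl] <;>
    clear ha hb hc hd <;> ext x <;> fin_cases x <;> simp <;> grind

theorem std_two (h : SC R ω) (r : R A B) {i j : Fin 5} (hij : i ≠ j) (hi : i ≠ 4) (hj : j ≠ 4)
    (e1 : A i * B i = 1) (e2 : A j * B j = 1)
    (e3 : ∀ l, l ≠ i → l ≠ j → l ≠ 4 → A l = 0 ∧ B l = 0) : Std ω A B := by
  have h1 := h.rs.om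
  have h3 := h.rs.three
  obtain ⟨l, hl, hl', hl4⟩ : ∃ l, l ≠ i ∧ l ≠ j ∧ l ≠ 4 :=
    (by decide : ∀ i j : Fin 5, ∃ l, l ≠ i ∧ l ≠ j ∧ l ≠ 4) i j
  have h4 : B 4 * A 4 = 0 := by
    have := h.rs.dot r
    rw [dotProduct, ← Finset.sum_subset (Finset.subset_univ {i, j, 4}) fun x _ hx => by
      simp only [Finset.mem_insert, Finset.mem_singleton, not_or] at hx
      rw [(e3 x hx.1 hx.2.1 hx.2.2).1, mul_zero], Finset.sum_insert (by simp [*]),
      Finset.sum_pair hj] at this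
    grind
  have r' := h.rs.smul (h.dg r (t := fun x => if x = l ∨ x = 4 then 1 else ω)
    (fun x => by split_ifs <;> grind) (by simp) (by fin_cases l <;> simp at hl4 ⊢ <;> grind))
    (k := ω ^ 2) (by grind)
  have h5 : A 4 = 0 ∧ B 4 = 0 := by
    have := e3 l hl hl' hl4
    rcases mul_eq_zero.1 h4 with e | e
    · have := congrFun (h.rs.ro r (RS.congr r' rfl (by ext x; simp; grind))) 4
      simp at this
      grind
    · have := congrFun (h.rs.co r (RS.congr r' (by ext x; simp; grind) rfl)) 4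
      simp at this
      grind
  have h6 : (-A j * B i) ^ 3 = 1 := by
    have := e3 l hl hl' hl4
    have k := fun m (hm : m ^ 3 = 1) =>
      h.rs.mt (h.rt i j hm hij hi hj) r (h.rt j l (one_pow 3) hl'.symm hj hl4)
    have k1 := k 1 (by ring)
    have k2 := k ω h.rs.cube
    simp [xx, yy, *, hij.symm, hl.symm] at k1 k2
    grind
  obtain ⟨k, hk⟩ := h.exists_pow h6
  refine ⟨A i, _, _, by grind, .inl ⟨i, j, k, hij, hi, hj, rfl, rfl⟩, ?_, ?_⟩ <;> ext x <;>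
    simp [pow_mul', ← hk, Pi.single_apply] <;> grind

theorem std (h : SC R ω) (r : R A B) : Std ω A B := by
  rcases h.fg.pat h.rs (by simp) r with hT | ⟨h1, h2⟩
  · exact h.std_th r hT
  simp only [single_dotProduct, dotProduct_single, one_mul, mul_one] at h1 h2
  have h3 : ∀ i, i ≠ 4 → (A i = 0 ∧ B i = 0) ∨ A i * B i = 1 := fun i hi => by
    obtain ⟨i, rfl⟩ := Fin.exists_castSucc_eq.2 hi
    exact h1 i
  by_cases h4 : ∃ i, i ≠ 4 ∧ A i ≠ 0
  swap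
  · refine (h.not_zero (RS.congr r (b := ![_, _, _, _, A 4]) (ψ := ![_, _, _, _, B 4]) ?_ ?_)).elim <;>
      ext x <;> have := h3 x <;> fin_cases x <;> simp at this ⊢ <;> grind
  obtain ⟨i, hi, hi'⟩ := h4
  by_cases h5 : ∃ j, j ≠ 4 ∧ j ≠ i ∧ A j ≠ 0
  · obtain ⟨j, hj, hji, hj'⟩ := h5
    refine h.std_two r hji.symm hi hj (by grind) (by grind) fun l a b c => ?_
    obtain ⟨i, rfl⟩ := Fin.exists_castSucc_eq.2 hi
    obtain ⟨j, rfl⟩ := Fin.exists_castSucc_eq.2 hj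
    obtain ⟨l, rfl⟩ := Fin.exists_castSucc_eq.2 c
    have := h2 i j l (by grind) (by grind) (by grind)
    grind
  have h6 : ∀ j, j ≠ 4 → j ≠ i → A j = 0 ∧ B j = 0 := by grind
  refine absurd ?_ (h.not_one (a := A i) (b := B i) (c := A 4) (c' := B 4) (by grind))
  rcases eq_or_ne i 0 with rfl | h0
  · refine RS.congr r ?_ ?_ <;> ext x <;> fin_cases x <;> simp [h6]
  · refine RS.congr (h.rs.refl (h.rt i 0 (one_pow 3) h0 hi) r) ?_ ?_ <;> ext x <;> fin_cases x <;>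
      simp [h6 0 (by decide) h0.symm, Pi.single_apply] <;> grind

theorem of_std (h : SC R ω) (r : Std ω A B) : R A B := by
  have k : ∀ a : ℕ, (ω ^ a) ^ 3 = 1 := fun a => by rw [← pow_mul, pow_mul', h.rs.cube, one_pow]
  obtain ⟨c, _, _, hc, ⟨i, j, a, h1, h2, h3, rfl, rfl⟩ | ⟨a, b, d, e, h1, rfl, rfl⟩, rfl, rfl⟩ := r <;>
    refine h.rs.smul ?_ hc <;> simp only [pow_mul']
  · exact h.rt i j (k a) h1 h2 h3
  · exact h.tt (k a) (k b) (k d) (k e) (by simpa only [pow_add] using h.dvd_iff.1 h1)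

end SC

theorem exists_sc (h : RS R ω) {e ε : Fin 4 → ι → F} (g : FG R e ε) (hd : R d f)
    (hT : ∀ j, ε j ⬝ᵥ d = 1 ∧ 3 * f ⬝ᵥ e j = 1) : ∃ e ε : Fin 5 → ι → F, Fr e ε ∧
      SC (fun A B => R (cb A e) (cb B ε)) ω := by
  have h2 := h.two
  have h3 := h.three
  have hf : ∀ j, f ⬝ᵥ e j = 3⁻¹ := fun j => eq_inv_of_mul_eq_one_right (hT j).2
  have hF : Fr ![e 0, e 1, e 2, e 3, d - (e 0 + e 1 + e 2 + e 3)]
      ![ε 0, ε 1, ε 2, ε 3, (2 : F)⁻¹ • ((3 : F) • f - (ε 0 + ε 1 + ε 2 + ε 3))] := fun i j => by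
    fin_cases i <;> fin_cases j <;> simp [g.fr _ _, (hT _).1, hf, h.dot hd, h3] <;> grind
  refine ⟨_, _, hF, h.comap hF, ⟨fun i j => ?_, fun i j hij m hm => ?_⟩, RS.congr hd ?_ ?_⟩
  · simp [Pi.single_apply, eq_comm]
  · simp only [RR, cb_sub, cb_smul, cb_single]
    convert g.rt i j hij m hm using 1
    fin_cases i <;> fin_cases j <;> rfl
  · ext x; simp [cb, Fin.sum_univ_five]
  · ext x; simp [cb, Fin.sum_univ_five]; grind

end RM2

open RM2 in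
theorem wStd_of (h : WMon.{u}) : WStd.{u} := by
  intro F _ _ P hP h3 e ε ω hS hω
  have hT := hP.nt
  have h2 := hP.two
  have := hS.sq
  have := hS.ne
  have r : RS (Rt P) ω := ⟨hω, by grind, h2, And.left, Rt.smul, Rt.refl, Rt.coroot_eq hT h2,
    Rt.root_eq hT h2, Rt.orth_symm hT h2, fun a b c => or_iff_not_imp_left.2 (h3 _ _ _ _ _ _ a b c)⟩
  have k : ∀ {e ε : Fin 3 → Fin 5 → F}, FG (Rt P) e ε → ∃ d f, Rt P d f ∧ Th e ε d f :=
    fun {e ε} g => by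
      by_contra! H
      refine h F P hP e ε ω ⟨g.fr, hS.ne, hS.sq, by simpa [RR] using g.rt 0 1 (by decide) 1,
        by simpa [RR] using g.rt 1 2 (by decide) 1,
        (show ω ^ 2 = ω⁻¹ by grind) ▸ g.rt 2 0 (by decide) ω r.cube⟩ fun d f hd => ?_
      have := (g.pat r le_rfl hd).resolve_left (H d f hd)
      exact ⟨this.1, by rcases this.2 0 1 2 (by decide) (by decide) (by decide) with e | e | e <;>
        exact ⟨_, e⟩⟩
  have g : FG (Rt P) e ε := .three r hS.fr (by simpa [RR] using hS.r01) (by simpa [RR] using hS.r12)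
    (by simpa only [RR, show ω ^ 2 = ω⁻¹ by grind] using hS.r20)
  obtain ⟨d, f, hd, hd'⟩ := k g
  obtain ⟨e, ε, d, f, g, hd, hd'⟩ := g.norm r 0 hd hd'
  obtain ⟨e, ε, g⟩ := g.ext4 r hd hd'
  obtain ⟨d, f, hd, hd'⟩ := k (g.comp (Fin.castSucc_injective 3))
  have := r.three
  obtain ⟨e, ε, d, f, g, hd, hd'⟩ := g.norm r 0 hd ((g.pat r (by simp) hd).resolve_right fun H => by
    have : 3 * (ε 0 ⬝ᵥ d * f ⬝ᵥ e 0) = 1 := (hd' 0 0).1
    have := H.1 0
    grind)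
  obtain ⟨e, ε, g, s⟩ := exists_sc r g hd hd'
  refine ⟨ω, e, ε, hω, r.three, g, fun a φ => ⟨fun H => ?_, ?_⟩⟩
  · obtain ⟨A, B, rfl, rfl⟩ := exists_cb g a φ
    obtain ⟨c, A, B, h1, h2, rfl, rfl⟩ := s.std H
    exact ⟨c, A, B, h1, h2, cb_smul _ _, cb_smul _ _⟩
  · rintro ⟨c, A, B, h1, h2, rfl, rfl⟩
    simpa only [cb_smul] using s.of_std ⟨c, A, B, h1, h2, rfl, rfl⟩

end Cfsg.Lib.Five
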