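import Cfsg.Agent.Class.Five.RBase

/-!
# The reflection case in dimension five: the monomial configuration does not occur
-/

set_option autoImplicit false
set_option linter.unusedSectionVars false

namespace Cfsg.Lib.Five

open Matrix Cfsg.Geo Cfsg.Lib.Class Cfsg.Lib.Class.Asch Cfsg.Lib.Mit
open scoped MatrixGroups

universe u

namespace RM1

variable {ι : Type} [Fintype ι] [DecidableEq ι] {F : Type*} [Field F]
  {P : Subgroup (GL ι F)} {e ε : Fin 3 → ι → F} {l m n : F} {i j k : Fin 3} {a φ d f : ι → F}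

theorem fr_same (h : Fr e ε) (i : Fin 3) : ε i ⬝ᵥ e i = 1 := by rw [h, if_pos rfl]

theorem fr_ne (h : Fr e ε) (hij : i ≠ j) : ε i ⬝ᵥ e j = 0 := by rw [h, if_neg hij]

theorem fr_ne_zero (h : Fr e ε) (i : Fin 3) : e i ≠ 0 := fun k => by
  have := fr_same h i
  rw [k, dotProduct_zero] at this
  exact zero_ne_one this

/-- The root `e i - m e j`. -/
def Rij (P : Subgroup (GL ι F)) (e ε : Fin 3 → ι → F) (m : F) (i j : Fin 3) : Prop :=
  Rt P (e i - m • e j) (ε i - m⁻¹ • ε j)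

theorem Rij.trans (h : Fr e ε) (hij : i ≠ j) (hik : i ≠ k) (hjk : j ≠ k)
    (h₁ : Rij P e ε m i j) (h₂ : Rij P e ε n j k) : Rij P e ε (m * n) i k := by
  refine (Rt.refl h₂ h₁).congr ?_ ?_
  · simp only [sub_dotProduct, dotProduct_sub, smul_dotProduct, dotProduct_smul, fr_same h,
      fr_ne h hij.symm, fr_ne h hik.symm, fr_ne h hjk.symm]
    module
  · simp only [sub_dotProduct, dotProduct_sub, smul_dotProduct, dotProduct_smul, fr_same h,
      fr_ne h hij, fr_ne h hik, fr_ne h hjk, mul_inv]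
    module

theorem Rij.symm (hm : m ≠ 0) (h₁ : Rij P e ε m i j) : Rij P e ε m⁻¹ j i := by
  refine (Rt.smul h₁ (k := -m⁻¹) (neg_ne_zero.2 (inv_ne_zero hm))).congr ?_ ?_
  · match_scalars <;> field_simp
  · match_scalars <;> field_simp

/-- All the roots `e i - m e j` are present. -/
def Mu (P : Subgroup (GL ι F)) (e ε : Fin 3 → ι → F) (m : F) : Prop :=
  m ≠ 0 ∧ ∀ i j, i ≠ j → Rij P e ε m i j

theorem exists_third (hij : i ≠ j) : ∃ k, i ≠ k ∧ k ≠ j := by
  revert i j; decide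

theorem mu_one (h : Sys3 P e ε l) : Mu P e ε 1 := by
  have a01 : Rij P e ε 1 0 1 := by simpa [Rij] using h.r01
  have a12 : Rij P e ε 1 1 2 := by simpa [Rij] using h.r12
  have a02 : Rij P e ε 1 0 2 := by
    simpa using a01.trans h.fr (by decide) (by decide) (by decide) a12
  have s : ∀ {i j}, Rij P e ε 1 i j → Rij P e ε 1 j i := fun k => by
    simpa using k.symm one_ne_zero
  refine ⟨one_ne_zero, fun i j hij => ?_⟩
  fin_cases i <;> fin_cases j <;> first | exact absurd rfl hij | assumption | exact s ‹_›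

theorem Mu.mul (h : Fr e ε) (hm : Mu P e ε m) (hn : Mu P e ε n) : Mu P e ε (m * n) := by
  refine ⟨mul_ne_zero hm.1 hn.1, fun i j hij => ?_⟩
  obtain ⟨k, h1, h2⟩ := exists_third hij
  exact (hm.2 i k h1).trans h h1 hij h2 (hn.2 k j h2)

theorem mu_self (h : Sys3 P e ε l) : Mu P e ε l := by
  have o := (mu_one h).2
  have a20 : Rij P e ε l 2 0 := h.r20
  have t : ∀ {i j k : Fin 3}, i ≠ j → i ≠ k → j ≠ k → Rij P e ε l j k → Rij P e ε l i k :=
    fun h1 h2 h3 r => by simpa using (o _ _ h1).trans h.fr h1 h2 h3 r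
  have t' : ∀ {i j k : Fin 3}, i ≠ j → i ≠ k → j ≠ k → Rij P e ε l i j → Rij P e ε l i k :=
    fun h1 h2 h3 r => by simpa using r.trans h.fr h1 h2 h3 (o _ _ h3)
  have a10 : Rij P e ε l 1 0 := t (by decide) (by decide) (by decide) a20
  have a21 : Rij P e ε l 2 1 := t' (by decide) (by decide) (by decide) a20
  have a12 : Rij P e ε l 1 2 := t' (by decide) (by decide) (by decide) a10
  have a01 : Rij P e ε l 0 1 := t (by decide) (by decide) (by decide) a21
  have a02 : Rij P e ε l 0 2 := t (by decide) (by decide) (by decide) a12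
  refine ⟨h.ne, fun i j hij => ?_⟩
  fin_cases i <;> fin_cases j <;> first | exact absurd rfl hij | assumption

theorem mu_pow (h : Sys3 P e ε l) (n : ℕ) : Mu P e ε (l ^ n) := by
  induction n with
  | zero => simpa using mu_one h
  | succ n ih => exact pow_succ l n ▸ ih.mul h.fr (mu_self h)

/-- Rescaling one coordinate of a root that misses another coordinate. -/
theorem scale (h : Sys3 P e ε l) (hm : Mu P e ε m) (hik : i ≠ k) (hd : Rt P d f)
    (h1 : ε k ⬝ᵥ d = 0) (h2 : f ⬝ᵥ e k = 0) :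
    Rt P (d + ((m - 1) * (ε i ⬝ᵥ d)) • e i) (f + ((m⁻¹ - 1) * (f ⬝ᵥ e i)) • ε i) := by
  refine (Rt.refl ((mu_one h).2 i k hik) (Rt.refl (hm.2 i k hik) hd)).congr ?_ ?_
  · simp only [sub_dotProduct, dotProduct_sub, smul_dotProduct, dotProduct_smul, fr_same h.fr,
      fr_ne h.fr hik.symm, fr_ne h.fr hik, h1, smul_eq_mul]
    module
  · simp only [sub_dotProduct, dotProduct_sub, smul_dotProduct, dotProduct_smul, fr_same h.fr,
      fr_ne h.fr hik.symm, fr_ne h.fr hik, h2, smul_eq_mul]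
    module

/-- A root with pattern `(1, 1, 0)` lies in the span of the frame. -/
theorem span_of_two (hT : ∀ g ∈ P, ¬ IsTv g) (h2 : (2 : F) ≠ 0) (h : Sys3 P e ε l) (hij : i ≠ j)
    (hik : i ≠ k) (hjk : j ≠ k) (hd : Rt P d f) (p1 : (ε i ⬝ᵥ d) * (f ⬝ᵥ e i) = 1)
    (p2 : (ε j ⬝ᵥ d) * (f ⬝ᵥ e j) = 1) (h1 : ε k ⬝ᵥ d = 0) (h3 : f ⬝ᵥ e k = 0) :
    d = (ε i ⬝ᵥ d) • e i + (ε j ⬝ᵥ d) • e j ∧ f = (f ⬝ᵥ e i) • ε i + (f ⬝ᵥ e j) • ε j := by
  have fr := h.fr
  set a := (ε i ⬝ᵥ d) • e i + (ε j ⬝ᵥ d) • e j with ha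
  set φ := (f ⬝ᵥ e i) • ε i + (f ⬝ᵥ e j) • ε j with hφ
  have key : ∀ m, Mu P e ε m → Rt P (a + m⁻¹ • (d - a)) (φ + m⁻¹⁻¹ • (f - φ)) := by
    intro m hm
    have r1 := scale h hm hik hd h1 h3
    have r2 := scale h hm hjk r1
      (by simp [dotProduct_add, dotProduct_smul, h1, fr_ne fr hik.symm])
      (by simp [add_dotProduct, smul_dotProduct, h3, fr_ne fr hik])
    have hm0 := hm.1
    refine (r2.smul (inv_ne_zero hm0)).congr ?_ ?_
    · simp only [dotProduct_add, dotProduct_smul, fr_ne fr hij.symm, ha, smul_zero, add_zero]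
      match_scalars <;> field_simp <;> ring
    · simp only [add_dotProduct, smul_dotProduct, fr_ne fr hij, hφ, smul_zero, add_zero]
      match_scalars <;> field_simp <;> ring
  have e1 : φ ⬝ᵥ a = 2 := by
    simp only [ha, hφ, add_dotProduct, dotProduct_add, smul_dotProduct, dotProduct_smul,
      fr_same fr, fr_ne fr hij, fr_ne fr hij.symm, smul_eq_mul]
    linear_combination p1 + p2
  have e2 : φ ⬝ᵥ d = 2 := by
    simp only [hφ, add_dotProduct, smul_dotProduct, smul_eq_mul]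
    linear_combination p1 + p2
  have e3 : f ⬝ᵥ a = 2 := by
    simp only [ha, dotProduct_add, dotProduct_smul, smul_eq_mul]
    linear_combination p1 + p2
  have l0 := h.ne
  have l1 : l ≠ 1 := fun k => h.sq (by rw [k, one_pow])
  have := heis hT h2 e1 (w := d - a) (θ := f - φ) (by rw [dotProduct_sub, e1, e2, sub_self])
    (by rw [sub_dotProduct, e1, e3, sub_self])
    (by rw [sub_dotProduct, dotProduct_sub, dotProduct_sub, e1, e2, e3, hd.1]; ring)
    (inv_ne_zero one_ne_zero) (inv_ne_zero l0) (inv_ne_zero (pow_ne_zero 2 l0))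
    (fun k => l1 (inv_injective k).symm) (fun k => h.sq (inv_injective k).symm)
    (fun k => l1 (mul_left_cancel₀ l0 (by rw [mul_one, ← sq]; exact (inv_injective k).symm)))
    (key _ (mu_one h)) (key _ (mu_self h)) (key _ (mu_pow h 2))
  exact ⟨sub_eq_zero.1 this.1, sub_eq_zero.1 this.2⟩

/-- Conjugation of matrices. -/
def cjm (g : GL ι F) (M : Matrix ι ι F) : Matrix ι ι F :=
  (g : Matrix ι ι F) * M * ((g⁻¹ : GL ι F) : Matrix ι ι F)

theorem cjm_one (M : Matrix ι ι F) : cjm 1 M = M := by simp [cjm]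

theorem cjm_mul (g h : GL ι F) (M : Matrix ι ι F) : cjm (g * h) M = cjm g (cjm h M) := by
  simp only [cjm, _root_.mul_inv_rev, Units.val_mul, Matrix.mul_assoc]

theorem cjm_mul' (g : GL ι F) (M N : Matrix ι ι F) : cjm g M * cjm g N = cjm g (M * N) := by
  simp only [cjm, Matrix.mul_assoc, Units.inv_mul_cancel_left]

theorem cjm_tR (h : φ ⬝ᵥ a = 2) (v θ : ι → F) : cjm (tR a φ) (vecMulVec v θ) =
    vecMulVec ((φ ⬝ᵥ v) • a - v) ((θ ⬝ᵥ a) • φ - θ) := by
  rw [cjm, tR_inv, mul_vecMulVec, vecMulVec_mul, tR_mulVec h, vecMul_tR h]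

theorem cjm_tR_fix (h : φ ⬝ᵥ a = 2) {M : Matrix ι ι F} (h1 : φ ᵥ* M = 0) (h2 : M *ᵥ a = 0) :
    cjm (tR a φ) M = M := by
  rw [cjm, tR_inv, tR_coe h, Matrix.sub_mul, vecMulVec_mul, h1, vecMulVec_zero, Matrix.one_mul,
    zero_sub, Matrix.neg_mul, Matrix.mul_sub, mul_vecMulVec, h2, zero_vecMulVec, Matrix.mul_one,
    zero_sub, neg_neg]

theorem cjm_tR_fix' (h : φ ⬝ᵥ a = 2) {v θ : ι → F} (h1 : φ ⬝ᵥ v = 0) (h2 : θ ⬝ᵥ a = 0) :
    cjm (tR a φ) (vecMulVec v θ) = vecMulVec v θ :=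
  cjm_tR_fix h (by rw [vecMul_vecMulVec, h1, zero_smul])
    (by rw [vecMulVec_mulVec, h2, op_smul_eq_smul, zero_smul])

/-- The projections of the frame. -/
def pj (e ε : Fin 3 → ι → F) (i : Fin 3) : Matrix ι ι F := vecMulVec (e i) (ε i)

theorem cjm_swap (h : Fr e ε) (hij : i ≠ j) {x y x' y' : F} (hx : x * x' = 1) (hy : y * y' = 1) :
    cjm (tR (x • e i + y • e j) (x' • ε i + y' • ε j)) (pj e ε j) = pj e ε i := by
  have e1 : (x' • ε i + y' • ε j) ⬝ᵥ (x • e i + y • e j) = 2 := by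
    simp only [add_dotProduct, dotProduct_add, smul_dotProduct, dotProduct_smul,
      fr_same h, fr_ne h hij, fr_ne h hij.symm, smul_eq_mul]
    linear_combination hx + hy
  have e2 : ((x' • ε i + y' • ε j) ⬝ᵥ e j) • (x • e i + y • e j) - e j = (y' * x) • e i := by
    simp only [add_dotProduct, smul_dotProduct, fr_same h, fr_ne h hij, smul_eq_mul]
    linear_combination (norm := module) hy • e j
  have e3 : (ε j ⬝ᵥ (x • e i + y • e j)) • (x' • ε i + y' • ε j) - ε j = (y * x') • ε i := by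
    simp only [dotProduct_add, dotProduct_smul, fr_same h, fr_ne h hij.symm, smul_eq_mul]
    linear_combination (norm := module) hy • ε j
  rw [pj, cjm_tR e1, e2, e3, smul_vecMulVec, vecMulVec_smul, smul_smul,
    show y' * x * (y * x') = 1 by linear_combination (y * y') * hx + hy, one_smul, pj]

theorem cjm_rij (h : Fr e ε) (hij : i ≠ j) (hm : m ≠ 0) :
    cjm (tR (e i - m • e j) (ε i - m⁻¹ • ε j)) (pj e ε j) = pj e ε i ∧
      cjm (tR (e i - m • e j) (ε i - m⁻¹ • ε j)) (pj e ε i) = pj e ε j := by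
  have k : (-m) * (-m⁻¹) = 1 := by field_simp
  constructor
  · convert cjm_swap h hij (one_mul 1) k using 3 <;> module
  · convert cjm_swap h hij.symm k (one_mul 1) using 3 <;> module

/-- The step of the induction over words in the roots. -/
theorem step (hT : ∀ g ∈ P, ¬ IsTv g) (h2 : (2 : F) ≠ 0) (h : Sys3 P e ε l) (hp : Pat01 P e ε)
    (hd : Rt P d f) (i j : Fin 3) : ∃ g ∈ P, ∃ i' j', pj e ε i = cjm g (pj e ε i') ∧
      cjm (tR d f) (pj e ε j) = cjm g (pj e ε j') := by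
  have fr := h.fr
  obtain ⟨q, k, hk⟩ := hp d f hd
  have fix : ∀ i, ε i ⬝ᵥ d = 0 ∧ f ⬝ᵥ e i = 0 → cjm (tR d f) (pj e ε i) = pj e ε i :=
    fun i hi => cjm_tR_fix' hd.1 hi.2 hi.1
  have qk : ε k ⬝ᵥ d = 0 ∧ f ⬝ᵥ e k = 0 := (q k).resolve_right (by rw [hk]; simp)
  rcases q j with qj | qj
  · exact ⟨1, one_mem _, i, j, (cjm_one _).symm, by rw [fix j qj, cjm_one]⟩
  rcases q i with qi | qi
  · exact ⟨_, hd.2, i, j, (fix i qi).symm, rfl⟩
  have hjk : j ≠ k := fun e => by rw [e, hk] at qj; simp at qj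
  by_cases hij : i = j
  · subst hij
    have rt := (mu_one h).2 i k hjk
    refine ⟨tR d f * tR _ _ * tR d f, mul_mem (mul_mem hd.2 rt.2) hd.2, i, k, ?_, ?_⟩
    · rw [cjm_mul, cjm_mul, pj, cjm_tR hd.1, cjm_tR_fix' rt.1, ← cjm_tR hd.1, ← cjm_mul,
        tR_mul_self, cjm_one]
      · simp only [sub_dotProduct, dotProduct_sub, smul_dotProduct, dotProduct_smul, fr_same fr,
          fr_ne fr hjk.symm, hk, smul_eq_mul]
        linear_combination qj
      · simp only [sub_dotProduct, dotProduct_sub, smul_dotProduct, dotProduct_smul, fr_same fr,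
          fr_ne fr hjk, qk.2, smul_eq_mul]
        linear_combination qj
    · rw [cjm_mul, cjm_mul, fix k qk, (cjm_rij fr hjk one_ne_zero).1]
  have hik : i ≠ k := fun e => by rw [e, hk] at qi; simp at qi
  obtain ⟨e1, e2⟩ := span_of_two hT h2 h hij hik hjk hd qi qj qk.1 qk.2
  refine ⟨1, one_mem _, i, i, (cjm_one _).symm, ?_⟩
  rw [cjm_one, ← cjm_swap fr hij qi qj, ← e1, ← e2]

theorem rel [Nontrivial ι] (hq : QS P) (hT : ∀ g ∈ P, ¬ IsTv g) (h2 : (2 : F) ≠ 0)
    (h : Sys3 P e ε l) (hp : Pat01 P e ε) {x : GL ι F} (hx : x ∈ P) (i j : Fin 3) :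
    ∃ g ∈ P, ∃ i' j', pj e ε i = cjm g (pj e ε i') ∧ cjm x (pj e ε j) = cjm g (pj e ε j') := by
  obtain ⟨L, hL, rfl⟩ := exists_word hq h2 h.r01 hx
  clear hx
  induction L with
  | nil => exact ⟨1, one_mem _, i, j, (cjm_one _).symm, rfl⟩
  | cons r L ih =>
    obtain ⟨g, hg, i', j', e1, e2⟩ := ih fun s hs => hL s (List.mem_cons_of_mem _ hs)
    have hr := hL r List.mem_cons_self
    obtain ⟨g', hg', i'', j'', e3, e4⟩ := step hT h2 h hp (hr.conj (inv_mem hg)) i' j'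
    refine ⟨g * g', mul_mem hg hg', i'', j'', by rw [e1, e3, cjm_mul], ?_⟩
    rw [List.map_cons, List.prod_cons, cjm_mul, e2, cjm_mul, ← e4, ← conj_tR _ hr.1, ← cjm_mul,
      ← cjm_mul]
    congr 1
    group

theorem orth [Nontrivial ι] (hq : QS P) (hT : ∀ g ∈ P, ¬ IsTv g) (h2 : (2 : F) ≠ 0)
    (h : Sys3 P e ε l) (hp : Pat01 P e ε) {x : GL ι F} (hx : x ∈ P) (i j : Fin 3) :
    cjm x (pj e ε j) = pj e ε i ∨
      (ε i ᵥ* cjm x (pj e ε j) = 0 ∧ cjm x (pj e ε j) *ᵥ e i = 0) := by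
  obtain ⟨g, -, i', j', e1, e2⟩ := rel hq hT h2 h hp hx i j
  by_cases hij : i' = j'
  · exact .inl (by rw [e1, e2, hij])
  have z : ∀ {i j}, i ≠ j → pj e ε i * pj e ε j = 0 := fun k => by
    rw [pj, pj, vecMulVec_mul_vecMulVec, fr_ne h.fr k, zero_smul, vecMulVec_zero]
  have k1 : ε i ᵥ* pj e ε i = ε i := by rw [pj, vecMul_vecMulVec, fr_same h.fr, one_smul]
  have k2 : pj e ε i *ᵥ e i = e i := by
    rw [pj, vecMulVec_mulVec, fr_same h.fr, op_smul_eq_smul, one_smul]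
  refine .inr ⟨?_, ?_⟩
  · rw [← k1, vecMul_vecMul, e1, e2, cjm_mul', z hij]
    simp [cjm]
  · rw [← k2, mulVec_mulVec, e1, e2, cjm_mul', z (Ne.symm hij)]
    simp [cjm]

/-- The elements of `P` fixing all conjugates of a matrix. -/
def fixAll (P : Subgroup (GL ι F)) (M : Matrix ι ι F) : Subgroup (GL ι F) where
  carrier := {g | g ∈ P ∧ ∀ x ∈ P, cjm g (cjm x M) = cjm x M}
  one_mem' := ⟨one_mem _, fun _ _ => cjm_one _⟩
  mul_mem' := fun hg hh => ⟨mul_mem hg.1 hh.1, fun x hx => by rw [cjm_mul, hh.2 x hx, hg.2 x hx]⟩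
  inv_mem' := fun {g} hg => ⟨inv_mem hg.1, fun x hx => by
    conv_lhs => rw [← hg.2 x hx, ← cjm_mul, inv_mul_cancel, cjm_one]⟩

theorem not_pat [Nontrivial ι] (hq : QS P) (hT : ∀ g ∈ P, ¬ IsTv g) (h2 : (2 : F) ≠ 0)
    (h : Sys3 P e ε l) : ¬ Pat01 P e ε := by
  intro hp
  have fr := h.fr
  have n01 : (0 : Fin 3) ≠ 1 := by decide
  have r1 := (mu_one h).2 0 1 n01
  have r2 := (mu_self h).2 0 1 n01
  have hD : tR _ _ * tR _ _ ∈ fixAll P (pj e ε 0) := ⟨mul_mem r1.2 r2.2, fun x hx => by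
    rw [cjm_mul]
    rcases orth hq hT h2 h hp hx 0 0 with k0 | k0
    · rw [k0, (cjm_rij fr n01 h.ne).2, (cjm_rij fr n01 one_ne_zero).1]
    rcases orth hq hT h2 h hp hx 1 0 with k1 | k1
    · rw [k1, (cjm_rij fr n01 h.ne).1, (cjm_rij fr n01 one_ne_zero).2]
    rw [cjm_tR_fix r2.1, cjm_tR_fix r1.1] <;>
      simp only [sub_vecMul, smul_vecMul, mulVec_sub, mulVec_smul, k0.1, k0.2, k1.1, k1.2,
        smul_zero, sub_zero]⟩
  have hN : fixAll P (pj e ε 0) = P := by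
    refine hq.eq_of_normal (fun g hg => hg.1) (fun g hg y hy => ⟨mul_mem (mul_mem hg hy.1)
      (inv_mem hg), fun x hx => ?_⟩) fun hs => ?_
    · rw [cjm_mul, cjm_mul, ← cjm_mul g⁻¹, hy.2 _ (mul_mem (inv_mem hg) hx), ← cjm_mul,
        mul_inv_cancel_left]
    · obtain ⟨c, hc⟩ := (mem_scalars_iff' _).1 (hs hD)
      have k1 := congrArg (fun M => ε 1 ⬝ᵥ M *ᵥ e 1) hc
      have k2 := congrArg (fun M => ε 2 ⬝ᵥ M *ᵥ e 2) hc
      simp only [GL_mul_mulVec, tR_mulVec r1.1, tR_mulVec r2.1, smul_mulVec, one_mulVec,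
        sub_dotProduct, dotProduct_sub, smul_dotProduct, dotProduct_smul, fr _ _, smul_eq_mul]
        at k1 k2
      simp at k1 k2
      apply h.sq
      have l0 := h.ne
      have : l = 1 := by
        rw [← k2] at k1
        field_simp at k1
        linear_combination -k1
      rw [this, one_pow]
  have k := (hN.ge r1.2).2 1 (one_mem _)
  rw [cjm_one, (cjm_rij fr n01 one_ne_zero).2] at k
  have k' := congrArg (fun M => ε 0 ⬝ᵥ M *ᵥ e 0) k
  simp [pj, vecMulVec_mulVec, fr _ _] at k'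

end RM1

/-- The monomial case does not occur. -/
theorem wMon : WMon.{u} := fun _ _ _ _ hP _ _ _ h => RM1.not_pat hP.qs hP.nt hP.two h

end Cfsg.Lib.Five
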