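import Cfsg.Agent.Class.Five.RBase

/-!
# Planes of roots in `2`-groups
-/

set_option autoImplicit false

namespace Cfsg.Lib.Five

open Matrix Cfsg.Geo Cfsg.Lib.Class Cfsg.Lib.Class.Asch Cfsg.Lib.Mit
open scoped MatrixGroups

variable {ι : Type} [Fintype ι] [DecidableEq ι] {F : Type*} [Field F]
variable {P Q : Subgroup (GL ι F)} {a φ b ψ c χ d f v a₀ φ₀ a₁ φ₁ : ι → F}

omit [Fintype ι] [DecidableEq ι] in
theorem InPl.left (a b : ι → F) : InPl a a b := ⟨1, 0, by simp⟩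

omit [Fintype ι] [DecidableEq ι] in
theorem InPl.right (a b : ι → F) : InPl b a b := ⟨0, 1, by simp⟩

omit [Fintype ι] [DecidableEq ι] in
theorem InPl.swap (h : InPl v a b) : InPl v b a := by
  obtain ⟨x, y, h⟩ := h
  exact ⟨y, x, by rw [h, add_comm]⟩

omit [Fintype ι] [DecidableEq ι] in
theorem InPl.trans (h : InPl v a b) (ha : InPl a c d) (hb : InPl b c d) : InPl v c d := by
  obtain ⟨x, y, rfl⟩ := h
  obtain ⟨x1, y1, rfl⟩ := ha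
  obtain ⟨x2, y2, rfl⟩ := hb
  exact ⟨x * x1 + y * x2, x * y1 + y * y2, by module⟩

omit [DecidableEq ι] in
theorem InPl.dot (h : InPl v a b) (ha : f ⬝ᵥ a = 0) (hb : f ⬝ᵥ b = 0) : f ⬝ᵥ v = 0 := by
  obtain ⟨x, y, rfl⟩ := h
  rw [dotProduct_add, dotProduct_smul, dotProduct_smul, ha, hb, smul_zero, smul_zero, add_zero]

omit [Fintype ι] [DecidableEq ι] in
theorem Ln.rfl' (a : ι → F) : Ln a a := ⟨1, by simp⟩

omit [Fintype ι] [DecidableEq ι] in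
theorem Ln.trans (h : Ln v a) (h' : Ln a b) : Ln v b := by
  obtain ⟨x, rfl⟩ := h
  obtain ⟨y, rfl⟩ := h'
  exact ⟨x * y, smul_smul _ _ _⟩

omit [Fintype ι] [DecidableEq ι] in
theorem Ln.symm (h : Ln v a) (hv : v ≠ 0) : Ln a v := by
  obtain ⟨x, rfl⟩ := h
  have hx : x ≠ 0 := fun e => hv (by rw [e, zero_smul])
  exact ⟨x⁻¹, by rw [smul_smul, inv_mul_cancel₀ hx, one_smul]⟩

omit [Fintype ι] [DecidableEq ι] in
theorem Ln.inPl (h : Ln v a) (b : ι → F) : InPl v a b := by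
  obtain ⟨x, rfl⟩ := h
  exact ⟨x, 0, by simp⟩

omit [DecidableEq ι] in
theorem Ln.dot (h : Ln v a) (ha : f ⬝ᵥ a = 0) : f ⬝ᵥ v = 0 := by
  obtain ⟨x, rfl⟩ := h
  rw [dotProduct_smul, ha, smul_zero]

omit [DecidableEq ι] in
/-- A vector of the plane killed by the first coroot lies on the second line. -/
theorem InPl.ln (h2 : (2 : F) ≠ 0) (h : InPl v a b) (ha : φ ⬝ᵥ a = 2) (hb : φ ⬝ᵥ b = 0)
    (hv : φ ⬝ᵥ v = 0) : Ln v b := by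
  obtain ⟨x, y, rfl⟩ := h
  rw [dotProduct_add, dotProduct_smul, dotProduct_smul, ha, hb, smul_zero, add_zero,
    smul_eq_mul] at hv
  rw [(mul_eq_zero.1 hv).resolve_right h2, zero_smul, zero_add]
  exact ⟨y, rfl⟩

/-- Orthogonal roots are not proportional. -/
theorem Rt.not_ln (h2 : (2 : F) ≠ 0) (ha : Rt P a φ) (hb : Rt P b ψ) (h : φ ⬝ᵥ b = 0) :
    ¬ Ln b a := fun hl => h2 (by rw [← ha.1, (hl.symm (hb.ne_zero h2)).dot h])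

theorem Sw.mono (h : Sw P a φ b ψ) (hPQ : P ≤ Q) : Sw Q a φ b ψ := by
  obtain ⟨k, hk, h⟩ := h
  exact ⟨k, hk, h.mono hPQ⟩

theorem Sw.symm (h : Sw P a φ b ψ) : Sw P b ψ a φ := by
  obtain ⟨k, hk, h⟩ := h
  refine ⟨k⁻¹, inv_ne_zero hk, (h.smul (k := -k⁻¹) (by simpa using hk)).congr ?_ ?_⟩
  · ext i; simp only [Pi.smul_apply, Pi.sub_apply, smul_eq_mul]; field_simp; ring
  · ext i; simp only [Pi.smul_apply, Pi.sub_apply, smul_eq_mul]; field_simp; ring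

theorem Sw.smul_left (h : Sw P a φ b ψ) {x : F} (hx : x ≠ 0) : Sw P (x • a) (x⁻¹ • φ) b ψ := by
  obtain ⟨k, hk, h⟩ := h
  refine ⟨x * k, mul_ne_zero hx hk, (h.smul hx).congr ?_ ?_⟩
  · ext i; simp only [Pi.smul_apply, Pi.sub_apply, smul_eq_mul]; ring
  · ext i; simp only [Pi.smul_apply, Pi.sub_apply, smul_eq_mul]; field_simp

theorem Sw.of_ln (hT : ∀ g ∈ P, ¬ IsTv g) (h2 : (2 : F) ≠ 0) (h : Sw P a φ b ψ) (ha : Rt P a φ)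
    (hc : Rt P c χ) (hl : Ln c a) : Sw P c χ b ψ := by
  obtain ⟨x, hx⟩ := hl
  obtain ⟨h1, h3, -⟩ := ha.of_prop hT h2 hc hx
  rw [hx, h3]
  exact h.smul_left h1

theorem Sw.trans (h2 : (2 : F) ≠ 0) (hb : ψ ⬝ᵥ b = 2) (ab : φ ⬝ᵥ b = 0) (ac : φ ⬝ᵥ c = 0)
    (ba : ψ ⬝ᵥ a = 0) (bc : ψ ⬝ᵥ c = 0) (ca : χ ⬝ᵥ a = 0) (cb : χ ⬝ᵥ b = 0)
    (h : Sw P a φ b ψ) (h' : Sw P b ψ c χ) : Sw P a φ c χ := by
  obtain ⟨k, hk, h⟩ := h
  obtain ⟨l, hl, h'⟩ := h'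
  refine ⟨k * l, mul_ne_zero hk hl, ((h.refl h').smul hk).congr ?_ ?_⟩
  · ext i
    simp only [smul_dotProduct, sub_dotProduct, dotProduct_sub, dotProduct_smul, hb, ab, ac, bc,
      Pi.smul_apply, Pi.sub_apply, smul_eq_mul]
    field_simp; ring
  · ext i
    simp only [smul_dotProduct, sub_dotProduct, dotProduct_sub, dotProduct_smul, hb, ba, ca, cb,
      Pi.smul_apply, Pi.sub_apply, smul_eq_mul]
    field_simp; ring

/-- A plane spanned by two orthogonal roots that are interchanged. -/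
structure Pl (Q : Subgroup (GL ι F)) (a₀ φ₀ a₁ φ₁ : ι → F) : Prop where
  r0 : Rt Q a₀ φ₀
  r1 : Rt Q a₁ φ₁
  o01 : φ₀ ⬝ᵥ a₁ = 0
  o10 : φ₁ ⬝ᵥ a₀ = 0
  sw : Sw Q a₀ φ₀ a₁ φ₁

theorem Pl.symm (h : Pl Q a₀ φ₀ a₁ φ₁) : Pl Q a₁ φ₁ a₀ φ₀ :=
  ⟨h.r1, h.r0, h.o10, h.o01, h.sw.symm⟩

/-- Each root of a plane has a mate. -/
theorem Pl.mate (hT : ∀ g ∈ Q, ¬ IsTv g) (h2 : (2 : F) ≠ 0) (hQ : IsPGroup 2 Q)
    (h : Pl Q a₀ φ₀ a₁ φ₁) (hb : Rt Q b ψ) (hp : InPl b a₀ a₁) :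
    ∃ b' ψ', Pl Q b ψ b' ψ' ∧ InPl b' a₀ a₁ ∧ InPl a₀ b b' ∧ InPl a₁ b b' := by
  have key : ∀ {a₀ φ₀ a₁ φ₁ : ι → F}, Pl Q a₀ φ₀ a₁ φ₁ → Ln b a₀ →
      Pl Q b ψ a₁ φ₁ ∧ InPl a₀ b a₁ := fun h hl =>
    ⟨⟨hb, h.r1, h.r1.orth_symm hT h2 hb (hl.dot h.o10), hl.dot h.o10,
      h.sw.of_ln hT h2 h.r0 hb hl⟩, (hl.symm (hb.ne_zero h2)).inPl _⟩
  by_cases h0 : Ln b a₀
  · exact ⟨a₁, φ₁, (key h h0).1, InPl.right _ _, (key h h0).2, InPl.right _ _⟩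
  by_cases h1 : Ln b a₁
  · exact ⟨a₀, φ₀, (key h.symm h1).1, InPl.left _ _, InPl.right _ _, (key h.symm h1).2⟩
  have h3 : ψ ⬝ᵥ a₀ ≠ 0 := fun e =>
    h1 (hp.ln h2 h.r0.1 h.o01 (hb.orth_symm hT h2 h.r0 e))
  obtain ⟨b', ψ', r, o1, o2, p1, p2, s⟩ := two_swap h2 hQ hb h.r0 h3
    fun hl => h0 (hl.symm (h.r0.ne_zero h2))
  refine ⟨b', ψ', ⟨hb, r, o1, o2, s⟩, p1.trans hp (InPl.left _ _), p2, ?_⟩
  obtain ⟨x, y, e⟩ := hp
  have hy : y ≠ 0 := fun e' => h0 ⟨x, by rw [e, e', zero_smul, add_zero]⟩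
  refine InPl.trans (a := b) (b := a₀) ⟨y⁻¹, -(y⁻¹ * x), ?_⟩ (InPl.left _ _) p2
  rw [e]
  ext i; simp only [Pi.smul_apply, Pi.add_apply, smul_eq_mul]; field_simp; ring

/-- Orthogonal roots of a plane are interchanged and span the plane. -/
theorem Pl.of_orth (hT : ∀ g ∈ Q, ¬ IsTv g) (h2 : (2 : F) ≠ 0) (hQ : IsPGroup 2 Q)
    (h : Pl Q a₀ φ₀ a₁ φ₁) (hb : Rt Q b ψ) (hp : InPl b a₀ a₁) (hc : Rt Q c χ)
    (hp' : InPl c a₀ a₁) (ho : ψ ⬝ᵥ c = 0) : Pl Q b ψ c χ ∧ InPl a₀ b c ∧ InPl a₁ b c := by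
  obtain ⟨b', ψ', h', -, p0, p1⟩ := h.mate hT h2 hQ hb hp
  have hl : Ln c b' := (hp'.trans p0 p1).ln h2 hb.1 h'.o01 ho
  have hi : InPl b' b c := ((hl.symm (hc.ne_zero h2)).inPl b).swap
  exact ⟨⟨hb, hc, ho, hb.orth_symm hT h2 hc ho, (h'.sw.symm.of_ln hT h2 h'.r1 hc hl).symm⟩,
    p0.trans (InPl.left _ _) hi, p1.trans (InPl.left _ _) hi⟩

/-- A plane does not contain three mutually orthogonal roots. -/
theorem Pl.no_three (hT : ∀ g ∈ Q, ¬ IsTv g) (h2 : (2 : F) ≠ 0) (hQ : IsPGroup 2 Q)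
    (h : Pl Q a₀ φ₀ a₁ φ₁) (hb : Rt Q b ψ) (hp : InPl b a₀ a₁) (hc : Rt Q c χ)
    (hp' : InPl c a₀ a₁) (ho : ψ ⬝ᵥ c = 0) (hd : Rt Q d f) (hp'' : InPl d a₀ a₁)
    (h1 : f ⬝ᵥ b = 0) (h3 : f ⬝ᵥ c = 0) : False := by
  obtain ⟨-, p0, p1⟩ := h.of_orth hT h2 hQ hb hp hc hp' ho
  exact h2 (by rw [← hd.1, (hp''.trans p0 p1).dot h1 h3])

/-- The root is orthogonal or proportional to every root of `Q`. -/
def Cen (Q : Subgroup (GL ι F)) (a φ : ι → F) : Prop := ∀ b ψ, Rt Q b ψ → φ ⬝ᵥ b = 0 ∨ Ln b a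

theorem Cen.of_comm (h2 : (2 : F) ≠ 0) (ha : φ ⬝ᵥ a = 2)
    (h : ∀ s ∈ Q, s * tR a φ = tR a φ * s) : Cen Q a φ := fun _ _ hb =>
  orth_or_prop_of_comm h2 ha hb.1 (h _ hb.2).symm

theorem Cen.conj (h : Cen Q a φ) {g : GL ι F} (hg : g ∈ Q) :
    Cen Q ((g : Matrix ι ι F) *ᵥ a) (φ ᵥ* ((g⁻¹ : GL ι F) : Matrix ι ι F)) := by
  intro b ψ hb
  rcases h _ _ (hb.conj (inv_mem hg)) with h1 | ⟨x, h1⟩
  · exact .inl (by rw [← dotProduct_mulVec, h1])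
  · exact .inr ⟨x, by rw [← mulVec_smul, ← h1, GL_mulVec_inv_mulVec]⟩

/-- A root of a plane is not central. -/
theorem Pl.not_cen (hT : ∀ g ∈ Q, ¬ IsTv g) (h2 : (2 : F) ≠ 0) (hQ : IsPGroup 2 Q)
    (h : Pl Q a₀ φ₀ a₁ φ₁) (hb : Rt Q b ψ) (hp : InPl b a₀ a₁) : ¬ Cen Q b ψ := by
  intro hc
  obtain ⟨b', ψ', h', -⟩ := h.mate hT h2 hQ hb hp
  obtain ⟨k, hk, r⟩ := h'.sw
  rcases hc _ _ r with h1 | h1
  · rw [dotProduct_sub, dotProduct_smul, h'.o01, hb.1, smul_zero, sub_zero] at h1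
    exact h2 h1
  · have := h1.dot h'.o10
    rw [dotProduct_sub, dotProduct_smul, h'.o10, h'.r1.1, zero_sub, neg_eq_zero, smul_eq_mul] at this
    exact mul_ne_zero hk h2 this

/-- The group generated by the reflections of a family of roots. -/
def frGrp {n : ℕ} (a φ : Fin n → ι → F) : Subgroup (GL ι F) :=
  Subgroup.closure (Set.range fun i => tR (a i) (φ i))

theorem tR_mem_frGrp {n : ℕ} (a φ : Fin n → ι → F) (i : Fin n) : tR (a i) (φ i) ∈ frGrp a φ :=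
  Subgroup.subset_closure ⟨i, rfl⟩

theorem frGrp_le {n : ℕ} {a φ : Fin n → ι → F} (h : ∀ i, tR (a i) (φ i) ∈ P) : frGrp a φ ≤ P :=
  (Subgroup.closure_le _).2 (by rintro _ ⟨i, rfl⟩; exact h i)

theorem frGrp_comm {n : ℕ} {a φ : Fin n → ι → F} {t : GL ι F}
    (h : ∀ i, tR (a i) (φ i) * t = t * tR (a i) (φ i)) : ∀ x ∈ frGrp a φ, x * t = t * x :=
  fun _ hx => Subgroup.mem_centralizer_singleton_iff.1 (frGrp_le (P := Subgroup.centralizer {t})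
    (fun i => Subgroup.mem_centralizer_singleton_iff.2 (h i)) hx)

theorem OF.comm {n : ℕ} {a φ : Fin n → ι → F} (h : OF P a φ) (i j : Fin n) :
    tR (a i) (φ i) * tR (a j) (φ j) = tR (a j) (φ j) * tR (a i) (φ i) := by
  by_cases e : i = j
  · rw [e]
  · exact tR_comm (h.1 i).1 (h.1 j).1 (h.2 i j e) (h.2 j i (Ne.symm e))

theorem OF.isPGroup {n : ℕ} {a φ : Fin n → ι → F} (h : OF P a φ) : IsPGroup 2 (frGrp a φ) := by
  have hc : ∀ x ∈ frGrp a φ, ∀ y ∈ frGrp a φ, x * y = y * x := fun x hx y hy =>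
    frGrp_comm (fun i => (frGrp_comm (fun j => h.comm j i) y hy).symm) x hx
  rintro ⟨x, hx⟩
  refine ⟨1, Subtype.ext ?_⟩
  show x ^ 2 ^ 1 = 1
  rw [pow_one, pow_two]
  induction hx using Subgroup.closure_induction with
  | mem x hx => obtain ⟨i, rfl⟩ := hx; exact tR_mul_self _ _
  | one => simp
  | mul x y hx hy ihx ihy =>
    rw [mul_assoc, ← mul_assoc y, ← hc x hx y hy, mul_assoc, ihy, mul_one, ihx]
  | inv x _ ih => rw [← _root_.mul_inv_rev, ih, inv_one]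

theorem OF.mono {n : ℕ} {a φ : Fin n → ι → F} (h : OF P a φ) (hPQ : ∀ i, tR (a i) (φ i) ∈ Q) :
    OF Q a φ := ⟨fun i => ⟨(h.1 i).1, hPQ i⟩, h.2⟩

theorem OF.exists_sy {n : ℕ} {a φ : Fin n → ι → F} (h : OF P a φ) :
    ∃ S : Sylow 2 P, OF (sy S) a φ := by
  obtain ⟨S, hS⟩ := Five.exists_sy (frGrp_le fun i => (h.1 i).2) h.isPGroup
  exact ⟨S, h.mono fun i => hS (tR_mem_frGrp a φ i)⟩

/-- A root whose line is fixed gives a central reflection. -/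
theorem Rt.comm_of_ln (hT : ∀ g ∈ P, ¬ IsTv g) (h2 : (2 : F) ≠ 0) (ha : Rt P a φ) {g : GL ι F}
    (hg : g ∈ P) (hl : Ln ((g : Matrix ι ι F) *ᵥ a) a) : g * tR a φ = tR a φ * g := by
  obtain ⟨x, hx⟩ := hl
  have := (ha.of_prop hT h2 (ha.conj hg) hx).2.2
  rw [← conj_tR g ha.1, mul_inv_eq_iff_eq_mul] at this
  exact this

/-- Appending a root orthogonal to a family. -/
theorem OF.snoc (hT : ∀ g ∈ P, ¬ IsTv g) (h2 : (2 : F) ≠ 0) {n : ℕ} {a φ : Fin n → ι → F}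
    (h : OF P a φ) (hc : Rt P c χ) (ho : ∀ i, φ i ⬝ᵥ c = 0) :
    OF P (Fin.snoc a c : Fin (n + 1) → ι → F) (Fin.snoc φ χ : Fin (n + 1) → ι → F) := by
  refine ⟨fun i => ?_, fun i j hij => ?_⟩
  · refine Fin.lastCases ?_ (fun i => ?_) i
    · simpa using hc
    · simpa using h.1 i
  · revert hij
    refine Fin.lastCases ?_ (fun i => ?_) i <;> refine Fin.lastCases ?_ (fun j => ?_) j
    · simp
    · intro _
      simpa using (h.1 j).orth_symm hT h2 hc (ho j)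
    · intro _
      simpa using ho i
    · intro hij
      simpa using h.2 i j fun e => hij (by rw [e])

end Cfsg.Lib.Five
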