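import Cfsg.Agent.Class.Five.RQb
import Cfsg.Agent.S0283

/-!
# The group generated by the 45 roots is `U₄(2)`
-/

set_option autoImplicit false

namespace Cfsg.Lib.Five

open Matrix Cfsg.Geo Cfsg.Lib.Class Cfsg.Lib.Class.Asch Cfsg.Lib.Mit
open scoped MatrixGroups

universe u

namespace RQ

section Four

variable {K : Type*} [Field K] {ω : K}

theorem ev_eq_iff (h : ω ^ 2 + ω + 1 = 0) (h2 : (2 : K) = 0) (x y : E) :
    ev ω x = ev ω y ↔ Cg x y := by
  have c : ∀ n : ℤ, (n % 2 = 0 ∧ (n : K) = 0) ∨ (n % 2 = 1 ∧ (n : K) = 1) := fun n => by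
    have e := congrArg (Int.cast : ℤ → K) (Int.emod_add_mul_ediv n 2)
    push_cast at e
    rw [h2, zero_mul, add_zero] at e
    rcases Int.emod_two_eq_zero_or_one n with k | k
    · exact .inl ⟨k, by rw [← e, k, Int.cast_zero]⟩
    · exact .inr ⟨k, by rw [← e, k, Int.cast_one]⟩
  have e : ev ω x - ev ω y = ((x.1 - y.1 : ℤ) : K) + ((x.2 - y.2 : ℤ) : K) * ω := by
    simp only [ev]
    push_cast
    ring
  rw [← sub_eq_zero, e, Cg]
  have h0 : ω ≠ 0 := fun k => by simp [k] at h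
  have h1 : 1 + ω ≠ 0 := fun k => h0 (pow_eq_zero_iff two_ne_zero |>.1 (by linear_combination h - k))
  rcases c (x.1 - y.1) with ⟨k1, k2⟩ | ⟨k1, k2⟩ <;>
    rcases c (x.2 - y.2) with ⟨k3, k4⟩ | ⟨k3, k4⟩ <;> simp only [k1, k2, k3, k4] <;> simp [h0, h1]

theorem ev_sq (h2 : (2 : K) = 0) (x : E) : ev ω x ^ 2 = ev (ω ^ 2) x := by
  have c : ∀ n : ℤ, (n : K) ^ 2 = n := fun n => by
    obtain ⟨m, hm⟩ := Int.even_mul_pred_self n
    have e := congrArg (Int.cast : ℤ → K) hm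
    push_cast at e
    linear_combination e + m * h2
  simp only [ev]
  linear_combination c x.1 + ω ^ 2 * c x.2 + (x.1 * x.2 * ω) * h2

/-- The roots in characteristic two. -/
def a4 (ω : K) (n : ℕ) : Fin 4 → K := fun l => av ω (L n) l.castSucc

/-- The coroots in characteristic two. -/
def b4 (ω : K) (n : ℕ) : Fin 4 → K := fun l => bv ω (L n) l.castSucc

theorem b4_a4 (h2 : (2 : K) = 0) (i j : ℕ) :
    b4 ω i ⬝ᵥ a4 ω j = bv ω (L i) ⬝ᵥ av ω (L j) := by
  simp only [dotProduct]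
  rw [Fin.sum_univ_castSucc (n := 4)]
  simp [a4, b4, bv, H, h2]

theorem three (h2 : (2 : K) = 0) : (3 : K) = 1 := by linear_combination h2

theorem b4_eq (h2 : (2 : K) = 0) (n : ℕ) (l : Fin 4) : b4 ω n l = a4 ω n l ^ 2 := by
  have : H K l.castSucc = 1 := by fin_cases l <;> simp [H]
  simp only [a4, b4, av, bv, ev_sq h2, three h2, this]
  ring

theorem tR4_coe (h : ω ^ 2 + ω + 1 = 0) (h2 : (2 : K) = 0) (n : Fin 45) :
    (tR (a4 ω n) (b4 ω n) : Matrix (Fin 4) (Fin 4) K) =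
      Cfsg.unitaryTransvection 4 2 (a4 ω n) 1 := by
  have h3 : (3 : K) ≠ 0 := three h2 ▸ one_ne_zero
  rw [tR_coe ((b4_a4 h2 n n).trans (bv_av_self h h3 n)), Cfsg.unitaryTransvection, one_smul,
    funext (b4_eq h2 n)]
  ext i j
  simp only [Matrix.sub_apply, Matrix.add_apply]
  linear_combination (-(1 : Matrix (Fin 4) (Fin 4) K) i j) * h2

theorem tR4_entry (h : ω ^ 2 + ω + 1 = 0) (h2 : (2 : K) = 0) (n : ℕ) (l m : Fin 4) :
    vecMulVec (a4 ω n) (fun j => a4 ω n j ^ 2) l m =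
      ev ω (mul (L n l.castSucc) (cj (L n m.castSucc))) := by
  rw [ev_mul h, ev_cj h, ← ev_sq h2]
  rfl

theorem exists_su [Fintype K] (hK : Fintype.card K = 4) (h : ω ^ 2 + ω + 1 = 0)
    (h2 : (2 : K) = 0) : ∃ t : Fin 45 → Cfsg.SU 4 K 2,
      Subgroup.closure (Set.range t) = ⊤ ∧ (∀ i, (t i)⁻¹ = t i) ∧
      (∀ i j, t i * t j * (t i)⁻¹ = t (sg i j)) ∧ Function.Injective t := by
  have h3 : (3 : K) ≠ 0 := three h2 ▸ one_ne_zero
  have hK' : Fintype.card K = 2 ^ 2 := hK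
  have hs : ∀ n : Fin 45, b4 ω n ⬝ᵥ a4 ω n = 2 := fun n =>
    (b4_a4 h2 n n).trans (bv_av_self h h3 n)
  have hiso : ∀ n : Fin 45, Cfsg.hermForm 4 K 2 (a4 ω n) (a4 ω n) = 0 := fun n => by
    have := hs n
    rw [funext (b4_eq h2 n), dotProduct_comm, h2] at this
    exact this
  have hdet : ∀ n : Fin 45, (tR (a4 ω n) (b4 ω n) : Matrix (Fin 4) (Fin 4) K).det = 1 := fun n => by
    have e := congrArg (fun g : GL (Fin 4) K => (g : Matrix (Fin 4) (Fin 4) K).det)
      (tR_mul_self (a4 ω n) (b4 ω n))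
    simp only [Units.val_mul, det_mul, Units.val_one, det_one] at e
    rcases mul_self_eq_one_iff.1 e with k | k
    · exact k
    · linear_combination k - h2
  have hmem : ∀ n : Fin 45, (⟨_, hdet n⟩ : SL(4, K)) ∈ Cfsg.SU 4 K 2 := fun n x y => by
    change Cfsg.hermForm 4 K 2 ((tR (a4 ω n) (b4 ω n) : Matrix (Fin 4) (Fin 4) K) *ᵥ x)
      ((tR (a4 ω n) (b4 ω n) : Matrix (Fin 4) (Fin 4) K) *ᵥ y) = _
    rw [tR4_coe h h2]
    by_cases h0 : a4 ω n = 0
    · simp [h0, Cfsg.unitaryTransvection]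
    · exact (Cfsg.Agent.S0779.result hK' 4 _ h0 (hiso n) 1).2
        (.inr (by linear_combination h2)) x y
  let t : Fin 45 → Cfsg.SU 4 K 2 := fun n => ⟨_, hmem n⟩
  have ht : ∀ n, (((t n : Cfsg.SU 4 K 2) : SL(4, K)) : Matrix (Fin 4) (Fin 4) K) =
    (tR (a4 ω n) (b4 ω n) : Matrix (Fin 4) (Fin 4) K) := fun n => rfl
  have hinv : ∀ i, (t i)⁻¹ = t i := fun i => inv_eq_of_mul_eq_one_right
    (Subtype.ext (Subtype.ext (congrArg Units.val (tR_mul_self (a4 ω i) (b4 ω i)))))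
  refine ⟨t, ?_, hinv, fun i j => ?_, fun i j e => inj2 i j fun l m => ?_⟩
  · rw [eq_top_iff, ← Cfsg.Agent.S0780.result hK' 4 (by norm_num) (by norm_num),
      Subgroup.closure_le]
    rintro A ⟨v, c, hv, hA⟩
    by_cases h0 : v = 0 ∨ c = 0
    · have : A = 1 := Subtype.ext (Subtype.ext (by
        rcases h0 with k | k <;> simp [hA, k, Cfsg.unitaryTransvection]))
      exact this ▸ one_mem _
    rw [not_or] at h0
    have hc : c = 1 := by
      have := ((Cfsg.Agent.S0779.result hK' 4 v h0.1 hv c).1 (hA ▸ A.2)).resolve_left h0.2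
      linear_combination this - h2
    have hcd : ∀ x : K, ∃ c : Fin 4, x = ev ω (cd c) := fun x => by
      have e := FiniteField.pow_card x
      rw [hK] at e
      have : x * (x - 1) * (x - ω) * (x - ω ^ 2) = 0 := by
        linear_combination e + (x * (x - 1) * (ω - 1 - x)) * h
      simp only [mul_eq_zero, sub_eq_zero] at this
      rcases this with ((k | k) | k) | k
      · exact ⟨3, by simp [k, cd, ev]⟩
      · exact ⟨0, by simp [k, cd, ev_w h]⟩
      · exact ⟨1, by simp [k, cd, ev_w h]⟩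
      · exact ⟨2, by simp [k, cd, ev_w h]⟩
    choose c' hc' using fun l => hcd (v l)
    have hvc : ∀ l, v l = ev ω (vc (c' 0) (c' 1) (c' 2) (c' 3) l) := fun l => by
      rw [hc' l]
      fin_cases l <;> simp [vc]
    rcases surj2 (c' 0) (c' 1) (c' 2) (c' 3) ((ev_eq_iff h h2 _ _).1 (by
      simp only [ev_add, ev_mul h, ev_cj h, ← ev_sq h2, ← hc']
      simp only [Cfsg.hermForm, Fin.sum_univ_four] at hv
      simp only [ev]
      push_cast
      linear_combination hv)) with ⟨k0, k1, k2, k3⟩ | ⟨n, hn⟩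
    · refine absurd (funext fun l => ?_) h0.1
      rw [hc' l]
      fin_cases l <;> simp [k0, k1, k2, k3, cd, ev]
    · refine Subgroup.subset_closure ⟨n, Subtype.ext (Subtype.ext ?_)⟩
      change (tR (a4 ω n) (b4 ω n) : Matrix (Fin 4) (Fin 4) K) = _
      rw [hA, tR4_coe h h2, hc, Cfsg.unitaryTransvection, Cfsg.unitaryTransvection]
      congr 2
      ext l m
      rw [tR4_entry h h2, ← (ev_eq_iff h h2 _ _).2 (hn l m), ev_mul h, ev_cj h, ← ev_sq h2,
        ← hvc, ← hvc, vecMulVec_apply]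
  · obtain ⟨u, hu, e1, e2⟩ := refl_eq h h3 i j
    have := tR_conj_of (c := a4 ω (sg i j)) (χ := b4 ω (sg i j)) (hs i) (hs j) hu
      (by rw [b4_a4 h2]; exact funext fun l => congrFun e1 l.castSucc)
      (by rw [b4_a4 h2]; exact funext fun l => congrFun e2 l.castSucc)
    rw [tR_inv] at this
    rw [hinv]
    exact Subtype.ext (Subtype.ext (congrArg Units.val this))
  · have e1 := (ht i).symm.trans (e ▸ ht j)
    rw [tR4_coe h h2, tR4_coe h h2, Cfsg.unitaryTransvection, Cfsg.unitaryTransvection,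
      add_right_inj, one_smul, one_smul] at e1
    rw [← ev_eq_iff h h2, ← tR4_entry h h2, ← tR4_entry h h2, e1]

theorem exists_four : ∃ (K : Type) (_ : Field K) (_ : Fintype K) (ω : K), Fintype.card K = 4 ∧
    ω ^ 2 + ω + 1 = 0 ∧ (2 : K) = 0 := by
  let K := GaloisField 2 2
  let _ : Fintype K := Fintype.ofFinite K
  have hK : Fintype.card K = 4 := by
    rw [← Nat.card_eq_fintype_card, GaloisField.card 2 2 two_ne_zero]
    rfl
  classical
  obtain ⟨x, hx⟩ : ∃ x : K, x ∉ ({0, 1} : Finset K) := by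
    by_contra k
    push Not at k
    have := Finset.card_le_card (show Finset.univ ⊆ ({0, 1} : Finset K) from fun x _ => k x)
    have h1 := Finset.card_le_two (a := (0 : K)) (b := 1)
    rw [Finset.card_univ, hK] at this
    omega
  simp only [Finset.mem_insert, Finset.mem_singleton, not_or] at hx
  have e := FiniteField.pow_card x
  rw [hK] at e
  refine ⟨K, inferInstance, inferInstance, x, hK, ?_, by exact_mod_cast CharP.cast_eq_zero K 2⟩
  have : x * ((x - 1) * (x ^ 2 + x + 1)) = 0 := by linear_combination e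
  exact (mul_eq_zero.1 ((mul_eq_zero.1 this).resolve_left hx.1)).resolve_left (sub_ne_zero.2 hx.2)

end Four

variable {F : Type*} [Field F] {ω : F} {e ε : Fin 5 → Fin 5 → F} {P : Subgroup (GL (Fin 5) F)}

theorem cb_smul (k : F) (A : Fin 5 → F) (e : Fin 5 → Fin 5 → F) : cb (k • A) e = k • cb A e := by
  simp only [cb, Finset.smul_sum, Pi.smul_apply, smul_eq_mul, mul_smul]

theorem cb_sub (A B : Fin 5 → F) (e : Fin 5 → Fin 5 → F) : cb (A - B) e = cb A e - cb B e := by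
  simp only [cb, Pi.sub_apply, sub_smul, Finset.sum_sub_distrib]

theorem cb_eq_vecMul (A : Fin 5 → F) (e : Fin 5 → Fin 5 → F) : cb A e = A ᵥ* of e := by
  ext l
  simp [cb, vecMul, dotProduct, Finset.sum_apply]

theorem fr_mul (h : Fr e ε) : of ε * (of e)ᵀ = 1 := by
  ext i j
  rw [Matrix.one_apply, ← h i j]
  rfl

theorem cb_dot (h : Fr e ε) (A B : Fin 5 → F) : cb B ε ⬝ᵥ cb A e = B ⬝ᵥ A := by
  rw [cb_eq_vecMul, cb_eq_vecMul, ← dotProduct_mulVec, ← mulVec_transpose, mulVec_mulVec,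
    fr_mul h, one_mulVec]

/-- The roots of `P` are the 45 integral roots. -/
def Rs (P : Subgroup (GL (Fin 5) F)) (ω : F) (e ε : Fin 5 → Fin 5 → F) : Prop :=
  (∀ n : Fin 45, Rt P (cb (av ω (L n)) e) (cb (bv ω (L n)) ε)) ∧
    ∀ a φ, Rt P a φ → ∃ n : Fin 45, tR a φ = tR (cb (av ω (L n)) e) (cb (bv ω (L n)) ε)

theorem rs_of_std (hP : Std45 P) : ∃ (ω : F) (e ε : Fin 5 → Fin 5 → F), ω ^ 2 + ω + 1 = 0 ∧
    (3 : F) ≠ 0 ∧ Fr e ε ∧ Rs P ω e ε := by
  obtain ⟨ω, e, ε, h, h3, hf, hr⟩ := hP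
  refine ⟨ω, e, ε, h, h3, hf, fun n => ?_, fun a φ ha => ?_⟩
  · obtain ⟨u, A, B, hu, hs, e1, e2⟩ := std_of_L h h3 n
    exact (hr _ _).2 ⟨u, A, B, hu, hs, by rw [e1, cb_smul], by rw [e2, cb_smul]⟩
  · obtain ⟨k, A, B, hk, hs, rfl, rfl⟩ := (hr _ _).1 ha
    obtain ⟨n, u, hu, rfl, rfl⟩ := L_of_std h h3 hs
    exact ⟨n, by rw [tR_smul hk, cb_smul, cb_smul, tR_smul hu]⟩

theorem bar_iso (hP : QS P) (h2 : (2 : F) ≠ 0) (h : ω ^ 2 + ω + 1 = 0) (h3 : (3 : F) ≠ 0)
    (hf : Fr e ε) (hr : Rs P ω e ε) : ∃ (K : Type) (_ : Field K) (_ : Fintype K),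
      Fintype.card K = 4 ∧ Nonempty (Bar P ≃* Cfsg.PSU 4 K 2) := by
  obtain ⟨K, _, _, ζ, hK, hζ, hK2⟩ := exists_four
  obtain ⟨t, t1, t2, t3, t4⟩ := exists_su hK hζ hK2
  let g : Fin 45 → P := fun n => ⟨_, (hr.1 n).2⟩
  let π := QuotientGroup.mk' ((scalars (Fin 5) F).subgroupOf P)
  have g1 : Subgroup.closure (Set.range g) = ⊤ := by
    apply Subgroup.map_injective P.subtype_injective
    rw [← MonoidHom.range_eq_map, Subgroup.range_subtype]
    refine le_antisymm (Subgroup.map_subtype_le _) ?_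
    rw [MonoidHom.map_closure]
    refine (closure_roots hP h2 (hr.1 0)).ge.trans (Subgroup.closure_mono ?_)
    rintro _ ⟨b, ψ, hb, rfl⟩
    obtain ⟨n, hn⟩ := hr.2 b ψ hb
    exact ⟨g n, ⟨n, rfl⟩, hn.symm⟩
  have g2 : ∀ i, (g i)⁻¹ = g i := fun i => Subtype.ext (tR_inv _ _)
  have g3 : ∀ i j, g i * g j * (g i)⁻¹ = g (sg i j) := fun i j => by
    obtain ⟨u, hu, e1, e2⟩ := refl_eq h h3 i j
    exact Subtype.ext (tR_conj_of (hr.1 i).1 (hr.1 j).1 hu
      (by rw [cb_dot hf, ← cb_smul, ← cb_sub, e1, cb_smul])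
      (by rw [cb_dot hf, ← cb_smul, ← cb_sub, e2, cb_smul]))
  have := hP.simple
  have hZ : Subgroup.center (Bar P) = ⊥ := by
    refine (Subgroup.Normal.eq_bot_or_eq_top inferInstance).resolve_right fun k => hP.nonabelian ?_
    exact ⟨⟨fun a b => (Subgroup.mem_center_iff.1 (k.ge (Subgroup.mem_top b)) a)⟩⟩
  obtain ⟨f, hf⟩ := exists_hom_of_quandle (fun n => π (g n)) t
    (by
      rw [show (Set.range fun n => π (g n)) = π '' Set.range g from Set.range_comp π g,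
        ← MonoidHom.map_closure, g1]
      exact Subgroup.map_top_of_surjective _ (QuotientGroup.mk'_surjective _))
    t1 (fun i => by rw [← map_inv, g2]) t2
    (fun i j => ⟨sg i j, by rw [← map_inv, ← map_mul, ← map_mul, g3], t3 i j⟩)
    (fun i j k => by rw [t4 k]) hZ
  have hS := Cfsg.Agent.S0283.result (F := K) (q := 2) hK 4 (by norm_num) (by norm_num)
  let f' : Cfsg.PSU 4 K 2 →* Bar P := QuotientGroup.lift _ f fun z hz => by
    rw [MonoidHom.mem_ker, ← Subgroup.mem_bot, ← hZ, Subgroup.mem_center_iff]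
    intro y
    obtain ⟨y, rfl⟩ := hf y
    rw [← map_mul, ← map_mul, Subgroup.mem_center_iff.1 hz]
  have s' : Function.Surjective f' := fun y => by
    obtain ⟨y, rfl⟩ := hf y
    exact ⟨y, rfl⟩
  have i' : Function.Injective f' := by
    rw [← MonoidHom.ker_eq_bot_iff]
    refine (Subgroup.Normal.eq_bot_or_eq_top inferInstance).resolve_right fun k => ?_
    obtain ⟨y, hy⟩ := exists_ne (1 : Bar P)
    obtain ⟨y, rfl⟩ := s' y
    exact hy (k.ge (Subgroup.mem_top y))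
  exact ⟨K, inferInstance, inferInstance, hK, ⟨(MulEquiv.ofBijective f' ⟨i', s'⟩).symm⟩⟩

/-- The matrix in the frame. -/
def Mf (e ε : Fin 5 → Fin 5 → F) (g : GL (Fin 5) F) : Matrix (Fin 5) (Fin 5) F :=
  of ε * (g : Matrix (Fin 5) (Fin 5) F) * (of e)ᵀ

theorem Mf_one (hf : Fr e ε) : Mf e ε 1 = 1 := by
  rw [Mf, Units.val_one, Matrix.mul_one, fr_mul hf]

theorem Mf_mul (hf : Fr e ε) (g k : GL (Fin 5) F) : Mf e ε (g * k) = Mf e ε g * Mf e ε k := by
  have := mul_eq_one_comm.1 (fr_mul hf)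
  simp only [Mf, Units.val_mul, Matrix.mul_assoc]
  rw [← Matrix.mul_assoc (of e)ᵀ, this, Matrix.one_mul]

theorem Mf_trace (hf : Fr e ε) (g : GL (Fin 5) F) : (Mf e ε g).trace = tr5 g := by
  rw [Mf, trace_mul_comm, ← Matrix.mul_assoc, mul_eq_one_comm.1 (fr_mul hf), Matrix.one_mul, tr5]

theorem Mf_tR (hf : Fr e ε) {A B : Fin 5 → F} (h : B ⬝ᵥ A = 2) :
    Mf e ε (tR (cb A e) (cb B ε)) = vecMulVec A B - 1 := by
  rw [Mf, tR_coe ((cb_dot hf A B).trans h), Matrix.mul_sub, Matrix.sub_mul, Matrix.mul_one,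
    fr_mul hf, mul_vecMulVec, vecMulVec_mul, cb_eq_vecMul, cb_eq_vecMul, vecMul_vecMul,
    ← mulVec_transpose, mulVec_mulVec, fr_mul hf, one_mulVec, vecMul_one]

theorem rs_induction (hP : QS P) (h2 : (2 : F) ≠ 0) (h : ω ^ 2 + ω + 1 = 0) (h3 : (3 : F) ≠ 0)
    (hf : Fr e ε) (hr : Rs P ω e ε) {C : Matrix (Fin 5) (Fin 5) F → Prop} (c1 : C 1)
    (cm : ∀ M N, C M → C N → C (M * N))
    (cr : ∀ n : Fin 45, C (vecMulVec (av ω (L n)) (bv ω (L n)) - 1)) :
    ∀ g ∈ P, C (Mf e ε g) := by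
  intro g hg
  rw [← closure_roots hP h2 (hr.1 0)] at hg
  have step : ∀ b ψ, Rt P b ψ → C (Mf e ε (tR b ψ)) := fun b ψ hb => by
    obtain ⟨n, hn⟩ := hr.2 b ψ hb
    rw [hn, Mf_tR hf (bv_av_self h h3 n)]
    exact cr n
  induction hg using Subgroup.closure_induction_left with
  | one => rwa [Mf_one hf]
  | mul_left x hx y _ ih =>
    obtain ⟨b, ψ, hb, rfl⟩ := hx
    rw [Mf_mul hf]
    exact cm _ _ (step b ψ hb) ih
  | inv_mul_cancel x hx y _ ih =>
    obtain ⟨b, ψ, hb, rfl⟩ := hx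
    rw [tR_inv, Mf_mul hf]
    exact cm _ _ (step b ψ hb) ih

theorem map_ev (σ : F →+* F) (ω : F) (x : E) : σ (ev ω x) = ev (σ ω) x := by simp [ev]

theorem map_H (σ : F →+* F) (l : Fin 5) : σ (H F l) = H F l := by
  fin_cases l <;> simp [H, map_ofNat]

theorem tr_fix (hP : QS P) (h2 : (2 : F) ≠ 0) (h : ω ^ 2 + ω + 1 = 0) (h3 : (3 : F) ≠ 0)
    (hf : Fr e ε) (hr : Rs P ω e ε) (σ : F →+* F) (hσ : σ ω = ω) :
    ∀ g ∈ P, σ (tr5 g) = tr5 g := by
  intro g hg
  have := rs_induction hP h2 h h3 hf hr (C := fun M => M.map σ = M) (by simp)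
    (fun M N hM hN => by rw [Matrix.map_mul, hM, hN]) (fun n => by
      ext i j
      simp only [Matrix.map_apply, Matrix.sub_apply, vecMulVec_apply, av, bv, map_sub, map_mul,
        map_ev, map_H, map_pow, hσ, map_div₀, map_one, map_ofNat, Matrix.one_apply,
        apply_ite σ, map_zero]) g hg
  rw [← Mf_trace hf, AddMonoidHom.map_trace σ, this]

theorem tr_twist (hP : QS P) (h2 : (2 : F) ≠ 0) (h : ω ^ 2 + ω + 1 = 0) (h3 : (3 : F) ≠ 0)
    (hf : Fr e ε) (hr : Rs P ω e ε) (σ : F →+* F) (hσ : σ ω = ω ^ 2) :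
    ∀ g ∈ P, tr5 g⁻¹ = σ (tr5 g) := by
  intro g hg
  have k := rs_induction hP h2 h h3 hf hr
    (C := fun M => (M.map σ)ᵀ * diagonal (H F) * M = diagonal (H F)) (by simp)
    (fun M N hM hN => by
      rw [Matrix.map_mul, transpose_mul]
      calc _ = (N.map σ)ᵀ * ((M.map σ)ᵀ * diagonal (H F) * M) * N := by
            simp only [Matrix.mul_assoc]
        _ = _ := by rw [hM, hN]) (fun n => by
      have : ((vecMulVec (av ω (L n)) (bv ω (L n)) - 1).map σ)ᵀ * diagonal (H F) =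
          diagonal (H F) * (vecMulVec (av ω (L n)) (bv ω (L n)) - 1) := by
        ext i j
        simp only [Matrix.map_apply, Matrix.sub_apply, vecMulVec_apply, av, bv, map_sub, map_mul,
          map_ev, map_H, map_pow, hσ, map_div₀, map_one, map_ofNat, Matrix.one_apply,
          apply_ite σ, map_zero, mul_diagonal, diagonal_mul, transpose_apply, sq_sq h]
        by_cases e : i = j
        · subst e
          ring
        · rw [if_neg e, if_neg (Ne.symm e)]
          ring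
      rw [this, Matrix.mul_assoc, mrefl_mul_self (bv_av_self h h3 n), Matrix.mul_one]) g hg
  have k2 : ((Mf e ε g).map σ)ᵀ * diagonal (H F) = diagonal (H F) * Mf e ε g⁻¹ := by
    conv_rhs => rw [← k, Matrix.mul_assoc _ (Mf e ε g), ← Mf_mul hf, mul_inv_cancel, Mf_one hf,
      Matrix.mul_one]
  rw [← Mf_trace hf, ← Mf_trace hf, Matrix.trace, Matrix.trace, map_sum]
  refine Finset.sum_congr rfl fun i _ => ?_
  have k3 := congrFun (congrFun k2 i) i
  simp only [mul_diagonal, diagonal_mul, transpose_apply, Matrix.map_apply] at k3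
  have : H F i ≠ 0 := by fin_cases i <;> simp [H, h2]
  apply mul_left_cancel₀ this
  rw [diag_apply, diag_apply, ← k3, mul_comm]

end RQ

open RQ in
theorem wQ : WQ.{u} := by
  intro F _ _ P hP h2 hs
  obtain ⟨ω, e, ε, h, h3, hf, hr⟩ := rs_of_std hs
  obtain ⟨p, hp⟩ := CharP.exists F
  have hpp : p.Prime := CharP.char_is_prime F p
  have : Fact p.Prime := ⟨hpp⟩
  have p2 : ¬ 2 ∣ p := fun k => h2 (by
    have := (Nat.prime_dvd_prime_iff_eq Nat.prime_two hpp).1 k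
    subst this
    exact_mod_cast CharP.cast_eq_zero F 2)
  have p3 : ¬ 3 ∣ p := fun k => h3 (by
    have := (Nat.prime_dvd_prime_iff_eq Nat.prime_three hpp).1 k
    subst this
    exact_mod_cast CharP.cast_eq_zero F 3)
  have hw : frobenius F p ω = ω ^ (p % 3) := by
    rw [frobenius_def, pow_eq_pow_mod p (cube h)]
  refine ⟨p, hpp, hp, .inr (.inr ⟨bar_iso hP.qs h2 h h3 hf hr, ?_⟩)⟩
  have : p % 3 = 1 ∨ p % 3 = 2 := by omega
  rcases this with k | k
  · rw [k, pow_one] at hw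
    exact .inl ⟨card_eq_char5 p hP.qs.env_top hP.ns (tr_fix hP.qs h2 h h3 hf hr _ hw), by omega⟩
  · rw [k] at hw
    obtain ⟨k1, k2⟩ := card_fixU5 p hP.qs.env_top hP.ns (tr_twist hP.qs h2 h h3 hf hr _ hw)
      (t := ω) fun k3 => h3 (by
        have k4 : ω ^ 2 = ω := hw.symm.trans k3
        linear_combination (3 - 2 * ω) * h + (2 * ω - 1 + 2) * k4)
    exact .inr ⟨k1, by omega, k2⟩

end Cfsg.Lib.Five
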