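import Cfsg.Agent.Class.Five.RQa
import Cfsg.Agent.S0780
import Cfsg.Agent.S0779

/-!
# The 45 roots of `U₄(2)` over a field
-/

set_option autoImplicit false

namespace Cfsg.Lib.Five.RQ

open Matrix Cfsg.Geo Cfsg.Lib.Class Cfsg.Lib.Class.Asch Cfsg.Lib.Mit
open scoped MatrixGroups

variable {F : Type*} [Field F] {ω : F}

/-- Evaluation at a cube root of unity. -/
def ev (ω : F) (z : E) : F := z.1 + z.2 * ω

theorem ev_mul (h : ω ^ 2 + ω + 1 = 0) (x y : E) : ev ω (mul x y) = ev ω x * ev ω y := by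
  simp only [ev, mul]
  push_cast
  linear_combination (-(x.2 : F) * y.2) * h

theorem ev_add (x y : E) : ev ω (add x y) = ev ω x + ev ω y := by
  simp only [ev, add]
  push_cast
  ring

theorem ev_sc (n : ℤ) (x : E) : ev ω (sc n x) = n * ev ω x := by
  simp only [ev, sc]
  push_cast
  ring

theorem ev_cj (h : ω ^ 2 + ω + 1 = 0) (x : E) : ev ω (cj x) = ev (ω ^ 2) x := by
  simp only [ev, cj]
  push_cast
  linear_combination (-(x.2 : F)) * h

theorem cube (h : ω ^ 2 + ω + 1 = 0) : ω ^ 3 = 1 := by linear_combination (ω - 1) * h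

theorem sq_root (h : ω ^ 2 + ω + 1 = 0) : (ω ^ 2) ^ 2 + ω ^ 2 + 1 = 0 := by
  linear_combination (ω ^ 2 - ω + 1) * h

theorem sq_sq (h : ω ^ 2 + ω + 1 = 0) : (ω ^ 2) ^ 2 = ω := by
  linear_combination (ω ^ 2 - ω) * h

theorem ev_w (h : ω ^ 2 + ω + 1 = 0) (k : ℕ) : ev ω (w k) = ω ^ k := by
  rw [← Nat.div_add_mod k 3, pow_add, pow_mul, cube h, one_pow, one_mul, w, Nat.mul_add_mod,
    Nat.mod_mod]
  have : k % 3 = 0 ∨ k % 3 = 1 ∨ k % 3 = 2 := by omega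
  rcases this with e | e | e <;> simp [e, ev]
  linear_combination -h

theorem w_mod (k : ℕ) : w (k % 3) = w k := by simp only [w, Nat.mod_mod]

theorem ev_un (h : ω ^ 2 + ω + 1 = 0) (m : ℕ) : ev ω (un m) * ev (ω ^ 2) (un m) = 1 := by
  have : ω ^ m * (ω ^ 2) ^ m = 1 := by rw [← mul_pow, ← pow_succ', cube h, one_pow]
  unfold un
  split_ifs
  · rw [ev_w h, ev_w (sq_root h), this]
  · rw [ev_sc, ev_sc, ev_w h, ev_w (sq_root h)]
    push_cast
    linear_combination this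

/-- The diagonal of the hermitian form. -/
def H (F : Type*) [Field F] : Fin 5 → F := ![1, 1, 1, 1, 2]

/-- The root of an integral vector. -/
def av (ω : F) (x : Fin 5 → E) : Fin 5 → F := fun l => ev ω (x l)

/-- The coroot of an integral vector. -/
def bv (ω : F) (x : Fin 5 → E) : Fin 5 → F := fun l => (1 / 3 : F) * (H F l * ev (ω ^ 2) (x l))

theorem bv_av (h : ω ^ 2 + ω + 1 = 0) (x y : Fin 5 → E) :
    bv ω x ⬝ᵥ av ω y = (1 / 3 : F) * ev ω (hh x y) := by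
  simp only [hh, ev_add, ev_mul h, ev_sc, ev_cj h, dotProduct, Fin.sum_univ_five, bv, av, H]
  simp
  ring

theorem bv_av' (h : ω ^ 2 + ω + 1 = 0) (x y : Fin 5 → E) :
    bv ω y ⬝ᵥ av ω x = (1 / 3 : F) * ev (ω ^ 2) (hh x y) := by
  simp only [hh, ev_add, ev_mul (sq_root h), ev_sc, ev_cj (sq_root h), sq_sq h, dotProduct,
    Fin.sum_univ_five, bv, av, H]
  simp
  ring

theorem bv_av_self (h : ω ^ 2 + ω + 1 = 0) (h3 : (3 : F) ≠ 0) (i : Fin 45) :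
    bv ω (L i) ⬝ᵥ av ω (L i) = 2 := by
  rw [bv_av h, hh_self]
  simp only [ev]
  field_simp
  norm_num

/-- The permutation induced by a reflection. -/
def sg (i j : Fin 45) : Fin 45 := ⟨tb i j % 64, (tab i j).1⟩

theorem refl_eq (h : ω ^ 2 + ω + 1 = 0) (h3 : (3 : F) ≠ 0) (i j : Fin 45) : ∃ u : F, u ≠ 0 ∧
    av ω (L j) - (bv ω (L i) ⬝ᵥ av ω (L j)) • av ω (L i) = u • av ω (L (sg i j)) ∧
    bv ω (L j) - (bv ω (L j) ⬝ᵥ av ω (L i)) • bv ω (L i) = u⁻¹ • bv ω (L (sg i j)) := by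
  have hu := ev_un h (tb i j / 64)
  refine ⟨ev ω (un (tb i j / 64)), left_ne_zero_of_mul_eq_one hu, ?_, ?_⟩
  · ext l
    have := congrArg (ev ω) ((tab i j).2 l)
    simp only [ev_add, ev_sc, ev_mul h] at this
    simp only [bv_av h, Pi.sub_apply, Pi.smul_apply, smul_eq_mul, av, sg]
    push_cast at this
    field_simp
    linear_combination this
  · ext l
    have := congrArg (ev (ω ^ 2)) ((tab i j).2 l)
    simp only [ev_add, ev_sc, ev_mul (sq_root h)] at this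
    rw [bv_av' h, ← eq_inv_of_mul_eq_one_right hu]
    simp only [Pi.sub_apply, Pi.smul_apply, smul_eq_mul, bv, sg]
    push_cast at this
    field_simp
    linear_combination H F l * this

theorem tR_conj_of {ι : Type} [Fintype ι] [DecidableEq ι] {a φ b ψ c χ : ι → F} {u : F}
    (ha : φ ⬝ᵥ a = 2) (hb : ψ ⬝ᵥ b = 2) (hu : u ≠ 0) (h1 : b - (φ ⬝ᵥ b) • a = u • c)
    (h2 : ψ - (ψ ⬝ᵥ a) • φ = u⁻¹ • χ) : tR a φ * tR b ψ * (tR a φ)⁻¹ = tR c χ := by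
  rw [conj_tR _ hb, tR_inv, tR_mulVec ha, vecMul_tR ha, ← neg_sub, h1, ← neg_sub ψ, h2,
    ← neg_smul, ← neg_smul, ← inv_neg, tR_smul (neg_ne_zero.2 hu)]

theorem th_mul (h : ω ^ 2 + ω + 1 = 0) : (1 + 2 * ω) * (1 + 2 * ω ^ 2) = 3 := by
  linear_combination (4 * ω - 2) * h

theorem av_L1 (h : ω ^ 2 + ω + 1 = 0) {i j : Fin 5} (hij : i ≠ j) (k : ℕ) :
    av ω (L1 i j k) = (1 + 2 * ω) • (Pi.single i 1 - Pi.single j (ω ^ k) : Fin 5 → F) := by
  ext l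
  simp only [av, L1, Pi.smul_apply, Pi.sub_apply, smul_eq_mul, Pi.single_apply]
  split_ifs with h1 h2 h2
  · exact absurd (h1.symm.trans h2) hij
  · simp [ev]
  · rw [ev_sc, ev_mul h, ev_w h]
    simp [ev]
  · simp [ev]

theorem bv_L1 (h : ω ^ 2 + ω + 1 = 0) (h3 : (3 : F) ≠ 0) {i j : Fin 5} (hij : i ≠ j) (hi : i ≠ 4)
    (hj : j ≠ 4) (k : ℕ) : bv ω (L1 i j k) =
      (1 + 2 * ω)⁻¹ • (Pi.single i 1 - Pi.single j (ω ^ (2 * k)) : Fin 5 → F) := by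
  have e : (1 + 2 * ω)⁻¹ = (1 / 3 : F) * (1 + 2 * ω ^ 2) := by
    refine (eq_inv_of_mul_eq_one_right ?_).symm
    field_simp
    linear_combination th_mul h
  have hH : ∀ l : Fin 5, l ≠ 4 → H F l = 1 := by
    intro l hl
    fin_cases l <;> simp_all [H]
  ext l
  have := congrFun (av_L1 (sq_root h) hij k) l
  simp only [av, Pi.smul_apply, Pi.sub_apply, smul_eq_mul, Pi.single_apply] at this
  simp only [bv, this, e, Pi.smul_apply, Pi.sub_apply, smul_eq_mul, Pi.single_apply, pow_mul]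
  split_ifs with h1 h2 h2
  · exact absurd (h1.symm.trans h2) hij
  · rw [hH l (h1 ▸ hi)]; ring
  · rw [hH l (h2 ▸ hj)]; ring
  · ring

theorem av_L2 (h : ω ^ 2 + ω + 1 = 0) (a b c d : ℕ) :
    av ω (L2 a b c d) = ![ω ^ a, ω ^ b, ω ^ c, ω ^ d, 1] := by
  ext l
  fin_cases l <;> simp [av, L2, ev_w h]
  simp [ev]

theorem bv_L2 (h : ω ^ 2 + ω + 1 = 0) (a b c d : ℕ) : bv ω (L2 a b c d) =
    (1 / 3 : F) • ![ω ^ (2 * a), ω ^ (2 * b), ω ^ (2 * c), ω ^ (2 * d), 2] := by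
  ext l
  fin_cases l <;> simp [bv, L2, ev_w (sq_root h), H, pow_mul]
  simp [ev]

theorem th_ne (h : ω ^ 2 + ω + 1 = 0) (h3 : (3 : F) ≠ 0) : 1 + 2 * ω ≠ 0 := fun e =>
  h3 (by rw [← th_mul h, e, zero_mul])

theorem std_of_L (h : ω ^ 2 + ω + 1 = 0) (h3 : (3 : F) ≠ 0) (n : Fin 45) :
    ∃ (u : F) (A B : Fin 5 → F), u ≠ 0 ∧ StdRoot ω A B ∧ av ω (L n) = u • A ∧
      bv ω (L n) = u⁻¹ • B := by
  unfold L
  split_ifs with hn
  · have : ∀ n : Fin 45, p1 (n / 3) ≠ p2 (n / 3) ∧ p1 (n / 3) ≠ 4 ∧ p2 (n / 3) ≠ 4 := by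
      decide +kernel
    obtain ⟨h1, h2, h4⟩ := this n
    exact ⟨_, _, _, th_ne h h3, .inl ⟨_, _, _, h1, h2, h4, rfl, rfl⟩, av_L1 h h1 _,
      bv_L1 h h3 h1 h2 h4 _⟩
  · refine ⟨1, _, _, one_ne_zero, .inr ⟨_, _, _, _, ?_, rfl, rfl⟩, by rw [av_L2 h, one_smul],
      by rw [bv_L2 h, inv_one, one_smul]⟩
    have := n.2
    omega

theorem L_of_std (h : ω ^ 2 + ω + 1 = 0) (h3 : (3 : F) ≠ 0) {A B : Fin 5 → F}
    (hs : StdRoot ω A B) : ∃ (n : Fin 45) (u : F), u ≠ 0 ∧ A = u • av ω (L n) ∧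
      B = u⁻¹ • bv ω (L n) := by
  rcases hs with ⟨i, j, k, hij, hi, hj, rfl, rfl⟩ | ⟨a, b, c, d, hd, rfl, rfl⟩
  · obtain ⟨n, m, e⟩ := ex1 i j ⟨k % 3, Nat.mod_lt _ three_pos⟩ hij hi hj
    have e0 : L1 i j (k % 3) = L1 i j k := by
      ext1 l
      simp only [L1, w_mod]
    simp only [e0] at e
    have hu := ev_un h m
    have ht := th_ne h h3
    have h1 : av ω (L1 i j k) = ev ω (un m) • av ω (L n) := by
      ext l
      simp only [av, e, ev_mul h, Pi.smul_apply, smul_eq_mul]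
    have h2 : bv ω (L1 i j k) = (ev ω (un m))⁻¹ • bv ω (L n) := by
      ext l
      simp only [bv, e, ev_mul (sq_root h), Pi.smul_apply, smul_eq_mul,
        ← eq_inv_of_mul_eq_one_right hu]
      ring
    refine ⟨n, (1 + 2 * ω)⁻¹ * ev ω (un m),
      mul_ne_zero (inv_ne_zero ht) (left_ne_zero_of_mul_eq_one hu), ?_, ?_⟩
    · rw [mul_smul, ← h1, av_L1 h hij, inv_smul_smul₀ ht]
    · rw [mul_inv, inv_inv, mul_smul, ← h2, bv_L1 h h3 hij hi hj, smul_inv_smul₀ ht]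
  · obtain ⟨n, e⟩ := ex2 ⟨a % 3, Nat.mod_lt _ three_pos⟩ ⟨b % 3, Nat.mod_lt _ three_pos⟩
      ⟨c % 3, Nat.mod_lt _ three_pos⟩ ⟨d % 3, Nat.mod_lt _ three_pos⟩ (by simp only; omega)
    have e0 : L2 a b c d = L n := by
      ext1 l
      rw [← e]
      simp only [L2, w_mod]
    exact ⟨n, 1, one_ne_zero, by rw [← e0, av_L2 h, one_smul],
      by rw [← e0, bv_L2 h, inv_one, one_smul]⟩

end Cfsg.Lib.Five.RQ
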